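import Mathlib
import Cfsg.Prelude.Def_Transfer

/-!
A group of order 512 with a self-centralizing elementary abelian subgroup of order 64 on which the
quotient acts with small fixed spaces.
-/

set_option autoImplicit false

namespace CfsgLib.InvChar

/-- The hypotheses on a subgroup `A` of a group `S`. -/
structure SixtyFourData {S : Type*} [Group S] (A : Subgroup S) : Prop where
  card_all : Nat.card S = 512
  normal : A.Normal
  elem : Cfsg.IsElementaryAbelian 2 A
  card_A : Nat.card A = 64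
  fix_one : ∀ x : S, x ∉ A → Nat.card ↥(A ⊓ Subgroup.centralizer ({x} : Set S)) ≤ 16
  fix_two : ∀ x y : S, x ∉ A → y ∉ A → x⁻¹ * y ∉ A →
    Nat.card ↥(A ⊓ Subgroup.centralizer ({x} : Set S) ⊓ Subgroup.centralizer ({y} : Set S)) ≤ 8
  non_comm : ∃ x y : S, x * y * x⁻¹ * y⁻¹ ∉ A

namespace SixtyFourData

variable {S : Type*} [Group S] [Finite S] {A : Subgroup S} (h : SixtyFourData A)
include h

theorem exists_pair {M : Subgroup S} (hM : 2 * Nat.card ↥(M ⊓ A) < Nat.card M) :
    ∃ x ∈ M, ∃ y ∈ M, x ∉ A ∧ y ∉ A ∧ x⁻¹ * y ∉ A := by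
  classical
  by_contra! hall
  have hx : ∃ x ∈ M, x ∉ A := by
    by_contra! hsub
    have : M ⊓ A = M := inf_eq_left.2 hsub
    rw [this] at hM
    omega
  obtain ⟨x, hxM, hxA⟩ := hx
  have hsub : (M : Set S) ⊆ (M ⊓ A : Subgroup S) ∪ (fun a => x * a) '' ((M ⊓ A : Subgroup S) : Set S) := by
    intro y hy
    by_cases hyA : y ∈ A
    · exact Or.inl ⟨hy, hyA⟩
    · exact Or.inr ⟨x⁻¹ * y, ⟨M.mul_mem (M.inv_mem hxM) hy, hall x hxM y hy hxA hyA⟩,
        mul_inv_cancel_left x y⟩
  have := (Set.ncard_le_ncard hsub (Set.toFinite _)).trans (Set.ncard_union_le _ _)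
  rw [Set.ncard_image_of_injective _ (mul_right_injective x)] at this
  change Nat.card M ≤ Nat.card ↥(M ⊓ A) + Nat.card ↥(M ⊓ A) at this
  omega

omit [Finite S] in
theorem le_fix {M : Subgroup S} {K : Subgroup S} (hK : K ≤ A) {x : S}
    (hcomm : ∀ k ∈ K, k * x = x * k) (_hM : x ∈ M) :
    K ≤ A ⊓ Subgroup.centralizer ({x} : Set S) :=
  fun k hk => ⟨hK hk, Subgroup.mem_centralizer_singleton_iff.2 (hcomm k hk)⟩

theorem card_center_coatom {M : Subgroup S} (hM : IsCoatom M) :
    Nat.card ↥(Subgroup.center ↥M) ≤ 8 := by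
  have : Fact (Nat.Prime 2) := ⟨Nat.prime_two⟩
  have hp : IsPGroup 2 S := IsPGroup.of_card (n := 9) (by rw [h.card_all]; norm_num)
  have hn : Group.IsNilpotent S := hp.isNilpotent
  have hMn : M.Normal := Subgroup.NormalizerCondition.normal_of_coatom M
    Group.normalizerCondition_of_isNilpotent hM
  have hidx : M.index = 2 := by
    have hd := M.index_dvd_card
    rw [h.card_all, show 512 = 2 ^ 9 from rfl, Nat.dvd_prime_pow Nat.prime_two] at hd
    obtain ⟨k, hk, hke⟩ := hd
    have hk0 : k ≠ 0 := fun h0 => hM.1 (Subgroup.index_eq_one.1 (by rw [hke, h0, pow_zero]))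
    obtain ⟨q, hq⟩ := exists_prime_orderOf_dvd_card' (G := S ⧸ M) 2 (by
      rw [show Nat.card (S ⧸ M) = M.index from rfl, hke]; exact dvd_pow_self 2 hk0)
    have htop : (Subgroup.zpowers q).comap (QuotientGroup.mk' M) = ⊤ := by
      refine (hM.le_iff.1 ?_).resolve_right ?_
      · intro m hm
        rw [Subgroup.mem_comap, QuotientGroup.mk'_apply, (QuotientGroup.eq_one_iff m).2 hm]
        exact one_mem _
      · intro he
        obtain ⟨g, rfl⟩ := QuotientGroup.mk'_surjective M q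
        have hg : g ∈ M := he ▸ (show g ∈ (Subgroup.zpowers _).comap _ from Subgroup.mem_zpowers _)
        rw [QuotientGroup.mk'_apply, (QuotientGroup.eq_one_iff g).2 hg, orderOf_one] at hq
        omega
    have htop' : Subgroup.zpowers q = ⊤ := by
      rw [← Subgroup.map_comap_eq_self_of_surjective (QuotientGroup.mk'_surjective M)
        (Subgroup.zpowers q), htop, Subgroup.map_top_of_surjective _ (QuotientGroup.mk'_surjective M)]
    rw [show M.index = Nat.card (S ⧸ M) from rfl,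
      ← Subgroup.card_top (G := S ⧸ M), ← htop', Nat.card_zpowers, hq]
  have hMc : Nat.card M = 256 := by
    have := M.card_mul_index
    rw [h.card_all, hidx] at this
    omega
  have hMA : 32 ≤ Nat.card ↥(M ⊓ A) := by
    have h1 := Subgroup.relIndex_mul_relIndex (M ⊓ A) A ⊤ inf_le_right le_top
    have h2 : (M ⊓ A).relIndex A ≤ 2 := by
      rw [Subgroup.inf_relIndex_right, ← hidx]
      refine Nat.le_of_dvd (by omega) ?_
      exact Subgroup.relIndex_dvd_index_of_normal M A
    have h3 := Subgroup.card_mul_index ((M ⊓ A).subgroupOf A)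
    rw [Nat.card_congr (Subgroup.subgroupOfEquivOfLe (inf_le_right : M ⊓ A ≤ A)).toEquiv, h.card_A,
      show ((M ⊓ A).subgroupOf A).index = (M ⊓ A).relIndex A from rfl] at h3
    nlinarith
  have hMA' : Nat.card ↥(M ⊓ A) ≤ 64 := h.card_A ▸ Subgroup.card_le_of_le inf_le_right
  obtain ⟨x, hxM, y, hyM, hx, hy, hxy⟩ := h.exists_pair (M := M) (by omega)
  have hle : (Subgroup.center ↥M).map M.subtype ≤
      A ⊓ Subgroup.centralizer ({x} : Set S) ⊓ Subgroup.centralizer ({y} : Set S) := by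
    rintro _ ⟨⟨w, hwM⟩, hw, rfl⟩
    have hc : ∀ m ∈ M, w * m = m * w := fun m hm =>
      (congrArg Subtype.val (Subgroup.mem_center_iff.1 hw ⟨m, hm⟩)).symm
    have hwA : w ∈ A := by
      by_contra hwA
      have hle' : M ⊓ A ≤ A ⊓ Subgroup.centralizer ({w} : Set S) :=
        h.le_fix inf_le_right (M := M) (fun k hk => (hc k hk.1).symm) hwM
      have := (Subgroup.card_le_of_le hle').trans (h.fix_one w hwA)
      omega
    exact ⟨⟨hwA, Subgroup.mem_centralizer_singleton_iff.2 (hc x hxM)⟩,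
      Subgroup.mem_centralizer_singleton_iff.2 (hc y hyM)⟩
  refine le_trans ?_ ((Subgroup.card_le_of_le hle).trans (h.fix_two x y hx hy hxy))
  rw [Subgroup.card_map_of_injective M.subtype_injective]

theorem abelian_eq {B : Subgroup S} (hB : IsMulCommutative B) (hB64 : Nat.card B = 64) : B = A := by
  by_contra hne
  have hcomm : ∀ a ∈ B, ∀ b ∈ B, a * b = b * a := fun a ha b hb =>
    congrArg Subtype.val (isMulCommutative_iff.1 hB ⟨a, ha⟩ ⟨b, hb⟩)
  obtain ⟨x, hxB, hxA⟩ := SetLike.not_le_iff_exists.1 (fun hle : B ≤ A => hne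
    (SetLike.coe_injective (Set.eq_of_subset_of_ncard_le hle
      (show Nat.card A ≤ Nat.card B by rw [h.card_A, hB64]) (Set.toFinite _))))
  have h16 := (Subgroup.card_le_of_le (h.le_fix (M := B) inf_le_right
    (fun k hk => hcomm k hk.1 x hxB) hxB : B ⊓ A ≤ _)).trans (h.fix_one x hxA)
  obtain ⟨a, haB, b, hbB, ha, hb, hab⟩ := h.exists_pair (M := B) (by omega)
  have h8 : Nat.card ↥(B ⊓ A) ≤ 8 := by
    refine (Subgroup.card_le_of_le ?_).trans (h.fix_two a b ha hb hab)
    exact le_inf (h.le_fix (M := B) inf_le_right (fun k hk => hcomm k hk.1 a haB) haB)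
      (fun k hk => Subgroup.mem_centralizer_singleton_iff.2 (hcomm k hk.1 b hbB))
  have := h.normal
  let φ : B →* S ⧸ A := (QuotientGroup.mk' A).comp B.subtype
  have hker : Nat.card φ.ker = Nat.card ↥(B ⊓ A) := by
    rw [← Subgroup.card_map_of_injective (K := φ.ker) B.subtype_injective]
    congr 2
    ext y
    constructor
    · rintro ⟨⟨y, hy⟩, hk, rfl⟩
      exact ⟨hy, (QuotientGroup.eq_one_iff _).1 hk⟩
    · rintro ⟨hy, hyA⟩
      exact ⟨⟨y, hy⟩, (QuotientGroup.eq_one_iff _).2 hyA, rfl⟩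
  have hprod : Nat.card φ.ker * Nat.card φ.range = 64 := by
    rw [← hB64, Subgroup.card_eq_card_quotient_mul_card_subgroup φ.ker,
      Nat.card_congr (QuotientGroup.quotientKerEquivRange φ).toEquiv, mul_comm]
  have hq : Nat.card (S ⧸ A) = 8 := by
    have := Subgroup.card_eq_card_quotient_mul_card_subgroup A
    rw [h.card_all, h.card_A] at this
    omega
  have htop : φ.range = ⊤ := by
    have h2 : Nat.card φ.range ≤ 8 := hq ▸ Subgroup.card_le_card_group _
    refine Subgroup.eq_top_of_card_eq _ ?_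
    rw [hq]
    nlinarith
  obtain ⟨p, q, hpq⟩ := h.non_comm
  refine hpq ((QuotientGroup.eq_one_iff _).1 ?_)
  obtain ⟨p', hp'⟩ := (htop ▸ Subgroup.mem_top _ : (p : S ⧸ A) ∈ φ.range)
  obtain ⟨q', hq'⟩ := (htop ▸ Subgroup.mem_top _ : (q : S ⧸ A) ∈ φ.range)
  simp only [QuotientGroup.mk_mul, QuotientGroup.mk_inv, ← hp', ← hq', ← map_inv, ← map_mul]
  have hc : p' * q' * p'⁻¹ * q'⁻¹ = 1 := by
    have := isMulCommutative_iff.1 hB p' q'
    rw [this]; group
  rw [hc, map_one]

end SixtyFourData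

end CfsgLib.InvChar

namespace CfsgLib.InvChar

theorem SixtyFourData.of_equiv {S S' : Type*} [Group S] [Group S'] {A : Subgroup S} (e : S ≃* S')
    (h : SixtyFourData A) : SixtyFourData (A.map e.toMonoidHom) := by
  have hinj : Function.Injective e.toMonoidHom := e.injective
  have hmem : ∀ x, x ∈ A ↔ e x ∈ A.map e.toMonoidHom := fun x =>
    (Subgroup.mem_map_iff_mem hinj).symm
  have hC : ∀ x : S, Subgroup.centralizer ({e x} : Set S') =
      (Subgroup.centralizer ({x} : Set S)).map e.toMonoidHom := fun x => by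
    ext y
    obtain ⟨y, rfl⟩ := e.surjective y
    show e y ∈ _ ↔ e.toMonoidHom y ∈ _
    rw [Subgroup.mem_map_iff_mem hinj, Subgroup.mem_centralizer_singleton_iff,
      Subgroup.mem_centralizer_singleton_iff, ← map_mul, ← map_mul, e.injective.eq_iff]
  refine ⟨(Nat.card_congr e.toEquiv).symm.trans h.card_all, h.normal.map _ e.surjective,
    ⟨isMulCommutative_iff.2 ?_, ?_⟩, (Subgroup.card_map_of_injective hinj).trans h.card_A, ?_, ?_, ?_⟩
  · rintro ⟨_, a, ha, rfl⟩ ⟨_, b, hb, rfl⟩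
    refine Subtype.ext ?_
    show e a * e b = e b * e a
    rw [← map_mul, ← map_mul]
    exact congrArg e (congrArg Subtype.val (isMulCommutative_iff.1 h.elem.1 ⟨a, ha⟩ ⟨b, hb⟩))
  · rintro _ ⟨a, ha, rfl⟩
    rw [← map_pow, h.elem.2 a ha, map_one]
  · intro y hy
    obtain ⟨x, rfl⟩ := e.surjective y
    rw [hC, ← Subgroup.map_inf _ _ _ hinj, Subgroup.card_map_of_injective hinj]
    exact h.fix_one x fun hx => hy ((hmem x).1 hx)
  · intro y₁ y₂ h1 h2 h12
    obtain ⟨x₁, rfl⟩ := e.surjective y₁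
    obtain ⟨x₂, rfl⟩ := e.surjective y₂
    rw [hC, hC, ← Subgroup.map_inf _ _ _ hinj, ← Subgroup.map_inf _ _ _ hinj,
      Subgroup.card_map_of_injective hinj]
    refine h.fix_two x₁ x₂ (fun hx => h1 ((hmem _).1 hx)) (fun hx => h2 ((hmem _).1 hx)) fun hx => h12 ?_
    rw [← map_inv, ← map_mul]; exact (hmem _).1 hx
  · obtain ⟨x, y, hxy⟩ := h.non_comm
    refine ⟨e x, e y, fun hh => hxy ((hmem _).2 ?_)⟩
    simpa [map_mul, map_inv] using hh

end CfsgLib.InvChar
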