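import Cfsg.Agent.Lib.InvChar.UnitaryNormMaps
import Cfsg.Prelude.Def_Solvable
import Cfsg.Prelude.Def_Transfer

/-!
The automorphism group of a group parametrised like a Sylow 2-subgroup of `SU₃(2 ^ n)`.
-/

set_option autoImplicit false
set_option linter.unusedSectionVars false

namespace CfsgLib.InvChar.UnitaryEven

variable {F : Type*} [Field F] [Fintype F] {n : ℕ} [Algebra (ZMod 2) F]
variable {S : Type*} [Group S] [Finite S]
variable (hn : 1 ≤ n) (hF : Fintype.card F = 4 ^ n) (e : Param F n ≃ S)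
  (he : ∀ p r : Param F n, e p * e r = e ⟨op n p.1 r.1, op_mem hn hF p.2 r.2⟩)

/-- The first coordinate. -/
def fstC (s : S) : F := (e.symm s).1.1

/-- The second coordinate. -/
def sndC (s : S) : F := (e.symm s).1.2

include hn hF he

theorem fstC_mul (s t : S) : fstC e (s * t) = fstC e s + fstC e t := by
  obtain ⟨p, rfl⟩ := e.surjective s
  obtain ⟨r, rfl⟩ := e.surjective t
  simp [fstC, he, op]

theorem sndC_mul (s t : S) :
    sndC e (s * t) = sndC e s + sndC e t + fstC e s ^ 2 ^ n * fstC e t := by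
  obtain ⟨p, rfl⟩ := e.surjective s
  obtain ⟨r, rfl⟩ := e.surjective t
  simp [fstC, sndC, he, op]

theorem ext_coord {s t : S} (h1 : fstC e s = fstC e t) (h2 : sndC e s = sndC e t) : s = t :=
  e.symm.injective (Subtype.ext (Prod.ext h1 h2))

theorem coord_eq (s : S) : sndC e s + sndC e s ^ 2 ^ n = fstC e s ^ (2 ^ n + 1) := (e.symm s).2

theorem exists_coord {a b : F} (h : b + b ^ 2 ^ n = a ^ (2 ^ n + 1)) :
    ∃ s : S, fstC e s = a ∧ sndC e s = b :=
  ⟨e ⟨(a, b), h⟩, by simp [fstC], by simp [sndC]⟩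

theorem exists_fst (a : F) : ∃ s : S, fstC e s = a := by
  obtain ⟨b, hb⟩ := exists_fiber hn hF a
  obtain ⟨s, h, -⟩ := exists_coord hn hF e he hb
  exact ⟨s, h⟩

theorem coord_one : fstC e (1 : S) = 0 ∧ sndC e (1 : S) = 0 := by
  have h1 := fstC_mul hn hF e he 1 1
  rw [mul_one] at h1
  have ha : fstC e (1 : S) = 0 := by linear_combination -h1
  have h2 := sndC_mul hn hF e he 1 1
  rw [mul_one, ha] at h2
  refine ⟨ha, ?_⟩
  linear_combination -h2

theorem mem_center_iff (s : S) : s ∈ Subgroup.center S ↔ fstC e s = 0 := by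
  have h2 := two_eq_zero hn hF
  constructor
  · intro h
    by_contra hs
    obtain ⟨u, hu⟩ : ∃ u : F, u ^ 2 ^ n ≠ u := by
      by_contra! hall
      have h4 := card_fixed hn hF
      rw [show {t : F | t ^ 2 ^ n = t} = Set.univ from Set.eq_univ_of_forall hall, Set.ncard_univ,
        card_eq hn hF] at h4
      have hq : 2 ≤ 2 ^ n := Nat.one_lt_two_pow (by omega)
      nlinarith
    obtain ⟨t, ht⟩ := exists_fst hn hF e he (u * fstC e s)
    have hst := congrArg (sndC e) (Subgroup.mem_center_iff.1 h t)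
    rw [sndC_mul hn hF e he, sndC_mul hn hF e he, ht, mul_pow] at hst
    have h' : (u ^ 2 ^ n - u) * (fstC e s ^ 2 ^ n * fstC e s) = 0 := by linear_combination hst
    rcases mul_eq_zero.1 h' with h' | h'
    · exact hu (sub_eq_zero.1 h')
    · exact hs ((mul_eq_zero.1 h').elim (fun h0 => (pow_eq_zero_iff (by positivity)).1 h0) id)
  · intro hs
    refine Subgroup.mem_center_iff.2 fun t => ext_coord hn hF e he ?_ ?_
    · rw [fstC_mul hn hF e he, fstC_mul hn hF e he, add_comm]
    · rw [sndC_mul hn hF e he, sndC_mul hn hF e he, hs, zero_pow (by positivity)]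
      ring

theorem coord_sq (s : S) : fstC e (s * s) = 0 ∧ sndC e (s * s) = fstC e s ^ (2 ^ n + 1) := by
  have h2 := two_eq_zero hn hF
  rw [fstC_mul hn hF e he, sndC_mul hn hF e he]
  refine ⟨by linear_combination fstC e s * h2, ?_⟩
  rw [pow_succ]
  linear_combination sndC e s * h2

theorem aut_coord_zero (α : MulAut S) {s : S} (hs : fstC e s = 0) : fstC e (α s) = 0 := by
  rw [← mem_center_iff hn hF e he] at hs ⊢
  rw [Subgroup.mem_center_iff] at hs ⊢
  intro t
  obtain ⟨u, rfl⟩ := α.surjective t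
  rw [← map_mul, ← map_mul, hs u]

theorem aut_fst_congr (α : MulAut S) {s t : S} (h : fstC e s = fstC e t) :
    fstC e (α s) = fstC e (α t) := by
  have hz : fstC e (s⁻¹ * t) = 0 := by
    have h1 := fstC_mul hn hF e he s (s⁻¹ * t)
    rw [mul_inv_cancel_left, h] at h1
    linear_combination -h1
  have h2 := fstC_mul hn hF e he (α s) (α (s⁻¹ * t))
  rw [← map_mul, mul_inv_cancel_left, aut_coord_zero hn hF e he α hz, add_zero] at h2
  exact h2.symm

/-- The structure of an automorphism. -/
theorem exists_semilinear (α : MulAut S) :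
    ∃ (c : Fˣ) (σ : F ≃ₐ[ZMod 2] F), ∀ s, fstC e (α s) = c * σ (fstC e s) := by
  classical
  choose lift hlift using exists_fst hn hF e he
  have hzero : ∀ b : F, b ^ 2 ^ n = b → ∃ s : S, fstC e s = 0 ∧ sndC e s = b := fun b hb =>
    exists_coord hn hF e he (by
      rw [hb, zero_pow (Nat.succ_ne_zero _)]; linear_combination b * two_eq_zero hn hF)
  choose! zlift hz1 hz2 using hzero
  obtain ⟨c, σ, hcσ⟩ := norm_compat hn hF (fun a => fstC e (α (lift a)))
    (fun b => sndC e (α (zlift b)))
    (fun a a' => by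
      rw [← fstC_mul hn hF e he, ← map_mul]
      exact aut_fst_congr hn hF e he α (by rw [fstC_mul hn hF e he, hlift, hlift, hlift]))
    (fun a a' h => by
      have := aut_fst_congr hn hF e he α.symm h
      simpa [hlift] using this)
    (fun x y hx hy => by
      have hxy : (x + y) ^ 2 ^ n = x + y := by rw [add_pow_q hn hF, hx, hy]
      have heq : zlift (x + y) = zlift x * zlift y := ext_coord hn hF e he
        (by rw [hz1 _ hxy, fstC_mul hn hF e he, hz1 _ hx, hz1 _ hy, add_zero])
        (by rw [hz2 _ hxy, sndC_mul hn hF e he, hz2 _ hx, hz2 _ hy, hz1 _ hy, mul_zero, add_zero])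
      rw [heq, map_mul, sndC_mul hn hF e he, aut_coord_zero hn hF e he α (hz1 _ hy), mul_zero,
        add_zero])
    (fun a => by
      have heq : zlift (a ^ (2 ^ n + 1)) = lift a * lift a := ext_coord hn hF e he
        (by rw [hz1 _ (norm_fixed hn hF a), (coord_sq hn hF e he _).1])
        (by rw [hz2 _ (norm_fixed hn hF a), (coord_sq hn hF e he _).2, hlift])
      rw [heq, map_mul, (coord_sq hn hF e he _).2])
  exact ⟨c, σ, fun s => (aut_fst_congr hn hF e he α (hlift _).symm).trans (hcσ (fstC e s))⟩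

/-- The additive maps into the subfield with `q` elements. -/
abbrev HomK (F : Type*) [Field F] [Fintype F] {n : ℕ} (hn : 1 ≤ n) (hF : Fintype.card F = 4 ^ n) : Type _ :=
  F →+ ↥(tr hn hF).ker

theorem exists_aut (c : Fˣ) (σ : F ≃ₐ[ZMod 2] F) (h : HomK F hn hF) :
    ∃ α : MulAut S, ∀ s, fstC e (α s) = c * σ (fstC e s) ∧
      sndC e (α s) = (c : F) ^ (2 ^ n + 1) * σ (sndC e s + (h (fstC e s) : F)) := by
  classical
  have hmem : ∀ s : S, (((c : F) * σ (fstC e s),
      (c : F) ^ (2 ^ n + 1) * σ (sndC e s + (h (fstC e s) : F))) : F × F) ∈ Param F n := by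
    intro s
    show _ + _ = _
    have hk : (h (fstC e s) : F) ^ 2 ^ n = h (fstC e s) := (mem_ker_tr hn hF _).1 (h (fstC e s)).2
    have h2 := two_eq_zero hn hF
    rw [mul_pow _ (σ _) (2 ^ n), mul_pow, norm_fixed hn hF, ← mul_add, ← map_pow, ← map_pow, ← map_add,
      add_pow_q hn hF, hk, ← coord_eq hn hF e he s]
    congr 2
    linear_combination (h (fstC e s) : F) * h2
  let f : S →* S := MonoidHom.mk' (fun s => e ⟨_, hmem s⟩) fun s t => by
    rw [he]
    congr 1
    refine Subtype.ext (Prod.ext ?_ ?_)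
    · simp only [op]
      rw [fstC_mul hn hF e he, map_add, mul_add]
    · simp only [op]
      rw [sndC_mul hn hF e he, fstC_mul hn hF e he, map_add h, AddSubgroup.coe_add, mul_pow, ← map_pow]
      simp only [map_add, map_mul, pow_succ]
      ring
  have hinj : Function.Injective f := by
    intro s t hst
    have h1 := congrArg Subtype.val (e.injective hst)
    have ha : fstC e s = fstC e t := σ.injective (mul_left_cancel₀ c.ne_zero (congrArg Prod.fst h1))
    refine ext_coord hn hF e he ha ?_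
    have hb := σ.injective (mul_left_cancel₀ (pow_ne_zero _ c.ne_zero) (congrArg Prod.snd h1))
    rw [ha] at hb
    exact add_right_cancel hb
  refine ⟨MulEquiv.ofBijective f (Finite.injective_iff_bijective.1 hinj), fun s => ?_⟩
  have e1 : e.symm (MulEquiv.ofBijective f (Finite.injective_iff_bijective.1 hinj) s) = ⟨_, hmem s⟩ :=
    e.symm_apply_apply _
  constructor
  · show (e.symm _).1.1 = _
    rw [e1]
  · show (e.symm _).1.2 = _
    rw [e1]

theorem exists_residual (α : MulAut S) (c : Fˣ) (σ : F ≃ₐ[ZMod 2] F)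
    (hα : ∀ s, fstC e (α s) = c * σ (fstC e s)) :
    ∃ h : HomK F hn hF, ∀ s,
      sndC e (α s) = (c : F) ^ (2 ^ n + 1) * σ (sndC e s + (h (fstC e s) : F)) := by
  classical
  obtain ⟨β, hβ⟩ := exists_aut hn hF e he c σ 0
  set γ : MulAut S := β⁻¹ * α with hγ
  have hβγ : ∀ s, β (γ s) = α s := fun s => by
    rw [hγ, MulAut.mul_apply, MulAut.inv_apply]
    exact β.apply_symm_apply _
  have hfst : ∀ s, fstC e (γ s) = fstC e s := fun s => by
    have h1 := (hβ (γ s)).1
    rw [hβγ, hα] at h1
    exact (σ.injective (mul_left_cancel₀ c.ne_zero h1)).symm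
  choose lift hlift using exists_fst hn hF e he
  -- the central automorphism fixes the centre pointwise
  have hdiff : ∀ s, fstC e s = 0 → sndC e (γ s) = sndC e s := by
    intro s hs
    have hfix : sndC e s ^ 2 ^ n = sndC e s := by
      have h := coord_eq hn hF e he s
      rw [hs, zero_pow (Nat.succ_ne_zero _)] at h
      linear_combination h - sndC e s * two_eq_zero hn hF
    obtain ⟨r, hr⟩ : ∃ r : F, r ^ 2 = sndC e s := by
      have := charP_two hn hF
      exact (bijective_frobenius F 2).2 (sndC e s)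
    have hrq : r ^ 2 ^ n = r := by
      have := charP_two hn hF
      refine (bijective_frobenius F 2).1 ?_
      show (r ^ 2 ^ n) ^ 2 = r ^ 2
      rw [← pow_mul, mul_comm, pow_mul, hr, hfix]
    have heq : s = lift r * lift r := ext_coord hn hF e he
      (by rw [hs, (coord_sq hn hF e he _).1])
      (by rw [(coord_sq hn hF e he _).2, hlift, pow_succ, hrq, ← sq, hr])
    rw [heq, map_mul, (coord_sq hn hF e he _).2, (coord_sq hn hF e he _).2, hfst]
  have hindep : ∀ s t, fstC e s = fstC e t →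
      sndC e (γ s) - sndC e s = sndC e (γ t) - sndC e t := by
    intro s t hst
    have hz : fstC e (s⁻¹ * t) = 0 := by
      have h1 := fstC_mul hn hF e he s (s⁻¹ * t)
      rw [mul_inv_cancel_left, hst] at h1
      linear_combination -h1
    have h1 := sndC_mul hn hF e he s (s⁻¹ * t)
    have h2 := sndC_mul hn hF e he (γ s) (γ (s⁻¹ * t))
    rw [mul_inv_cancel_left, hz, mul_zero, add_zero] at h1
    rw [← map_mul, mul_inv_cancel_left, hfst (s⁻¹ * t), hz, mul_zero, add_zero, hdiff _ hz] at h2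
    linear_combination h1 - h2
  have hker : ∀ a, sndC e (γ (lift a)) - sndC e (lift a) ∈ (tr hn hF).ker := by
    intro a
    have h1 := coord_eq hn hF e he (γ (lift a))
    have h2 := coord_eq hn hF e he (lift a)
    rw [hfst] at h1
    rw [AddMonoidHom.mem_ker, map_sub, tr_apply, tr_apply, h1, h2, sub_self]
  let h : HomK F hn hF :=
    AddMonoidHom.mk' (fun a => ⟨_, hker a⟩) fun a b => Subtype.ext (by
      show sndC e (γ (lift (a + b))) - sndC e (lift (a + b)) =
        (sndC e (γ (lift a)) - sndC e (lift a)) + (sndC e (γ (lift b)) - sndC e (lift b))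
      rw [hindep (lift (a + b)) (lift a * lift b) (by rw [fstC_mul hn hF e he, hlift, hlift, hlift]),
        map_mul, sndC_mul hn hF e he, sndC_mul hn hF e he, hfst, hfst]
      ring)
  refine ⟨h, fun s => ?_⟩
  have h1 := (hβ (γ s)).2
  rw [hβγ, hfst, AddMonoidHom.zero_apply, ZeroMemClass.coe_zero, add_zero] at h1
  rw [h1]
  congr 2
  show sndC e (γ s) = sndC e s + (sndC e (γ (lift (fstC e s))) - sndC e (lift (fstC e s)))
  rw [← hindep s (lift (fstC e s)) (hlift _).symm]
  ring

theorem card_homK : Nat.card (HomK F hn hF) = 2 ^ (2 * n ^ 2) := by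
  classical
  have : Fact (Nat.Prime 2) := ⟨Nat.prime_two⟩
  let K := ↥(tr hn hF).ker
  have hexp : ∀ k : K, 2 • k = 0 := fun k => Subtype.ext (by
    show (2 • (k : F)) = 0
    rw [two_nsmul]; linear_combination (k : F) * two_eq_zero hn hF)
  let _ : Module (ZMod 2) K := AddCommGroup.zmodModule hexp
  let eq : (F →+ K) ≃ (F →ₗ[ZMod 2] K) :=
    { toFun := fun f => f.toZModLinearMap 2
      invFun := fun f => f.toAddMonoidHom
      left_inv := fun f => rfl
      right_inv := fun f => rfl }
  rw [show Nat.card (HomK F hn hF) = Nat.card (F →+ K) from rfl, Nat.card_congr eq,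
    Module.natCard_eq_pow_finrank (K := ZMod 2) (V := F →ₗ[ZMod 2] K), Module.finrank_linearMap,
    Nat.card_zmod]
  have h1 : Module.finrank (ZMod 2) F = 2 * n := by
    have h := Module.natCard_eq_pow_finrank (K := ZMod 2) (V := F)
    rw [Nat.card_zmod, card_eq hn hF, ← pow_mul] at h
    have := Nat.pow_right_injective le_rfl h
    omega
  have h2 : Module.finrank (ZMod 2) K = n := by
    have h := Module.natCard_eq_pow_finrank (K := ZMod 2) (V := K)
    rw [Nat.card_zmod, show Nat.card K = 2 ^ n from (card_ker_tr hn hF).1] at h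
    exact (Nat.pow_right_injective le_rfl h).symm
  rw [h1, h2]
  ring_nf

theorem card_gal : Nat.card (F ≃ₐ[ZMod 2] F) = 2 * n := by
  have : Fact (Nat.Prime 2) := ⟨Nat.prime_two⟩
  rw [← Nat.card_eq_of_bijective _ (FiniteField.bijective_frobeniusAlgEquivOfAlgebraic_pow (ZMod 2) F),
    Nat.card_fin]
  have h := Module.natCard_eq_pow_finrank (K := ZMod 2) (V := F)
  rw [Nat.card_zmod, card_eq hn hF, ← pow_mul] at h
  have := Nat.pow_right_injective le_rfl h
  omega

theorem card_aut :
    Nat.card (MulAut S) = 2 ^ (2 * n ^ 2) * (2 * n * ((2 ^ n) ^ 2 - 1)) := by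
  classical
  have hex : ∀ p : Fˣ × (F ≃ₐ[ZMod 2] F) × HomK F hn hF, ∃ α : MulAut S,
      ∀ s, fstC e (α s) = p.1 * p.2.1 (fstC e s) ∧
        sndC e (α s) = (p.1 : F) ^ (2 ^ n + 1) * p.2.1 (sndC e s + (p.2.2 (fstC e s) : F)) :=
    fun p => exists_aut hn hF e he p.1 p.2.1 p.2.2
  choose Φ hΦ using hex
  have hbij : Function.Bijective Φ := by
    constructor
    · rintro ⟨c, σ, h⟩ ⟨c', σ', h'⟩ heq
      have hfa : ∀ a : F, (c : F) * σ a = c' * σ' a := fun a => by
        obtain ⟨s, rfl⟩ := exists_fst hn hF e he a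
        rw [← (hΦ (c, σ, h) s).1, heq, (hΦ (c', σ', h') s).1]
      have hc : c = c' := Units.ext (by simpa using hfa 1)
      subst hc
      have hσ : σ = σ' := AlgEquiv.ext fun a => mul_left_cancel₀ c.ne_zero (hfa a)
      subst hσ
      have hh : h = h' := AddMonoidHom.ext fun a => Subtype.ext (by
        obtain ⟨s, rfl⟩ := exists_fst hn hF e he a
        have h1 := (hΦ (c, σ, h) s).2
        rw [heq, (hΦ (c, σ, h') s).2] at h1
        exact (add_left_cancel (σ.injective (mul_left_cancel₀ (pow_ne_zero _ c.ne_zero) h1))).symm)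
      rw [hh]
    · intro α
      obtain ⟨c, σ, hc⟩ := exists_semilinear hn hF e he α
      obtain ⟨h, hh⟩ := exists_residual hn hF e he α c σ hc
      refine ⟨(c, σ, h), MulEquiv.ext fun s => ext_coord hn hF e he ?_ ?_⟩
      · rw [(hΦ _ s).1, hc]
      · rw [(hΦ _ s).2, hh]
  rw [← Nat.card_eq_of_bijective Φ hbij, Nat.card_prod, Nat.card_prod, card_gal hn hF e he,
    card_homK hn hF e he, Nat.card_units, card_eq hn hF]
  ring

theorem pCore_aut :
    Cfsg.IsElementaryAbelian 2 (Cfsg.pCore 2 (MulAut S)) ∧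
      Nat.card ↥(Cfsg.pCore 2 (MulAut S)) = 2 ^ (2 * n ^ 2) := by
  classical
  have : Fact (Nat.Prime 2) := ⟨Nat.prime_two⟩
  have h2 := two_eq_zero hn hF
  let K₀ : Subgroup (MulAut S) :=
    { carrier := {α | ∀ s, fstC e (α s) = fstC e s}
      one_mem' := fun s => rfl
      mul_mem' := fun {α β} ha hb s => by rw [MulAut.mul_apply, ha, hb]
      inv_mem' := fun {α} ha s => by
        have h := ha (α⁻¹ s)
        rw [show α (α⁻¹ s) = s from α.apply_symm_apply s] at h
        exact h.symm }
  have hres : ∀ α ∈ K₀, ∃ h : HomK F hn hF, ∀ s, sndC e (α s) = sndC e s + (h (fstC e s) : F) := by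
    intro α hα
    obtain ⟨h, hh⟩ := exists_residual hn hF e he α 1 AlgEquiv.refl (fun s => by simp [hα s])
    exact ⟨h, fun s => by simp [hh s]⟩
  choose! hof hhof using hres
  have hext : ∀ α ∈ K₀, ∀ β ∈ K₀, hof α = hof β → α = β := fun α hα β hβ h =>
    MulEquiv.ext fun s => ext_coord hn hF e he (by rw [hα s, hβ s]) (by rw [hhof α hα, hhof β hβ, h])
  have hex : ∀ h : HomK F hn hF, ∃ α ∈ K₀, hof α = h := by
    intro h
    obtain ⟨α, hα⟩ := exists_aut hn hF e he 1 AlgEquiv.refl h
    have hαK : α ∈ K₀ := fun s => by simp [(hα s).1]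
    refine ⟨α, hαK, AddMonoidHom.ext fun a => Subtype.ext ?_⟩
    obtain ⟨s, rfl⟩ := exists_fst hn hF e he a
    have h1 := hhof α hαK s
    rw [(hα s).2] at h1
    simpa using h1.symm
  have hcard : Nat.card K₀ = 2 ^ (2 * n ^ 2) := by
    rw [← card_homK hn hF e he]
    refine Nat.card_eq_of_bijective (fun α : K₀ => hof α.1) ⟨fun α β h =>
      Subtype.ext (hext _ α.2 _ β.2 h), fun h => ?_⟩
    obtain ⟨α, hα, e'⟩ := hex h
    exact ⟨⟨α, hα⟩, e'⟩
  have hmul : ∀ α ∈ K₀, ∀ β ∈ K₀, hof (α * β) = hof α + hof β := by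
    intro α hα β hβ
    refine AddMonoidHom.ext fun a => Subtype.ext ?_
    obtain ⟨s, rfl⟩ := exists_fst hn hF e he a
    have h1 := hhof (α * β) (mul_mem hα hβ) s
    rw [MulAut.mul_apply, hhof α hα, hhof β hβ, hβ s] at h1
    rw [AddMonoidHom.add_apply, AddSubgroup.coe_add]
    linear_combination -h1
  have hel : Cfsg.IsElementaryAbelian 2 K₀ := by
    refine ⟨isMulCommutative_iff.2 fun α β => Subtype.ext ?_, fun α hα => ?_⟩
    · show (α : MulAut S) * β = β * α
      refine hext _ (mul_mem α.2 β.2) _ (mul_mem β.2 α.2) ?_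
      rw [hmul _ α.2 _ β.2, hmul _ β.2 _ α.2, add_comm]
    · refine hext _ (pow_mem hα 2) _ (one_mem _) (AddMonoidHom.ext fun a => Subtype.ext ?_)
      obtain ⟨s, rfl⟩ := exists_fst hn hF e he a
      have h1 := hhof 1 (one_mem _) s
      rw [show (1 : MulAut S) s = s from rfl] at h1
      rw [pow_two, hmul _ hα _ hα, AddMonoidHom.add_apply, AddSubgroup.coe_add]
      linear_combination (hof α (fstC e s) : F) * h2 + h1
  have hnormal : K₀.Normal := ⟨fun α hα β s => by
    show fstC e (β (α (β⁻¹ s))) = fstC e s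
    rw [aut_fst_congr hn hF e he β (hα (β⁻¹ s))]
    exact congrArg (fstC e) (β.apply_symm_apply s)⟩
  have hKp : IsPGroup 2 K₀ := IsPGroup.of_card hcard
  have hle : ∀ N : Subgroup (MulAut S), N.Normal → IsPGroup 2 N → N ≤ K₀ := by
    intro N hN hNp α hα
    obtain ⟨c, σ, hc⟩ := exists_semilinear hn hF e he α
    have key : ∀ γ ∈ N, ∀ u : F, (∀ s, fstC e (γ s) = u * fstC e s) → u = 1 := by
      intro γ hγ u hu
      obtain ⟨k, hk⟩ := hNp ⟨γ, hγ⟩
      have hk' : γ ^ 2 ^ k = 1 := congrArg Subtype.val hk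
      have hpow : ∀ m : ℕ, ∀ s, fstC e ((γ ^ m) s) = u ^ m * fstC e s := by
        intro m
        induction m with
        | zero => intro s; simp
        | succ m ih => intro s; rw [pow_succ, MulAut.mul_apply, ih, hu, pow_succ]; ring
      obtain ⟨s, hs⟩ := exists_fst hn hF e he 1
      have h1 := hpow (2 ^ k) s
      rw [hk', show (1 : MulAut S) s = s from rfl, hs, mul_one] at h1
      have := charP_two hn hF
      refine (iterateFrobenius_inj F 2 k) ?_
      rw [iterateFrobenius_def, iterateFrobenius_def, one_pow, ← h1]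
    have hσ : σ = AlgEquiv.refl := by
      refine AlgEquiv.ext fun x => ?_
      by_cases hx : x = 0
      · simp [hx]
      obtain ⟨β, hβ⟩ := exists_aut hn hF e he (Units.mk0 x hx) AlgEquiv.refl 0
      have hcomm : α * β * α⁻¹ * β⁻¹ ∈ N := by
        have h := mul_mem hα (hN.conj_mem _ (inv_mem hα) β)
        simpa [mul_assoc] using h
      have hu := key _ hcomm (σ x / x) (fun s => by
        have hb := (hβ (β⁻¹ s)).1
        rw [show β (β⁻¹ s) = s from β.apply_symm_apply s] at hb
        have hb' := (hβ (α⁻¹ (β⁻¹ s))).1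
        have ha := hc (α⁻¹ (β⁻¹ s))
        rw [show α (α⁻¹ (β⁻¹ s)) = β⁻¹ s from α.apply_symm_apply _] at ha
        simp only [MulAut.mul_apply]
        rw [hc, hb']
        simp only [AlgEquiv.coe_refl, id_eq, map_mul, Units.val_mk0]
        simp only [AlgEquiv.coe_refl, id_eq, Units.val_mk0] at hb
        rw [hb, ha]
        field_simp)
      exact (div_eq_one_iff_eq hx).1 hu
    subst hσ
    have hc1 := key α hα c (fun s => by rw [hc]; rfl)
    intro s
    rw [hc, hc1, one_mul]
    rfl
  have heq : Cfsg.pCore 2 (MulAut S) = K₀ :=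
    le_antisymm (sSup_le fun N hN => hle N hN.1 hN.2) (le_sSup ⟨hnormal, hKp⟩)
  rw [heq]
  exact ⟨hel, hcard⟩

end CfsgLib.InvChar.UnitaryEven
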