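/-
InvChar: levels in a panel of a descent (refining `Cham.descent`).
-/
import Cfsg.Agent.Lib.Generators.Steinberg.Chamber

set_option autoImplicit false
set_option linter.unusedSectionVars false

open Module CfsgLib.Generators.Steinberg CfsgLib.Generators.Steinberg.Polar

namespace CfsgLib.InvChar.Pronormal

variable {F : Type*} [Field F] [Finite F] {V : Type*} [AddCommGroup V] [Module F V] {m : ℕ}
  [FiniteDimensional F V] {P : Polar F V m}

theorem descent_levels (x : Cham P) (hx : ¬ x.IsOpp) :
    ∃ (i : Fin m) (S : Fin m → Fin (2 * m)), ∀ y, Cham.Adj i x y → y ≠ x →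
      x.height < y.height ∧ ∀ l, y.lev l = S l := by
  classical
  by_cases hd : ∃ i j : Fin m, (j : ℕ) = i + 1 ∧ x.lev i < x.lev j
  · obtain ⟨i, j, hij, hlt⟩ := hd
    refine ⟨i, fun l => if l = i then x.lev j else if l = j then x.lev i else x.lev l,
      fun y hy hne => ?_⟩
    have hjs : j.castSucc = i.succ := Fin.ext (by simp [hij])
    have hi0 : y.toFun i.castSucc = x.toFun i.castSucc := hy _ (ne_of_lt Fin.castSucc_lt_succ)
    have hj1 : y.toFun j.succ = x.toFun j.succ := hy _ fun e => by
      have := congrArg Fin.val e; simp at this; omega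
    have hset : P.piv (x.toFun j.succ) = insert (x.lev j) (insert (x.lev i) (P.piv (x.toFun i.castSucc))) := by
      rw [x.piv_succ, hjs, x.piv_succ]
    have hyi : y.lev i ∈ insert (x.lev j) (insert (x.lev i) (P.piv (x.toFun i.castSucc))) := by
      rw [← hset, ← hj1]
      exact y.lev_mem_piv (by simp; omega)
    have hyi_ne : y.lev i ∉ P.piv (x.toFun i.castSucc) := hi0 ▸ y.lev_notMem i
    have hA : y.lev i = x.lev j := by
      simp only [Finset.mem_insert] at hyi
      rcases hyi with h | h | h
      · exact h
      · exfalso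
        refine hne (hy.eq ?_)
        obtain ⟨v, hv, hvl⟩ := x.exists_lev_vec i
        have hvT : v ∈ y.toFun j.succ := hj1.symm ▸ x.mono' (Fin.succ_le_succ_iff.2 (Fin.le_def.2 (by omega))) hv
        have hvy : v ∈ y.toFun i.succ := mem_of_piv (y.ts' j.succ) (hjs ▸ y.castSucc_le j) hvT hvl fun l hl hle => by
          rw [hj1, hset] at hl
          simp only [Finset.mem_insert] at hl
          rw [y.piv_succ, h, hi0]
          rcases hl with rfl | rfl | hl
          · exact absurd hle hlt.not_ge
          · exact Finset.mem_insert_self _ _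
          · exact Finset.mem_insert_of_mem hl
        have hsup : ∀ z : Cham P, v ∈ z.toFun i.succ → z.toFun i.castSucc = x.toFun i.castSucc →
            z.toFun i.succ = x.toFun i.castSucc ⊔ Submodule.span F {v} := by
          intro z hz he
          refine (Submodule.eq_of_le_of_finrank_le (sup_le (he ▸ z.castSucc_le i) (by simpa using hz)) ?_).symm
          have hlt' : x.toFun i.castSucc < x.toFun i.castSucc ⊔ Submodule.span F {v} :=
            lt_of_le_of_ne le_sup_left fun e => x.lev_notMem i (mem_piv.2
              ⟨v, e ▸ le_sup_right (a := x.toFun i.castSucc) (Submodule.mem_span_singleton_self v), hvl⟩)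
          have := Submodule.finrank_lt_finrank_of_lt hlt'
          rw [x.finrank'] at this
          rw [z.finrank']
          simp at this ⊢
          omega
        rw [hsup y hvy hi0, hsup x hv rfl]
      · exact absurd h hyi_ne
    have hB : y.lev j = x.lev i := by
      have h1 : x.lev i ∈ P.piv (y.toFun j.succ) := by
        rw [hj1, hset]; exact Finset.mem_insert_of_mem (Finset.mem_insert_self _ _)
      rw [y.piv_succ, Finset.mem_insert] at h1
      refine (h1.resolve_right ?_).symm
      rw [hjs, y.piv_succ, Finset.mem_insert, hA, hi0, not_or]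
      exact ⟨fun e => hlt.ne e, x.lev_notMem i⟩
    have hrest : ∀ l, l ∉ ({i, j} : Finset (Fin m)) → (x.lev l : ℕ) * (m - l) = (y.lev l : ℕ) * (m - l) := by
      intro l hl
      simp only [Finset.mem_insert, Finset.mem_singleton, not_or] at hl
      rw [hy.lev_eq_of_ne hl.1 fun e => hl.2 (Fin.ext (by omega))]
    have hne' : i ≠ j := fun e => by rw [e] at hij; omega
    refine ⟨?_, fun l => ?_⟩
    swap
    · by_cases h1 : l = i
      · subst h1; simp [hA]
      by_cases h2 : l = j
      · subst h2; simp [Ne.symm hne', hB]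
      simp only [if_neg h1, if_neg h2]
      exact hy.lev_eq_of_ne h1 fun e => h2 (Fin.ext (by omega))
    rw [Cham.height, Cham.height, ← Finset.sum_add_sum_compl ({i, j} : Finset (Fin m)),
      ← Finset.sum_add_sum_compl ({i, j} : Finset (Fin m)) (fun l => (y.lev l : ℕ) * (m - l)),
      Finset.sum_congr rfl (fun l hl => hrest l (Finset.mem_compl.1 hl)), Finset.sum_pair hne',
      Finset.sum_pair hne', hA, hB]
    have h3 : (m - i : ℕ) = (m - j) + 1 := by omega
    rw [h3]
    have : (x.lev i : ℕ) < x.lev j := hlt
    nlinarith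
  · push Not at hd
    have hanti : ∀ i j : Fin m, i ≤ j → (x.lev j : ℕ) + (j - i) ≤ x.lev i := by
      intro i j hij
      induction h : (j : ℕ) - i generalizing j with
      | zero => rw [show j = i from Fin.ext (by have := Fin.le_def.1 hij; omega)]; rfl
      | succ n ih =>
        have hj1 : (j : ℕ) - 1 < m := by omega
        have h1 := ih ⟨j - 1, hj1⟩ (Fin.le_def.2 (by simp; omega)) (by simp; omega)
        have h2 : (x.lev j : ℕ) ≤ x.lev ⟨j - 1, hj1⟩ := hd ⟨j - 1, hj1⟩ j (by simp; omega)
        have h3 : x.lev j ≠ x.lev ⟨j - 1, hj1⟩ := fun e => by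
          have := congrArg Fin.val (x.lev_injective e); simp at this; omega
        have h4 : (x.lev j : ℕ) ≠ x.lev ⟨j - 1, hj1⟩ := fun e => h3 (Fin.ext e)
        omega
    rcases Nat.eq_zero_or_pos m with hm | hm
    · exact absurd (fun i => absurd i.2 (by omega)) hx
    set z : Fin m := ⟨m - 1, by omega⟩ with hz
    have hzlt : (x.lev z : ℕ) < m := by
      by_contra hc
      rw [not_lt] at hc
      refine hx fun i => Fin.ext ?_
      have h1 := hanti i z (Fin.le_def.2 (by simp [hz]; omega))
      have h2 := hanti ⟨0, hm⟩ i (Fin.le_def.2 (by simp))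
      have h3 := (x.lev ⟨0, hm⟩).2
      simp [hz] at h1 h2 hc
      rw [hi_val]
      omega
    refine ⟨z, fun l => if l = z then (x.lev z).rev else x.lev l, fun y hy hne => ?_⟩
    have hzs : z.succ = Fin.last m := Fin.ext (by simp [hz]; omega)
    have hc : y.toFun z.castSucc = x.toFun z.castSucc := hy _ (ne_of_lt Fin.castSucc_lt_succ)
    have hlt' : ∀ w : Cham P, ∀ v ∈ w.toFun z.succ, P.IsLev v (x.lev z) →
        v = ∑ i, P.K v (P.f i) • P.e i := by
      intro w v hv hvl
      refine eq_sum_of_low ((w.ts' _ v hv).1) fun i => ?_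
      rw [← c_hi]
      exact hvl.2 _ (Fin.lt_def.2 (by rw [hi_val]; omega))
    have hsame : ∀ (w : Cham P) (l : Fin m), w.toFun z.castSucc = x.toFun z.castSucc → l ≠ z →
        x.lev l ∈ P.piv (w.toFun z.castSucc) := fun w l h hl => by
      rw [h]; exact x.lev_mem_piv (by simp [hz]; have := l.2; have : (l : ℕ) ≠ m - 1 := fun e => hl (Fin.ext (by simp [hz, e])); omega)
    have hB : y.lev z ≠ x.lev z := by
      intro h
      refine hne (hy.eq ?_)
      obtain ⟨v, hv, hvl⟩ := x.exists_lev_vec z
      obtain ⟨v', hv', hvl'⟩ := y.exists_lev_vec z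
      rw [h] at hvl'
      suffices hvy : v ∈ y.toFun z.succ by
        have hsup : ∀ w : Cham P, v ∈ w.toFun z.succ → w.toFun z.castSucc = x.toFun z.castSucc →
            w.toFun z.succ = x.toFun z.castSucc ⊔ Submodule.span F {v} := by
          intro w hw he
          refine (Submodule.eq_of_le_of_finrank_le (sup_le (he ▸ w.castSucc_le z) (by simpa using hw)) ?_).symm
          have hlt'' : x.toFun z.castSucc < x.toFun z.castSucc ⊔ Submodule.span F {v} :=
            lt_of_le_of_ne le_sup_left fun e => x.lev_notMem z (mem_piv.2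
              ⟨v, e ▸ le_sup_right (a := x.toFun z.castSucc) (Submodule.mem_span_singleton_self v), hvl⟩)
          have := Submodule.finrank_lt_finrank_of_lt hlt''
          rw [x.finrank'] at this
          rw [w.finrank']
          simp at this ⊢
          omega
        rw [hsup y hvy hc, hsup x hv rfl]
      by_contra hvy
      have hKsum : P.K v' v = 0 := by
        have hA : ∀ (w : V), w = ∑ i, P.K w (P.f i) • P.e i → w ∈ Submodule.span F (Set.range P.e) := fun w hw =>
          hw ▸ Submodule.sum_mem _ fun i _ => Submodule.smul_mem _ _ (Submodule.subset_span ⟨i, rfl⟩)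
        exact (P.isTS_span P.e_sing P.K_ee _ (hA v' (hlt' y v' hv' hvl'))).2 v (hA v (hlt' x v hv hvl))
      have hvC : ∀ u ∈ y.toFun z.castSucc, P.K u v = 0 := fun u hu =>
        (x.ts' _ u (x.castSucc_le z (hc ▸ hu))).2 v hv
      have hspan : y.toFun z.castSucc ⊔ Submodule.span F {v'} = y.toFun z.succ := by
        refine Submodule.eq_of_le_of_finrank_le (sup_le (y.castSucc_le z) (by simpa using hv')) ?_
        have hlt'' : y.toFun z.castSucc < y.toFun z.castSucc ⊔ Submodule.span F {v'} :=
          lt_of_le_of_ne le_sup_left fun e => y.lev_notMem z (h.symm ▸ mem_piv.2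
            ⟨v', e ▸ le_sup_right (a := y.toFun z.castSucc) (Submodule.mem_span_singleton_self v'), hvl'⟩)
        have := Submodule.finrank_lt_finrank_of_lt hlt''
        rw [y.finrank'] at this ⊢
        simp at this ⊢
        omega
      have hyv : ∀ u ∈ y.toFun z.succ, P.K u v = 0 := by
        intro u hu
        rw [← hspan] at hu
        obtain ⟨a, ha, b, hb, rfl⟩ := Submodule.mem_sup.1 hu
        obtain ⟨t, rfl⟩ := Submodule.mem_span_singleton.1 hb
        rw [P.K_add, hvC a ha, P.K_smul, hKsum, mul_zero, zero_add]
      have hbig : P.IsTS (y.toFun z.succ ⊔ Submodule.span F {v}) := by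
        intro u hu
        obtain ⟨a, ha, b, hb, rfl⟩ := Submodule.mem_sup.1 hu
        obtain ⟨t, rfl⟩ := Submodule.mem_span_singleton.1 hb
        refine ⟨P.sing_add _ _ (y.ts' _ a ha).1 (P.sing_smul t _ (x.ts' _ v hv).1)
          (by rw [P.K_smul_right, hyv a ha, mul_zero]), fun w hw => ?_⟩
        obtain ⟨a', ha', b', hb', rfl⟩ := Submodule.mem_sup.1 hw
        obtain ⟨t', rfl⟩ := Submodule.mem_span_singleton.1 hb'
        simp only [P.K_add, P.K_smul, P.K_add_right, P.K_smul_right, (y.ts' _ a ha).2 a' ha', hyv a ha,
          P.K_eq_zero_symm (hyv a' ha'), (x.ts' _ v hv).2 v hv, mul_zero, add_zero]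
      have := finrank_le hbig
      have hlt'' : y.toFun z.succ < y.toFun z.succ ⊔ Submodule.span F {v} :=
        lt_of_le_of_ne le_sup_left fun e => hvy (e ▸ le_sup_right (a := y.toFun z.succ) (Submodule.mem_span_singleton_self v))
      have hf := Submodule.finrank_lt_finrank_of_lt hlt''
      rw [y.finrank', show (z.succ : ℕ) = m from congrArg Fin.val hzs] at hf
      omega
    have hA : y.lev z = (x.lev z).rev := by
      by_contra hc'
      have hs : ∀ l : Fin m, y.lev z ≠ x.lev l ∧ y.lev z ≠ (x.lev l).rev := by
        intro l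
        by_cases hl : l = z
        · subst hl; exact ⟨hB, hc'⟩
        refine ⟨fun e => y.lev_notMem z (e ▸ hsame y l hc hl), fun e => ?_⟩
        exact rev_notMem_piv (y.ts' z.succ) (piv_mono (y.castSucc_le z) (hsame y l hc hl))
          (e ▸ y.lev_mem_piv (by simp))
      have hsurj : Function.Surjective (Sum.elim x.lev fun l => (x.lev l).rev) :=
        ((Fintype.bijective_iff_injective_and_card _).2 ⟨by
          refine Function.Injective.sumElim x.lev_injective (Fin.rev_injective.comp x.lev_injective) ?_
          exact fun a b => x.lev_ne_rev a b, by simp; omega⟩).2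
      obtain ⟨l | l, hl⟩ := hsurj (y.lev z)
      · exact (hs l).1 hl.symm
      · exact (hs l).2 hl.symm
    have hrest : ∀ l, l ≠ z → y.lev l = x.lev l := fun l hl =>
      hy.lev_eq_of_ne hl fun e => by have := l.2; simp [hz] at e; omega
    refine ⟨?_, fun l => ?_⟩
    swap
    · by_cases h1 : l = z
      · subst h1; simp [hA]
      simp only [if_neg h1]
      exact hrest l h1
    refine Finset.sum_lt_sum (fun l _ => ?_) ⟨z, Finset.mem_univ _, ?_⟩
    · by_cases hl : l = z
      · subst hl; rw [hA, Fin.val_rev]; gcongr; omega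
      · rw [hrest l hl]
    · rw [hA, Fin.val_rev]
      refine Nat.mul_lt_mul_of_pos_right (by omega) (by simp [hz]; omega)

end CfsgLib.InvChar.Pronormal
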