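/-
InvChar: 2-groups with an automorphism of order two whose fixed points are elementary abelian and
permuted transitively by a commuting automorphism: the layers.
-/
import Mathlib
import Cfsg.Agent.Lib.SuzukiTwo.Abelian

set_option autoImplicit false
set_option linter.unusedSectionVars false

namespace CfsgLib.InvChar.FixedLayers

universe u

variable {Q : Type u} [Group Q]

/-- The fixed points of an automorphism. -/
def fix (α : MulAut Q) : Subgroup Q := MonoidHom.eqLocus α.toMonoidHom (MonoidHom.id Q)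

theorem mem_fix {α : MulAut Q} {x : Q} : x ∈ fix α ↔ α x = x := Iff.rfl

/-- The defect `x⁻¹ α(x)`. -/
def dfct (α : MulAut Q) (x : Q) : Q := x⁻¹ * α x

theorem map_eq (α : MulAut Q) (x : Q) : α x = x * dfct α x := by rw [dfct, mul_inv_cancel_left]

/-- The hypotheses. -/
structure Hyp (Q : Type u) [Group Q] (q : ℕ) (α ρ : MulAut Q) : Prop where
  fin : Finite Q
  pgroup : IsPGroup 2 Q
  inv : ∀ x, α (α x) = x
  comm : ∀ x, α (ρ x) = ρ (α x)
  per : ρ ^ (q - 1) = 1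
  sq : ∀ x ∈ fix α, x * x = 1
  card : Nat.card (fix α) = q
  two : 2 < q
  trans : ∀ x ∈ fix α, ∀ y ∈ fix α, x ≠ 1 → y ≠ 1 → ∃ k : ℕ, (ρ ^ k) x = y

variable {q : ℕ} {α ρ : MulAut Q}

theorem dfct_rho (h : Hyp Q q α ρ) (x : Q) : dfct α (ρ x) = ρ (dfct α x) := by
  rw [dfct, dfct, h.comm, map_mul, map_inv]

theorem rho_fix (h : Hyp Q q α ρ) {x : Q} (hx : x ∈ fix α) : ρ x ∈ fix α := by
  rw [mem_fix, h.comm, mem_fix.1 hx]

theorem rho_pow_fix (h : Hyp Q q α ρ) {x : Q} (hx : x ∈ fix α) (k : ℕ) : (ρ ^ k) x ∈ fix α := by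
  induction k with
  | zero => exact hx
  | succ k ih => rw [pow_succ', MulAut.mul_apply]; exact rho_fix h ih

theorem rho_pow_comm (h : Hyp Q q α ρ) (x : Q) (k : ℕ) : α ((ρ ^ k) x) = (ρ ^ k) (α x) := by
  induction k generalizing x with
  | zero => rfl
  | succ k ih => rw [pow_succ', MulAut.mul_apply, MulAut.mul_apply, h.comm, ih]

theorem fix_mul_comm (h : Hyp Q q α ρ) {x y : Q} (hx : x ∈ fix α) (hy : y ∈ fix α) :
    x * y = y * x := by
  have e := fun (z : Q) (hz : z ∈ fix α) => inv_eq_of_mul_eq_one_right (h.sq z hz)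
  calc x * y = (x * y)⁻¹ := (e _ (mul_mem hx hy)).symm
    _ = y * x := by rw [mul_inv_rev, e x hx, e y hy]

theorem exists_fix_ne_one (h : Hyp Q q α ρ) : ∃ x ∈ fix α, x ≠ 1 := by
  by_contra hc
  push Not at hc
  have hbot : fix α = ⊥ := (Subgroup.eq_bot_iff_forall _).2 hc
  have h1 := h.card
  have h2 := h.two
  rw [hbot, Subgroup.card_bot] at h1
  omega

/-- A non-trivial invariant subgroup meets the fixed points. -/
theorem exists_fix_mem (h : Hyp Q q α ρ) (S : Subgroup Q) (hS : ∀ x ∈ S, α x ∈ S) (hne : S ≠ ⊥) :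
    ∃ x ∈ S, x ∈ fix α ∧ x ≠ 1 := by
  classical
  have := h.fin
  by_contra hc
  push Not at hc
  let f : S → S := fun x => ⟨dfct α x, S.mul_mem (S.inv_mem x.2) (hS x x.2)⟩
  have hinj : Function.Injective f := by
    intro x y e
    have e' : (x : Q)⁻¹ * α x = (y : Q)⁻¹ * α y := congrArg Subtype.val e
    have hfx : α ((y : Q) * (x : Q)⁻¹) = (y : Q) * (x : Q)⁻¹ := by
      have e2 : α (y : Q) = (y : Q) * ((x : Q)⁻¹ * α x) := by rw [e', mul_inv_cancel_left]
      rw [map_mul, map_inv, e2, ← mul_assoc, mul_inv_cancel_right]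
    exact Subtype.ext (mul_inv_eq_one.1 (hc _ (S.mul_mem y.2 (S.inv_mem x.2)) hfx)).symm
  have hsurj := Finite.surjective_of_injective hinj
  obtain ⟨x, hxS, hx1⟩ := (Subgroup.bot_or_exists_ne_one S).resolve_left hne
  obtain ⟨m, hm⟩ := h.pgroup x
  obtain ⟨i, -, hi1, hi2⟩ := CfsgLib.SuzukiTwo.exists_involution_pow hx1 hm
  obtain ⟨y, hy⟩ := hsurj ⟨x ^ 2 ^ i, S.pow_mem hxS _⟩
  have hy' : (y : Q)⁻¹ * α y = x ^ 2 ^ i := congrArg Subtype.val hy
  refine hi1 (hc _ (S.pow_mem hxS _) ?_)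
  have e1 : α (x ^ 2 ^ i) = (x ^ 2 ^ i)⁻¹ := by
    rw [← hy', map_mul, map_inv, h.inv, mul_inv_rev, inv_inv]
  show α (x ^ 2 ^ i) = x ^ 2 ^ i
  rw [e1, inv_eq_of_mul_eq_one_right hi2]

/-- A non-trivial `ρ`-invariant subgroup of the fixed points is everything. -/
theorem fix_le_of_invariant (h : Hyp Q q α ρ) (S : Subgroup Q) (hρ : ∀ x ∈ S, ρ x ∈ S) {x : Q}
    (hx : x ∈ S) (hxf : x ∈ fix α) (hx1 : x ≠ 1) : fix α ≤ S := by
  intro y hy
  by_cases hy1 : y = 1
  · rw [hy1]; exact S.one_mem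
  obtain ⟨k, hk⟩ := h.trans x hxf y hy hx1 hy1
  rw [← hk]
  clear hk
  induction k with
  | zero => exact hx
  | succ k ih => rw [pow_succ', MulAut.mul_apply]; exact hρ _ ih

theorem map_center {x : Q} (φ : MulAut Q) (hx : x ∈ Subgroup.center Q) :
    φ x ∈ Subgroup.center Q := by
  rw [Subgroup.mem_center_iff] at hx ⊢
  intro g
  have := congrArg φ (hx (φ.symm g))
  simpa using this

/-- The fixed points are central. -/
theorem fix_le_center (h : Hyp Q q α ρ) : fix α ≤ Subgroup.center Q := by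
  have := h.fin
  have : Fact (Nat.Prime 2) := ⟨Nat.prime_two⟩
  obtain ⟨x, hx, hx1⟩ := exists_fix_ne_one h
  have : Nontrivial Q := ⟨⟨x, 1, hx1⟩⟩
  have hne : Subgroup.center Q ≠ ⊥ := h.pgroup.bot_lt_center.ne'
  obtain ⟨z, hz, hzf, hz1⟩ := exists_fix_mem h _ (fun y hy => map_center α hy) hne
  exact fix_le_of_invariant h _ (fun y hy => map_center ρ hy) hz hzf hz1

theorem central (h : Hyp Q q α ρ) {c : Q} (hc : c ∈ fix α) (g : Q) : g * c = c * g :=
  Subgroup.mem_center_iff.1 (fix_le_center h hc) g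

/-- The elements fixed modulo the fixed points. -/
def low (α : MulAut Q) : Set Q := {x | dfct α x ∈ fix α}

theorem dfct_mul_low (h : Hyp Q q α ρ) {x : Q} (hx : x ∈ low α) (y : Q) :
    dfct α (x * y) = dfct α x * dfct α y := by
  have hc : x⁻¹ * α x ∈ fix α := hx
  show (x * y)⁻¹ * α (x * y) = (x⁻¹ * α x) * (y⁻¹ * α y)
  calc (x * y)⁻¹ * α (x * y) = y⁻¹ * (x⁻¹ * α x) * α y := by rw [map_mul]; group
    _ = (x⁻¹ * α x) * (y⁻¹ * α y) := by rw [central h hc y⁻¹]; group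

theorem dfct_eq_one_iff {x : Q} : dfct α x = 1 ↔ x ∈ fix α := by
  rw [dfct, inv_mul_eq_one, mem_fix, eq_comm]

theorem fix_subset_low {x : Q} (hx : x ∈ fix α) : x ∈ low α := by
  show dfct α x ∈ fix α
  rw [dfct_eq_one_iff.2 hx]
  exact one_mem _

/-- `low` as a subgroup. -/
def lowSub (h : Hyp Q q α ρ) : Subgroup Q where
  carrier := low α
  one_mem' := fix_subset_low (one_mem _)
  mul_mem' := fun {x y} hx hy => by
    show dfct α (x * y) ∈ fix α
    rw [dfct_mul_low h hx]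
    exact mul_mem hx hy
  inv_mem' := fun {x} hx => by
    show dfct α x⁻¹ ∈ fix α
    have := dfct_mul_low h hx x⁻¹
    rw [mul_inv_cancel, dfct_eq_one_iff.2 (one_mem _)] at this
    rw [← inv_eq_of_mul_eq_one_right this.symm]
    exact inv_mem hx

theorem mem_lowSub {h : Hyp Q q α ρ} {x : Q} : x ∈ lowSub h ↔ dfct α x ∈ fix α := Iff.rfl

/-- The quotient by the fixed points satisfies the same hypotheses. -/
theorem exists_quot (h : Hyp Q q α ρ) (hne : fix α ≠ ⊤) :
    ∃ (Q' : Type u) (_ : Group Q') (π : Q →* Q') (α' ρ' : MulAut Q'),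
      Function.Surjective π ∧ π.ker = fix α ∧ (∀ x, α' (π x) = π (α x)) ∧
      (∀ x, ρ' (π x) = π (ρ x)) ∧ Hyp Q' q α' ρ' ∧
      (∀ x, π x ∈ fix α' ↔ dfct α x ∈ fix α) ∧
      (∀ c ∈ fix α, ∃ x, dfct α x = c) := by
  classical
  have := h.fin
  have hn : (fix α).Normal := ⟨fun c hc g => by
    rw [central h hc g, mul_inv_cancel_right]; exact hc⟩
  have hmap : ∀ φ : MulAut Q, (∀ x ∈ fix α, φ x ∈ fix α) →
      (fix α).map (φ : Q ≃* Q).toMonoidHom = fix α := fun φ hφ =>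
    Subgroup.eq_of_le_of_card_ge (by rintro _ ⟨x, hx, rfl⟩; exact hφ x hx)
      (le_of_eq (Subgroup.card_map_of_injective φ.injective).symm)
  let α' : MulAut (Q ⧸ fix α) := QuotientGroup.congr (fix α) (fix α) α
    (hmap α fun x hx => by rw [mem_fix.1 hx]; exact hx)
  let ρ' : MulAut (Q ⧸ fix α) := QuotientGroup.congr (fix α) (fix α) ρ
    (hmap ρ fun x hx => rho_fix h hx)
  set π := QuotientGroup.mk' (fix α)
  have hα : ∀ x, α' (π x) = π (α x) := fun x => rfl
  have hρ : ∀ x, ρ' (π x) = π (ρ x) := fun x => rfl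
  have hρk : ∀ (k : ℕ) x, (ρ' ^ k) (π x) = π ((ρ ^ k) x) := by
    intro k
    induction k with
    | zero => intro x; rfl
    | succ k ih => intro x; rw [pow_succ', MulAut.mul_apply, pow_succ', MulAut.mul_apply, ih, hρ]
  have hsurj : Function.Surjective π := QuotientGroup.mk'_surjective _
  have hker : π.ker = fix α := QuotientGroup.ker_mk' _
  have hone : ∀ x, π x = 1 ↔ x ∈ fix α := fun x => by rw [← MonoidHom.mem_ker, hker]
  have hmem : ∀ x, π x ∈ fix α' ↔ dfct α x ∈ fix α := fun x => by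
    rw [mem_fix, hα, eq_comm, ← inv_mul_eq_one, ← map_inv, ← map_mul, hone]
    rfl
  let ν : lowSub h →* Q :=
    { toFun := fun x => dfct α (x : Q)
      map_one' := dfct_eq_one_iff.2 (one_mem _)
      map_mul' := fun x y => dfct_mul_low h x.2 y }
  have hpne : ∃ y, π y ≠ 1 := by
    by_contra hc
    push Not at hc
    exact hne (eq_top_iff.2 fun y _ => (hone y).1 (hc y))
  obtain ⟨x₀, hx₀l, hx₀⟩ : ∃ x, dfct α x ∈ fix α ∧ dfct α x ≠ 1 := by
    by_contra hc
    push Not at hc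
    -- then `α'` has no fixed points
    obtain ⟨y, hy⟩ := hpne
    have hinj : Function.Injective (fun z : Q ⧸ fix α => z⁻¹ * α' z) := by
      intro a b e
      obtain ⟨a, rfl⟩ := hsurj a
      obtain ⟨b, rfl⟩ := hsurj b
      simp only [hα, ← map_inv, ← map_mul] at e
      have hd : dfct α (b * a⁻¹) ∈ fix α := by
        rw [← hmem, mem_fix, map_mul, map_inv, map_mul, map_inv, hα, hα,
          show π (α b) = π b * (π a)⁻¹ * π (α a) by
            rw [← map_inv, ← map_mul, ← map_mul, mul_assoc, map_mul π b, e, ← map_mul,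
              mul_inv_cancel_left]]
        group
      have := (hone _).2 (dfct_eq_one_iff.1 (hc _ hd))
      rw [map_mul, map_inv, mul_inv_eq_one] at this
      exact this.symm
    obtain ⟨m, hm⟩ := h.pgroup.to_quotient (fix α) (π y)
    obtain ⟨i, -, hi1, hi2⟩ := CfsgLib.SuzukiTwo.exists_involution_pow hy hm
    obtain ⟨w, hw⟩ := Finite.surjective_of_injective hinj (π y ^ 2 ^ i)
    obtain ⟨w, rfl⟩ := hsurj w
    have hwe : (π w)⁻¹ * α' (π w) = π y ^ 2 ^ i := hw
    have hfx : α' (π y ^ 2 ^ i) = π y ^ 2 ^ i := by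
      calc α' (π y ^ 2 ^ i) = (π y ^ 2 ^ i)⁻¹ := by
            rw [← hwe, map_mul, map_inv, hα, hα, h.inv, mul_inv_rev, inv_inv]
        _ = π y ^ 2 ^ i := inv_eq_of_mul_eq_one_right hi2
    rw [← map_pow] at hfx hi1
    exact hi1 ((hone _).2 (dfct_eq_one_iff.1 (hc _ ((hmem _).1 hfx))))
  have hν : ν.range = fix α := by
    refine le_antisymm ?_ ?_
    · rintro _ ⟨x, rfl⟩; exact x.2
    · refine fix_le_of_invariant h _ ?_ ⟨⟨x₀, hx₀l⟩, rfl⟩ hx₀l hx₀
      rintro _ ⟨x, rfl⟩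
      refine ⟨⟨ρ x, ?_⟩, dfct_rho h x⟩
      show dfct α (ρ x) ∈ fix α
      rw [dfct_rho h]
      exact rho_fix h x.2
  have hνe : ∀ c ∈ fix α, ∃ x, dfct α x = c := fun c hc => by
    obtain ⟨x, hx⟩ := (hν.symm ▸ hc : c ∈ ν.range)
    exact ⟨x, hx⟩
  refine ⟨Q ⧸ fix α, inferInstance, π, α', ρ', hsurj, hker, hα, hρ,
    ⟨inferInstance, h.pgroup.to_quotient _, ?_, ?_, ?_, ?_, ?_, h.two, ?_⟩, hmem, hνe⟩
  · intro a
    obtain ⟨a, rfl⟩ := hsurj a
    rw [hα, hα, h.inv]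
  · intro a
    obtain ⟨a, rfl⟩ := hsurj a
    rw [hρ, hα, hα, hρ, h.comm]
  · ext a
    obtain ⟨a, rfl⟩ := hsurj a
    rw [hρk, h.per]
    rfl
  · intro a ha
    obtain ⟨a, rfl⟩ := hsurj a
    rw [← map_mul, hone, ← dfct_eq_one_iff, dfct_mul_low h ((hmem a).1 ha)]
    exact h.sq _ ((hmem a).1 ha)
  · let μ : lowSub h →* fix α' :=
      { toFun := fun x => ⟨π x, (hmem _).2 x.2⟩
        map_one' := Subtype.ext (map_one π)
        map_mul' := fun x y => Subtype.ext (map_mul π _ _) }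
    have hμs : Function.Surjective μ := fun a => by
      obtain ⟨x, hx⟩ := hsurj a
      exact ⟨⟨x, (hmem x).1 (hx ▸ a.2)⟩, Subtype.ext hx⟩
    have hk : μ.ker = ν.ker := by
      ext x
      rw [MonoidHom.mem_ker, MonoidHom.mem_ker]
      constructor
      · intro e
        exact dfct_eq_one_iff.2 ((hone _).1 (congrArg Subtype.val e))
      · intro e
        exact Subtype.ext ((hone _).2 (dfct_eq_one_iff.1 e))
    have e1 := Subgroup.index_ker μ
    rw [MonoidHom.range_eq_top.2 hμs, Subgroup.card_top, hk, Subgroup.index_ker, hν, h.card] at e1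
    exact e1.symm
  · intro a ha b hb ha1 hb1
    obtain ⟨a, rfl⟩ := hsurj a
    obtain ⟨b, rfl⟩ := hsurj b
    obtain ⟨k, hk⟩ := h.trans _ ((hmem a).1 ha) _ ((hmem b).1 hb)
      (fun e => ha1 ((hone _).2 (dfct_eq_one_iff.1 e)))
      (fun e => hb1 ((hone _).2 (dfct_eq_one_iff.1 e)))
    refine ⟨k, ?_⟩
    rw [hρk, ← inv_mul_eq_one, ← map_inv, ← map_mul, hone, ← dfct_eq_one_iff]
    have e1 : dfct α ((ρ ^ k) a) = (ρ ^ k) (dfct α a) := by
      rw [dfct, dfct, rho_pow_comm h, map_mul, map_inv]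
    have hl : (ρ ^ k) a ∈ low α := by
      show dfct α _ ∈ fix α
      rw [e1]
      exact rho_pow_fix h ((hmem a).1 ha) k
    rw [dfct_mul_low h ((lowSub h).inv_mem hl)]
    have e2 := dfct_mul_low h ((lowSub h).inv_mem hl) ((ρ ^ k) a)
    rw [inv_mul_cancel, dfct_eq_one_iff.2 (one_mem _)] at e2
    rw [eq_inv_of_mul_eq_one_left e2.symm, e1, hk, inv_mul_cancel]

/-- Coordinates on the fixed points. -/
structure Crd (α ρ : MulAut Q) {F : Type} [Field F] (ω : F) (lg : Q → F) : Prop where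
  map_mul : ∀ x ∈ fix α, ∀ y ∈ fix α, lg (x * y) = lg x + lg y
  inj : ∀ x ∈ fix α, lg x = 0 → x = 1
  surj : ∀ v, ∃ x ∈ fix α, lg x = v
  equiv : ∀ x ∈ fix α, lg (ρ x) = ω * lg x

theorem Crd.map_one {F : Type} [Field F] {ω : F} {lg : Q → F} (hc : Crd α ρ ω lg) : lg 1 = 0 := by
  have := hc.map_mul 1 (one_mem _) 1 (one_mem _)
  rw [one_mul] at this
  exact add_eq_left.1 this.symm

end CfsgLib.InvChar.FixedLayers
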