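/-
InvChar: coordinates for fixed points permuted transitively by a cyclic group of automorphisms.
-/
import Cfsg.Agent.Lib.InvChar.FixedLayers

set_option autoImplicit false
set_option linter.unusedSectionVars false

namespace CfsgLib.InvChar.FixedLayers

universe u

variable {Q : Type u} [Group Q] {q : ℕ} {α ρ : MulAut Q} {F : Type} [Field F]
  {ω : F} {lg : Q → F}

theorem exists_crd (h : Hyp Q q α ρ) (hF : Nat.card F = q) :
    ∃ (ω : F) (lg : Q → F), Crd α ρ ω lg := by
  classical
  have := h.fin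
  have : Finite F := Nat.finite_of_card_ne_zero (by rw [hF]; have := h.two; omega)
  letI : CommGroup (fix α) :=
    { (inferInstance : Group (fix α)) with
      mul_comm := fun a b => Subtype.ext (fix_mul_comm h a.2 b.2) }
  let V := Additive (fix α)
  let A : AddMonoid.End V :=
    { toFun := fun v => Additive.ofMul ⟨ρ (Additive.toMul v : fix α), rho_fix h (Additive.toMul v).2⟩
      map_zero' := congrArg Additive.ofMul (Subtype.ext (map_one ρ))
      map_add' := fun v w => congrArg Additive.ofMul (Subtype.ext (map_mul ρ _ _)) }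
  have : Finite (AddMonoid.End V) := Finite.of_injective (fun f => (f : V → V)) DFunLike.coe_injective
  let E := Subring.closure ({A} : Set (AddMonoid.End V))
  letI : CommRing E := Subring.closureCommRingOfComm (s := {A}) (by
    intro x hx y hy
    rw [Set.mem_singleton_iff] at hx hy
    rw [hx, hy])
  have hAk : ∀ (k : ℕ) (v : fix α), (A ^ k) (Additive.ofMul v) =
      Additive.ofMul ⟨(ρ ^ k) (v : Q), rho_pow_fix h v.2 k⟩ := by
    intro k
    induction k with
    | zero => intro v; rfl
    | succ k ih =>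
      intro v
      rw [pow_succ', show (A * A ^ k) (Additive.ofMul v) = A ((A ^ k) (Additive.ofMul v)) from rfl, ih]
      refine congrArg Additive.ofMul (Subtype.ext ?_)
      show ρ ((ρ ^ k) (v : Q)) = (ρ ^ (k + 1)) (v : Q)
      rw [pow_succ']
      rfl
  have hgen : ∀ v w : V, v ≠ 0 → w ≠ 0 → ∃ k : ℕ, (A ^ k) v = w := by
    intro v w hv hw
    obtain ⟨k, hk⟩ := h.trans _ (Additive.toMul v).2 _ (Additive.toMul w).2
      (fun e => hv (congrArg Additive.ofMul (Subtype.ext e)))
      (fun e => hw (congrArg Additive.ofMul (Subtype.ext e)))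
    refine ⟨k, ?_⟩
    rw [show v = Additive.ofMul (Additive.toMul v) from rfl, hAk]
    exact congrArg Additive.ofMul (Subtype.ext hk)
  have hcomm : ∀ f ∈ E, ∀ v, f (A v) = A (f v) := by
    intro f hf
    induction hf using Subring.closure_induction with
    | mem x hx => rw [Set.mem_singleton_iff] at hx; intro v; rw [hx]
    | zero => intro v; exact (map_zero A).symm
    | one => intro v; rfl
    | add x y _ _ hx hy =>
      intro v
      show x (A v) + y (A v) = A (x v + y v)
      rw [hx, hy, map_add]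
    | neg x _ hx =>
      intro v
      show -x (A v) = A (-x v)
      rw [hx, map_neg]
    | mul x y _ _ hx hy =>
      intro v
      show x (y (A v)) = A (x (y v))
      rw [hy, hx]
  have hcommk : ∀ f ∈ E, ∀ (k : ℕ) v, f ((A ^ k) v) = (A ^ k) (f v) := by
    intro f hf k
    induction k with
    | zero => intro v; rfl
    | succ k ih =>
      intro v
      rw [pow_succ', show (A * A ^ k) v = A ((A ^ k) v) from rfl, hcomm f hf, ih]
      rfl
  obtain ⟨x₀, hx₀, hx₀1⟩ := exists_fix_ne_one h
  set v₀ : V := Additive.ofMul ⟨x₀, hx₀⟩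
  have hv₀ : v₀ ≠ 0 := fun e => hx₀1 (congrArg (fun a : V => ((Additive.toMul a : fix α) : Q)) e)
  have hzero : ∀ f ∈ E, ∀ v, f v = 0 → v ≠ 0 → f = 0 := by
    intro f hf v hv hv1
    refine AddMonoidHom.ext fun w => ?_
    by_cases hw : w = 0
    · rw [hw]; exact (map_zero f)
    obtain ⟨k, rfl⟩ := hgen v w hv1 hw
    exact ((hcommk f hf k v).trans (congrArg (A ^ k) hv)).trans (map_zero _)
  have : NoZeroDivisors E := ⟨fun {a b} hab => by
    by_cases hb : (b : AddMonoid.End V) v₀ = 0
    · exact Or.inr (Subtype.ext (hzero _ b.2 _ hb hv₀))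
    · refine Or.inl (Subtype.ext (hzero _ a.2 _ ?_ hb))
      have := congrArg (fun f : E => (f : AddMonoid.End V) v₀) hab
      exact this⟩
  have : Nontrivial E := ⟨⟨1, 0, fun e => hv₀ (by
    have := congrArg (fun f : E => (f : AddMonoid.End V) v₀) e
    exact this)⟩⟩
  have : IsDomain E := NoZeroDivisors.to_isDomain E
  letI : Field E := (Finite.isField_of_domain E).toField
  let ev : E →+ V :=
    { toFun := fun f => (f : AddMonoid.End V) v₀
      map_zero' := rfl
      map_add' := fun _ _ => rfl }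
  have hev : Function.Bijective ev := by
    refine ⟨(injective_iff_map_eq_zero ev).2 fun f hf => Subtype.ext (hzero _ f.2 _ hf hv₀), fun w => ?_⟩
    by_cases hw : w = 0
    · exact ⟨0, by rw [hw]; rfl⟩
    obtain ⟨k, hk⟩ := hgen v₀ w hv₀ hw
    exact ⟨⟨A ^ k, E.pow_mem (Subring.subset_closure rfl) k⟩, hk⟩
  have := Fintype.ofFinite E
  have := Fintype.ofFinite F
  let e : E ≃+* F := FiniteField.ringEquivOfCardEq (by
    rw [← Nat.card_eq_fintype_card, ← Nat.card_eq_fintype_card, Nat.card_eq_of_bijective ev hev, hF,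
      ← h.card]
    exact Nat.card_congr Additive.toMul)
  let ψ : V ≃+ E := (AddEquiv.ofBijective ev hev).symm
  have hψ : ∀ v, ev (ψ v) = v := fun v => (AddEquiv.ofBijective ev hev).apply_symm_apply v
  let Ā : E := ⟨A, Subring.subset_closure rfl⟩
  refine ⟨e Ā, fun x => if hx : x ∈ fix α then e (ψ (Additive.ofMul ⟨x, hx⟩)) else 0,
    fun x hx y hy => ?_, fun x hx h0 => ?_, fun v => ?_, fun x hx => ?_⟩
  · simp only [dif_pos hx, dif_pos hy, dif_pos (mul_mem hx hy)]
    rw [← map_add, ← map_add]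
    rfl
  · simp only [dif_pos hx] at h0
    rw [map_eq_zero_iff e e.injective, map_eq_zero_iff ψ ψ.injective] at h0
    exact congrArg (fun a : V => ((Additive.toMul a : fix α) : Q)) h0
  · refine ⟨((Additive.toMul (ev (e.symm v)) : fix α) : Q), (Additive.toMul (ev (e.symm v))).2, ?_⟩
    simp only [dif_pos (Additive.toMul (ev (e.symm v))).2]
    rw [show (Additive.ofMul (⟨((Additive.toMul (ev (e.symm v)) : fix α) : Q),
      (Additive.toMul (ev (e.symm v))).2⟩ : fix α)) = ev (e.symm v) from rfl]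
    rw [show ψ (ev (e.symm v)) = e.symm v from hev.1 (hψ _), e.apply_symm_apply]
  · simp only [dif_pos hx, dif_pos (rho_fix h hx)]
    rw [← map_mul]
    refine congrArg e (hev.1 ?_)
    rw [hψ]
    show _ = A ((ψ _ : AddMonoid.End V) v₀)
    rw [show (ψ (Additive.ofMul (⟨x, hx⟩ : fix α)) : AddMonoid.End V) v₀ =
      Additive.ofMul (⟨x, hx⟩ : fix α) from hψ _]
    rfl

theorem Crd.lg_inj (hc : Crd α ρ ω lg) {x y : Q} (hx : x ∈ fix α) (hy : y ∈ fix α)
    (e : lg x = lg y) : x = y := by
  have h1 : lg (x * y⁻¹) + lg y = lg x := by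
    rw [← hc.map_mul _ (mul_mem hx (inv_mem hy)) _ hy, inv_mul_cancel_right]
  rw [e, add_eq_right] at h1
  exact mul_inv_eq_one.1 (hc.inj _ (mul_mem hx (inv_mem hy)) h1)

theorem Crd.lg_rho_pow (h : Hyp Q q α ρ) (hc : Crd α ρ ω lg) {x : Q} (hx : x ∈ fix α) (k : ℕ) :
    lg ((ρ ^ k) x) = ω ^ k * lg x := by
  induction k with
  | zero => simp
  | succ k ih =>
    rw [pow_succ', MulAut.mul_apply, hc.equiv _ (rho_pow_fix h hx k), ih, pow_succ', mul_assoc]

/-- Every non-zero scalar is a power of the multiplier. -/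
theorem Crd.exists_pow (h : Hyp Q q α ρ) (hc : Crd α ρ ω lg) {c : F} (hc0 : c ≠ 0) :
    ∃ k : ℕ, ω ^ k = c := by
  obtain ⟨x, hx, hx1⟩ := hc.surj 1
  obtain ⟨y, hy, hyc⟩ := hc.surj c
  obtain ⟨k, hk⟩ := h.trans x hx y hy
    (fun e => one_ne_zero (α := F) (by rw [← hx1, e, hc.map_one]))
    (fun e => hc0 (by rw [← hyc, e, hc.map_one]))
  exact ⟨k, by rw [← hyc, ← hk, hc.lg_rho_pow h hx, hx1, mul_one]⟩

/-- `ω` has period `q - 1`. -/
theorem Crd.pow_period (h : Hyp Q q α ρ) (hc : Crd α ρ ω lg) : ω ^ (q - 1) = 1 := by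
  obtain ⟨x, hx, hx1⟩ := hc.surj 1
  have := hc.lg_rho_pow h hx (q - 1)
  rw [h.per, hx1, mul_one] at this
  rw [← this]
  exact hx1

theorem Crd.omega_ne_zero (h : Hyp Q q α ρ) (hc : Crd α ρ ω lg) : ω ≠ 0 := fun e => by
  have := hc.pow_period h
  rw [e, zero_pow (by have := h.two; omega)] at this
  exact zero_ne_one this

/-- An additive, `ω`-equivariant map is linear. -/
theorem equiv_linear (h : Hyp Q q α ρ) (hc : Crd α ρ ω lg) (f : F → F) (h0 : f 0 = 0)
    (he : ∀ a, f (ω * a) = ω * f a) (a : F) : f a = f 1 * a := by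
  by_cases ha : a = 0
  · rw [ha, h0, mul_zero]
  obtain ⟨k, rfl⟩ := hc.exists_pow h ha
  clear ha
  induction k with
  | zero => simp
  | succ k ih => rw [pow_succ', he, ih]; ring

end CfsgLib.InvChar.FixedLayers
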