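/-
InvChar: pairings between layers, and the abelian layers.
-/
import Cfsg.Agent.Lib.InvChar.FixedCoord

set_option autoImplicit false
set_option linter.unusedSectionVars false

namespace CfsgLib.InvChar.FixedLayers

universe u

variable {Q : Type u} [Group Q] {q : ℕ} {α ρ : MulAut Q} {F : Type} [Field F]
  {ω : F} {lg : Q → F}

/-- A biadditive map that only depends on two coordinates factors through them. -/
theorem exists_pairing {X Y : Type*} [Group X] [Group Y] (f : X → Y → F) (a : X → F) (b : Y → F)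
    (hfx : ∀ x x' y, f (x * x') y = f x y + f x' y) (hfy : ∀ x y y', f x (y * y') = f x y + f x y')
    (ha : ∀ x x', a (x * x') = a x + a x') (hb : ∀ y y', b (y * y') = b y + b y')
    (has : Function.Surjective a) (hbs : Function.Surjective b)
    (ha0 : ∀ x y, a x = 0 → f x y = 0) (hb0 : ∀ x y, b y = 0 → f x y = 0) :
    ∃ β : F → F → F, (∀ x y, f x y = β (a x) (b y)) ∧
      (∀ u v w, β (u + v) w = β u w + β v w) ∧ (∀ u v w, β u (v + w) = β u v + β u w) := by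
  have hdiffa : ∀ x x', a x = a x' → a (x * x'⁻¹) = 0 := fun x x' e => by
    have := ha (x * x'⁻¹) x'
    rw [inv_mul_cancel_right, e] at this
    exact right_eq_add.1 this
  have hdiffb : ∀ y y', b y = b y' → b (y * y'⁻¹) = 0 := fun y y' e => by
    have := hb (y * y'⁻¹) y'
    rw [inv_mul_cancel_right, e] at this
    exact right_eq_add.1 this
  have hwx : ∀ x x' y, a x = a x' → f x y = f x' y := fun x x' y e => by
    have := hfx (x * x'⁻¹) x' y
    rwa [inv_mul_cancel_right, ha0 _ _ (hdiffa x x' e), zero_add] at this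
  have hwy : ∀ x y y', b y = b y' → f x y = f x y' := fun x y y' e => by
    have := hfy x (y * y'⁻¹) y'
    rwa [inv_mul_cancel_right, hb0 _ _ (hdiffb y y' e), zero_add] at this
  refine ⟨fun u v => f (Function.surjInv has u) (Function.surjInv hbs v), fun x y => ?_,
    fun u v w => ?_, fun u v w => ?_⟩
  · exact (hwx x _ y (Function.surjInv_eq has _).symm).trans
      (hwy _ y _ (Function.surjInv_eq hbs _).symm)
  · rw [← hfx]
    refine hwx _ _ _ ?_
    rw [ha, Function.surjInv_eq has, Function.surjInv_eq has, Function.surjInv_eq has]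
  · rw [← hfy]
    refine hwy _ _ _ ?_
    rw [hb, Function.surjInv_eq hbs, Function.surjInv_eq hbs, Function.surjInv_eq hbs]

/-- The coordinate of a commutator. -/
def kc (lg : Q → F) (x y : Q) : F := lg (x * y * x⁻¹ * y⁻¹)

theorem kc_mul_left (h : Hyp Q q α ρ) (hc : Crd α ρ ω lg) {x x' y : Q}
    (h1 : x * y * x⁻¹ * y⁻¹ ∈ fix α) (h2 : x' * y * x'⁻¹ * y⁻¹ ∈ fix α) :
    x * x' * y * (x * x')⁻¹ * y⁻¹ ∈ fix α ∧ kc lg (x * x') y = kc lg x y + kc lg x' y := by
  have e : x * x' * y * (x * x')⁻¹ * y⁻¹ = (x * y * x⁻¹ * y⁻¹) * (x' * y * x'⁻¹ * y⁻¹) := by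
    calc x * x' * y * (x * x')⁻¹ * y⁻¹ = x * (x' * y * x'⁻¹ * y⁻¹) * y * x⁻¹ * y⁻¹ := by group
      _ = (x' * y * x'⁻¹ * y⁻¹) * (x * y * x⁻¹ * y⁻¹) := by rw [central h h2 x]; group
      _ = _ := fix_mul_comm h h2 h1
  refine ⟨e ▸ mul_mem h1 h2, ?_⟩
  rw [kc, e, hc.map_mul _ h1 _ h2]
  rfl

theorem kc_mul_right (h : Hyp Q q α ρ) (hc : Crd α ρ ω lg) {x y y' : Q}
    (h1 : x * y * x⁻¹ * y⁻¹ ∈ fix α) (h2 : x * y' * x⁻¹ * y'⁻¹ ∈ fix α) :
    x * (y * y') * x⁻¹ * (y * y')⁻¹ ∈ fix α ∧ kc lg x (y * y') = kc lg x y + kc lg x y' := by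
  have e : x * (y * y') * x⁻¹ * (y * y')⁻¹ = (x * y * x⁻¹ * y⁻¹) * (x * y' * x⁻¹ * y'⁻¹) := by
    calc x * (y * y') * x⁻¹ * (y * y')⁻¹
        = (x * y * x⁻¹ * y⁻¹) * (y * (x * y' * x⁻¹ * y'⁻¹) * y⁻¹) := by group
      _ = _ := by rw [central h h2 y, mul_inv_cancel_right]
  refine ⟨e ▸ mul_mem h1 h2, ?_⟩
  rw [kc, e, hc.map_mul _ h1 _ h2]
  rfl

theorem kc_rho (hc : Crd α ρ ω lg) {x y : Q} (h1 : x * y * x⁻¹ * y⁻¹ ∈ fix α) :
    kc lg (ρ x) (ρ y) = ω * kc lg x y := by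
  rw [kc, kc, ← hc.equiv _ h1, map_mul, map_mul, map_mul, map_inv, map_inv]

theorem kc_self (hc : Crd α ρ ω lg) (x : Q) : kc lg x x = 0 := by
  rw [kc, mul_inv_cancel_right, mul_inv_cancel, hc.map_one]

theorem comm_of_kc (hc : Crd α ρ ω lg) {x y : Q} (h1 : x * y * x⁻¹ * y⁻¹ ∈ fix α)
    (e : kc lg x y = 0) : x * y = y * x := by
  have := hc.inj _ h1 e
  rwa [mul_inv_eq_one, mul_inv_eq_iff_eq_mul] at this

theorem kc_comm (hc : Crd α ρ ω lg) {x y : Q} (e : x * y = y * x) : kc lg x y = 0 := by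
  rw [kc, e, mul_inv_cancel_right, mul_inv_cancel, hc.map_one]

/-- A group whose commutators are fixed, with one layer over central elements, is abelian. -/
theorem commute_of_layer [Fintype F] [CharP F 2] (h : Hyp Q q α ρ) (hc : Crd α ρ ω lg) (a : Q → F)
    (ha : ∀ x x', a (x * x') = a x + a x') (has : Function.Surjective a)
    (hae : ∀ x, a (ρ x) = ω * a x) (ha0 : ∀ x, a x = 0 → x ∈ Subgroup.center Q)
    (hcomm : ∀ x y : Q, x * y * x⁻¹ * y⁻¹ ∈ fix α) (x y : Q) : x * y = y * x := by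
  obtain ⟨β, hβ, hl, hr⟩ := exists_pairing (kc lg) a a
    (fun x x' y => (kc_mul_left h hc (hcomm x y) (hcomm x' y)).2)
    (fun x y y' => (kc_mul_right h hc (hcomm x y) (hcomm x y')).2) ha ha has has
    (fun x y e => kc_comm hc (Subgroup.mem_center_iff.1 (ha0 x e) y).symm)
    (fun x y e => kc_comm hc (Subgroup.mem_center_iff.1 (ha0 y e) x))
  have h1 : ∀ u v, β (ω * u) (ω * v) = ω * β u v := fun u v => by
    obtain ⟨x, rfl⟩ := has u
    obtain ⟨y, rfl⟩ := has v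
    rw [← hae, ← hae, ← hβ, ← hβ, kc_rho hc (hcomm x y)]
  have hpow : ∀ (k : ℕ) u v, β (ω ^ k * u) (ω ^ k * v) = ω ^ k * β u v := by
    intro k
    induction k with
    | zero => intro u v; simp
    | succ k ih => intro u v; rw [pow_succ', mul_assoc, mul_assoc, h1, ih, mul_assoc]
  have hzero := CfsgLib.SuzukiTwo.alternating_eq_zero β hl hr (fun c hc0 u v => by
    obtain ⟨k, rfl⟩ := hc.exists_pow h hc0
    exact hpow k u v) (fun u => by
    obtain ⟨x, rfl⟩ := has u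
    rw [← hβ, kc_self hc])
  exact comm_of_kc hc (hcomm x y) (by rw [hβ, hzero])

theorem dfct_inverted (h : Hyp Q q α ρ) (y : Q) : α (dfct α y) = (dfct α y)⁻¹ := by
  rw [dfct, map_mul, map_inv, h.inv, mul_inv_rev, inv_inv]

/-- The data of the quotient by the fixed points. -/
structure Quot (α ρ : MulAut Q) {Q' : Type u} [Group Q'] (π : Q →* Q') (α' ρ' : MulAut Q') :
    Prop where
  surj : Function.Surjective π
  ker : π.ker = fix α
  map_alpha : ∀ x, α' (π x) = π (α x)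
  map_rho : ∀ x, ρ' (π x) = π (ρ x)
  mem : ∀ x, π x ∈ fix α' ↔ dfct α x ∈ fix α
  onto : ∀ c ∈ fix α, ∃ x, dfct α x = c

theorem exists_quot' (h : Hyp Q q α ρ) (hne : fix α ≠ ⊤) :
    ∃ (Q' : Type u) (_ : Group Q') (π : Q →* Q') (α' ρ' : MulAut Q'),
      Quot α ρ π α' ρ' ∧ Hyp Q' q α' ρ' := by
  obtain ⟨Q', i, π, α', ρ', h1, h2, h3, h4, h5, h6, h7⟩ := exists_quot h hne
  exact ⟨Q', i, π, α', ρ', ⟨h1, h2, h3, h4, h6, h7⟩, h5⟩

variable {Q' : Type u} [Group Q'] {π : Q →* Q'} {α' ρ' : MulAut Q'}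

theorem Quot.one_iff (hq : Quot α ρ π α' ρ') {x : Q} : π x = 1 ↔ x ∈ fix α := by
  rw [← MonoidHom.mem_ker, hq.ker]

theorem Quot.map_dfct (hq : Quot α ρ π α' ρ') (x : Q) : π (dfct α x) = dfct α' (π x) := by
  rw [dfct, dfct, map_mul, map_inv, hq.map_alpha]

theorem Quot.comm_mem (hq : Quot α ρ π α' ρ') {x y : Q} (e : π x * π y = π y * π x) :
    x * y * x⁻¹ * y⁻¹ ∈ fix α := by
  rw [← hq.one_iff, map_mul, map_mul, map_mul, map_inv, map_inv, e, mul_inv_cancel_right,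
    mul_inv_cancel]

/-- Coordinates pass to the quotient. -/
theorem Quot.exists_crd (h : Hyp Q q α ρ) (hc : Crd α ρ ω lg) (hq : Quot α ρ π α' ρ') :
    ∃ lg' : Q' → F, Crd α' ρ' ω lg' ∧ ∀ x, dfct α x ∈ fix α → lg' (π x) = lg (dfct α x) := by
  have hwell : ∀ x y, π x = π y → dfct α y ∈ fix α → dfct α x = dfct α y := fun x y e hy => by
    have hm : y⁻¹ * x ∈ fix α := by
      rw [← hq.one_iff, map_mul, map_inv, e, inv_mul_cancel]
    have := dfct_mul_low h (show y ∈ low α from hy) (y⁻¹ * x)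
    rwa [mul_inv_cancel_left, dfct_eq_one_iff.2 hm, mul_one] at this
  have hlift : ∀ x, dfct α x ∈ fix α →
      lg (dfct α (Function.surjInv hq.surj (π x))) = lg (dfct α x) := fun x hx => by
    rw [hwell _ x (Function.surjInv_eq hq.surj _) hx]
  refine ⟨fun x' => lg (dfct α (Function.surjInv hq.surj x')),
    ⟨fun a ha b hb => ?_, fun a ha e => ?_, fun v => ?_, fun a ha => ?_⟩, hlift⟩
  · obtain ⟨x, rfl⟩ := hq.surj a
    obtain ⟨y, rfl⟩ := hq.surj b
    have hx := (hq.mem x).1 ha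
    have hy := (hq.mem y).1 hb
    show lg (dfct α (Function.surjInv hq.surj (π x * π y))) = _
    rw [← map_mul, hlift (x * y) (by rw [dfct_mul_low h hx]; exact mul_mem hx hy), hlift x hx,
      hlift y hy, dfct_mul_low h hx, hc.map_mul _ hx _ hy]
  · obtain ⟨x, rfl⟩ := hq.surj a
    have hx := (hq.mem x).1 ha
    rw [hlift x hx] at e
    exact hq.one_iff.2 (dfct_eq_one_iff.1 (hc.inj _ hx e))
  · obtain ⟨c, hcm, rfl⟩ := hc.surj v
    obtain ⟨x, rfl⟩ := hq.onto c hcm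
    exact ⟨π x, (hq.mem x).2 hcm, hlift x hcm⟩
  · obtain ⟨x, rfl⟩ := hq.surj a
    have hx := (hq.mem x).1 ha
    show lg (dfct α (Function.surjInv hq.surj (ρ' (π x)))) = _
    rw [hq.map_rho, hlift (ρ x) (by rw [dfct_rho h]; exact rho_fix h hx), dfct_rho h, hc.equiv _ hx,
      hlift x hx]

/-- If everything is fixed modulo the fixed points, the group is abelian. -/
theorem abelian_of_low_top [Fintype F] [CharP F 2] (h : Hyp Q q α ρ) (hc : Crd α ρ ω lg)
    (hall : ∀ x, dfct α x ∈ fix α) (x y : Q) : x * y = y * x := by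
  by_cases hne : fix α = ⊤
  · exact fix_mul_comm h (hne ▸ Subgroup.mem_top x) (hne ▸ Subgroup.mem_top y)
  obtain ⟨Q₁, _, π₁, α₁, ρ₁, hq, h₁⟩ := exists_quot' h hne
  refine commute_of_layer h hc (fun z => lg (dfct α z))
    (fun z w => by rw [dfct_mul_low h (hall z), hc.map_mul _ (hall z) _ (hall w)]) (fun v => ?_)
    (fun z => by rw [dfct_rho h, hc.equiv _ (hall z)])
    (fun z e => fix_le_center h (dfct_eq_one_iff.1 (hc.inj _ (hall z) e)))
    (fun z w => hq.comm_mem (fix_mul_comm h₁ ((hq.mem z).2 (hall z)) ((hq.mem w).2 (hall w)))) x y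
  obtain ⟨c, hcm, rfl⟩ := hc.surj v
  obtain ⟨z, rfl⟩ := hq.onto c hcm
  exact ⟨z, rfl⟩

/-- Some element of the second layer has non-trivial square. -/
theorem exists_low_sq_ne (h : Hyp Q q α ρ) (hnt : ∃ x, dfct α x ∉ fix α) :
    ∃ z, dfct α z ∈ fix α ∧ z ∉ fix α ∧ z * z ≠ 1 := by
  obtain ⟨x, hx⟩ := hnt
  have hne : fix α ≠ ⊤ := fun e => hx (by rw [e]; exact Subgroup.mem_top _)
  obtain ⟨Q₁, _, π₁, α₁, ρ₁, hq, h₁⟩ := exists_quot' h hne
  have hne1 : fix α₁ ≠ ⊤ := fun e => hx ((hq.mem x).1 (by rw [e]; exact Subgroup.mem_top _))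
  obtain ⟨Q₂, _, π₂, α₂, ρ₂, hq₂, -⟩ := exists_quot' h₁ hne1
  obtain ⟨c, hcm, hc1⟩ := exists_fix_ne_one h₁
  obtain ⟨y', hy'⟩ := hq₂.onto c hcm
  obtain ⟨y, rfl⟩ := hq.surj y'
  rw [← hq.map_dfct] at hy'
  refine ⟨dfct α y, (hq.mem _).1 (hy' ▸ hcm), fun e => hc1 (by rw [← hy', hq.one_iff]; exact e),
    fun e => hc1 ?_⟩
  rw [← hy', hq.one_iff, mem_fix, dfct_inverted h, inv_eq_of_mul_eq_one_right e]

/-- In an abelian group with at least two layers the elements of trivial square are fixed. -/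
theorem omega_one_abelian (h : Hyp Q q α ρ) (hab : ∀ x y : Q, x * y = y * x)
    (hnt : ∃ x, dfct α x ∉ fix α) {x : Q} (hx : x * x = 1) : x ∈ fix α := by
  obtain ⟨z, hz, hzf, hz1⟩ := exists_low_sq_ne h hnt
  by_contra hxf
  have hd : dfct α x ∈ fix α := by
    have e : dfct α x * dfct α x = 1 := by
      calc dfct α x * dfct α x = (x⁻¹ * x⁻¹) * (α x * α x) := by
            simp only [dfct]
            rw [mul_assoc, mul_assoc, ← mul_assoc (α x) x⁻¹, hab (α x) x⁻¹, mul_assoc]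
        _ = 1 := by rw [← map_mul, ← mul_inv_rev, hx, map_one, inv_one, one_mul]
    rw [mem_fix, dfct_inverted h, inv_eq_of_mul_eq_one_right e]
  have hd1 : dfct α x ≠ 1 := fun e => hxf (dfct_eq_one_iff.1 e)
  obtain ⟨k, hk⟩ := h.trans _ hd _ hz hd1 fun e => hzf (dfct_eq_one_iff.1 e)
  have hxk : dfct α ((ρ ^ k) x) = dfct α z := by
    rw [← hk, dfct, dfct, rho_pow_comm h, map_mul, map_inv]
  have hm : ((ρ ^ k) x)⁻¹ * z ∈ fix α := by
    rw [← dfct_eq_one_iff]
    have hxl : (ρ ^ k) x ∈ low α := by show dfct α _ ∈ fix α; rw [hxk]; exact hz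
    have e := dfct_mul_low h hxl (((ρ ^ k) x)⁻¹ * z)
    rw [mul_inv_cancel_left, hxk] at e
    exact left_eq_mul.1 e
  refine hz1 ?_
  set w := (ρ ^ k) x with hw
  have e2 : z = w * (w⁻¹ * z) := (mul_inv_cancel_left w z).symm
  rw [e2, mul_assoc w, ← mul_assoc _ w, hab _ w, mul_assoc w, ← mul_assoc w w, h.sq _ hm, mul_one,
    hw, ← map_mul, hx, map_one]

/-- The top layer of an abelian group. -/
theorem exists_top_map (h : Hyp Q q α ρ) (hab : ∀ x y : Q, x * y = y * x)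
    (hnt : ∃ x, dfct α x ∉ fix α) :
    ∃ φ : Q →* Q, φ.range = fix α ∧ (∀ x, φ (ρ x) = ρ (φ x)) ∧
      ∀ x, φ x = 1 → ∃ y, y * y = x := by
  classical
  have := h.fin
  have : Fact (Nat.Prime 2) := ⟨Nat.prime_two⟩
  obtain ⟨m, hm⟩ := IsPGroup.iff_card.1 h.pgroup
  have hex : ∃ j, ∀ x : Q, x ^ 2 ^ j * x ^ 2 ^ j = 1 := ⟨m, fun x => by
    rw [← hm, pow_card_eq_one', one_mul]⟩
  obtain ⟨j, hj, hmin⟩ : ∃ j, (∀ x : Q, x ^ 2 ^ j * x ^ 2 ^ j = 1) ∧
      ∀ i < j, ¬ ∀ x : Q, x ^ 2 ^ i * x ^ 2 ^ i = 1 :=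
    ⟨Nat.find hex, Nat.find_spec hex, fun i hi => Nat.find_min hex hi⟩
  let φ : Q →* Q :=
    { toFun := fun x => x ^ 2 ^ j
      map_one' := one_pow _
      map_mul' := fun x y => (show Commute x y from hab x y).mul_pow _ }
  have hle : φ.range ≤ fix α := by
    rintro _ ⟨x, rfl⟩
    exact omega_one_abelian h hab hnt (hj x)
  have hne : φ.range ≠ ⊥ := by
    intro e
    have hall : ∀ x : Q, x ^ 2 ^ j = 1 := fun x =>
      (Subgroup.eq_bot_iff_forall _).1 e _ ⟨x, rfl⟩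
    rcases Nat.eq_zero_or_pos j with h0 | hpos
    · obtain ⟨x, hx⟩ := hnt
      have := hall x
      rw [h0, pow_zero, pow_one] at this
      refine hx ?_
      rw [this, dfct_eq_one_iff.2 (one_mem _)]
      exact one_mem _
    · obtain ⟨i, rfl⟩ : ∃ i, j = i + 1 := ⟨j - 1, by omega⟩
      refine hmin i (by omega) fun x => ?_
      rw [← pow_add, ← two_mul, ← pow_succ']
      exact hall x
  obtain ⟨x₀, hx₀, hx₀1⟩ := (Subgroup.bot_or_exists_ne_one φ.range).resolve_left hne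
  have hrange : φ.range = fix α := by
    refine le_antisymm hle (fix_le_of_invariant h _ ?_ hx₀ (hle hx₀) hx₀1)
    rintro _ ⟨x, rfl⟩
    exact ⟨ρ x, (map_pow ρ x _).symm⟩
  let s : Q →* Q :=
    { toFun := fun x => x * x
      map_one' := one_mul 1
      map_mul' := fun x y => by
        show x * y * (x * y) = x * x * (y * y)
        rw [mul_assoc, ← mul_assoc y, hab y x, mul_assoc x y, ← mul_assoc] }
  have hs : s.ker = fix α := by
    ext x
    exact ⟨fun e => omega_one_abelian h hab hnt e, fun e => h.sq x e⟩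
  have hsle : s.range ≤ φ.ker := by
    rintro _ ⟨x, rfl⟩
    show (x * x) ^ 2 ^ j = 1
    rw [(show Commute x x from rfl).mul_pow]
    exact hj x
  have e1 : Nat.card φ.ker * q = Nat.card Q := by
    have e := Subgroup.card_mul_index φ.ker
    rwa [Subgroup.index_ker, hrange, h.card] at e
  have e2 : q * Nat.card s.range = Nat.card Q := by
    have e := Subgroup.card_mul_index s.ker
    rwa [Subgroup.index_ker, hs, h.card] at e
  have heq : s.range = φ.ker := Subgroup.eq_of_le_of_card_ge hsle (by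
    have := h.two
    rw [← Nat.mul_le_mul_left_iff (show 0 < q by omega), mul_comm q (Nat.card φ.ker), e1, e2])
  exact ⟨φ, hrange, fun x => (map_pow ρ x _).symm, fun x e => by
    obtain ⟨y, hy⟩ := (heq ▸ e : x ∈ s.range)
    exact ⟨y, hy⟩⟩

/-- An abelian quotient with at least two layers forces an abelian group. -/
theorem abelian_of_quot_long [Fintype F] [CharP F 2] (h : Hyp Q q α ρ) (hc : Crd α ρ ω lg)
    (hq : Quot α ρ π α' ρ') (h' : Hyp Q' q α' ρ') (hab : ∀ a b : Q', a * b = b * a)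
    (hnt : ∃ a, dfct α' a ∉ fix α') (x y : Q) : x * y = y * x := by
  obtain ⟨lg', hc', -⟩ := hq.exists_crd h hc
  obtain ⟨φ, hr, hρ, hk⟩ := exists_top_map h' hab hnt
  have hmem : ∀ z, φ z ∈ fix α' := fun z => hr ▸ ⟨z, rfl⟩
  refine commute_of_layer h hc (fun z => lg' (φ (π z)))
    (fun z w => by rw [map_mul, map_mul, hc'.map_mul _ (hmem _) _ (hmem _)]) (fun v => ?_)
    (fun z => by rw [← hq.map_rho, hρ, hc'.equiv _ (hmem _)]) (fun z e => ?_)
    (fun z w => hq.comm_mem (hab _ _)) x y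
  · obtain ⟨c, hcm, rfl⟩ := hc'.surj v
    obtain ⟨z', rfl⟩ := (hr.symm ▸ hcm : c ∈ φ.range)
    obtain ⟨z, rfl⟩ := hq.surj z'
    exact ⟨z, rfl⟩
  · obtain ⟨w', hw⟩ := hk _ (hc'.inj _ (hmem _) e)
    obtain ⟨w, rfl⟩ := hq.surj w'
    have hm : (w * w)⁻¹ * z ∈ fix α := by
      rw [← hq.one_iff, map_mul, map_inv, map_mul, hw, inv_mul_cancel]
    rw [Subgroup.mem_center_iff]
    intro g
    have hgw : g * (w * w) = w * w * g := by
      have h1 := hq.comm_mem (x := g) (y := w) (hab _ _)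
      obtain ⟨h2, h3⟩ := kc_mul_right h hc h1 h1
      exact comm_of_kc hc h2 (h3.trans (CharTwo.add_self_eq_zero _))
    calc g * z = g * (w * w) * ((w * w)⁻¹ * z) := by group
      _ = w * w * (g * ((w * w)⁻¹ * z)) := by rw [hgw]; group
      _ = z * g := by rw [central h hm g]; group

end CfsgLib.InvChar.FixedLayers
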