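/-
InvChar: the structure of three layers: a central extension with square map a binary quadratic form.
-/
import Cfsg.Agent.Lib.InvChar.FixedAbelian

set_option autoImplicit false
set_option linter.unusedSectionVars false

namespace CfsgLib.InvChar.FixedLayers

universe u

variable {Q : Type u} [Group Q] {q : ℕ} {α ρ : MulAut Q} {F : Type} [Field F]
  {ω : F} {lg : Q → F}

/-- Restriction of an automorphism to a finite invariant subgroup. -/
noncomputable def restrictAut [Finite Q] (φ : MulAut Q) (S : Subgroup Q) (h : ∀ x ∈ S, φ x ∈ S) :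
    MulAut S :=
  MulEquiv.ofBijective
    ((φ.toMonoidHom.comp S.subtype).codRestrict S fun x => h x x.2)
    (Finite.injective_iff_bijective.1 fun _ _ e =>
      Subtype.ext (φ.injective (congrArg Subtype.val e)))

theorem coe_restrictAut [Finite Q] (φ : MulAut Q) (S : Subgroup Q) (h : ∀ x ∈ S, φ x ∈ S) (x : S) :
    ((restrictAut φ S h x : S) : Q) = φ x := rfl

/-- The hypotheses pass to invariant subgroups containing the fixed points. -/
theorem Hyp.restrict (h : Hyp Q q α ρ) (hc : Crd α ρ ω lg) (S : Subgroup Q) (hCS : fix α ≤ S)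
    (hα : ∀ x ∈ S, α x ∈ S) (hρ : ∀ x ∈ S, ρ x ∈ S) :
    ∃ α₀ ρ₀ : MulAut S, Hyp S q α₀ ρ₀ ∧ Crd α₀ ρ₀ ω (fun x : S => lg x) ∧
      (∀ x : S, (α₀ x : Q) = α x) ∧ ∀ x : S, x ∈ fix α₀ ↔ (x : Q) ∈ fix α := by
  have := h.fin
  set α₀ := restrictAut α S hα
  set ρ₀ := restrictAut ρ S hρ
  have hmem : ∀ x : S, x ∈ fix α₀ ↔ (x : Q) ∈ fix α := fun x =>
    ⟨fun e => congrArg Subtype.val e, fun e => Subtype.ext e⟩
  have hk : ∀ (k : ℕ) (x : S), (((ρ₀ ^ k) x : S) : Q) = (ρ ^ k) (x : Q) := by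
    intro k
    induction k with
    | zero => intro x; rfl
    | succ k ih =>
      intro x
      rw [pow_succ', MulAut.mul_apply, pow_succ', MulAut.mul_apply, ← ih]
      rfl
  refine ⟨α₀, ρ₀, ⟨inferInstance, h.pgroup.to_subgroup S, fun x => Subtype.ext (h.inv x),
    fun x => Subtype.ext (h.comm x), ?_, fun x hx => Subtype.ext (h.sq _ ((hmem x).1 hx)), ?_,
    h.two, fun x hx y hy hx1 hy1 => ?_⟩,
    ⟨fun x hx y hy => hc.map_mul _ ((hmem x).1 hx) _ ((hmem y).1 hy),
      fun x hx e => Subtype.ext (hc.inj _ ((hmem x).1 hx) e), fun v => ?_,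
      fun x hx => hc.equiv _ ((hmem x).1 hx)⟩, fun x => rfl, hmem⟩
  · refine MulEquiv.ext fun x => Subtype.ext ?_
    rw [hk, h.per]
    rfl
  · rw [← h.card]
    exact Nat.card_congr
      { toFun := fun x => ⟨(x.1 : Q), (hmem x.1).1 x.2⟩
        invFun := fun x => ⟨⟨x.1, hCS x.2⟩, (hmem _).2 x.2⟩
        left_inv := fun x => rfl
        right_inv := fun x => rfl }
  · obtain ⟨k, hk'⟩ := h.trans _ ((hmem x).1 hx) _ ((hmem y).1 hy) (fun e => hx1 (Subtype.ext e))
      (fun e => hy1 (Subtype.ext e))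
    exact ⟨k, Subtype.ext ((hk k x).trans hk')⟩
  · obtain ⟨x, hx, e⟩ := hc.surj v
    exact ⟨⟨x, hCS hx⟩, (hmem _).2 hx, e⟩

theorem low_comm [Fintype F] [CharP F 2] (h : Hyp Q q α ρ) (hc : Crd α ρ ω lg) {x y : Q}
    (hx : dfct α x ∈ fix α) (hy : dfct α y ∈ fix α) : x * y = y * x := by
  obtain ⟨α₀, ρ₀, h₀, hc₀, hα₀, hm₀⟩ := h.restrict hc (lowSub h) (fun c hcm => fix_subset_low hcm)
    (fun z hz => by
      show dfct α (α z) ∈ fix α
      rw [show dfct α (α z) = α (dfct α z) by rw [dfct, dfct, map_mul, map_inv]]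
      rw [mem_fix.1 hz]
      exact hz)
    (fun z hz => by
      show dfct α (ρ z) ∈ fix α
      rw [dfct_rho h]
      exact rho_fix h hz)
  have := abelian_of_low_top h₀ hc₀ (fun z => by
    rw [hm₀]
    have e : ((dfct α₀ z : lowSub h) : Q) = dfct α (z : Q) := by
      simp only [dfct, Subgroup.coe_mul, Subgroup.coe_inv, hα₀]
    rw [e]
    exact z.2) ⟨x, hx⟩ ⟨y, hy⟩
  exact congrArg Subtype.val this

/-- An equivariant function factoring through a coordinate is linear in it. -/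
theorem factor_linear {X : Type*} (h : Hyp Q q α ρ) (hc : Crd α ρ ω lg) (τ : X → X) (a f : X → F)
    (has : Function.Surjective a) (hwell : ∀ x y, a x = a y → f x = f y)
    (ha : ∀ x, a (τ x) = ω * a x) (hf : ∀ x, f (τ x) = ω * f x)
    (h0 : ∀ x, a x = 0 → f x = 0) (x : X) : f x = f (Function.surjInv has 1) * a x := by
  have e : ∀ y, f y = (fun v => f (Function.surjInv has v)) (a y) := fun y =>
    hwell _ _ (Function.surjInv_eq has _).symm
  rw [e]
  refine equiv_linear h hc (fun v => f (Function.surjInv has v))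
    (h0 _ (Function.surjInv_eq has 0)) (fun v => ?_) (a x)
  obtain ⟨y, rfl⟩ := has v
  rw [← ha]
  show f _ = ω * f _
  rw [hwell _ (τ y) (Function.surjInv_eq has _), hwell _ y (Function.surjInv_eq has _), hf]

/-- An equivariant biadditive map vanishing on the diagonal. -/
theorem biadd_zero [Fintype F] [CharP F 2] (h : Hyp Q q α ρ) (hc : Crd α ρ ω lg) (β : F → F → F)
    (hl : ∀ u v w, β (u + v) w = β u w + β v w) (hr : ∀ u v w, β u (v + w) = β u v + β u w)
    (he : ∀ u v, β (ω * u) (ω * v) = ω * β u v) (halt : ∀ u, β u u = 0) (u v : F) : β u v = 0 :=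
  CfsgLib.SuzukiTwo.alternating_eq_zero β hl hr (fun c hc0 => by
    obtain ⟨k, rfl⟩ := hc.exists_pow h hc0
    clear hc0
    induction k with
    | zero => intro u v; simp
    | succ k ih => intro u v; rw [pow_succ', mul_assoc, mul_assoc, he, ih, mul_assoc]) halt u v

variable {Q' : Type u} [Group Q'] {π : Q →* Q'} {α' ρ' : MulAut Q'}

/-- The quotient of three layers has exponent two. -/
theorem sq_mem_fix [Fintype F] [CharP F 2] (h : Hyp Q q α ρ) (hc : Crd α ρ ω lg)
    (hq : Quot α ρ π α' ρ') (h' : Hyp Q' q α' ρ') (hab : ∀ a b : Q', a * b = b * a)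
    (hlow : ∀ a, dfct α' a ∈ fix α') (hne : fix α' ≠ ⊤) (hna : ∃ x y : Q, x * y ≠ y * x) (y : Q) :
    y * y ∈ fix α := by
  obtain ⟨lg', hc', hlg'⟩ := hq.exists_crd h hc
  obtain ⟨Q₂, _, π₂, α₂, ρ₂, hq₂, -⟩ := exists_quot' h' hne
  set B : Q → F := fun z => lg' (dfct α' (π z)) with hB
  have hBm : ∀ z w, B (z * w) = B z + B w := fun z w => by
    simp only [hB]
    rw [map_mul, dfct_mul_low h' (hlow _), hc'.map_mul _ (hlow _) _ (hlow _)]
  have hBs : Function.Surjective B := fun v => by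
    obtain ⟨c, hcm, rfl⟩ := hc'.surj v
    obtain ⟨z', rfl⟩ := hq₂.onto c hcm
    obtain ⟨z, rfl⟩ := hq.surj z'
    exact ⟨z, rfl⟩
  have hBe : ∀ z, B (ρ z) = ω * B z := fun z => by
    simp only [hB]
    rw [← hq.map_rho, dfct_rho h', hc'.equiv _ (hlow _)]
  have hB0 : ∀ z, B z = 0 → π z ∈ fix α' := fun z e =>
    dfct_eq_one_iff.1 (hc'.inj _ (hlow _) e)
  have hsqf : ∀ z, π z * π z ∈ fix α' := fun z => by
    rw [← dfct_eq_one_iff, dfct_mul_low h' (hlow _)]
    exact h'.sq _ (hlow _)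
  set S : Q → F := fun z => lg' (π z * π z) with hS
  have hS0 : ∀ z, B z = 0 → S z = 0 := fun z e => by
    simp only [hS]
    rw [h'.sq _ (hB0 z e), hc'.map_one]
  have hSm : ∀ z w, S (z * w) = S z + S w := fun z w => by
    simp only [hS]
    rw [← hc'.map_mul _ (hsqf z) _ (hsqf w), map_mul]
    congr 1
    rw [mul_assoc, ← mul_assoc (π w), hab (π w) (π z), mul_assoc (π z) (π w), ← mul_assoc]
  have hSlin : ∀ z, S z = S (Function.surjInv hBs 1) * B z := by
    refine factor_linear h hc ρ B S hBs (fun z w e => ?_) hBe (fun z => ?_) hS0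
    · have e1 := hBm (z * w⁻¹) w
      rw [inv_mul_cancel_right, e, right_eq_add] at e1
      have e2 := hSm (z * w⁻¹) w
      rwa [inv_mul_cancel_right, hS0 _ e1, zero_add] at e2
    · simp only [hS]
      rw [← hq.map_rho, ← map_mul, hc'.equiv _ (hsqf z)]
  set s := S (Function.surjInv hBs 1)
  by_cases hs : s = 0
  · have := hSlin y
    rw [hs, zero_mul] at this
    rw [← hq.one_iff, map_mul]
    exact hc'.inj _ (hsqf y) this
  exfalso
  set a : lowSub h → F := fun x => lg (dfct α (x : Q)) with ha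
  have ham : ∀ x x' : lowSub h, a (x * x') = a x + a x' := fun x x' => by
    simp only [ha, Subgroup.coe_mul]
    rw [dfct_mul_low h x.2, hc.map_mul _ x.2 _ x'.2]
  have has : Function.Surjective a := fun v => by
    obtain ⟨c, hcm, rfl⟩ := hc.surj v
    obtain ⟨x, rfl⟩ := hq.onto c hcm
    exact ⟨⟨x, hcm⟩, rfl⟩
  have hcomm : ∀ x z : Q, x * z * x⁻¹ * z⁻¹ ∈ fix α := fun x z => hq.comm_mem (hab _ _)
  obtain ⟨β, hβ, hl, hr⟩ := exists_pairing (fun (x : lowSub h) (z : Q) => kc lg (x : Q) z) a B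
    (fun x x' z => (kc_mul_left h hc (hcomm x z) (hcomm x' z)).2)
    (fun x z w => (kc_mul_right h hc (hcomm x z) (hcomm x w)).2) ham hBm has hBs
    (fun x z e => kc_comm hc ((central h (dfct_eq_one_iff.1 (hc.inj _ x.2 e)) z).symm))
    (fun x z e => kc_comm hc (low_comm h hc x.2 ((hq.mem z).1 (hB0 z e))))
  have he : ∀ u v, β (ω * u) (ω * v) = ω * β u v := fun u v => by
    obtain ⟨x, rfl⟩ := has u
    obtain ⟨z, rfl⟩ := hBs v
    have hx : dfct α (ρ (x : Q)) ∈ fix α := by rw [dfct_rho h]; exact rho_fix h x.2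
    have e1 : ω * a x = a ⟨ρ x, hx⟩ := by
      simp only [ha]
      rw [dfct_rho h, hc.equiv _ x.2]
    rw [e1, ← hBe, ← hβ, ← hβ]
    exact kc_rho hc (hcomm _ _)
  have hdiag : ∀ v, β (s * v) v = 0 := fun v => by
    obtain ⟨z, rfl⟩ := hBs v
    have hz : dfct α (z * z) ∈ fix α := (hq.mem _).1 (by rw [map_mul]; exact hsqf z)
    have e1 : a ⟨z * z, hz⟩ = s * B z := by
      rw [← hSlin]
      simp only [ha, hS]
      rw [← hlg' _ hz, map_mul]
    rw [← e1, ← hβ]
    exact kc_comm hc (by rw [mul_assoc])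
  have hzero : ∀ u v, β (s * u) v = 0 := biadd_zero h hc (fun u v => β (s * u) v)
    (fun u v w => by rw [mul_add, hl]) (fun u v w => hr _ _ _)
    (fun u v => by rw [mul_left_comm, he]) hdiag
  obtain ⟨x, z, hxz⟩ := hna
  refine hxz (commute_of_layer h hc B hBm hBs hBe (fun w e => ?_) hcomm x z)
  rw [Subgroup.mem_center_iff]
  intro g
  have hw : dfct α w ∈ fix α := (hq.mem w).1 (hB0 w e)
  have e2 : kc lg w g = 0 := by
    have := hβ ⟨w, hw⟩ g
    rw [← mul_div_cancel₀ (a ⟨w, hw⟩) hs, hzero] at this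
    exact this
  exact (comm_of_kc hc (hcomm w g) e2).symm

/-- The structure of three layers. -/
theorem exists_form [Fintype F] [CharP F 2] (hF : Nat.card F = q) (h : Hyp Q q α ρ)
    (hc : Crd α ρ ω lg) (hq : Quot α ρ π α' ρ') (h' : Hyp Q' q α' ρ')
    (hab : ∀ a b : Q', a * b = b * a) (hlow : ∀ a, dfct α' a ∈ fix α') (hne : fix α' ≠ ⊤)
    (hna : ∃ x y : Q, x * y ≠ y * x) :
    ∃ (A B : Q → F) (e lam : F), e ≠ 0 ∧ (∀ x y, A (x * y) = A x + A y) ∧
      (∀ x y, B (x * y) = B x + B y) ∧ (∀ u v, ∃ x, A x = u ∧ B x = v) ∧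
      (∀ x, A x = 0 ∧ B x = 0 ↔ x ∈ fix α) ∧ (∀ x, B x = 0 ↔ dfct α x ∈ fix α) ∧
      (∀ x, x * x ∈ fix α) ∧
      ∀ x, lg (x * x) ^ 2 = e * (A x ^ 2 + A x * B x + lam * B x ^ 2) := by
  classical
  have := h.fin
  have := h'.fin
  have hsq := sq_mem_fix h hc hq h' hab hlow hne hna
  obtain ⟨lg', hc', hlg'⟩ := hq.exists_crd h hc
  obtain ⟨Q₂, _, π₂, α₂, ρ₂, hq₂, -⟩ := exists_quot' h' hne
  set B : Q → F := fun z => lg' (dfct α' (π z)) with hB
  have hBm : ∀ z w, B (z * w) = B z + B w := fun z w => by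
    simp only [hB]
    rw [map_mul, dfct_mul_low h' (hlow _), hc'.map_mul _ (hlow _) _ (hlow _)]
  have hB0 : ∀ z, B z = 0 ↔ dfct α z ∈ fix α := fun z => by
    rw [← hq.mem, ← dfct_eq_one_iff]
    exact ⟨fun e => hc'.inj _ (hlow _) e, fun e => by simp only [hB]; rw [e, hc'.map_one]⟩
  -- an equivariant extension of the coordinate to the quotient
  letI : CommGroup Q' := { (inferInstance : Group Q') with mul_comm := hab }
  letI : Module (ZMod 2) (Additive Q') := AddCommGroup.zmodModule fun a => by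
    obtain ⟨z, hz⟩ := hq.surj (Additive.toMul a)
    rw [two_nsmul]
    refine Additive.toMul.injective ?_
    rw [toMul_add, ← hz, ← map_mul, toMul_zero]
    exact hq.one_iff.2 (hsq z)
  letI : Algebra (ZMod 2) F := ZMod.algebra F 2
  let W : Submodule (ZMod 2) (Additive Q') := AddSubgroup.toZModSubmodule 2 (Subgroup.toAddSubgroup (fix α'))
  let ψ : W →ₗ[ZMod 2] F := AddMonoidHom.toZModLinearMap 2
    { toFun := fun w => lg' (Additive.toMul (w : Additive Q'))
      map_zero' := hc'.map_one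
      map_add' := fun v w => hc'.map_mul _ v.2 _ w.2 }
  obtain ⟨A₀, hA₀⟩ := LinearMap.exists_extend ψ
  set N := q - 1 with hN
  set f : Q' → ℕ → F := fun z k => ω⁻¹ ^ k * A₀ (Additive.ofMul ((ρ' ^ k) z)) with hf
  set A : Q → F := fun z => ∑ k ∈ Finset.range N, f (π z) k with hA
  have hω := hc.omega_ne_zero h
  have hA₀fix : ∀ c ∈ fix α', A₀ (Additive.ofMul c) = lg' c := fun c hcm => by
    have := LinearMap.congr_fun hA₀ (⟨Additive.ofMul c, hcm⟩ : W)
    exact this
  have hAm : ∀ z w, A (z * w) = A z + A w := fun z w => by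
    simp only [hA, hf]
    rw [← Finset.sum_add_distrib]
    refine Finset.sum_congr rfl fun k _ => ?_
    rw [map_mul, map_mul, ← mul_add, ← map_add]
    rfl
  have hAe : ∀ z, A (ρ z) = ω * A z := fun z => by
    simp only [hA]
    rw [Finset.mul_sum]
    have e : ∀ k, f (π (ρ z)) k = ω * f (π z) (k + 1) := fun k => by
      simp only [hf]
      rw [← hq.map_rho, ← MulAut.mul_apply, ← pow_succ, pow_succ ω⁻¹ k, ← mul_assoc ω,
        mul_comm (ω⁻¹ ^ k) ω⁻¹, ← mul_assoc, mul_inv_cancel₀ hω, one_mul]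
    rw [Finset.sum_congr rfl fun k _ => e k, ← Finset.mul_sum, ← Finset.mul_sum]
    congr 1
    have e0 : f (π z) N = f (π z) 0 := by
      simp only [hf, hN]
      rw [h'.per, inv_pow, hc.pow_period h]
      simp
    have e1 := Finset.sum_range_succ' (f (π z)) N
    rw [Finset.sum_range_succ, e0] at e1
    exact (add_right_cancel e1).symm
  have hAlow : ∀ z, dfct α z ∈ fix α → A z = lg (dfct α z) := fun z hz => by
    have hzf : π z ∈ fix α' := (hq.mem z).2 hz
    have e : ∀ k, f (π z) k = lg' (π z) := fun k => by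
      simp only [hf]
      rw [hA₀fix _ (rho_pow_fix h' hzf k), hc'.lg_rho_pow h' hzf, ← mul_assoc, ← mul_pow,
        inv_mul_cancel₀ hω, one_pow, one_mul]
    simp only [hA]
    rw [Finset.sum_congr rfl fun k _ => e k, Finset.sum_const, Finset.card_range, nsmul_eq_mul,
      hlg' z hz]
    have hq0 : (q : F) = 0 := by rw [← hF, Nat.card_eq_fintype_card]; exact FiniteField.cast_card_eq_zero F
    rw [hN, Nat.cast_sub (by have := h.two; omega), hq0, Nat.cast_one, zero_sub, CharTwo.neg_eq, one_mul]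
  have hfix : ∀ z, A z = 0 ∧ B z = 0 ↔ z ∈ fix α := fun z => by
    constructor
    · rintro ⟨e1, e2⟩
      have hz := (hB0 z).1 e2
      rw [hAlow z hz] at e1
      exact dfct_eq_one_iff.1 (hc.inj _ hz e1)
    · intro hz
      have hd := dfct_eq_one_iff.2 hz
      have hl : dfct α z ∈ fix α := by rw [hd]; exact one_mem _
      exact ⟨by rw [hAlow z hl, hd, hc.map_one], (hB0 z).2 hl⟩
  have hsurj : ∀ u v, ∃ z, A z = u ∧ B z = v := fun u v => by
    obtain ⟨c, hcm, rfl⟩ := hc'.surj v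
    obtain ⟨z', rfl⟩ := hq₂.onto c hcm
    obtain ⟨z, rfl⟩ := hq.surj z'
    obtain ⟨c₁, hc₁, e₁⟩ := hc.surj (u - A z)
    obtain ⟨x, rfl⟩ := hq.onto c₁ hc₁
    refine ⟨x * z, ?_, ?_⟩
    · rw [hAm, hAlow x hc₁, e₁, sub_add_cancel]
    · rw [hBm, (hB0 x).2 hc₁, zero_add]
  choose σ hσA hσB using hsurj
  set L : Q → F := fun z => lg (z * z) with hL
  have hcomm : ∀ x z : Q, x * z * x⁻¹ * z⁻¹ ∈ fix α := fun x z => hq.comm_mem (hab _ _)
  have hpolar : ∀ z w, L (z * w) = kc lg w z + L z + L w := fun z w => by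
    simp only [hL, kc]
    have e : z * w * (z * w) = (w * z * w⁻¹ * z⁻¹) * ((z * z) * (w * w)) := by
      calc z * w * (z * w) = z * ((w * z * w⁻¹ * z⁻¹) * z) * (w * w) := by group
        _ = _ := by rw [← mul_assoc z, central h (hcomm w z) z]; group
    rw [e, hc.map_mul _ (hcomm w z) _ (mul_mem (hsq z) (hsq w)), hc.map_mul _ (hsq z) _ (hsq w),
      add_assoc]
  have hwell : ∀ z w, A z = A w → B z = B w → L z = L w := fun z w eA eB => by
    have hm : w⁻¹ * z ∈ fix α := by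
      have a1 := hAm w (w⁻¹ * z)
      have b1 := hBm w (w⁻¹ * z)
      rw [mul_inv_cancel_left] at a1 b1
      rw [eA, left_eq_add] at a1
      rw [eB, left_eq_add] at b1
      exact (hfix _).1 ⟨a1, b1⟩
    have e := hpolar w (w⁻¹ * z)
    rw [mul_inv_cancel_left] at e
    rw [e, kc_comm hc (central h hm w).symm]
    simp only [hL]
    rw [h.sq _ hm, hc.map_one, zero_add, add_zero]
  have hLe : ∀ z, L (ρ z) = ω * L z := fun z => by
    simp only [hL]
    rw [← map_mul, hc.equiv _ (hsq z)]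
  have hBe : ∀ z, B (ρ z) = ω * B z := fun z => by
    simp only [hB]
    rw [← hq.map_rho, dfct_rho h', hc'.equiv _ (hlow _)]
  have hσρ : ∀ u v, A (ρ (σ u v)) = ω * u ∧ B (ρ (σ u v)) = ω * v := fun u v =>
    ⟨by rw [hAe, hσA], by rw [hBe, hσB]⟩
  have hσ0 : L (σ 0 0) = 0 := by
    simp only [hL]
    rw [h.sq _ ((hfix _).1 ⟨hσA 0 0, hσB 0 0⟩), hc.map_one]
  have hL1 : ∀ u, L (σ u 0) = L (σ 1 0) * u :=
    equiv_linear h hc (fun u => L (σ u 0)) hσ0 fun u => by
      rw [← hLe]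
      exact hwell _ _ (by rw [(hσρ u 0).1, hσA]) (by rw [(hσρ u 0).2, hσB, mul_zero])
  have hL2 : ∀ v, L (σ 0 v) = L (σ 0 1) * v :=
    equiv_linear h hc (fun v => L (σ 0 v)) hσ0 fun v => by
      rw [← hLe]
      exact hwell _ _ (by rw [(hσρ 0 v).1, hσA, mul_zero]) (by rw [(hσρ 0 v).2, hσB])
  set β : F → F → F := fun u v => kc lg (σ 0 v) (σ u 0) with hβdef
  have hkwell : ∀ x x' z z', A x = A x' → B x = B x' → A z = A z' → B z = B z' →
      kc lg x z = kc lg x' z' := fun x x' z z' a1 b1 a2 b2 => by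
    have e1 := hpolar z x
    have e2 := hpolar z' x'
    rw [hwell (z * x) (z' * x') (by rw [hAm, hAm, a1, a2]) (by rw [hBm, hBm, b1, b2]),
      hwell z z' a2 b2, hwell x x' a1 b1, e2] at e1
    exact (add_right_cancel (add_right_cancel e1)).symm
  have hβl : ∀ u v w, β (u + v) w = β u w + β v w := fun u v w => by
    simp only [hβdef]
    rw [← (kc_mul_right h hc (hcomm _ _) (hcomm _ _)).2]
    exact hkwell _ _ _ _ rfl rfl (by rw [hAm, hσA, hσA, hσA]) (by rw [hBm, hσB, hσB, hσB, add_zero])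
  have hβr : ∀ u v w, β u (v + w) = β u v + β u w := fun u v w => by
    simp only [hβdef]
    rw [← (kc_mul_left h hc (hcomm _ _) (hcomm _ _)).2]
    exact hkwell _ _ _ _ (by rw [hAm, hσA, hσA, hσA, add_zero]) (by rw [hBm, hσB, hσB, hσB]) rfl rfl
  have hβe : ∀ u v, β (ω * u) (ω * v) = ω * β u v := fun u v => by
    simp only [hβdef]
    rw [← kc_rho hc (hcomm _ _)]
    exact hkwell _ _ _ _ (by rw [(hσρ 0 v).1, hσA, mul_zero]) (by rw [(hσρ 0 v).2, hσB])
      (by rw [(hσρ u 0).1, hσA]) (by rw [(hσρ u 0).2, hσB, mul_zero])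
  -- square roots
  choose r hr using fun x : F => FiniteField.isSquare_of_char_two (F := F) (ringChar.eq F 2) x
  have hrsq : ∀ x, r x ^ 2 = x := fun x => by rw [sq]; exact (hr x).symm
  have hradd : ∀ x y, r (x + y) = r x + r y := fun x y =>
    CharTwo.sq_inj.1 (by rw [CharTwo.add_sq, hrsq, hrsq, hrsq])
  set c₀ := β 1 1
  have hdiag : ∀ u, β u u = c₀ * u :=
    equiv_linear h hc (fun u => β u u) (by simpa using hβl 0 0 0) fun u => hβe u u
  have hβeq : ∀ u v, β u v = c₀ * r (u * v) := by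
    intro u v
    have hz := biadd_zero h hc (fun u v => β u v + c₀ * r (u * v))
      (fun u v w => by rw [hβl, add_mul, hradd]; ring)
      (fun u v w => by rw [hβr, mul_add, hradd]; ring)
      (fun u v => by
        rw [hβe, show r (ω * u * (ω * v)) = ω * r (u * v) from
          CharTwo.sq_inj.1 (by rw [mul_pow, hrsq, hrsq]; ring)]
        ring)
      (fun u => by
        rw [hdiag, show r (u * u) = u from CharTwo.sq_inj.1 (by rw [hrsq, sq])]
        exact CharTwo.add_self_eq_zero _) u v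
    exact CharTwo.add_eq_zero.1 hz
  set g₁ := L (σ 1 0) ^ 2
  set g₂ := L (σ 0 1) ^ 2
  set e := c₀ ^ 2 with he
  have hG : ∀ z, L z ^ 2 = g₁ * A z ^ 2 + e * (A z * B z) + g₂ * B z ^ 2 := fun z => by
    rw [hwell z (σ (A z) 0 * σ 0 (B z)) (by rw [hAm, hσA, hσA, add_zero])
      (by rw [hBm, hσB, hσB, zero_add]), hpolar]
    show (β (A z) (B z) + _ + _) ^ 2 = _
    rw [hβeq, hL1, hL2, CharTwo.add_sq, CharTwo.add_sq, mul_pow, mul_pow, mul_pow, hrsq]
    ring
  have hge : g₁ = e := by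
    obtain ⟨z, hzA, hzB⟩ : ∃ z, A z = 0 ∧ B z = 1 := ⟨σ 0 1, hσA 0 1, hσB 0 1⟩
    have hLα : L (α z) = L z := by
      simp only [hL]
      rw [← map_mul, mem_fix.1 (hsq z)]
    have hd : dfct α (dfct α z) ∈ fix α :=
      (hq.mem _).1 (by rw [hq.map_dfct]; exact hlow _)
    have hAd : A (dfct α z) = 1 := by
      rw [hAlow _ hd, ← hlg' _ hd, hq.map_dfct]
      exact hzB
    have hBd : B (dfct α z) = 0 := (hB0 _).2 hd
    have h1 := hG (α z)
    rw [hLα, hG z, map_eq α z, hAm, hBm, hAd, hBd, hzA, hzB] at h1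
    simp at h1
    refine CharTwo.add_eq_zero.1 ?_
    exact h1
  have he0 : e ≠ 0 := by
    intro e0
    obtain ⟨x, z, hxz⟩ := hna
    refine hxz (comm_of_kc hc (hcomm x z) ?_)
    have e1 := hG (z * x)
    rw [hpolar, CharTwo.add_sq, CharTwo.add_sq, hG z, hG x, hAm, hBm, hge, e0] at e1
    simp only [zero_mul, zero_add, CharTwo.add_sq, mul_add] at e1
    refine pow_eq_zero_iff (n := 2) two_ne_zero |>.1 ?_
    linear_combination e1
  refine ⟨A, B, e, g₂ / e, he0, hAm, hBm, fun u v => ⟨σ u v, hσA u v, hσB u v⟩, hfix, hB0, hsq,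
    fun z => ?_⟩
  rw [show lg (z * z) = L z from rfl, hG z, hge]
  field_simp

end CfsgLib.InvChar.FixedLayers
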