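/-
InvChar: a non-abelian group has three layers and a binary quadratic square map.
-/
import Cfsg.Agent.Lib.InvChar.FixedStructure

set_option autoImplicit false
set_option linter.unusedSectionVars false

namespace CfsgLib.InvChar.FixedLayers

universe u

variable {q : ℕ} {F : Type} [Field F] {ω : F}

/-- The quotient of a non-abelian group by the fixed points is abelian with two layers. -/
theorem quot_of_nonabelian [Fintype F] [CharP F 2] (hF : Nat.card F = q) :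
    ∀ (m : ℕ) (Q : Type u) [Group Q] (α ρ : MulAut Q) (lg : Q → F), Nat.card Q = m →
      Hyp Q q α ρ → Crd α ρ ω lg → (∃ x y : Q, x * y ≠ y * x) →
      ∀ (Q' : Type u) [Group Q'] (π : Q →* Q') (α' ρ' : MulAut Q'), Quot α ρ π α' ρ' →
        Hyp Q' q α' ρ' →
        (∀ a b : Q', a * b = b * a) ∧ (∀ a, dfct α' a ∈ fix α') ∧ fix α' ≠ ⊤ := by
  intro m
  induction m using Nat.strong_induction_on with
  | _ m IH =>
  intro Q _ α ρ lg hm h hc hna Q' _ π α' ρ' hq h'
  have := h.fin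
  have := h'.fin
  have hne' : fix α' ≠ ⊤ := fun e => by
    obtain ⟨x, y, hxy⟩ := hna
    exact hxy (abelian_of_low_top h hc (fun z => (hq.mem z).1 (e ▸ Subgroup.mem_top _)) x y)
  by_cases hab : ∀ a b : Q', a * b = b * a
  · refine ⟨hab, fun a => ?_, hne'⟩
    by_contra ha
    obtain ⟨x, y, hxy⟩ := hna
    exact hxy (abelian_of_quot_long h hc hq h' hab ⟨a, ha⟩ x y)
  exfalso
  push Not at hab
  obtain ⟨lg', hc', -⟩ := hq.exists_crd h hc
  obtain ⟨Q₂, _, π₂, α₂, ρ₂, hq₂, h₂⟩ := exists_quot' h' hne'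
  have hlt : Nat.card Q' < m := by
    have e := Subgroup.card_mul_index π.ker
    rw [Subgroup.index_ker, MonoidHom.range_eq_top.2 hq.surj, Subgroup.card_top, hq.ker, h.card,
      hm] at e
    rw [← e]
    have := h.two
    exact lt_mul_left Nat.card_pos (by omega)
  obtain ⟨hab₂, hlow₂, hne₂⟩ := IH _ hlt Q' α' ρ' lg' rfl h' hc' hab Q₂ π₂ α₂ ρ₂ hq₂ h₂
  obtain ⟨A, B, e, lam, he, hAm, hBm, hsur, hfix, hB0, hsq, hform⟩ :=
    exists_form hF h' hc' hq₂ h₂ hab₂ hlow₂ hne₂ hab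
  -- the preimage of the second layer of the quotient
  set E : Subgroup Q := (lowSub h').comap π with hE
  obtain ⟨α₀, ρ₀, h₀, hc₀, hα₀, hm₀⟩ := h.restrict hc E
    (fun c hcm => by
      show dfct α' (π c) ∈ fix α'
      rw [hq.one_iff.2 hcm]
      exact fix_subset_low (one_mem _))
    (fun x hx => by
      show dfct α' (π (α x)) ∈ fix α'
      rw [← hq.map_alpha, show dfct α' (α' (π x)) = α' (dfct α' (π x)) by
        rw [dfct, dfct, map_mul, map_inv], mem_fix.1 hx]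
      exact hx)
    (fun x hx => by
      show dfct α' (π (ρ x)) ∈ fix α'
      rw [← hq.map_rho, dfct_rho h']
      exact rho_fix h' hx)
  have hEab : ∀ a b : E, a * b = b * a := by
    by_contra hna₀
    push Not at hna₀
    have hne₀ : fix α₀ ≠ ⊤ := fun e0 => by
      obtain ⟨a, b, hab0⟩ := hna₀
      exact hab0 (fix_mul_comm h₀ (e0 ▸ Subgroup.mem_top a) (e0 ▸ Subgroup.mem_top b))
    have hlt₀ : Nat.card E < m := by
      refine lt_of_le_of_ne (hm ▸ Subgroup.card_le_card_group E) fun e0 => ?_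
      have htop := Subgroup.eq_top_of_card_eq E (e0.trans hm.symm)
      obtain ⟨a, b, hab0⟩ := hab
      refine hab0 (abelian_of_low_top h' hc' (fun z => ?_) a b)
      obtain ⟨x, rfl⟩ := hq.surj z
      exact (htop ▸ Subgroup.mem_top x : x ∈ E)
    obtain ⟨Q₃, _, π₃, α₃, ρ₃, hq₃, h₃⟩ := exists_quot' h₀ hne₀
    obtain ⟨hab₃, hlow₃, hne₃⟩ :=
      IH _ hlt₀ E α₀ ρ₀ (fun x : E => lg x) rfl h₀ hc₀ hna₀ Q₃ π₃ α₃ ρ₃ hq₃ h₃
    obtain ⟨z, hz, -, hz1⟩ := exists_low_sq_ne h' (by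
      obtain ⟨a, b, hab0⟩ := hab
      by_contra hall
      push Not at hall
      exact hab0 (abelian_of_low_top h' hc' hall a b))
    obtain ⟨x, rfl⟩ := hq.surj z
    have := sq_mem_fix h₀ hc₀ hq₃ h₃ hab₃ hlow₃ hne₃ hna₀ ⟨x, hz⟩
    rw [hm₀, ← hq.one_iff, Subgroup.coe_mul, map_mul] at this
    exact hz1 this
  have hEcomm : ∀ a b : Q, a ∈ E → b ∈ E → a * b = b * a := fun a b ha hb =>
    congrArg Subtype.val (hEab ⟨a, ha⟩ ⟨b, hb⟩)
  -- an element outside the fixed points with fixed defect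
  obtain ⟨c₀, hc₀m, hc₀1⟩ := exists_fix_ne_one h
  obtain ⟨u, hu⟩ := hq.onto c₀ hc₀m
  have huf : u ∉ fix α := fun e0 => hc₀1 (by rw [← hu]; exact dfct_eq_one_iff.2 e0)
  have hu' : π u ∈ fix α' := (hq.mem u).2 (hu ▸ hc₀m)
  have huE : u ∈ E := fix_subset_low hu'
  have hEnt : ∃ a : E, dfct α₀ a ∉ fix α₀ := by
    obtain ⟨z, hz, hzf, -⟩ := exists_low_sq_ne h' (by
      obtain ⟨a, b, hab0⟩ := hab
      by_contra hall
      push Not at hall
      exact hab0 (abelian_of_low_top h' hc' hall a b))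
    obtain ⟨x, rfl⟩ := hq.surj z
    refine ⟨⟨x, hz⟩, fun e0 => hzf ((hq.mem x).2 ?_)⟩
    rw [hm₀] at e0
    simpa only [dfct, Subgroup.coe_mul, Subgroup.coe_inv, hα₀] using e0
  have huu : u * u ≠ 1 := fun e0 =>
    huf ((hm₀ ⟨u, huE⟩).1 (omega_one_abelian h₀ hEab hEnt (Subtype.ext e0)))
  -- commutators of the quotient
  have hcomm : ∀ a b : Q', a * b * a⁻¹ * b⁻¹ ∈ fix α' := fun a b => hq₂.comm_mem (hab₂ _ _)
  have hinv : ∀ y : Q, B (π y) ≠ 0 → y * u * y⁻¹ = u⁻¹ := by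
    intro y hy
    obtain ⟨z', hzA, hzB⟩ := hsur (lg' (π u) ^ 2 / (e * B (π y))) 0
    obtain ⟨x, rfl⟩ := hq.surj z'
    have hxE : x ∈ E := (hB0 _).1 hzB
    have hyE : y * y ∈ E := by
      show dfct α' (π (y * y)) ∈ fix α'
      rw [map_mul]
      exact fix_subset_low (hsq _)
    have hpol : lg' (π x * π y * (π x * π y)) =
        kc lg' (π y) (π x) + lg' (π x * π x) + lg' (π y * π y) := by
      have hd := hcomm (π y) (π x)
      have e1 : π x * π y * (π x * π y) =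
          (π y * π x * (π y)⁻¹ * (π x)⁻¹) * ((π x * π x) * (π y * π y)) := by
        calc π x * π y * (π x * π y)
            = π x * ((π y * π x * (π y)⁻¹ * (π x)⁻¹) * π x) * (π y * π y) := by group
          _ = _ := by rw [← mul_assoc (π x), central h' hd (π x)]; group
      rw [e1, hc'.map_mul _ hd _ (mul_mem (hsq _) (hsq _)), hc'.map_mul _ (hsq _) _ (hsq _),
        add_assoc]
      rfl
    have hk : kc lg' (π y) (π x) = lg' (π u) := by
      apply CharTwo.sq_inj.1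
      have e1 := hform (π x * π y)
      rw [hpol, CharTwo.add_sq, CharTwo.add_sq, hform, hform, hAm, hBm, hzA, hzB] at e1
      have e2 : kc lg' (π y) (π x) ^ 2 = e * (lg' (π u) ^ 2 / (e * B (π y)) * B (π y)) := by
        linear_combination e1 +
          (e * (lg' (π u) ^ 2 / (e * B (π y))) * A (π y)) * CharTwo.two_eq_zero (R := F)
      rw [e2]
      field_simp
    set d := y * x * y⁻¹ * x⁻¹ with hd
    have hdu : d⁻¹ * u ∈ fix α := by
      have e1 : π d = π u := by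
        refine hc'.lg_inj ?_ hu' ?_
        · simp only [hd, map_mul, map_inv]
          exact hcomm _ _
        · rw [← hk, kc]
          simp only [hd, map_mul, map_inv]
      rw [← hq.one_iff, map_mul, map_inv, e1, inv_mul_cancel]
    have hdy : y * d * y⁻¹ = d⁻¹ := by
      calc y * d * y⁻¹ = y * y * x * y⁻¹ * x⁻¹ * y⁻¹ := by simp only [hd]; group
        _ = x * (y * y) * y⁻¹ * x⁻¹ * y⁻¹ := by rw [hEcomm _ _ hyE hxE]
        _ = d⁻¹ := by simp only [hd]; group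
    set c := d⁻¹ * u with hcdef
    have huc : u = d * c := by rw [hcdef, mul_inv_cancel_left]
    calc y * u * y⁻¹ = y * d * (c * y⁻¹) := by rw [huc]; group
      _ = y * d * y⁻¹ * c := by rw [← central h hdu y⁻¹]; group
      _ = d⁻¹ * c := by rw [hdy]
      _ = u⁻¹ := by
        rw [huc, mul_inv_rev d c, inv_eq_of_mul_eq_one_right (h.sq _ hdu), central h hdu]
  obtain ⟨v, hv0, hv1⟩ : ∃ v : F, v ≠ 0 ∧ v ≠ 1 := by
    classical
    by_contra hall
    push Not at hall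
    have hle : Fintype.card F ≤ 2 := by
      have := Finset.card_le_card (show (Finset.univ : Finset F) ⊆ {0, 1} from fun v _ => by
        by_cases hv : v = 0
        · simp [hv]
        · simp [hall v hv])
      exact le_trans this Finset.card_le_two
    rw [← Nat.card_eq_fintype_card, hF] at hle
    have := h.two
    omega
  obtain ⟨z₁, -, hz₁⟩ := hsur 0 1
  obtain ⟨z₂, -, hz₂⟩ := hsur 0 v
  obtain ⟨y₁, rfl⟩ := hq.surj z₁
  obtain ⟨y₂, rfl⟩ := hq.surj z₂
  have i1 := hinv y₁ (by rw [hz₁]; exact one_ne_zero)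
  have i2 := hinv y₂ (by rw [hz₂]; exact hv0)
  have i3 := hinv (y₁ * y₂) (by
    rw [map_mul, hBm, hz₁, hz₂]
    exact fun e0 => hv1 (CharTwo.add_eq_zero.1 e0).symm)
  have e3 : y₁ * y₂ * u * (y₁ * y₂)⁻¹ = u := by
    calc y₁ * y₂ * u * (y₁ * y₂)⁻¹ = y₁ * (y₂ * u * y₂⁻¹) * y₁⁻¹ := by group
      _ = (y₁ * u * y₁⁻¹)⁻¹ := by rw [i2]; group
      _ = u := by rw [i1, inv_inv]
  exact huu (mul_eq_one_iff_eq_inv.2 (e3.symm.trans i3))

/-- The square map of a non-abelian group. -/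
theorem exists_form_of_nonabelian [Fintype F] [CharP F 2] {Q : Type u} [Group Q] {α ρ : MulAut Q}
    {lg : Q → F} (hF : Nat.card F = q) (h : Hyp Q q α ρ) (hc : Crd α ρ ω lg)
    (hna : ∃ x y : Q, x * y ≠ y * x) :
    ∃ (A B : Q → F) (e lam : F), e ≠ 0 ∧ (∀ x y, A (x * y) = A x + A y) ∧
      (∀ x y, B (x * y) = B x + B y) ∧ (∀ u v, ∃ x, A x = u ∧ B x = v) ∧
      (∀ x, A x = 0 ∧ B x = 0 ↔ x ∈ fix α) ∧ (∀ x, x * x ∈ fix α) ∧
      ∀ x, lg (x * x) ^ 2 = e * (A x ^ 2 + A x * B x + lam * B x ^ 2) := by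
  have hne : fix α ≠ ⊤ := fun e0 => by
    obtain ⟨x, y, hxy⟩ := hna
    exact hxy (fix_mul_comm h (e0 ▸ Subgroup.mem_top x) (e0 ▸ Subgroup.mem_top y))
  obtain ⟨Q', _, π, α', ρ', hq, h'⟩ := exists_quot' h hne
  obtain ⟨hab, hlow, hne'⟩ := quot_of_nonabelian hF _ Q α ρ lg rfl h hc hna Q' π α' ρ' hq h'
  obtain ⟨A, B, e, lam, h1, h2, h3, h4, h5, -, h7, h8⟩ := exists_form hF h hc hq h' hab hlow hne' hna
  exact ⟨A, B, e, lam, h1, h2, h3, h4, h5, h7, h8⟩

end CfsgLib.InvChar.FixedLayers
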