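/-
InvChar: the Sylow 2-subgroups of PSL₃(q) and PSU₃(q), q even, as models of the square map.
-/
import Cfsg.Agent.Lib.InvChar.FixedMain
import Cfsg.Agent.Lib.InvChar.SymThreeModel
import Cfsg.Agent.Lib.SuzukiTwo.TypeA
import Cfsg.Agent.Lib.SharplyEven.UnitarySylow
import Cfsg.Agent.Lib.FusionExamples.OddCentre
import Cfsg.Agent.Lib.ClassicalLinear.Card

set_option autoImplicit false
set_option linter.unusedSectionVars false

namespace CfsgLib.InvChar.FixedLayers

universe u

variable {Q : Type u} [Group Q] {q : ℕ} {α ρ : MulAut Q} {F : Type} [Field F]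
  {ω : F} {lg : Q → F}

/-- A group with the same square map in coordinates is isomorphic to `Q`. -/
theorem nonempty_equiv_model [Fintype F] [CharP F 2] {P : Type*} [Group P] [Finite P]
    (h : Hyp Q q α ρ) (hc : Crd α ρ ω lg) (A B : Q → F) (e : F) (he : e ≠ 0) (Φ : F → F → F)
    (hAm : ∀ x y, A (x * y) = A x + A y) (hBm : ∀ x y, B (x * y) = B x + B y)
    (hsurj : ∀ u v, ∃ x, A x = u ∧ B x = v) (hfix : ∀ x, A x = 0 ∧ B x = 0 ↔ x ∈ fix α)
    (hsq : ∀ x, x * x ∈ fix α) (hform : ∀ x, lg (x * x) ^ 2 = e * Φ (A x) (B x))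
    (πP : P →* Multiplicative (F × F)) (ιP : Multiplicative F →* P)
    (hs : Function.Surjective πP) (hi : Function.Injective ιP)
    (hcP : ∀ z a, ιP z * a = a * ιP z) (hk : πP.ker = ιP.range)
    (hsqP : ∀ b : P, b * b = ιP (Multiplicative.ofAdd
      (Φ (Multiplicative.toAdd (πP b)).1 (Multiplicative.toAdd (πP b)).2))) :
    Nonempty (Q ≃* P) := by
  classical
  have := h.fin
  choose r hr using fun x : F => FiniteField.isSquare_of_char_two (F := F) (ringChar.eq F 2) x
  have hrsq : ∀ x, r x ^ 2 = x := fun x => by rw [sq]; exact (hr x).symm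
  choose c hcm hce using hc.surj
  let π : Q →* Multiplicative (F × F) :=
    MonoidHom.mk' (fun x => Multiplicative.ofAdd (A x, B x)) fun x y => by
      rw [hAm, hBm]
      rfl
  let ι : Multiplicative F →* Q :=
    MonoidHom.mk' (fun t => c (r (e * Multiplicative.toAdd t))) fun s t => by
      refine hc.lg_inj (hcm _) (mul_mem (hcm _) (hcm _)) ?_
      rw [hc.map_mul _ (hcm _) _ (hcm _), hce, hce, hce]
      exact CharTwo.sq_inj.1 (by rw [CharTwo.add_sq, hrsq, hrsq, hrsq, toAdd_mul, mul_add])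
  have hι : ∀ t, ι t = c (r (e * Multiplicative.toAdd t)) := fun t => rfl
  refine CfsgLib.SuzukiTwo.nonempty_iso_of_sq π πP ι ιP ?_ hs ?_ hi
    (fun t x => (central h (hcm _) x).symm) hcP ?_ hk fun a b hab => ?_
  · intro p
    obtain ⟨x, hx1, hx2⟩ := hsurj (Multiplicative.toAdd p).1 (Multiplicative.toAdd p).2
    exact ⟨x, by show Multiplicative.ofAdd (A x, B x) = p; rw [hx1, hx2]; rfl⟩
  · intro s t e0
    have e1 := congrArg lg (show c (r (e * Multiplicative.toAdd s)) =
      c (r (e * Multiplicative.toAdd t)) from e0)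
    rw [hce, hce] at e1
    have e2 := congrArg (fun x : F => x ^ 2) e1
    simp only [hrsq] at e2
    exact Multiplicative.toAdd.injective (mul_left_cancel₀ he e2)
  · ext x
    constructor
    · intro hx
      have hx' : (A x, B x) = (0, 0) := congrArg Multiplicative.toAdd hx
      rw [Prod.mk.injEq] at hx'
      have hxf := (hfix x).1 hx'
      refine ⟨Multiplicative.ofAdd (lg x ^ 2 / e), hc.lg_inj (hcm _) hxf ?_⟩
      rw [hι, hce]
      exact CharTwo.sq_inj.1 (by rw [hrsq, toAdd_ofAdd, mul_div_cancel₀ _ he])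
    · rintro ⟨t, rfl⟩
      obtain ⟨e1, e2⟩ := (hfix _).2 (hcm (r (e * Multiplicative.toAdd t)))
      show Multiplicative.ofAdd (A _, B _) = 1
      rw [show A (ι t) = 0 from e1, show B (ι t) = 0 from e2]
      rfl
  · refine ⟨_, hc.lg_inj (hsq a) (hcm _) ?_, hsqP b⟩
    rw [← hab, hι, hce]
    exact CharTwo.sq_inj.1 (by rw [hform, hrsq]; rfl)

/-- The Heisenberg group over a field. -/
@[ext] structure Heis (F : Type) [Field F] where
  a : F
  b : F
  d : F

namespace Heis

variable {F : Type} [Field F]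

instance heisMul : Mul (Heis F) := ⟨fun x y => ⟨x.a + y.a, x.b + y.b, x.d + y.d + x.a * y.b⟩⟩

instance heisOne : One (Heis F) := ⟨⟨0, 0, 0⟩⟩

instance heisInv : Inv (Heis F) := ⟨fun x => ⟨-x.a, -x.b, -x.d + x.a * x.b⟩⟩

@[simp] theorem mul_a (x y : Heis F) : (x * y).a = x.a + y.a := rfl
@[simp] theorem mul_b (x y : Heis F) : (x * y).b = x.b + y.b := rfl
@[simp] theorem mul_d (x y : Heis F) : (x * y).d = x.d + y.d + x.a * y.b := rfl
@[simp] theorem one_a : (1 : Heis F).a = 0 := rfl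
@[simp] theorem one_b : (1 : Heis F).b = 0 := rfl
@[simp] theorem one_d : (1 : Heis F).d = 0 := rfl
@[simp] theorem inv_a (x : Heis F) : x⁻¹.a = -x.a := rfl
@[simp] theorem inv_b (x : Heis F) : x⁻¹.b = -x.b := rfl
@[simp] theorem inv_d (x : Heis F) : x⁻¹.d = -x.d + x.a * x.b := rfl

instance heisGroup : Group (Heis F) :=
  Group.ofLeftAxioms (fun x y z => by ext <;> simp <;> ring) (fun x => by ext <;> simp)
    (fun x => by ext <;> simp)

/-- Triples as elements. -/
def equivTriple : Heis F ≃ F × F × F where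
  toFun x := (x.a, x.b, x.d)
  invFun p := ⟨p.1, p.2.1, p.2.2⟩
  left_inv _ := rfl
  right_inv _ := rfl

instance heisFinite [Finite F] : Finite (Heis F) := Finite.of_equiv _ equivTriple.symm

/-- The Heisenberg group is a Sylow 2-subgroup of `PSL₃`. -/
theorem exists_sylow_psl [Fintype F] {n : ℕ} (hn : 1 ≤ n) (hF : Fintype.card F = 2 ^ n) :
    ∃ S : Sylow 2 (Matrix.ProjectiveSpecialLinearGroup (Fin 3) F),
      Nonempty (Heis F ≃* ↥(S : Subgroup (Matrix.ProjectiveSpecialLinearGroup (Fin 3) F))) := by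
  classical
  haveI : Fact (Nat.Prime 2) := ⟨Nat.prime_two⟩
  let f : Heis F →* Matrix.ProjectiveSpecialLinearGroup (Fin 3) F :=
    MonoidHom.mk' (fun x => QuotientGroup.mk (SymThree.unitri x.a x.b x.d)) fun x y => by
      rw [← QuotientGroup.mk_mul, SymThree.unitri_mul, mul_a, mul_b, mul_d]
  have hcard : Nat.card (Heis F) = (2 ^ n) ^ 3 := by
    rw [Nat.card_congr equivTriple, Nat.card_prod, Nat.card_prod, Nat.card_eq_fintype_card, hF]
    ring
  have hP : IsPGroup 2 (Heis F) := IsPGroup.of_card (n := n * 3) (by rw [hcard, pow_mul])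
  have hf : ∀ x, f x = 1 → x = 1 := fun x hx => by
    have hinj := SymThree.mk_unitri_injective
      (show (QuotientGroup.mk (SymThree.unitri x.a x.b x.d) :
          Matrix.ProjectiveSpecialLinearGroup (Fin 3) F) =
        QuotientGroup.mk (SymThree.unitri (1 : Heis F).a (1 : Heis F).b (1 : Heis F).d) from
        hx.trans (map_one f).symm)
    exact Heis.ext hinj.1 hinj.2.1 hinj.2.2
  obtain ⟨S⟩ := Sylow.nonempty (p := 2) (G := Matrix.ProjectiveSpecialLinearGroup (Fin 3) F)
  obtain ⟨T⟩ := Sylow.nonempty (p := 2) (G := Heis F)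
  set N : ℕ := 2 ^ n with hN
  have hNe : Even N := Nat.even_pow.2 ⟨even_two, by omega⟩
  have hN2 : 2 ≤ N := le_trans (by norm_num) (Nat.pow_le_pow_right two_pos hn)
  have hodd : ∀ k, 1 ≤ k → ¬ 2 ∣ N ^ k - 1 := fun k hk hd => by
    rw [← even_iff_two_dvd, Nat.even_sub (Nat.one_le_pow _ _ (by omega))] at hd
    exact Nat.not_even_one (hd.1 (Nat.even_pow.2 ⟨hNe, by omega⟩))
  have hm : ¬ 2 ∣ (N ^ 3 - 1) * ((N ^ 2 - 1) * (N ^ 1 - 1)) :=
    Nat.Prime.not_dvd_mul Nat.prime_two (hodd 3 (by omega))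
      (Nat.Prime.not_dvd_mul Nat.prime_two (hodd 2 (by omega)) (hodd 1 le_rfl))
  have hn' : ¬ 2 ∣ Nat.gcd 3 (N - 1) * (N ^ 1 - 1) :=
    Nat.Prime.not_dvd_mul Nat.prime_two
      (fun hd => by have := hd.trans (Nat.gcd_dvd_left _ _); norm_num at this) (hodd 1 le_rfl)
  have hG : Nat.card (Matrix.ProjectiveSpecialLinearGroup (Fin 3) F) *
      (Nat.gcd 3 (N - 1) * (N ^ 1 - 1)) =
      Nat.card (Heis F) * ((N ^ 3 - 1) * ((N ^ 2 - 1) * (N ^ 1 - 1))) := by
    have h := CfsgLib.ClassicalLinear.card_PSL (ι := Fin 3) (F := F)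
    rw [Fintype.card_fin, hF, Fin.prod_univ_three] at h
    simp only [Fin.val_zero, Fin.val_one, Fin.val_two, pow_zero, pow_one] at h
    rw [hcard, pow_one]
    have e1 : N ^ 3 - N = N * (N ^ 2 - 1) := by rw [Nat.mul_sub, mul_one, ← pow_succ']
    have e2 : N ^ 3 - N ^ 2 = N ^ 2 * (N - 1) := by rw [Nat.mul_sub, mul_one, ← pow_succ]
    rw [e1, e2] at h
    linear_combination h
  obtain ⟨i⟩ := CfsgLib.FusionExamples.OddCentre.nonempty_sylow_equiv f T (fun a _ => hf a) hm hn' hG S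
  have hT : (T : Subgroup (Heis F)) = ⊤ := T.3 (hP.to_subgroup ⊤) le_top |>.symm
  exact ⟨S, ⟨(Subgroup.topEquiv.symm.trans (MulEquiv.subgroupCongr hT.symm)).trans i⟩⟩

end Heis

/-- A split form: the Sylow 2-subgroup of `PSL₃`. -/
theorem nonempty_equiv_heis [Fintype F] [CharP F 2] (h : Hyp Q q α ρ) (hc : Crd α ρ ω lg)
    (A B : Q → F) (e lam r : F) (hr : r ^ 2 + r + lam = 0) (he : e ≠ 0)
    (hAm : ∀ x y, A (x * y) = A x + A y) (hBm : ∀ x y, B (x * y) = B x + B y)
    (hsurj : ∀ u v, ∃ x, A x = u ∧ B x = v) (hfix : ∀ x, A x = 0 ∧ B x = 0 ↔ x ∈ fix α)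
    (hsq : ∀ x, x * x ∈ fix α)
    (hform : ∀ x, lg (x * x) ^ 2 = e * (A x ^ 2 + A x * B x + lam * B x ^ 2)) :
    Nonempty (Q ≃* Heis F) := by
  have hlam : lam = r ^ 2 + r := (CharTwo.add_eq_zero.1 hr).symm
  refine nonempty_equiv_model h hc (fun x => A x + r * B x) (fun x => A x + (r + 1) * B x) e he
    (fun a b => a * b) (fun x y => by rw [hAm, hBm]; ring) (fun x y => by rw [hAm, hBm]; ring)
    (fun u v => ?_) (fun x => ⟨?_, ?_⟩) hsq (fun x => ?_)
    (MonoidHom.mk' (fun x => Multiplicative.ofAdd (x.a, x.b)) fun x y => rfl)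
    (MonoidHom.mk' (fun t => ⟨0, 0, Multiplicative.toAdd t⟩) fun s t => by ext <;> simp)
    ?_ ?_ ?_ ?_ fun b => ?_
  · obtain ⟨x, hx1, hx2⟩ := hsurj (u + r * (u + v)) (u + v)
    refine ⟨x, ?_, ?_⟩ <;> simp only [hx1, hx2]
    · linear_combination (r * (u + v)) * CharTwo.two_eq_zero (R := F)
    · linear_combination ((r + 1) * u + r * v) * CharTwo.two_eq_zero (R := F)
  · rintro ⟨e1, e2⟩
    have hB : B x = 0 := by
      linear_combination e2 - e1
    exact (hfix x).1 ⟨by rwa [hB, mul_zero, add_zero] at e1, hB⟩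
  · intro hx
    obtain ⟨e1, e2⟩ := (hfix x).2 hx
    simp [e1, e2]
  · rw [hform, hlam]
    linear_combination (-(e * r * A x * B x)) * CharTwo.two_eq_zero (R := F)
  · intro p
    exact ⟨⟨(Multiplicative.toAdd p).1, (Multiplicative.toAdd p).2, 0⟩, rfl⟩
  · intro s t e0
    exact Multiplicative.toAdd.injective (congrArg Heis.d e0)
  · intro z a
    ext <;> simp [add_comm]
  · ext x
    constructor
    · intro hx
      have hx' : (x.a, x.b) = (0, 0) := congrArg Multiplicative.toAdd hx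
      rw [Prod.mk.injEq] at hx'
      exact ⟨Multiplicative.ofAdd x.d, Heis.ext hx'.1.symm hx'.2.symm rfl⟩
    · rintro ⟨t, rfl⟩
      rfl
  · ext <;> simp [CharTwo.add_self_eq_zero]

/-- An anisotropic form: the Sylow 2-subgroup of `PSU₃`. -/
theorem nonempty_equiv_ut [Fintype F] [CharP F 2] {K : Type} [Field K] [Finite K] [CharP K 2]
    {σ : K →+* K} (hK : CfsgLib.Amalgams.UniField K σ q) (hF : Nat.card F = q) (j : F →+* K)
    (h : Hyp Q q α ρ) (hc : Crd α ρ ω lg) (A B : Q → F) (e lam : F)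
    (hlam : ∀ r : F, r ^ 2 + r + lam ≠ 0) (he : e ≠ 0)
    (hAm : ∀ x y, A (x * y) = A x + A y) (hBm : ∀ x y, B (x * y) = B x + B y)
    (hsurj : ∀ u v, ∃ x, A x = u ∧ B x = v) (hfix : ∀ x, A x = 0 ∧ B x = 0 ↔ x ∈ fix α)
    (hsq : ∀ x, x * x ∈ fix α)
    (hform : ∀ x, lg (x * x) ^ 2 = e * (A x ^ 2 + A x * B x + lam * B x ^ 2)) :
    Nonempty (Q ≃* CfsgLib.SharplyEven.UnitarySylow.UT σ hK.conj_conj) := by
  classical
  have hjf : ∀ a, σ (j a) = j a := fun a => by
    rw [hK.apply_eq, ← map_pow, ← hF, Nat.card_eq_fintype_card, FiniteField.pow_card]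
  have hrange : ∀ y : K, σ y = y → ∃ a, j a = y := fun y hy => by
    have hb : Function.Bijective (fun a : F => (⟨j a, hjf a⟩ : {y : K // σ y = y})) :=
      (Nat.bijective_iff_injective_and_card _).2
        ⟨fun a b e0 => j.injective (congrArg Subtype.val e0), by
          rw [hF, CfsgLib.SharplyEven.UnitarySylow.card_fixed hK]⟩
    obtain ⟨a, ha⟩ := hb.2 ⟨y, hy⟩
    exact ⟨a, congrArg Subtype.val ha⟩
  obtain ⟨θ₀, hθ₀⟩ := hK.exists_trace (a := 1) (map_one σ)
  obtain ⟨t₀, ht₀⟩ := hrange (θ₀ ^ 2 + θ₀) (by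
    have e1 : σ θ₀ = θ₀ + 1 := by linear_combination hθ₀ - θ₀ * CharTwo.two_eq_zero (R := K)
    rw [map_add, map_pow, e1]
    linear_combination (θ₀ + 1) * CharTwo.two_eq_zero (R := K))
  have ht : ∀ r : F, r ^ 2 + r ≠ t₀ := fun r hr => by
    have e0 : (θ₀ + j r) * (θ₀ + j r + 1) = 0 := by
      have e1 := congrArg j hr
      rw [map_add, map_pow, ht₀] at e1
      linear_combination e1 +
        (θ₀ ^ 2 + θ₀ + θ₀ * j r) * CharTwo.two_eq_zero (R := K)
    have e2 : σ θ₀ = θ₀ := by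
      rcases mul_eq_zero.1 e0 with e3 | e3
      · rw [CharTwo.add_eq_zero.1 e3, hjf]
      · rw [add_assoc] at e3
        rw [CharTwo.add_eq_zero.1 e3, map_add, hjf, map_one]
    rw [e2, CharTwo.add_self_eq_zero] at hθ₀
    exact zero_ne_one hθ₀
  let as : F →+ F := AddMonoidHom.mk' (fun x => x ^ 2 + x) fun x y => by
    rw [CharTwo.add_sq]; ring
  have hidx : as.range.index = 2 := by
    have e1 := AddSubgroup.index_ker as
    have e2 := AddSubgroup.card_mul_index as.range
    have e3 := AddSubgroup.card_mul_index as.ker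
    have e4 : Nat.card as.ker = 2 := by
      rw [Nat.card_eq_two_iff]
      refine ⟨⟨0, as.ker.zero_mem⟩, ⟨1, by
          show (1 : F) ^ 2 + 1 = 0
          rw [one_pow]; exact CharTwo.add_self_eq_zero 1⟩,
        fun e0 => zero_ne_one (congrArg Subtype.val e0), ?_⟩
      ext x
      simp only [Set.mem_insert_iff, Set.mem_singleton_iff, Set.mem_univ, iff_true]
      have hx : (x : F) * ((x : F) + 1) = 0 := by
        have hx0 : (x : F) ^ 2 + x = 0 := x.2
        linear_combination hx0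
      rcases mul_eq_zero.1 hx with hx | hx
      · exact Or.inl (Subtype.ext hx)
      · exact Or.inr (Subtype.ext (CharTwo.add_eq_zero.1 hx))
    rw [e1, e4] at e3
    rw [← e3, mul_comm 2] at e2
    exact Nat.eq_of_mul_eq_mul_left Nat.card_pos e2
  obtain ⟨s, hs⟩ : lam + t₀ ∈ as.range := by
    rw [AddSubgroup.add_mem_iff_of_index_two hidx]
    refine iff_of_false ?_ ?_
    · rintro ⟨r, hr⟩
      exact hlam r (by rw [← hr]; exact CharTwo.add_self_eq_zero _)
    · rintro ⟨r, hr⟩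
      exact ht r hr
  set θ := θ₀ + j s with hθ
  have hσθ : σ θ = θ + 1 := by
    rw [hθ, map_add, hjf]
    linear_combination hθ₀ - θ₀ * CharTwo.two_eq_zero (R := K)
  have hθ2 : θ ^ 2 + θ = j lam := by
    have e1 : j s ^ 2 + j s = j lam + j t₀ := by
      rw [← map_pow, ← map_add, ← map_add]
      exact congrArg j hs
    rw [hθ]
    linear_combination e1 + (θ₀ * j s + j t₀) * CharTwo.two_eq_zero (R := K) - ht₀
  let cb : F × F →+ K := AddMonoidHom.mk' (fun p => j p.1 + θ * j p.2) fun p p' => by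
    rw [Prod.fst_add, Prod.snd_add, map_add, map_add]; ring
  have hcb : Function.Bijective cb := by
    refine (Nat.bijective_iff_injective_and_card _).2 ⟨(injective_iff_map_eq_zero cb).2 ?_, ?_⟩
    · rintro ⟨a, b⟩ e0
      have e0' : j a + θ * j b = 0 := e0
      have e1 := congrArg σ e0'
      rw [map_add, map_mul, hjf, hjf, hσθ, map_zero] at e1
      have hb : j b = 0 := by linear_combination e1 - e0'
      have ha : j a = 0 := by rwa [hb, mul_zero, add_zero] at e0'
      exact Prod.ext ((map_eq_zero j).1 ha) ((map_eq_zero j).1 hb)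
    · rw [Nat.card_prod, hF, hK.card, sq]
  let CB := AddEquiv.ofBijective cb hcb
  have hnorm : ∀ a b : F, (j a + θ * j b) * σ (j a + θ * j b) =
      j (a ^ 2 + a * b + lam * b ^ 2) := fun a b => by
    simp only [map_add, map_mul, map_pow, hjf, hσθ, ← hθ2]
    linear_combination (θ * j a * j b) * CharTwo.two_eq_zero (R := K)
  refine nonempty_equiv_model h hc A B e he (fun a b => a ^ 2 + a * b + lam * b ^ 2) hAm hBm hsurj
    hfix hsq hform (P := CfsgLib.SharplyEven.UnitarySylow.UT σ hK.conj_conj)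
    (MonoidHom.mk' (fun x => Multiplicative.ofAdd (CB.symm x.b)) fun x y => by
      rw [CfsgLib.SharplyEven.UnitarySylow.mul_b, map_add]; rfl)
    (MonoidHom.mk' (fun t => ⟨0, j (Multiplicative.toAdd t), by
      rw [hjf, zero_mul, add_zero]; exact CharTwo.add_self_eq_zero _⟩) fun s t => by
        ext <;> simp)
    ?_ ?_ ?_ ?_ fun b => ?_
  · intro p
    obtain ⟨c, hc0⟩ := hK.exists_trace
      (a := CB (Multiplicative.toAdd p) * σ (CB (Multiplicative.toAdd p)))
      (by rw [map_mul, hK.conj_conj, mul_comm])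
    refine ⟨⟨CB (Multiplicative.toAdd p), c, by rw [hc0]; exact CharTwo.add_self_eq_zero _⟩, ?_⟩
    show Multiplicative.ofAdd (CB.symm (CB (Multiplicative.toAdd p))) = p
    rw [CB.symm_apply_apply]
    rfl
  · intro s t e0
    exact Multiplicative.toAdd.injective
      (j.injective (congrArg CfsgLib.SharplyEven.UnitarySylow.UT.c e0))
  · intro z a
    ext <;> simp [add_comm]
  · ext x
    constructor
    · intro hx
      have hx' : CB.symm x.b = 0 := congrArg Multiplicative.toAdd hx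
      rw [map_eq_zero_iff CB.symm CB.symm.injective] at hx'
      have hσc : σ x.c = x.c := by
        have e1 := x.cond
        rw [hx', zero_mul, add_zero] at e1
        exact (CharTwo.add_eq_zero.1 e1).symm
      obtain ⟨a, ha⟩ := hrange x.c hσc
      exact ⟨Multiplicative.ofAdd a, CfsgLib.SharplyEven.UnitarySylow.UT.ext hx'.symm ha⟩
    · rintro ⟨t, rfl⟩
      show Multiplicative.ofAdd (CB.symm 0) = 1
      rw [map_zero]
      rfl
  · obtain ⟨e1, e2⟩ := CfsgLib.SharplyEven.UnitarySylow.sq_eq b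
    refine CfsgLib.SharplyEven.UnitarySylow.UT.ext e1 ?_
    rw [e2, mul_comm]
    show b.b * σ b.b = j _
    rw [toAdd_ofAdd, ← hnorm]
    show _ = CB (CB.symm b.b) * σ (CB (CB.symm b.b))
    rw [CB.apply_symm_apply]

end CfsgLib.InvChar.FixedLayers
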