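import Mathlib

/-!
Generators of a Sylow 2-subgroup of the Mathieu group of degree 24, each normalising the span of the
later ones; the last seven span the normal subgroup of order 128 and the last one is central.
-/

set_option autoImplicit false

namespace CfsgLib.InvChar.MTwentyFour

/-- The last seven generators. -/
def baseGens : List (ℕ × ℕ) := [

  (735585462731705021834176329857441156, 735585462731705021834176329857441156),
  (970538992418718774876113737513730146, 970538992418718774876113737513730146),
  (984490757400711034068282643818023937, 984490757400711034068282643818023937),
  (268195153026948482477577069584812064, 268195153026948482477577069584812064),
  (651239579074641248992907580101724192, 651239579074641248992907580101724192),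
  (479663310730678034207776437455390752, 479663310730678034207776437455390752),
  (720981692062171673584743151055243296, 720981692062171673584743151055243296)]

/-- The first three generators. -/
def topGens : List (ℕ × ℕ) := [

  (735500604421669808992593446508235808, 735500604421669808992593446508235808),
  (967812279691448225500382947153381408, 967812279691448225500382947153381408),
  (963721886883755259286232606933354528, 963721886883755259286232606933354528)]

/-- The central involution. -/
def zGen : ℕ × ℕ := (720981692062171673584743151055243296, 720981692062171673584743151055243296)

end CfsgLib.InvChar.MTwentyFour
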