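import Cfsg.Agent.Lib.InvChar.MTwentyFourSpan
import Cfsg.Agent.Lib.InvChar.MTwentyFourData

/-!
The kernel-checked facts about the chosen Sylow 2-subgroup of `Cfsg.M24`.
-/

set_option autoImplicit false

namespace CfsgLib.InvChar.MTwentyFour

open CfsgLib.GolayStructure

/-- Tables of the 128 elements of the normal subgroup. -/
def eTbl : List ℕ := spanR (baseGens.map Prod.fst)

/-- Tables of the eight coset representatives. -/
def cTbl : List ℕ := spanR (topGens.map Prod.fst)

/-- Two tables commute modulo the central involution. -/
def comZ (a b : ℕ) : Bool :=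
  ptEq (compTbl a b) (compTbl b a) || ptEq (compTbl a b) (compTbl (compTbl b a) zGen.1)

/-- Two tables commute pointwise. -/
def comP (a b : ℕ) : Bool := (List.range 24).all fun i => tblAt a (tblAt b i) == tblAt b (tblAt a i)

theorem layers_ok : layersOK (topGens ++ baseGens) = true := by decide +kernel

theorem base_ok : layersOK baseGens = true ∧ zGen ∈ baseGens ∧ zGen.1 ≠ idTbl := by decide +kernel

theorem z_central : ((topGens ++ baseGens).all fun a => comP zGen.1 a.1) = true ∧
    ptEq (compTbl zGen.1 zGen.1) idTbl = true ∧ ptEq zGen.1 idTbl = false := by decide +kernel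

theorem center_check : ((spanR ((topGens ++ baseGens).map Prod.fst)).all fun t =>
    ptEq t idTbl || ptEq t zGen.1 || !((topGens ++ baseGens).all fun a => comP t a.1)) = true := by
  decide +kernel

theorem base_elementary : (baseGens.all fun a =>
    (ptEq (compTbl a.1 a.1) idTbl || ptEq (compTbl a.1 a.1) zGen.1) &&
      baseGens.all fun b => comZ a.1 b.1) = true := by decide +kernel

theorem fix_one_check : ((List.range 8).all fun i => i == 0 ||
    decide ((eTbl.filter fun u => comZ u (cTbl.getD i 0)).length ≤ 32)) = true := by decide +kernel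

theorem fix_two_check : ((List.range 8).all fun i => (List.range 8).all fun j =>
    i == 0 || decide (j ≤ i) ||
      decide ((eTbl.filter fun u => comZ u (cTbl.getD i 0) && comZ u (cTbl.getD j 0)).length ≤ 16)) = true := by
  decide +kernel

theorem cTbl_zero : cTbl.length = 8 ∧ ptEq (cTbl.getD 0 0) idTbl = true ∧
    topGens.all isM24Tbl = true := by decide +kernel

theorem top_normal : (topGens.all fun a => baseGens.all fun b => eTbl.any fun t =>
    ptEq (compTbl a.1 (compTbl b.1 a.2)) t) = true := by decide +kernel

theorem non_comm_check : (eTbl.all fun u => !ptEq (compTbl (cTbl.getD 1 0) (cTbl.getD 4 0))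
    (compTbl u (compTbl (cTbl.getD 4 0) (cTbl.getD 1 0)))) = true := by decide +kernel

end CfsgLib.InvChar.MTwentyFour
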