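import Cfsg.Agent.Lib.GolayStructure.SextetStab

/-!
Subgroups of `Cfsg.M24` built by successive extensions of index two, with kernel-checkable tables.
-/

set_option autoImplicit false

namespace CfsgLib.InvChar.MTwentyFour

open Cfsg CfsgLib.GolayStructure
open CfsgLib.Golay (IsTbl idx idx_lt)

/-- Pointwise equality of tables. -/
def ptEq (s t : ℕ) : Bool := (List.range 24).all fun i => tblAt s i == tblAt t i

/-- All ordered products, as tables. -/
def spanR : List ℕ → List ℕ
  | [] => [idTbl]
  | a :: as => spanR as ++ (spanR as).map fun t => compTbl t a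

/-- The checks making `spanR` the element list of a group of order `2 ^ length`. -/
def layersOK : List (ℕ × ℕ) → Bool
  | [] => true
  | a :: as => layersOK as && isM24Tbl a &&
      (spanR (as.map Prod.fst)).any (fun t => ptEq (compTbl a.1 a.1) t) &&
      as.all (fun b => (spanR (as.map Prod.fst)).any fun t => ptEq (compTbl a.1 (compTbl b.1 a.2)) t) &&
      (spanR (as.map Prod.fst)).all fun t => !ptEq a.1 t

/-- The generated subgroup. -/
def grp (as : List (ℕ × ℕ)) : Subgroup M24 := Subgroup.closure {g | ∃ a ∈ as, m24Of a = g}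

theorem ptEq_iff {s t : ℕ} : ptEq s t = true ↔ ∀ i < 24, tblAt s i = tblAt t i := by
  simp [ptEq]

theorem isTbl_of_ptEq {g : Equiv.Perm GolayPt} {s t : ℕ} (hg : IsTbl g s) (h : ptEq s t = true) :
    IsTbl g t := fun p => (hg p).trans (ptEq_iff.1 h (idx p) (idx_lt p))

theorem ptEq_of_isTbl {g : Equiv.Perm GolayPt} {s t : ℕ} (hg : IsTbl g s) (hg' : IsTbl g t) :
    ptEq s t = true := by
  refine ptEq_iff.2 fun i hi => ?_
  obtain ⟨p, rfl⟩ : ∃ p : GolayPt, idx p = i := ⟨CfsgLib.Golay.pt i, CfsgLib.Golay.idx_pt hi⟩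
  exact (hg p).symm.trans (hg' p)

theorem ext_M24 {g h : M24} {s t : ℕ} (hg : IsTbl (g : Equiv.Perm GolayPt) s)
    (hh : IsTbl (h : Equiv.Perm GolayPt) t) (e : ptEq s t = true) : g = h :=
  Subtype.ext ((isTbl_of_ptEq hg e).ext hh)

theorem isTbl_one : IsTbl ((1 : M24) : Equiv.Perm GolayPt) idTbl := isTbl_idTbl

theorem isTbl_mul' {g h : M24} {a b : ℕ} (hg : IsTbl (g : Equiv.Perm GolayPt) a)
    (hh : IsTbl (h : Equiv.Perm GolayPt) b) : IsTbl ((g * h : M24) : Equiv.Perm GolayPt) (compTbl a b) :=
  isTbl_mul hg hh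

theorem valid_of_mem : ∀ {as : List (ℕ × ℕ)}, layersOK as = true → ∀ a ∈ as, isM24Tbl a = true
  | [], _, a, ha => by simp at ha
  | b :: as, h, a, ha => by
    simp only [layersOK, Bool.and_eq_true] at h
    rcases List.mem_cons.1 ha with rfl | ha
    · exact h.1.1.1.2
    · exact valid_of_mem h.1.1.1.1 a ha

theorem grp_spec : ∀ {as : List (ℕ × ℕ)}, layersOK as = true →
    (∀ g : M24, g ∈ grp as ↔ ∃ t ∈ spanR (as.map Prod.fst), IsTbl (g : Equiv.Perm GolayPt) t) ∧
      Nat.card (grp as) = 2 ^ as.length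
  | [], _ => by
    have hbot : grp [] = ⊥ := by simp [grp]
    refine ⟨fun g => ?_, by rw [hbot]; simp⟩
    rw [hbot, Subgroup.mem_bot]
    constructor
    · rintro rfl; exact ⟨idTbl, by simp [spanR], isTbl_one⟩
    · rintro ⟨t, ht, hg⟩
      simp [spanR] at ht
      subst ht
      exact Subtype.ext (hg.ext isTbl_idTbl)
  | a :: as, h => by
    simp only [layersOK, Bool.and_eq_true, List.all_eq_true, List.any_eq_true, Bool.not_eq_true'] at h
    obtain ⟨⟨⟨⟨hprev, hv⟩, hsq⟩, hnorm⟩, hnew⟩ := h
    obtain ⟨ih, ihc⟩ := grp_spec hprev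
    set H := grp as with hH
    set x := m24Of a with hx
    have hxt : IsTbl (x : Equiv.Perm GolayPt) a.1 := isTbl_m24Of hv
    have hxi : IsTbl ((x⁻¹ : M24) : Equiv.Perm GolayPt) a.2 := CfsgLib.GolayStructure.isTbl_inv hv
    have hx2 : x * x ∈ H := by
      obtain ⟨t, ht, e⟩ := hsq
      exact (ih _).2 ⟨t, ht, isTbl_of_ptEq (isTbl_mul' hxt hxt) e⟩
    have hconj : ∀ g ∈ H, x * g * x⁻¹ ∈ H := by
      intro g hg
      induction hg using Subgroup.closure_induction with
      | mem g hg =>
        obtain ⟨b, hb, rfl⟩ := hg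
        obtain ⟨t, ht, e⟩ := hnorm b hb
        rw [mul_assoc]
        exact (ih _).2 ⟨t, ht, isTbl_of_ptEq
          (isTbl_mul' hxt (isTbl_mul' (isTbl_m24Of (valid_of_mem hprev b hb)) hxi)) e⟩
      | one => simp
      | mul u v _ _ hu hw =>
        have e : x * (u * v) * x⁻¹ = (x * u * x⁻¹) * (x * v * x⁻¹) := by group
        rw [e]; exact mul_mem hu hw
      | inv u _ hu =>
        have e : x * u⁻¹ * x⁻¹ = (x * u * x⁻¹)⁻¹ := by group
        rw [e]; exact inv_mem hu
    have hxn : x ∉ H := fun hxH => by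
      obtain ⟨t, ht, hxt'⟩ := (ih _).1 hxH
      have := hnew t ht
      rw [ptEq_of_isTbl hxt hxt'] at this
      exact Bool.noConfusion this
    let K : Submonoid M24 :=
      { carrier := {g | g ∈ H ∨ g * x⁻¹ ∈ H}
        one_mem' := Or.inl (one_mem H)
        mul_mem' := by
          rintro u v (hu | hu) (hw | hw)
          · exact Or.inl (mul_mem hu hw)
          · exact Or.inr (by rw [mul_assoc]; exact mul_mem hu hw)
          · refine Or.inr ?_
            have e : u * v * x⁻¹ = (u * x⁻¹) * (x * v * x⁻¹) := by group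
            rw [e]; exact mul_mem hu (hconj v hw)
          · refine Or.inl ?_
            have e : u * v = (u * x⁻¹) * (x * (v * x⁻¹) * x⁻¹) * (x * x) := by group
            rw [e]; exact mul_mem (mul_mem hu (hconj _ hw)) hx2 }
    have hinv : ∀ {g : M24}, g ∈ K → g⁻¹ ∈ K := fun {g} hg => by
      have hp := pow_mem hg (orderOf g - 1)
      rwa [show g⁻¹ = g ^ (orderOf g - 1) from inv_eq_of_mul_eq_one_left (by
        rw [← pow_succ, Nat.sub_add_cancel (orderOf_pos g), pow_orderOf_eq_one])]
    let K' : Subgroup M24 := { K with inv_mem' := hinv }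
    have hHK : H ≤ K' := fun g hg => Or.inl hg
    have hxK : x ∈ K' := Or.inr (by rw [mul_inv_cancel]; exact one_mem H)
    have hgrp : grp (a :: as) = K' := by
      refine le_antisymm ((Subgroup.closure_le _).2 ?_) ?_
      · rintro g ⟨b, hb, rfl⟩
        rcases List.mem_cons.1 hb with rfl | hb
        · exact hxK
        · exact hHK (Subgroup.subset_closure ⟨b, hb, rfl⟩)
      · have hle : H ≤ grp (a :: as) :=
          Subgroup.closure_mono fun g ⟨b, hb, e⟩ => ⟨b, List.mem_cons_of_mem _ hb, e⟩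
        rintro g (hg | hg)
        · exact hle hg
        · have : g * x⁻¹ * x ∈ grp (a :: as) :=
            mul_mem (hle hg) (Subgroup.subset_closure ⟨a, List.mem_cons_self, rfl⟩)
          rwa [inv_mul_cancel_right] at this
    refine ⟨fun g => ?_, ?_⟩
    · rw [hgrp, List.map_cons, spanR]
      constructor
      · rintro (hg | hg)
        · obtain ⟨t, ht, e⟩ := (ih _).1 hg
          exact ⟨t, List.mem_append_left _ ht, e⟩
        · obtain ⟨t, ht, e⟩ := (ih _).1 hg
          refine ⟨compTbl t a.1, List.mem_append_right _ (List.mem_map_of_mem ht), ?_⟩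
          have := isTbl_mul' e hxt
          rwa [inv_mul_cancel_right] at this
      · rintro ⟨t, ht, e⟩
        rcases List.mem_append.1 ht with ht | ht
        · exact Or.inl ((ih _).2 ⟨t, ht, e⟩)
        · obtain ⟨s, hs, rfl⟩ := List.mem_map.1 ht
          refine Or.inr ((ih _).2 ⟨s, hs, ?_⟩)
          have e2 : IsTbl ((g * x⁻¹ : M24) : Equiv.Perm GolayPt) (compTbl (compTbl s a.1) a.2) :=
            isTbl_mul' e hxi
          refine isTbl_of_ptEq e2 (ptEq_iff.2 fun i hi' => ?_)
          have hs2 := isTbl_spec (isTbl_of_isM24Tbl hv) hi'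
          rw [tblAt_compTbl _ _ hi', tblAt_compTbl _ _ hs2.2.1, hs2.2.2.2]
    · have hdisj : Disjoint (H : Set M24) ((fun g => g * x) '' (H : Set M24)) := by
        rw [Set.disjoint_left]
        rintro g hg ⟨k, hk, rfl⟩
        exact hxn ((Subgroup.mul_mem_cancel_left _ hk).1 hg)
      have hset : (K' : Set M24) = (H : Set M24) ∪ (fun g => g * x) '' (H : Set M24) := by
        ext g
        constructor
        · rintro (hg | hg)
          · exact Or.inl hg
          · exact Or.inr ⟨g * x⁻¹, hg, inv_mul_cancel_right g x⟩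
        · rintro (hg | ⟨k, hk, rfl⟩)
          · exact Or.inl hg
          · exact Or.inr (by rw [mul_inv_cancel_right]; exact hk)
      rw [hgrp]
      show (K' : Set M24).ncard = _
      rw [hset, Set.ncard_union_eq hdisj (Set.toFinite _) (Set.toFinite _),
        Set.ncard_image_of_injective _ (mul_left_injective x),
        show (H : Set M24).ncard = 2 ^ as.length from ihc, List.length_cons, pow_succ]
      omega

theorem span_split (base : List ℕ) : ∀ pre : List (ℕ × ℕ), (∀ a ∈ pre, isM24Tbl a = true) →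
    ∀ t ∈ spanR (pre.map Prod.fst ++ base), ∃ u ∈ spanR base, ∃ c ∈ spanR (pre.map Prod.fst),
      ∀ i < 24, tblAt t i = tblAt u (tblAt c i)
  | [], _, t, ht => ⟨t, ht, idTbl, by simp [spanR], fun i hi => by rw [idTblCheck i hi]⟩
  | a :: pre, hv, t, ht => by
    have hv' : ∀ b ∈ pre, isM24Tbl b = true := fun b hb => hv b (List.mem_cons_of_mem _ hb)
    rw [List.map_cons, List.cons_append, spanR] at ht
    rw [List.map_cons, spanR]
    rcases List.mem_append.1 ht with ht | ht
    · obtain ⟨u, hu, c, hc, e⟩ := span_split base pre hv' t ht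
      exact ⟨u, hu, c, List.mem_append_left _ hc, e⟩
    · obtain ⟨s, hs, rfl⟩ := List.mem_map.1 ht
      obtain ⟨u, hu, c, hc, e⟩ := span_split base pre hv' s hs
      refine ⟨u, hu, compTbl c a.1, List.mem_append_right _ (List.mem_map_of_mem hc), fun i hi => ?_⟩
      have ha := isTbl_spec (isTbl_of_isM24Tbl (hv a List.mem_cons_self)) hi
      rw [tblAt_compTbl _ _ hi, tblAt_compTbl _ _ hi, e _ ha.1]

theorem ncard_le_of_tables (S : Set M24) (L : List ℕ)
    (h : ∀ g ∈ S, ∃ t ∈ L, IsTbl (g : Equiv.Perm GolayPt) t) : S.ncard ≤ L.length := by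
  classical
  choose! f hf1 hf2 using h
  refine (Set.ncard_le_ncard_of_injOn f (t := (L.toFinset : Set ℕ)) ?_ ?_ (Finset.finite_toSet _)).trans ?_
  · intro g hg
    exact List.mem_toFinset.2 (hf1 g hg)
  · intro g hg k hk e
    exact Subtype.ext ((hf2 g hg).ext (e ▸ hf2 k hk))
  · rw [Set.ncard_coe_finset]
    exact List.toFinset_card_le _

end CfsgLib.InvChar.MTwentyFour
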