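import Cfsg.Agent.Lib.InvChar.MTwentyFourChecks
import Cfsg.Agent.Lib.InvChar.AbelianSixtyFour

/-!
The central quotient of a Sylow 2-subgroup of `Cfsg.M24` carries `SixtyFourData`.
-/

set_option autoImplicit false
set_option linter.unusedSectionVars false

namespace CfsgLib.InvChar.MTwentyFour

open Cfsg CfsgLib.GolayStructure
open CfsgLib.Golay (IsTbl idx idx_lt)

/-- The chosen Sylow 2-subgroup. -/
def syl : Subgroup M24 := grp (topGens ++ baseGens)

/-- Its normal subgroup of order 128. -/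
def eGrp : Subgroup M24 := grp baseGens

/-- The central involution. -/
noncomputable def zEl : M24 := m24Of zGen

theorem zGen_valid : isM24Tbl zGen = true := valid_of_mem base_ok.1 _ base_ok.2.1

theorem zEl_tbl : IsTbl (zEl : Equiv.Perm GolayPt) zGen.1 := isTbl_m24Of zGen_valid

theorem eGrp_le_syl : eGrp ≤ syl :=
  Subgroup.closure_mono fun _ ⟨b, hb, e⟩ => ⟨b, List.mem_append_right _ hb, e⟩

theorem card_syl : Nat.card syl = 1024 := by
  rw [syl, (grp_spec layers_ok).2]; decide +kernel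

theorem card_eGrp : Nat.card eGrp = 128 := by
  rw [eGrp, (grp_spec base_ok.1).2]; decide +kernel

theorem commute_of_comP {g h : M24} {a b : ℕ} (hg : IsTbl (g : Equiv.Perm GolayPt) a)
    (hh : IsTbl (h : Equiv.Perm GolayPt) b) (e : comP a b = true) : g * h = h * g := by
  refine ext_M24 (isTbl_mul' hg hh) (isTbl_mul' hh hg) (ptEq_iff.2 fun i hi => ?_)
  rw [tblAt_compTbl _ _ hi, tblAt_compTbl _ _ hi]
  simpa using List.all_eq_true.1 e i (List.mem_range.2 hi)

theorem comP_of_commute {g h : M24} {a b : ℕ} (hg : IsTbl (g : Equiv.Perm GolayPt) a)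
    (hh : IsTbl (h : Equiv.Perm GolayPt) b) (e : g * h = h * g) : comP a b = true := by
  refine List.all_eq_true.2 fun i hi => ?_
  have h1 := isTbl_mul' hg hh
  rw [e] at h1
  have := ptEq_iff.1 (ptEq_of_isTbl h1 (isTbl_mul' hh hg)) i (List.mem_range.1 hi)
  rw [tblAt_compTbl _ _ (List.mem_range.1 hi), tblAt_compTbl _ _ (List.mem_range.1 hi)] at this
  simpa using this

theorem zEl_commute {g : M24} (hg : g ∈ syl) : zEl * g = g * zEl := by
  have hle : syl ≤ Subgroup.centralizer ({zEl} : Set M24) := by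
    rw [syl, grp, Subgroup.closure_le]
    rintro _ ⟨a, ha, rfl⟩
    rw [SetLike.mem_coe, Subgroup.mem_centralizer_singleton_iff]
    exact (commute_of_comP zEl_tbl (isTbl_m24Of (valid_of_mem layers_ok a ha))
      (List.all_eq_true.1 z_central.1 a ha)).symm
  exact (Subgroup.mem_centralizer_singleton_iff.1 (hle hg)).symm

theorem zEl_mem : zEl ∈ syl := eGrp_le_syl (Subgroup.subset_closure ⟨zGen, base_ok.2.1, rfl⟩)

theorem zEl_ne : zEl ≠ 1 := fun h => by
  have h1 := zEl_tbl
  rw [h] at h1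
  have := ptEq_of_isTbl h1 isTbl_one
  rw [z_central.2.2] at this
  exact Bool.noConfusion this

theorem zEl_sq : zEl * zEl = 1 := ext_M24 (isTbl_mul' zEl_tbl zEl_tbl) isTbl_one z_central.2.1

theorem center_cases {g : M24} (hg : g ∈ syl) (hc : ∀ h ∈ syl, g * h = h * g) : g = 1 ∨ g = zEl := by
  obtain ⟨t, ht, e⟩ := ((grp_spec layers_ok).1 g).1 hg
  have hall : ((topGens ++ baseGens).all fun a => comP t a.1) = true :=
    List.all_eq_true.2 fun a ha => comP_of_commute e (isTbl_m24Of (valid_of_mem layers_ok a ha))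
      (hc _ (Subgroup.subset_closure ⟨a, ha, rfl⟩))
  have := List.all_eq_true.1 center_check t ht
  rw [Bool.or_eq_true, Bool.or_eq_true, hall] at this
  rcases this with (h | h) | h
  · exact Or.inl (ext_M24 e isTbl_one h)
  · exact Or.inr (ext_M24 e zEl_tbl h)
  · exact Bool.noConfusion h

/-- The central quotient. -/
abbrev Quot0 : Type := ↥syl ⧸ Subgroup.center ↥syl

/-- The image of the normal subgroup. -/
def aGrp : Subgroup Quot0 := (eGrp.subgroupOf syl).map (QuotientGroup.mk' _)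

theorem mem_center_syl {g : syl} : g ∈ Subgroup.center ↥syl ↔ (g : M24) = 1 ∨ (g : M24) = zEl := by
  constructor
  · intro h
    exact center_cases g.2 fun k hk => (congrArg Subtype.val (Subgroup.mem_center_iff.1 h ⟨k, hk⟩)).symm
  · rintro (h | h) <;> refine Subgroup.mem_center_iff.2 fun k => Subtype.ext ?_
    · show (k : M24) * (g : M24) = (g : M24) * k
      rw [h, mul_one, one_mul]
    · show (k : M24) * (g : M24) = (g : M24) * k
      rw [h]; exact (zEl_commute k.2).symm

theorem card_center_syl : Nat.card (Subgroup.center ↥syl) = 2 := by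
  classical
  have h : (Subgroup.center ↥syl : Set ↥syl) = {1, ⟨zEl, zEl_mem⟩} := by
    ext g
    rw [SetLike.mem_coe, mem_center_syl]
    rw [Set.mem_insert_iff, Set.mem_singleton_iff]
    exact ⟨fun h => h.imp (fun h => Subtype.ext h) fun h => Subtype.ext h,
      fun h => h.imp (fun h => congrArg Subtype.val h) fun h => congrArg Subtype.val h⟩
  show (Subgroup.center ↥syl : Set ↥syl).ncard = 2
  rw [h, Set.ncard_pair]
  exact fun e => zEl_ne (congrArg Subtype.val e).symm

theorem center_le_e : Subgroup.center ↥syl ≤ eGrp.subgroupOf syl := by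
  intro g hg
  rw [Subgroup.mem_subgroupOf]
  rcases mem_center_syl.1 hg with h | h <;> rw [h]
  · exact one_mem _
  · exact Subgroup.subset_closure ⟨zGen, base_ok.2.1, rfl⟩

theorem mk_commute_iff {g h : syl} :
    (g : Quot0) * h = (h : Quot0) * g ↔
      (g : M24) * h = h * g ∨ (g : M24) * h = h * g * zEl := by
  rw [← QuotientGroup.mk_mul, ← QuotientGroup.mk_mul, eq_comm, QuotientGroup.eq, mem_center_syl]
  constructor <;> rintro (e | e)
  · exact Or.inl (inv_mul_eq_one.1 e).symm
  · exact Or.inr (inv_mul_eq_iff_eq_mul.1 e)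
  · exact Or.inl (inv_mul_eq_one.2 e.symm)
  · exact Or.inr (inv_mul_eq_iff_eq_mul.2 e)

theorem comZ_of_commute {g h : syl} {a b : ℕ} (hg : IsTbl ((g : M24) : Equiv.Perm GolayPt) a)
    (hh : IsTbl ((h : M24) : Equiv.Perm GolayPt) b) (e : (g : Quot0) * h = (h : Quot0) * g) :
    comZ a b = true := by
  rw [comZ, Bool.or_eq_true]
  have h1 := isTbl_mul' hg hh
  rcases mk_commute_iff.1 e with e | e <;> rw [e] at h1
  · exact Or.inl (ptEq_of_isTbl h1 (isTbl_mul' hh hg))
  · exact Or.inr (ptEq_of_isTbl h1 (isTbl_mul' (isTbl_mul' hh hg) zEl_tbl))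

theorem commute_of_comZ {g h : syl} {a b : ℕ} (hg : IsTbl ((g : M24) : Equiv.Perm GolayPt) a)
    (hh : IsTbl ((h : M24) : Equiv.Perm GolayPt) b) (e : comZ a b = true) :
    (g : Quot0) * h = (h : Quot0) * g := by
  rw [comZ, Bool.or_eq_true] at e
  rw [mk_commute_iff]
  rcases e with e | e
  · exact Or.inl (ext_M24 (isTbl_mul' hg hh) (isTbl_mul' hh hg) e)
  · exact Or.inr (ext_M24 (isTbl_mul' hg hh) (isTbl_mul' (isTbl_mul' hh hg) zEl_tbl) e)

theorem aGrp_elementary : Cfsg.IsElementaryAbelian 2 aGrp := by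
  have hgen : eGrp.subgroupOf syl ≤ Subgroup.closure
      {g : syl | ∃ a ∈ baseGens, m24Of a = (g : M24)} := by
    intro g hg
    have hmap : eGrp ≤ (Subgroup.closure {g : syl | ∃ a ∈ baseGens, m24Of a = (g : M24)}).map syl.subtype := by
      rw [eGrp, grp, Subgroup.closure_le]
      rintro _ ⟨a, ha, rfl⟩
      exact ⟨⟨m24Of a, Subgroup.subset_closure ⟨a, List.mem_append_right _ ha, rfl⟩⟩,
        Subgroup.subset_closure ⟨a, ha, rfl⟩, rfl⟩
    obtain ⟨k, hk, e⟩ := hmap hg
    rwa [← Subtype.ext e]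
  set T := (QuotientGroup.mk' (Subgroup.center ↥syl)) '' {g : syl | ∃ a ∈ baseGens, m24Of a = (g : M24)}
    with hT
  have hle : aGrp ≤ Subgroup.closure T := by
    rw [hT, ← MonoidHom.map_closure]
    exact Subgroup.map_mono hgen
  have hTcomm : ∀ p ∈ T, ∀ q ∈ T, q * p = p * q := by
    rintro _ ⟨g, ⟨a, ha, hag⟩, rfl⟩ _ ⟨h, ⟨b, hb, hbh⟩, rfl⟩
    have hb' := List.all_eq_true.1 base_elementary b hb
    rw [Bool.and_eq_true, List.all_eq_true] at hb'
    exact commute_of_comZ (hbh ▸ isTbl_m24Of (valid_of_mem base_ok.1 b hb))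
      (hag ▸ isTbl_m24Of (valid_of_mem base_ok.1 a ha)) (hb'.2 a ha)
  have hTsq : ∀ p ∈ T, p * p = 1 := by
    rintro _ ⟨g, ⟨a, ha, hag⟩, rfl⟩
    have ha' := List.all_eq_true.1 base_elementary a ha
    rw [Bool.and_eq_true, Bool.or_eq_true] at ha'
    have hg := hag ▸ isTbl_m24Of (valid_of_mem base_ok.1 a ha)
    rw [← map_mul, QuotientGroup.mk'_apply, QuotientGroup.eq_one_iff, mem_center_syl]
    rcases ha'.1 with e | e
    · exact Or.inl (ext_M24 (isTbl_mul' hg hg) isTbl_one e)
    · exact Or.inr (ext_M24 (isTbl_mul' hg hg) zEl_tbl e)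
  have hcomm : ∀ a ∈ Subgroup.closure T, ∀ b ∈ Subgroup.closure T, a * b = b * a := by
    intro a ha b hb
    have h1 : a ∈ Subgroup.centralizer T :=
      (Subgroup.closure_le _).2 (fun p hp => Subgroup.mem_centralizer_iff.2 fun q hq => hTcomm p hp q hq) ha
    have h2 : b ∈ Subgroup.centralizer ({a} : Set Quot0) :=
      (Subgroup.closure_le _).2 (fun p hp => Subgroup.mem_centralizer_singleton_iff.2
        (Subgroup.mem_centralizer_iff.1 h1 p hp)) hb
    exact (Subgroup.mem_centralizer_singleton_iff.1 h2).symm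
  refine ⟨isMulCommutative_iff.2 fun a b => Subtype.ext (hcomm _ (hle a.2) _ (hle b.2)), fun a ha => ?_⟩
  have ha' := hle ha
  clear ha
  induction ha' using Subgroup.closure_induction with
  | mem a ha => rw [pow_two]; exact hTsq a ha
  | one => simp
  | mul a b ha hb iha ihb => rw [(Commute.mul_pow (hcomm a ha b hb) 2), iha, ihb, one_mul]
  | inv a _ iha => rw [inv_pow, iha, inv_one]

theorem card_quot : Nat.card Quot0 = 512 := by
  have h := Subgroup.card_eq_card_quotient_mul_card_subgroup (Subgroup.center ↥syl)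
  rw [card_syl, card_center_syl] at h
  show Nat.card (↥syl ⧸ Subgroup.center ↥syl) = 512
  omega

theorem card_map_mul {K : Subgroup ↥syl} (hK : Subgroup.center ↥syl ≤ K) :
    2 * Nat.card (K.map (QuotientGroup.mk' (Subgroup.center ↥syl))) = Nat.card K := by
  let φ : K →* Quot0 := (QuotientGroup.mk' _).comp K.subtype
  have hk : Nat.card φ.ker = 2 := by
    rw [← card_center_syl, ← Subgroup.card_map_of_injective (K := φ.ker) K.subtype_injective]
    congr 2
    ext y
    constructor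
    · rintro ⟨⟨y, hy⟩, hk, rfl⟩
      exact (QuotientGroup.eq_one_iff _).1 hk
    · intro hy
      exact ⟨⟨y, hK hy⟩, (QuotientGroup.eq_one_iff _).2 hy, rfl⟩
  have hr : φ.range = K.map (QuotientGroup.mk' _) := by
    rw [MonoidHom.range_comp, Subgroup.range_subtype]
  rw [Subgroup.card_eq_card_quotient_mul_card_subgroup φ.ker,
    Nat.card_congr (QuotientGroup.quotientKerEquivRange φ).toEquiv, hk, hr, mul_comm]

theorem card_aGrp : Nat.card aGrp = 64 := by
  have h := card_map_mul (K := eGrp.subgroupOf syl) center_le_e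
  rw [Nat.card_congr (Subgroup.subgroupOfEquivOfLe eGrp_le_syl).toEquiv, card_eGrp] at h
  have h' : 2 * Nat.card aGrp = 128 := h
  omega

theorem exists_coset (s : Quot0) : ∃ k : syl, ∃ i < 8, ∃ a ∈ aGrp,
    IsTbl ((k : M24) : Equiv.Perm GolayPt) (cTbl.getD i 0) ∧ s = a * (k : Quot0) := by
  obtain ⟨g, rfl⟩ := QuotientGroup.mk_surjective s
  obtain ⟨t, ht, e⟩ := ((grp_spec layers_ok).1 (g : M24)).1 g.2
  have hvt : ∀ a ∈ topGens, isM24Tbl a = true := List.all_eq_true.1 cTbl_zero.2.2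
  rw [List.map_append] at ht
  obtain ⟨u, hu, c, hc, hcomp⟩ := span_split (baseGens.map Prod.fst) topGens hvt t ht
  obtain ⟨eU, heU, htU⟩ : ∃ x ∈ eGrp, IsTbl ((x : M24) : Equiv.Perm GolayPt) u := by
    obtain ⟨p, hp⟩ : ∃ p : M24, IsTbl (p : Equiv.Perm GolayPt) u := by
      revert u
      suffices h : ∀ (as : List (ℕ × ℕ)), (∀ a ∈ as, isM24Tbl a = true) → ∀ u ∈ spanR (as.map Prod.fst),
          ∃ p : M24, IsTbl (p : Equiv.Perm GolayPt) u from
        fun u hu _ => h baseGens (valid_of_mem base_ok.1) u hu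
      intro as
      induction as with
      | nil => intro _ u hu; simp [spanR] at hu; subst hu; exact ⟨1, isTbl_one⟩
      | cons a as ih =>
        intro hv u hu
        rw [List.map_cons, spanR] at hu
        rcases List.mem_append.1 hu with hu | hu
        · exact ih (fun b hb => hv b (List.mem_cons_of_mem _ hb)) u hu
        · obtain ⟨s, hs, rfl⟩ := List.mem_map.1 hu
          obtain ⟨p, hp⟩ := ih (fun b hb => hv b (List.mem_cons_of_mem _ hb)) s hs
          exact ⟨p * m24Of a, isTbl_mul' hp (isTbl_m24Of (hv a List.mem_cons_self))⟩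
    exact ⟨p, ((grp_spec base_ok.1).1 p).2 ⟨u, hu, hp⟩, hp⟩
  have hk : IsTbl ((eU⁻¹ * (g : M24) : M24) : Equiv.Perm GolayPt) c := by
    intro p
    have h1 := e p
    have hinj : ∀ i j, i < 24 → j < 24 → tblAt u i = tblAt u j → i = j := by
      intro i j hi hj hij
      obtain ⟨pi, rfl⟩ : ∃ q, idx q = i := ⟨CfsgLib.Golay.pt i, CfsgLib.Golay.idx_pt hi⟩
      obtain ⟨pj, rfl⟩ : ∃ q, idx q = j := ⟨CfsgLib.Golay.pt j, CfsgLib.Golay.idx_pt hj⟩
      have h2 : idx ((eU : Equiv.Perm GolayPt) pi) = idx ((eU : Equiv.Perm GolayPt) pj) :=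
        (htU pi).trans (hij.trans (htU pj).symm)
      rw [(eU : Equiv.Perm GolayPt).injective (CfsgLib.Golay.idx_injective h2)]
    have hc24 : tblAt c (idx p) < 24 := by
      have : ∀ (as : List (ℕ × ℕ)), (∀ a ∈ as, isM24Tbl a = true) → ∀ c ∈ spanR (as.map Prod.fst),
          ∀ i < 24, tblAt c i < 24 := by
        intro as
        induction as with
        | nil => intro _ c hc i hi; simp [spanR] at hc; subst hc; rwa [idTblCheck i hi]
        | cons a as ih =>
          intro hv c hc i hi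
          rw [List.map_cons, spanR] at hc
          rcases List.mem_append.1 hc with hc | hc
          · exact ih (fun b hb => hv b (List.mem_cons_of_mem _ hb)) c hc i hi
          · obtain ⟨s, hs, rfl⟩ := List.mem_map.1 hc
            rw [tblAt_compTbl _ _ hi]
            exact ih (fun b hb => hv b (List.mem_cons_of_mem _ hb)) s hs _
              (isTbl_spec (isTbl_of_isM24Tbl (hv a List.mem_cons_self)) hi).1
      exact this topGens hvt c hc _ (idx_lt p)
    refine hinj _ _ (idx_lt _) hc24 ?_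
    refine ((htU _).symm.trans ?_)
    show idx ((eU : Equiv.Perm GolayPt) (((eU⁻¹ * (g : M24) : M24) : Equiv.Perm GolayPt) p)) = _
    rw [← Equiv.Perm.mul_apply, ← Subgroup.coe_mul, mul_inv_cancel_left]
    exact h1.trans (hcomp _ (idx_lt p))
  obtain ⟨i, hi, rfl⟩ := List.getElem_of_mem hc
  refine ⟨⟨_, mul_mem (inv_mem (eGrp_le_syl heU)) g.2⟩, i, cTbl_zero.1 ▸ hi,
    ((⟨eU, eGrp_le_syl heU⟩ : syl) : Quot0), Subgroup.mem_map_of_mem _ heU, ?_, ?_⟩
  · rw [cTbl, List.getD_eq_getElem _ _ hi]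
    exact hk
  · rw [← QuotientGroup.mk_mul]
    congr 1
    exact Subtype.ext (mul_inv_cancel_left eU (g : M24)).symm

theorem fix_count {a : Quot0} (ha : a ∈ aGrp) {k : syl} {s : ℕ}
    (hk : IsTbl ((k : M24) : Equiv.Perm GolayPt) s) (hc : a * (k : Quot0) = (k : Quot0) * a) :
    ∃ g : syl, (g : Quot0) = a ∧ ∃ u ∈ eTbl, IsTbl ((g : M24) : Equiv.Perm GolayPt) u ∧ comZ u s = true := by
  obtain ⟨g, hg, rfl⟩ := ha
  obtain ⟨u, hu, e⟩ := ((grp_spec base_ok.1).1 (g : M24)).1 hg
  exact ⟨g, rfl, u, hu, e, comZ_of_commute e hk hc⟩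

theorem card_le_count {K : Subgroup Quot0} (hK : K ≤ aGrp) (f : ℕ → Bool)
    (hf : ∀ g : syl, (g : Quot0) ∈ K → ∀ u, u ∈ eTbl → IsTbl ((g : M24) : Equiv.Perm GolayPt) u → f u = true) :
    2 * Nat.card K ≤ (eTbl.filter f).length := by
  set K' := K.comap (QuotientGroup.mk' (Subgroup.center ↥syl)) with hK'
  have hle : Subgroup.center ↥syl ≤ K' := fun g hg => by
    rw [Subgroup.mem_comap, QuotientGroup.mk'_apply, (QuotientGroup.eq_one_iff g).2 hg]
    exact one_mem _
  have hm : K'.map (QuotientGroup.mk' _) = K :=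
    Subgroup.map_comap_eq_self_of_surjective (QuotientGroup.mk'_surjective _) K
  rw [← hm, card_map_mul hle, ← Subgroup.card_map_of_injective syl.subtype_injective]
  show ((K'.map syl.subtype : Subgroup M24) : Set M24).ncard ≤ _
  refine ncard_le_of_tables _ _ ?_
  rintro _ ⟨g, hg, rfl⟩
  obtain ⟨h, hh, e⟩ := hK hg
  have hgE : (g : M24) ∈ eGrp := by
    have h2 : h⁻¹ * g ∈ eGrp.subgroupOf syl := center_le_e (QuotientGroup.eq.1 e)
    have := mul_mem hh h2
    rwa [mul_inv_cancel_left] at this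
  obtain ⟨u, hu, eu⟩ := ((grp_spec base_ok.1).1 (g : M24)).1 hgE
  exact ⟨u, List.mem_filter.2 ⟨hu, hf g hg u hu eu⟩, eu⟩

theorem topGens_normalize (a : ℕ × ℕ) (ha : a ∈ topGens) :
    m24Of a ∈ Subgroup.normalizer (eGrp : Set M24) := by
  have hv : isM24Tbl a = true := List.all_eq_true.1 cTbl_zero.2.2 a ha
  set x := m24Of a
  have hle : eGrp.map (MulAut.conj x).toMonoidHom ≤ eGrp := by
    rw [Subgroup.map_le_iff_le_comap, eGrp, grp, Subgroup.closure_le]
    rintro _ ⟨b, hb, rfl⟩
    obtain ⟨t, ht, e⟩ := List.any_eq_true.1 (List.all_eq_true.1 (List.all_eq_true.1 top_normal a ha) b hb)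
    show x * m24Of b * x⁻¹ ∈ Subgroup.closure _
    rw [mul_assoc]
    exact ((grp_spec base_ok.1).1 _).2 ⟨t, ht, isTbl_of_ptEq
      (isTbl_mul' (isTbl_m24Of hv) (isTbl_mul' (isTbl_m24Of (valid_of_mem base_ok.1 b hb))
        (CfsgLib.GolayStructure.isTbl_inv hv))) e⟩
  have heq : eGrp.map (MulAut.conj x).toMonoidHom = eGrp :=
    SetLike.coe_injective (Set.eq_of_subset_of_ncard_le hle (by
      show Nat.card eGrp ≤ Nat.card (eGrp.map (MulAut.conj x).toMonoidHom)
      rw [Subgroup.card_map_of_injective (show Function.Injective (MulAut.conj x).toMonoidHom from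
        (MulAut.conj x).injective)]) (Set.toFinite _))
  rw [Subgroup.mem_normalizer_iff]
  intro y
  constructor
  · intro hy; exact heq ▸ ⟨y, hy, rfl⟩
  · intro hy
    rw [← heq] at hy
    obtain ⟨z, hz, hzy⟩ := hy
    exact (MulAut.conj x).injective hzy ▸ hz

theorem exists_cosetRep (i : ℕ) (hi : i < 8) :
    ∃ k : syl, IsTbl ((k : M24) : Equiv.Perm GolayPt) (cTbl.getD i 0) := by
  have h : ∀ (as : List (ℕ × ℕ)), (∀ a ∈ as, isM24Tbl a = true ∧ a ∈ topGens) →
      ∀ c ∈ spanR (as.map Prod.fst), ∃ p : M24, p ∈ syl ∧ IsTbl (p : Equiv.Perm GolayPt) c := by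
    intro as
    induction as with
    | nil => intro _ c hc; simp [spanR] at hc; subst hc; exact ⟨1, one_mem _, isTbl_one⟩
    | cons a as ih =>
      intro hv c hc
      rw [List.map_cons, spanR] at hc
      rcases List.mem_append.1 hc with hc | hc
      · exact ih (fun b hb => hv b (List.mem_cons_of_mem _ hb)) c hc
      · obtain ⟨s, hs, rfl⟩ := List.mem_map.1 hc
        obtain ⟨p, hp, hps⟩ := ih (fun b hb => hv b (List.mem_cons_of_mem _ hb)) s hs
        exact ⟨p * m24Of a, mul_mem hp (Subgroup.subset_closure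
          ⟨a, List.mem_append_left _ (hv a List.mem_cons_self).2, rfl⟩),
          isTbl_mul' hps (isTbl_m24Of (hv a List.mem_cons_self).1)⟩
  have hi' : i < cTbl.length := by rw [cTbl_zero.1]; exact hi
  rw [List.getD_eq_getElem _ _ hi']
  obtain ⟨p, hp, e⟩ := h topGens (fun a ha => ⟨List.all_eq_true.1 cTbl_zero.2.2 a ha, ha⟩) _
    (List.getElem_mem hi')
  exact ⟨⟨p, hp⟩, e⟩

theorem aGrp_normal : aGrp.Normal := by
  have hE : (eGrp.subgroupOf syl).Normal := by
    refine Subgroup.normal_subgroupOf_iff_le_normalizer eGrp_le_syl |>.2 ?_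
    rw [syl, grp, Subgroup.closure_le]
    rintro _ ⟨a, ha, rfl⟩
    rcases List.mem_append.1 ha with ha | ha
    · exact topGens_normalize a ha
    · exact Subgroup.le_normalizer (Subgroup.subset_closure ⟨a, ha, rfl⟩)
  exact hE.map _ (QuotientGroup.mk'_surjective _)

theorem sixtyFourData : SixtyFourData aGrp := by
  have hcomm : ∀ a ∈ aGrp, ∀ b ∈ aGrp, a * b = b * a := fun a ha b hb =>
    congrArg Subtype.val (isMulCommutative_iff.1 aGrp_elementary.1 ⟨a, ha⟩ ⟨b, hb⟩)
  have hrep : ∀ s : Quot0, s ∉ aGrp → ∃ k : syl, ∃ i < 8, i ≠ 0 ∧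
      IsTbl ((k : M24) : Equiv.Perm GolayPt) (cTbl.getD i 0) ∧ (k : Quot0) * s⁻¹ ∈ aGrp ∧
      (∀ a ∈ aGrp, a * s = s * a → a * (k : Quot0) = (k : Quot0) * a) := by
    intro s hs
    obtain ⟨k, i, hi, a₀, ha₀, hk, rfl⟩ := exists_coset s
    refine ⟨k, i, hi, fun h0 => hs ?_, hk, ?_, fun a ha e => ?_⟩
    · subst h0
      have : k = 1 := Subtype.ext (ext_M24 hk isTbl_one cTbl_zero.2.1)
      rwa [this, QuotientGroup.mk_one, mul_one]
    · rw [mul_inv_rev, mul_inv_cancel_left]; exact inv_mem ha₀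
    · rw [← mul_assoc, hcomm a ha a₀ ha₀, mul_assoc, mul_assoc] at e
      exact mul_left_cancel e
  refine ⟨card_quot, aGrp_normal, aGrp_elementary, card_aGrp, ?_, ?_, ?_⟩
  · intro x hx
    obtain ⟨k, i, hi, hi0, hk, -, hcm⟩ := hrep x hx
    have h1 := card_le_count (K := aGrp ⊓ Subgroup.centralizer ({x} : Set Quot0)) inf_le_left
      (fun u => comZ u (cTbl.getD i 0)) fun g hg u _ eu =>
        comZ_of_commute eu hk (hcm _ hg.1 (Subgroup.mem_centralizer_singleton_iff.1 hg.2))
    have h2 := List.all_eq_true.1 fix_one_check i (List.mem_range.2 hi)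
    simp only [Bool.or_eq_true, beq_iff_eq, hi0, false_or, decide_eq_true_eq] at h2
    omega
  · intro x y hx hy hxy
    obtain ⟨k, i, hi, hi0, hk, hkx, hcm⟩ := hrep x hx
    obtain ⟨l, j, hj, hj0, hl, hly, hcm'⟩ := hrep y hy
    have hij : i ≠ j := fun e => hxy (by
      subst e
      have : k = l := Subtype.ext (ext_M24 hk hl (ptEq_iff.2 fun _ _ => rfl))
      subst this
      have h := mul_mem (inv_mem hly) hkx
      rw [mul_inv_rev, inv_inv, mul_assoc, inv_mul_cancel_left] at h
      have h' := aGrp_normal.conj_mem _ (inv_mem h) x⁻¹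
      simpa [mul_assoc] using inv_mem h')
    have h1 := card_le_count
      (K := aGrp ⊓ Subgroup.centralizer ({x} : Set Quot0) ⊓ Subgroup.centralizer ({y} : Set Quot0))
      (inf_le_left.trans inf_le_left)
      (fun u => comZ u (cTbl.getD i 0) && comZ u (cTbl.getD j 0)) fun g hg u _ eu => by
        rw [Bool.and_eq_true]
        exact ⟨comZ_of_commute eu hk (hcm _ hg.1.1 (Subgroup.mem_centralizer_singleton_iff.1 hg.1.2)),
          comZ_of_commute eu hl (hcm' _ hg.1.1 (Subgroup.mem_centralizer_singleton_iff.1 hg.2))⟩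
    rcases Nat.lt_or_ge i j with hlt | hge
    · have h2 := List.all_eq_true.1 (List.all_eq_true.1 fix_two_check i (List.mem_range.2 hi)) j
        (List.mem_range.2 hj)
      simp only [Bool.or_eq_true, beq_iff_eq, hi0, false_or, decide_eq_true_eq, Nat.not_le.2 hlt] at h2
      omega
    · have hlt : j < i := lt_of_le_of_ne hge (Ne.symm hij)
      have h2 := List.all_eq_true.1 (List.all_eq_true.1 fix_two_check j (List.mem_range.2 hj)) i
        (List.mem_range.2 hi)
      simp only [Bool.or_eq_true, beq_iff_eq, hj0, false_or, decide_eq_true_eq, Nat.not_le.2 hlt] at h2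
      simp only [Bool.and_comm (comZ _ (cTbl.getD j 0))] at h2
      omega
  · obtain ⟨k, hk⟩ := exists_cosetRep 1 (by norm_num)
    obtain ⟨l, hl⟩ := exists_cosetRep 4 (by norm_num)
    refine ⟨(k : Quot0), (l : Quot0), fun h => ?_⟩
    rw [← QuotientGroup.mk_inv, ← QuotientGroup.mk_inv, ← QuotientGroup.mk_mul, ← QuotientGroup.mk_mul,
      ← QuotientGroup.mk_mul] at h
    obtain ⟨g, hg, e⟩ := h
    have hgE : (k * l * k⁻¹ * l⁻¹ : syl) ∈ eGrp.subgroupOf syl := by
      have := mul_mem hg (center_le_e (QuotientGroup.eq.1 e))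
      rwa [mul_inv_cancel_left] at this
    obtain ⟨u, hu, eu⟩ := ((grp_spec base_ok.1).1 _).1 hgE
    have h2 := List.all_eq_true.1 non_comm_check u hu
    have h3 : ((k * l : syl) : M24) = ((k * l * k⁻¹ * l⁻¹ : syl) : M24) * ((l * k : syl) : M24) := by
      rw [← Subgroup.coe_mul]; congr 1; group
    have h4 := isTbl_mul' eu (isTbl_mul' hl hk)
    have h5 : (k : M24) * l = syl.subtype (k * l * k⁻¹ * l⁻¹) * ((l : M24) * k) := h3
    rw [← h5] at h4
    rw [ptEq_of_isTbl (isTbl_mul' hk hl) h4] at h2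
    exact Bool.noConfusion h2

/-- The conclusion, for every Sylow 2-subgroup of `M24`. -/
theorem exists_sixtyFourData (P : Sylow 2 ↥Cfsg.M24) :
    ∃ A : Subgroup (↥(P : Subgroup ↥Cfsg.M24) ⧸ Subgroup.center ↥(P : Subgroup ↥Cfsg.M24)),
      SixtyFourData A := by
  have : Fact (Nat.Prime 2) := ⟨Nat.prime_two⟩
  have hf : Nat.factorization 244823040 2 = 10 := by
    rw [show 244823040 = 2 ^ 10 * 239085 from rfl, Nat.factorization_mul (by norm_num) (by norm_num),
      Nat.Prime.factorization_pow Nat.prime_two, Finsupp.add_apply, Finsupp.single_eq_same,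
      Nat.factorization_eq_zero_of_not_dvd (show ¬ 2 ∣ 239085 by norm_num)]
  let P₀ : Sylow 2 ↥Cfsg.M24 := Sylow.ofCard syl (by
    rw [card_syl, CfsgLib.Golay.natCard_M24, hf]; rfl)
  let e : ↥syl ≃* ↥(P : Subgroup ↥Cfsg.M24) := Sylow.equiv P₀ P
  have hc : (Subgroup.center ↥syl).map (e : ↥syl →* ↥(P : Subgroup ↥Cfsg.M24)) =
      Subgroup.center ↥(P : Subgroup ↥Cfsg.M24) := by
    ext y
    obtain ⟨x, rfl⟩ := e.surjective y
    show e x ∈ _ ↔ _
    rw [show (e x) = (e : ↥syl →* ↥(P : Subgroup ↥Cfsg.M24)) x from rfl,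
      Subgroup.mem_map_iff_mem e.injective, Subgroup.mem_center_iff, Subgroup.mem_center_iff]
    exact ⟨fun h k => by
      obtain ⟨k, rfl⟩ := e.surjective k
      show e k * e x = e x * e k
      rw [← map_mul, ← map_mul, h k],
      fun h k => e.injective (by rw [map_mul, map_mul]; exact h (e k))⟩
  exact ⟨_, sixtyFourData.of_equiv (QuotientGroup.congr _ _ e hc)⟩

end CfsgLib.InvChar.MTwentyFour
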