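import Cfsg.Agent.Lib.InvChar.PSLThreeFour

/-!
Facts about pairs of elementary abelian subgroups of order 16, transported to any copy of `PSL₃(4)`.
-/

set_option autoImplicit false
set_option linter.unusedSectionVars false

namespace CfsgLib.InvChar.PSLThreeFour

variable {F : Type*} [Field F] [Fintype F]

local notation "PSL₃" => Matrix.ProjectiveSpecialLinearGroup (Fin 3) F

theorem map_normalizer_equiv {G H : Type*} [Group G] [Group H] (θ : G ≃* H) (E : Subgroup G) (g : G) :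
    g ∈ Subgroup.normalizer (E : Set G) ↔
      θ g ∈ Subgroup.normalizer ((E.map θ.toMonoidHom : Subgroup H) : Set H) := by
  rw [← Subgroup.map_equiv_normalizer_eq E θ]
  exact (Subgroup.mem_map_iff_mem θ.injective).symm

theorem exists_normalising_equiv (hF : Fintype.card F = 4) {Q : Type*} [Group Q] [Finite Q]
    (f : Q ≃* PSL₃) (T : Sylow 2 Q) {E E' : Subgroup Q} (hne : E ≠ E') (hET : E ≤ T) (hE'T : E' ≤ T)
    (hE : ∀ e ∈ E, e ^ 2 = 1) (hE' : ∀ e ∈ E', e ^ 2 = 1) (hc : Nat.card E = 16)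
    (hc' : Nat.card E' = 16) :
    ∃ θ : Q ≃* PSL₃, E.map θ.toMonoidHom = A₁ ∧ E'.map θ.toMonoidHom = A₂ ∧
      (T : Subgroup Q).map θ.toMonoidHom = U := by
  classical
  have : Fact (Nat.Prime 2) := ⟨Nat.prime_two⟩
  have hf : Nat.factorization 20160 2 = 6 := by
    rw [show 20160 = 2 ^ 6 * 315 from rfl, Nat.factorization_mul (by norm_num) (by norm_num),
      Nat.Prime.factorization_pow Nat.prime_two, Finsupp.add_apply, Finsupp.single_eq_same,
      Nat.factorization_eq_zero_of_not_dvd (show ¬ 2 ∣ 315 by norm_num)]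
  let P : Sylow 2 PSL₃ := Sylow.ofCard U (by
    rw [card_U hF, CfsgLib.InvChar.SymThree.card_PSL_three_four hF, hf]; rfl)
  let P' : Sylow 2 PSL₃ := T.mapSurjective (f := f.toMonoidHom) f.surjective
  obtain ⟨g, hg⟩ := MulAction.exists_smul_eq PSL₃ P' P
  let θ₀ : Q ≃* PSL₃ := f.trans (MulAut.conj g)
  have hθT : (T : Subgroup Q).map θ₀.toMonoidHom = U := by
    have h := congrArg (fun S : Sylow 2 PSL₃ => (S : Subgroup PSL₃)) hg
    rw [Sylow.coe_subgroup_smul] at h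
    have h' : (T : Subgroup Q).map ((MulAut.conj g).toMonoidHom.comp f.toMonoidHom) = U := by
      rw [← Subgroup.map_map]
      exact h
    exact h'
  have hcls : ∀ D : Subgroup Q, D ≤ T → (∀ e ∈ D, e ^ 2 = 1) → Nat.card D = 16 →
      D.map θ₀.toMonoidHom = A₁ ∨ D.map θ₀.toMonoidHom = A₂ := by
    intro D hD h2 hDc
    refine classify hF (hθT ▸ Subgroup.map_mono hD) ?_ ?_
    · rintro _ ⟨d, hd, rfl⟩
      rw [← map_pow, h2 d hd, map_one]
    · rw [Subgroup.card_map_of_injective (show Function.Injective θ₀.toMonoidHom from θ₀.injective), hDc]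
  have hne' : E.map θ₀.toMonoidHom ≠ E'.map θ₀.toMonoidHom := fun h =>
    hne (Subgroup.map_injective θ₀.injective h)
  rcases hcls E hET hE hc with h | h <;> rcases hcls E' hE'T hE' hc' with h' | h'
  · exact absurd (h.trans h'.symm) hne'
  · exact ⟨θ₀, h, h', hθT⟩
  · refine ⟨θ₀.trans pdual, ?_, ?_, ?_⟩
    · show E.map ((pdual : PSL₃ ≃* PSL₃).toMonoidHom.comp θ₀.toMonoidHom) = _
      rw [← Subgroup.map_map, h, map_pdual_A₂]
    · show E'.map ((pdual : PSL₃ ≃* PSL₃).toMonoidHom.comp θ₀.toMonoidHom) = _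
      rw [← Subgroup.map_map, h', map_pdual_A₁]
    · show (T : Subgroup Q).map ((pdual : PSL₃ ≃* PSL₃).toMonoidHom.comp θ₀.toMonoidHom) = _
      rw [← Subgroup.map_map, hθT, map_pdual_U]
  · exact absurd (h.trans h'.symm) hne'

/-- The properties of a pair of elementary abelian subgroups of order 16. -/
theorem pair_facts (hF : Fintype.card F = 4) {Q : Type*} [Group Q] [Finite Q]
    (f : Q ≃* PSL₃) (T : Sylow 2 Q) {E E' : Subgroup Q} (hne : E ≠ E') (hET : E ≤ T) (hE'T : E' ≤ T)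
    (hE : ∀ e ∈ E, e ^ 2 = 1) (hE' : ∀ e ∈ E', e ^ 2 = 1) (hc : Nat.card E = 16)
    (hc' : Nat.card E' = 16) :
    E ⊔ E' = T ∧ (T : Subgroup Q) ≤ Subgroup.normalizer (E : Set Q) ∧
      (∀ t ∈ (T : Subgroup Q), (∀ e ∈ E, t * e = e * t) → t ∈ E) ∧
      (∀ a ∈ E, ∀ b ∈ E, a ≠ 1 → b ≠ 1 → ∃ g ∈ Subgroup.normalizer (E : Set Q), g * a * g⁻¹ = b) ∧
      ∃ π : ↥(Subgroup.normalizer (E : Set Q)) →* Matrix.ProjectiveSpecialLinearGroup (Fin 2) F,
        Function.Surjective π ∧ ∀ g, π g = 1 ↔ (g : Q) ∈ E := by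
  obtain ⟨θ, h1, h2, hT⟩ := exists_normalising_equiv hF f T hne hET hE'T hE hE' hc hc'
  have hinj : Function.Injective θ.toMonoidHom := θ.injective
  have hmem : ∀ g : Q, g ∈ E ↔ θ g ∈ (A₁ : Subgroup PSL₃) := fun g => by
    rw [← h1]; exact (Subgroup.mem_map_iff_mem hinj).symm
  have hN : ∀ g : Q, g ∈ Subgroup.normalizer (E : Set Q) ↔
      θ g ∈ Subgroup.normalizer ((A₁ : Subgroup PSL₃) : Set PSL₃) := fun g => by
    rw [← h1]; exact map_normalizer_equiv θ E g
  refine ⟨Subgroup.map_injective hinj (by rw [Subgroup.map_sup, h1, h2, hT, sup_eq]), ?_, ?_, ?_, ?_⟩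
  · intro t ht
    exact (hN t).2 (U_le_normalizer (hT ▸ Subgroup.mem_map_of_mem θ.toMonoidHom ht))
  · intro t ht hcomm
    refine (hmem t).2 (mem_A₁_of_commute (hT ▸ Subgroup.mem_map_of_mem θ.toMonoidHom ht) ?_)
    intro y hy
    obtain ⟨e, rfl⟩ := θ.surjective y
    rw [← map_mul, ← map_mul, hcomm e ((hmem e).2 hy)]
  · intro a ha b hb ha1 hb1
    obtain ⟨g, hg, hga⟩ := transitive_A₁ hF ((hmem a).1 ha) (fun h => ha1 (θ.injective (by rw [h, map_one])))
    obtain ⟨k, hk, hkb⟩ := transitive_A₁ hF ((hmem b).1 hb) (fun h => hb1 (θ.injective (by rw [h, map_one])))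
    refine ⟨θ.symm (k * g⁻¹), (hN _).2 ?_, θ.injective ?_⟩
    · rw [θ.apply_symm_apply]; exact mul_mem hk (inv_mem hg)
    · rw [map_mul, map_mul, map_inv, θ.apply_symm_apply, ← hga, ← hkb]
      group
  · obtain ⟨π, hπ, hker⟩ := exists_levi_hom hF
    let ψ : ↥(Subgroup.normalizer (E : Set Q)) →* ↥(Subgroup.normalizer ((A₁ : Subgroup PSL₃) : Set PSL₃)) :=
      MonoidHom.mk' (fun g => ⟨θ g, (hN g).1 g.2⟩) fun a b => Subtype.ext (map_mul θ _ _)
    refine ⟨π.comp ψ, hπ.comp fun g => ⟨⟨θ.symm g, (hN _).2 (by rw [θ.apply_symm_apply]; exact g.2)⟩,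
      Subtype.ext (θ.apply_symm_apply _)⟩, fun g => ?_⟩
    rw [MonoidHom.comp_apply, hker]
    exact (hmem g).symm

end CfsgLib.InvChar.PSLThreeFour
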