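/-
InvChar: criteria for subgroups of odd index (or containing a Sylow subgroup) to be pronormal.
-/
import Mathlib
import Cfsg.Prelude.Def_HallClasses

set_option autoImplicit false

namespace CfsgLib.InvChar.Pronormal

open Cfsg
open scoped Pointwise

variable {G : Type*} [Group G] {p : ℕ}

theorem map_conj_mul (H : Subgroup G) (a b : G) :
    H.map (MulAut.conj (a * b)).toMonoidHom =
      (H.map (MulAut.conj b).toMonoidHom).map (MulAut.conj a).toMonoidHom := by
  rw [Subgroup.map_map]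
  congr 1
  ext x
  simp [mul_assoc]

theorem map_conj_eq_of_mem_normalizer {H : Subgroup G} {n : G}
    (hn : n ∈ Subgroup.normalizer (H : Set G)) : H.map (MulAut.conj n).toMonoidHom = H := by
  ext x
  rw [Subgroup.mem_map]
  constructor
  · rintro ⟨y, hy, rfl⟩
    exact (Subgroup.mem_normalizer_iff.1 hn y).1 hy
  · intro hx
    exact ⟨n⁻¹ * x * n, (Subgroup.mem_normalizer_iff.1 hn _).2 (by simpa [mul_assoc] using hx),
      by simp [mul_assoc]⟩

/-- A subgroup that contains a Sylow subgroup and is normalised by its normaliser is pronormal. -/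
theorem isPronormal_of_normalizer_le [Finite G] [Fact p.Prime] (P : Sylow p G) (H : Subgroup G)
    (hP : (P : Subgroup G) ≤ H)
    (hN : Subgroup.normalizer ((P : Subgroup G) : Set G) ≤ Subgroup.normalizer (H : Set G)) :
    IsPronormal H := by
  intro g
  set K := H ⊔ H.map (MulAut.conj g).toMonoidHom with hK
  have h1 : (P : Subgroup G) ≤ K := hP.trans le_sup_left
  have h2 : ((g • P : Sylow p G) : Subgroup G) ≤ K := by
    intro x hx
    rw [Sylow.coe_subgroup_smul, Subgroup.mem_pointwise_smul_iff_inv_smul_mem] at hx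
    exact le_sup_right (a := H) ⟨_, hP hx, by simp [mul_assoc]⟩
  obtain ⟨k, hk⟩ := MulAction.exists_smul_eq K (P.subtype h1) ((g • P).subtype h2)
  have hk' : (k : G) • P = g • P := by
    rw [Sylow.smul_subtype] at hk
    exact Sylow.subtype_injective hk
  refine ⟨k, k.2, ?_⟩
  have hn : (k : G)⁻¹ * g ∈ Subgroup.normalizer (H : Set G) := hN
    (Sylow.smul_eq_iff_mem_normalizer.1 (by rw [mul_smul, inv_smul_eq_iff, hk']))
  calc H.map (MulAut.conj g).toMonoidHom
      = H.map (MulAut.conj ((k : G) * ((k : G)⁻¹ * g))).toMonoidHom := by rw [mul_inv_cancel_left]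
    _ = H.map (MulAut.conj (k : G)).toMonoidHom := by
      rw [map_conj_mul, map_conj_eq_of_mem_normalizer hn]

/-- Pronormality passes to quotients. -/
theorem isPronormal_of_comap {G' : Type*} [Group G'] (π : G →* G') (hπ : Function.Surjective π)
    (H : Subgroup G') (h : IsPronormal (H.comap π)) : IsPronormal H := by
  intro g'
  obtain ⟨g, rfl⟩ := hπ g'
  obtain ⟨x, hx, he⟩ := h g
  have hcomm : ∀ a : G, ((H.comap π).map (MulAut.conj a).toMonoidHom).map π =
      H.map (MulAut.conj (π a)).toMonoidHom := fun a => by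
    conv_rhs => rw [← Subgroup.map_comap_eq_self_of_surjective hπ H]
    rw [Subgroup.map_map, Subgroup.map_map]
    congr 1
    ext y
    simp
  refine ⟨π x, ?_, ?_⟩
  · have hm : π x ∈ ((H.comap π) ⊔ (H.comap π).map (MulAut.conj g).toMonoidHom).map π :=
      Subgroup.mem_map_of_mem π hx
    rwa [Subgroup.map_sup, hcomm, Subgroup.map_comap_eq_self_of_surjective hπ] at hm
  · rw [← hcomm g, ← hcomm x, he]

/-- If every overgroup of one Sylow subgroup `P₀` is normalised by `N(P₀)`, every subgroup of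
index prime to `p` is pronormal. -/
theorem isPronormal_of_sylow_overgroups [Finite G] [hp : Fact p.Prime] (P₀ : Sylow p G)
    (h : ∀ H : Subgroup G, (P₀ : Subgroup G) ≤ H →
      Subgroup.normalizer ((P₀ : Subgroup G) : Set G) ≤ Subgroup.normalizer (H : Set G))
    (H : Subgroup G) (hH : ¬ p ∣ H.index) : IsPronormal H := by
  obtain ⟨Q⟩ := (Sylow.nonempty : Nonempty (Sylow p H))
  have hQ : ¬ p ∣ ((Q : Subgroup H).map H.subtype).index := by
    rw [Subgroup.index_map_subtype, hp.out.dvd_mul]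
    exact fun hd => hd.elim Q.not_dvd_index hH
  let P : Sylow p G := (Q.isPGroup'.map H.subtype).toSylow hQ
  have hPH : (P : Subgroup G) ≤ H := Subgroup.map_subtype_le _
  refine isPronormal_of_normalizer_le P H hPH ?_
  obtain ⟨a, ha⟩ := MulAction.exists_smul_eq G P₀ P
  have hPe : ∀ y : G, a * y * a⁻¹ ∈ (P : Subgroup G) ↔ y ∈ (P₀ : Subgroup G) := fun y => by
    rw [← ha, Sylow.coe_subgroup_smul, Subgroup.mem_pointwise_smul_iff_inv_smul_mem]
    simp [mul_assoc]
  let H' : Subgroup G := H.comap (MulAut.conj a).toMonoidHom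
  have hH' : (P₀ : Subgroup G) ≤ H' := fun y hy => hPH ((hPe y).2 hy)
  intro n hn
  have hn' : a⁻¹ * n * a ∈ Subgroup.normalizer ((P₀ : Subgroup G) : Set G) := by
    rw [Subgroup.mem_normalizer_iff]
    intro y
    rw [← hPe y, ← hPe (a⁻¹ * n * a * y * (a⁻¹ * n * a)⁻¹),
      show a * (a⁻¹ * n * a * y * (a⁻¹ * n * a)⁻¹) * a⁻¹ = n * (a * y * a⁻¹) * n⁻¹ by group]
    exact Subgroup.mem_normalizer_iff.1 hn _
  rw [Subgroup.mem_normalizer_iff]
  intro x
  have := Subgroup.mem_normalizer_iff.1 (h H' hH' hn') (a⁻¹ * x * a)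
  simpa [H', mul_assoc] using this

/-- The subgroups above a Sylow subgroup `P` are normalised by `N(P) = P L`, when `L` is abelian
and every element lies in a double coset of `P` by an element normalising `L` modulo `N(P)`. -/
theorem normalizer_le_of_bruhat [Finite G] [Fact p.Prime] (P : Sylow p G) (L : Subgroup G)
    (hLP : L ≤ Subgroup.normalizer ((P : Subgroup G) : Set G))
    (hLc : ∀ x ∈ L, ∀ y ∈ L, x * y = y * x)
    (hN : ∀ g ∈ Subgroup.normalizer ((P : Subgroup G) : Set G),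
      ∃ u ∈ (P : Subgroup G), ∃ l ∈ L, g = u * l)
    (hB : ∀ g : G, ∃ u ∈ (P : Subgroup G), ∃ n : G,
      (∀ l ∈ L, n⁻¹ * l * n ∈ Subgroup.normalizer ((P : Subgroup G) : Set G)) ∧
      (u * n)⁻¹ * g ∈ Subgroup.normalizer ((P : Subgroup G) : Set G))
    {H : Subgroup G} (hPH : (P : Subgroup G) ≤ H) :
    Subgroup.normalizer ((P : Subgroup G) : Set G) ≤ Subgroup.normalizer (H : Set G) := by
  have hNmem : ∀ {n y : G}, n ∈ Subgroup.normalizer ((P : Subgroup G) : Set G) →
      y ∈ (P : Subgroup G) → n * y * n⁻¹ ∈ (P : Subgroup G) :=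
    fun hn hy => (Subgroup.mem_normalizer_iff.1 hn _).1 hy
  let S : Set G := {x | ∃ h ∈ H, ∃ y ∈ (P : Subgroup G), x = h * y * h⁻¹}
  set H0 := Subgroup.closure S with hH0
  have hH0H : H0 ≤ H := (Subgroup.closure_le H).2 fun x ⟨h, hh, y, hy, he⟩ =>
    he ▸ H.mul_mem (H.mul_mem hh (hPH hy)) (H.inv_mem hh)
  have hgen : ∀ h ∈ H, ∀ y ∈ (P : Subgroup G), h * y * h⁻¹ ∈ H0 :=
    fun h hh y hy => Subgroup.subset_closure ⟨h, hh, y, hy, rfl⟩
  have hPH0 : (P : Subgroup G) ≤ H0 := fun y hy => by simpa using hgen 1 H.one_mem y hy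
  have hLH0 : ∀ t ∈ L, ∀ x ∈ H0, t * x * t⁻¹ ∈ H0 := by
    intro t ht x hx
    induction hx using Subgroup.closure_induction with
    | mem x hx =>
      obtain ⟨h, hh, y, hy, rfl⟩ := hx
      obtain ⟨u, hu, n, hn, hb⟩ := hB h
      set b := (u * n)⁻¹ * h with hbdef
      have hy1 : b * y * b⁻¹ ∈ (P : Subgroup G) := hNmem hb hy
      have hy2 : (n⁻¹ * t * n) * (b * y * b⁻¹) * (n⁻¹ * t * n)⁻¹ ∈ (P : Subgroup G) :=
        hNmem (hn t ht) hy1
      have hy3 : b⁻¹ * ((n⁻¹ * t * n) * (b * y * b⁻¹) * (n⁻¹ * t * n)⁻¹) * (b⁻¹)⁻¹ ∈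
          (P : Subgroup G) := hNmem (inv_mem hb) hy2
      have e : t * (h * y * h⁻¹) * t⁻¹ = (t * u * t⁻¹) * (u⁻¹ *
          (h * (b⁻¹ * ((n⁻¹ * t * n) * (b * y * b⁻¹) * (n⁻¹ * t * n)⁻¹) * (b⁻¹)⁻¹) * h⁻¹) * u) *
          (t * u * t⁻¹)⁻¹ := by
        rw [hbdef]; group
      rw [e]
      have hu' : t * u * t⁻¹ ∈ H0 := hPH0 (hNmem (hLP ht) hu)
      exact H0.mul_mem (H0.mul_mem hu' (H0.mul_mem (H0.mul_mem (H0.inv_mem (hPH0 hu))
        (hgen h hh _ hy3)) (hPH0 hu))) (H0.inv_mem hu')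
    | one => simp
    | mul x y _ _ hx hy =>
      rw [show t * (x * y) * t⁻¹ = (t * x * t⁻¹) * (t * y * t⁻¹) by group]
      exact H0.mul_mem hx hy
    | inv x _ hx =>
      rw [show t * x⁻¹ * t⁻¹ = (t * x * t⁻¹)⁻¹ by group]
      exact H0.inv_mem hx
  have hLH : ∀ t ∈ L, ∀ h ∈ H, t * h * t⁻¹ ∈ H := by
    intro t ht h hh
    have h2 : ((h • P : Sylow p G) : Subgroup G) ≤ H0 := by
      intro x hx
      rw [Sylow.coe_subgroup_smul, Subgroup.mem_pointwise_smul_iff_inv_smul_mem] at hx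
      have := hgen h hh _ hx
      simpa [mul_assoc] using this
    obtain ⟨k, hk⟩ := MulAction.exists_smul_eq H0 (P.subtype hPH0) ((h • P).subtype h2)
    have hk' : (k : G) • P = h • P := by
      rw [Sylow.smul_subtype] at hk
      exact Sylow.subtype_injective hk
    obtain ⟨u, hu, l, hl, he⟩ := hN ((k : G)⁻¹ * h)
      (Sylow.smul_eq_iff_mem_normalizer.1 (by rw [mul_smul, inv_smul_eq_iff, hk']))
    have hlH : l ∈ H := by
      have : u⁻¹ * ((k : G)⁻¹ * h) = l := by rw [he]; group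
      rw [← this]
      exact H.mul_mem (H.inv_mem (hPH hu)) (H.mul_mem (H.inv_mem (hH0H k.2)) hh)
    have e : t * h * t⁻¹ = (t * k * t⁻¹) * ((t * u * t⁻¹) * l) := by
      rw [show h = (k : G) * (u * l) by rw [← he]; group]
      calc t * ((k : G) * (u * l)) * t⁻¹ = (t * k * t⁻¹) * ((t * u * t⁻¹) * (t * l * t⁻¹)) := by
            group
        _ = _ := by rw [hLc t ht l hl, mul_inv_cancel_right]
    rw [e]
    exact H.mul_mem (hH0H (hLH0 t ht _ k.2)) (H.mul_mem (hPH (hNmem (hLP ht) hu)) hlH)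
  intro g hg
  obtain ⟨u, hu, l, hl, rfl⟩ := hN g hg
  refine mul_mem (Subgroup.le_normalizer (hPH hu)) ?_
  rw [Subgroup.mem_normalizer_iff]
  intro x
  refine ⟨hLH l hl x, fun hx => ?_⟩
  have := hLH l⁻¹ (L.inv_mem hl) _ hx
  simpa [mul_assoc] using this

end CfsgLib.InvChar.Pronormal
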