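/-
InvChar: in `SL_n` every overgroup of the unitriangular group is normalised by the diagonal, so
subgroups of index prime to the characteristic are pronormal.
-/
import Cfsg.Agent.Lib.InvChar.PronormalBasic
import Cfsg.Agent.Lib.ClassK.SLBruhat
import Cfsg.Agent.Lib.ClassicalLinear.Sylow

set_option autoImplicit false
set_option linter.unusedSectionVars false

open Matrix
open CfsgLib.ClassK.SLn

namespace CfsgLib.InvChar.Pronormal

variable {F : Type*} [Field F] [Fintype F] {n : ℕ}

local notation "𝔾" => Matrix.SpecialLinearGroup (Fin n) F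

/-- The diagonal subgroup. -/
def diagSL (n : ℕ) (F : Type*) [Field F] : Subgroup (Matrix.SpecialLinearGroup (Fin n) F) where
  carrier := {g | IsMono 1 g}
  mul_mem' := fun {a b} ha hb => by simpa using ha.mul hb
  one_mem' := isMono_one
  inv_mem' := fun {a} ha => by simpa using ha.inv

theorem mem_diagSL {g : 𝔾} : g ∈ diagSL n F ↔ IsMono 1 g := Iff.rfl

theorem diagSL_comm {x y : 𝔾} (hx : x ∈ diagSL n F) (hy : y ∈ diagSL n F) : x * y = y * x := by
  apply Matrix.SpecialLinearGroup.ext
  intro i j
  rw [Matrix.SpecialLinearGroup.coe_mul, Matrix.SpecialLinearGroup.coe_mul, Matrix.mul_apply, Matrix.mul_apply]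
  refine Finset.sum_congr rfl fun l _ => ?_
  by_cases h1 : i = l
  · subst h1
    by_cases h2 : i = j
    · subst h2; ring
    · rw [hx i j h2, hy i j h2, mul_zero, mul_zero]
  · rw [hx i l h1, hy i l h1, zero_mul, zero_mul]

theorem diagSL_le_normalizer :
    diagSL n F ≤ Subgroup.normalizer ((upperU n F : Subgroup 𝔾) : Set 𝔾) := by
  intro t ht
  rw [Subgroup.mem_normalizer_iff]
  intro u
  constructor
  · intro hu
    have := conj_mem_upperU (by simpa using ((mem_diagSL.1 ht).inv) : IsMono 1 t⁻¹) hu
    rwa [inv_inv] at this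
  · intro hu
    have := conj_mem_upperU (mem_diagSL.1 ht) hu
    simpa [mul_assoc] using this

theorem borel_le_normalizer :
    borel n F ≤ Subgroup.normalizer ((upperU n F : Subgroup 𝔾) : Set 𝔾) := by
  intro b hb
  obtain ⟨u, hu, t, ht, rfl⟩ := exists_upperU_mul_diag (mem_borel.1 hb)
  exact mul_mem (Subgroup.le_normalizer hu) (diagSL_le_normalizer ht)

theorem normalizer_upperU_le_borel :
    Subgroup.normalizer ((upperU n F : Subgroup 𝔾) : Set 𝔾) ≤ borel n F := by
  classical
  intro g hg
  obtain ⟨b, hb, σ, m, hm, b', hb', rfl⟩ := inCell_all g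
  have hm' : m ∈ Subgroup.normalizer ((upperU n F : Subgroup 𝔾) : Set 𝔾) := by
    have := mul_mem (mul_mem (inv_mem (borel_le_normalizer hb)) hg)
      (inv_mem (borel_le_normalizer hb'))
    simpa [mul_assoc] using this
  have hmono : StrictMono ⇑σ⁻¹ := by
    intro i j hij
    by_contra hle
    have hu : (Matrix.SpecialLinearGroup.transvection hij.ne (1 : F) : 𝔾) ∈ upperU n F := by
      refine ⟨fun a c hca => ?_, fun a => ?_⟩
      · rw [Matrix.SpecialLinearGroup.transvection_coe, Matrix.add_apply, Matrix.one_apply_ne hca.ne',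
          zero_add, Matrix.single_apply, if_neg]
        rintro ⟨rfl, rfl⟩
        exact lt_asymm hij hca
      · rw [Matrix.SpecialLinearGroup.transvection_coe, Matrix.add_apply, Matrix.one_apply_eq,
          Matrix.single_apply, if_neg (fun e => hij.ne (e.1.trans e.2.symm)), add_zero]
    have hc : m⁻¹ * Matrix.SpecialLinearGroup.transvection hij.ne (1 : F) * m ∈ upperU n F := by
      have := (Subgroup.mem_normalizer_iff.1 (inv_mem hm') _).1 hu
      simpa using this
    have hlt : σ⁻¹ j < σ⁻¹ i :=
      lt_of_le_of_ne (not_lt.1 hle) fun e => hij.ne' ((σ⁻¹).injective e)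
    have h0 := hc.1 (σ⁻¹ i) (σ⁻¹ j) hlt
    rw [hm.conj_apply hm, Equiv.Perm.inv_def, Equiv.apply_symm_apply, Equiv.apply_symm_apply] at h0
    simp only [Matrix.SpecialLinearGroup.transvection_coe, Matrix.add_apply, Matrix.one_apply_ne hij.ne,
      zero_add, Matrix.single_apply_same, mul_one] at h0
    rcases mul_eq_zero.1 h0 with h | h
    · exact hm.conj_coeff_ne_zero (σ.symm i) (by rwa [Equiv.apply_symm_apply])
    · exact hm.ne_zero (σ.symm j) (by rwa [Equiv.apply_symm_apply])
  have hσ : σ = 1 := by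
    refine inv_eq_one.1 (Equiv.ext fun a => ?_)
    exact congrFun (Subsingleton.elim (hmono.orderIsoOfSurjective _ (σ⁻¹).surjective)
      (OrderIso.refl (Fin n)) |> fun h => congrArg DFunLike.coe h) a
  subst hσ
  exact mul_mem (mul_mem hb (mem_borel.2 (isUp_of_isMono_one hm))) hb'

variable (p : ℕ) [hp : Fact p.Prime] [CharP F p]
include hp

/-- Subgroups of `SL_n` of index prime to the characteristic are pronormal. -/
theorem isPronormal_sl_of_index (H : Subgroup 𝔾) (hH : ¬ p ∣ H.index) : Cfsg.IsPronormal H := by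
  classical
  obtain ⟨Q⟩ := (Sylow.nonempty : Nonempty (Sylow p 𝔾))
  let P : Sylow p 𝔾 := Sylow.ofCard (upperU n F) (by
    rw [card_upperU, ← Q.card_eq_multiplicity, CfsgLib.ClassicalLinear.card_sylow_SL p Q,
      Fintype.card_fin])
  have hP : (P : Subgroup 𝔾) = upperU n F := Sylow.coe_ofCard _ _
  refine isPronormal_of_sylow_overgroups P (fun H hPH => ?_) H hH
  refine normalizer_le_of_bruhat P (diagSL n F) (by rw [hP]; exact diagSL_le_normalizer)
    (fun x hx y hy => diagSL_comm hx hy) ?_ ?_ hPH
  · intro g hg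
    rw [hP] at hg ⊢
    obtain ⟨u, hu, t, ht, rfl⟩ := exists_upperU_mul_diag (mem_borel.1 (normalizer_upperU_le_borel hg))
    exact ⟨u, hu, t, ht, rfl⟩
  · intro g
    rw [hP]
    obtain ⟨b, hb, σ, m, hm, b', hb', rfl⟩ := inCell_all g
    obtain ⟨u, hu, t, ht, rfl⟩ := exists_upperU_mul_diag (mem_borel.1 hb)
    refine ⟨u, hu, t * m, fun l hl => ?_, ?_⟩
    · refine diagSL_le_normalizer (mem_diagSL.2 ?_)
      have h1 := ((ht.mul hm).inv.mul (mem_diagSL.1 hl)).mul (ht.mul hm)
      simpa using h1
    · rw [show (u * (t * m))⁻¹ * (u * t * m * b') = b' by group]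
      exact borel_le_normalizer hb'

end CfsgLib.InvChar.Pronormal
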