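/-
InvChar: groups acting on a polar space with trivial anisotropic part: overgroups of the unipotent
group of a chamber are normalised by the torus, so subgroups of index prime to the characteristic
are pronormal.
-/
import Cfsg.Agent.Lib.InvChar.PronormalBasic
import Cfsg.Agent.Lib.InvChar.ChamberPanel
import Cfsg.Agent.Lib.Generators.Steinberg.Herm

set_option autoImplicit false
set_option linter.unusedSectionVars false

open CfsgLib.Generators.Steinberg CfsgLib.Generators.Steinberg.Polar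

namespace CfsgLib.InvChar.Pronormal

variable {F : Type*} [Field F] [Finite F] {V : Type*} [AddCommGroup V] [Module F V] [Finite V]
  {m : ℕ} {G : Type*} [Group G] {P : Polar F V m} (A : Act P G)

theorem wlev_eq_imp {w w' : Equiv.Perm (Fin m) × (Fin m → Bool)}
    (h : ∀ i, wlev w i = wlev w' i) : w = w' := by
  have key : ∀ i, w.2 i = w'.2 i ∧ w.1 i = w'.1 i := fun i => by
    have hi' := h i
    simp only [wlev] at hi'
    cases e : w.2 i <;> cases e' : w'.2 i <;> simp [e, e'] at hi'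
    · exact ⟨rfl, lo_injective hi'⟩
    · exact absurd hi' (lo_ne_hi _ _)
    · exact absurd hi'.symm (lo_ne_hi _ _)
    · exact ⟨rfl, hi_injective hi'⟩
  exact Prod.ext (Equiv.ext fun i => (key i).2) (funext fun i => (key i).1)

theorem wcham_inj {w w' : Equiv.Perm (Fin m) × (Fin m → Bool)}
    (h : wcham P w = wcham P w') : w = w' :=
  wlev_eq_imp fun i => by rw [← lev_wcham (P := P), h, lev_wcham]

theorem height_borel {g : G} (hg : g ∈ A.borel) (x : Cham P) : (A.act g x).height = x.height :=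
  Finset.sum_congr rfl fun i _ => by rw [A.lev_borel hg]

theorem act_injective (g : G) : Function.Injective (A.act g) := fun x y h => by
  rw [← A.act_inv_act g x, h, A.act_inv_act]

/-- Bruhat decomposition: the unipotent group meets every orbit on the apartment. -/
theorem exists_unip_act_eq {p : ℕ} (hA : A.Good p) :
    ∀ x : Cham P, (∃ g w, x = A.act g (wcham P w)) →
      ∃ u ∈ A.unip, ∃ w, x = A.act u (wcham P w) := by
  suffices H : ∀ k : ℕ, ∀ x : Cham P, m * (2 * m * m) - x.height = k →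
      (∃ g w, x = A.act g (wcham P w)) → ∃ u ∈ A.unip, ∃ w, x = A.act u (wcham P w) from
    fun x hx => H _ x rfl hx
  intro k
  induction k using Nat.strong_induction_on with
  | _ k ih =>
    intro x hk hx
    by_cases ho : x.IsOpp
    · obtain ⟨u, hu, h⟩ := Act.exists_unip_opp hA ho
      exact ⟨u⁻¹, inv_mem hu, w0, (A.act_inv_eq h).symm⟩
    obtain ⟨i, S, hS⟩ := descent_levels x ho
    obtain ⟨g, w, rfl⟩ := hx
    set x := A.act g (wcham P w) with hxdef
    set y := A.act g (wcham P (wflip i w)) with hy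
    have hadj : Cham.Adj i x y := A.adj_act g (adj_wflip P i w)
    have hne : y ≠ x := fun e => wflip_ne i w (wcham_inj (act_injective A g e))
    have hlt := (hS y hadj hne).1
    have := y.height_le
    obtain ⟨u, hu, v, hv⟩ := ih (m * (2 * m * m) - y.height) (by omega) y rfl ⟨g, _, hy⟩
    by_cases hz : A.act u (wcham P (wflip i v)) = x
    · exact ⟨u, hu, _, hz.symm⟩
    exfalso
    have hadj' : Cham.Adj i x (A.act u (wcham P (wflip i v))) :=
      hadj.trans (hv ▸ A.adj_act u (adj_wflip P i v))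
    refine wflip_ne i v (wlev_eq_imp fun l => ?_)
    rw [← lev_wcham (P := P), ← lev_wcham (P := P) v, ← A.lev_borel (A.unip_le_borel hu),
      ← A.lev_borel (A.unip_le_borel hu) (wcham P v), ← hv, (hS _ hadj' hz).2, (hS y hadj hne).2]

/-- The elements fixing both ends of the apartment. -/
def torusSub : Subgroup G where
  carrier := {g | g ∈ A.borel ∧ A.act g (D0 P) = D0 P}
  one_mem' := ⟨one_mem _, A.act_one _⟩
  mul_mem' := fun {g h} hg hh => ⟨mul_mem hg.1 hh.1, by rw [A.act_mul, hh.2, hg.2]⟩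
  inv_mem' := fun {g} hg => ⟨inv_mem hg.1, A.act_inv_eq hg.2⟩

theorem mem_spanPre_f {g : G} (hg : A.act g (D0 P) = D0 P) {k : Fin (m + 1)} {v : V}
    (hv : v ∈ spanPre (F := F) P.f k) : A.ρ g v ∈ spanPre (F := F) P.f k := by
  have h : ((D0 P).toFun k).map (A.ρ g : V →ₗ[F] V) = (D0 P).toFun k :=
    congrArg (fun x : Cham P => x.toFun k) hg
  rw [D0_toFun] at h
  rw [← h]
  exact Submodule.mem_map_of_mem hv

theorem K_e_of_mem_spanPre_f {k : Fin (m + 1)} {v : V} (hv : v ∈ spanPre (F := F) P.f k)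
    {j : Fin m} (hj : (k : ℕ) ≤ j) : P.K v (P.e j) = 0 :=
  (Submodule.span_le.2 (show _ ⊆ (LinearMap.ker (P.kL (P.e j)) : Set V) by
    rintro _ ⟨s, rfl⟩
    refine (P.K_fe _ _).trans (if_neg fun e => ?_)
    have h2 : (s : ℕ) = j := by rw [← e]; rfl
    have := s.2
    omega)) hv

theorem K_f_of_mem_spanPre_f {k : Fin (m + 1)} {v : V} (hv : v ∈ spanPre (F := F) P.f k)
    (j : Fin m) : P.K v (P.f j) = 0 :=
  (Submodule.span_le.2 (show _ ⊆ (LinearMap.ker (P.kL (P.f j)) : Set V) by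
    rintro _ ⟨s, rfl⟩; exact P.K_ff _ _)) hv

theorem K_f_of_mem_spanPre_e {k : Fin (m + 1)} {v : V} (hv : v ∈ spanPre (F := F) P.e k)
    {j : Fin m} (hj : (k : ℕ) ≤ j) : P.K v (P.f j) = 0 := by
  rw [← c_lo]; exact Act.c_eq_zero_of_mem hv (by rw [lo_val]; exact hj)

theorem K_e_of_mem_spanPre_e {k : Fin (m + 1)} {v : V} (hv : v ∈ spanPre (F := F) P.e k)
    (j : Fin m) : P.K v (P.e j) = 0 :=
  (Submodule.span_le.2 (show _ ⊆ (LinearMap.ker (P.kL (P.e j)) : Set V) by
    rintro _ ⟨s, rfl⟩; exact P.K_ee _ _)) hv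

variable (hspan : ∀ v : V, (∀ i, P.K v (P.e i) = 0 ∧ P.K v (P.f i) = 0) → v = 0)
include hspan

theorem torus_smul_e {l : G} (hl : l ∈ torusSub A) (i : Fin m) :
    ∃ a : F, A.ρ l (P.e i) = a • P.e i := by
  have hE : A.ρ l (P.e i) ∈ spanPre (F := F) P.e i.succ :=
    A.mem_spanPre_of_borel hl.1 (mem_spanPre (by simp))
  refine ⟨P.K (A.ρ l (P.e i)) (P.f i), sub_eq_zero.1 (hspan _ fun j => ⟨?_, ?_⟩)⟩
  · rw [P.K_sub_left, P.K_smul, P.K_ee, mul_zero, sub_zero, K_e_of_mem_spanPre_e hE]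
  · rw [P.K_sub_left, P.K_smul, P.K_ef]
    rcases lt_trichotomy i j with h | h | h
    · rw [if_neg h.ne, mul_zero, sub_zero, K_f_of_mem_spanPre_e hE (by simp; omega)]
    · subst h; rw [if_pos rfl, mul_one, sub_self]
    · rw [if_neg h.ne', mul_zero, sub_zero, A.K_move]
      refine P.K_eq_zero_symm (K_e_of_mem_spanPre_f
        (mem_spanPre_f A (inv_mem hl : l⁻¹ ∈ torusSub A).2 (mem_spanPre (k := j.succ) (by simp)))
        (by simp; omega))

theorem torus_smul_f {l : G} (hl : l ∈ torusSub A) (i : Fin m) :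
    ∃ a : F, A.ρ l (P.f i) = a • P.f i := by
  have hF : A.ρ l (P.f i) ∈ spanPre (F := F) P.f i.succ :=
    mem_spanPre_f A hl.2 (mem_spanPre (by simp))
  refine ⟨P.ε⁻¹ * P.K (A.ρ l (P.f i)) (P.e i), sub_eq_zero.1 (hspan _ fun j => ⟨?_, ?_⟩)⟩
  · rw [P.K_sub_left, P.K_smul, P.K_fe]
    rcases lt_trichotomy i j with h | h | h
    · rw [if_neg h.ne, mul_zero, sub_zero, K_e_of_mem_spanPre_f hF (by simp; omega)]
    · subst h; rw [if_pos rfl, mul_right_comm, inv_mul_cancel₀ P.ε_ne, one_mul, sub_self]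
    · rw [if_neg h.ne', mul_zero, sub_zero, A.K_move]
      exact P.K_eq_zero_symm (K_f_of_mem_spanPre_e
        (A.mem_spanPre_of_borel (inv_mem hl.1) (mem_spanPre (k := j.succ) (by simp)))
        (by simp; omega))
  · rw [P.K_sub_left, P.K_smul, P.K_ff, mul_zero, sub_zero, K_f_of_mem_spanPre_f hF]

theorem torus_comm {x y : G} (hx : x ∈ torusSub A) (hy : y ∈ torusSub A) : x * y = y * x := by
  refine A.inj (LinearEquiv.ext fun v => sub_eq_zero.1 (hspan _ fun j => ?_))
  have hx' := inv_mem hx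
  have hy' := inv_mem hy
  obtain ⟨a, ha⟩ := torus_smul_e A hspan hx' j
  obtain ⟨b, hb⟩ := torus_smul_e A hspan hy' j
  obtain ⟨a', ha'⟩ := torus_smul_f A hspan hx' j
  obtain ⟨b', hb'⟩ := torus_smul_f A hspan hy' j
  constructor
  · rw [P.K_sub_left, A.K_move, A.K_move (y * x), mul_inv_rev, mul_inv_rev, A.ρ_mul, A.ρ_mul, ha,
      hb, map_smul, map_smul, ha, hb, smul_smul, smul_smul, mul_comm, sub_self]
  · rw [P.K_sub_left, A.K_move, A.K_move (y * x), mul_inv_rev, mul_inv_rev, A.ρ_mul, A.ρ_mul, ha',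
      hb', map_smul, map_smul, ha', hb', smul_smul, smul_smul, mul_comm, sub_self]

theorem torus_fix_wcham {l : G} (hl : l ∈ torusSub A) (w : Equiv.Perm (Fin m) × (Fin m → Bool)) :
    A.act l (wcham P w) = wcham P w := by
  refine Cham.ext (funext fun k => Submodule.eq_of_le_of_finrank_le ?_ ?_)
  · show (spanPre (F := F) (fun i => P.b (wlev w i)) k).map (A.ρ l : V →ₗ[F] V) ≤
      spanPre (F := F) (fun i => P.b (wlev w i)) k
    rw [spanPre, Submodule.map_span_le]
    rintro _ ⟨j, rfl⟩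
    obtain ⟨a, ha⟩ : ∃ a : F, A.ρ l (P.b (wlev w (Fin.castLE k.is_le j))) =
        a • P.b (wlev w (Fin.castLE k.is_le j)) := by
      rcases eq_lo_or_hi (wlev w (Fin.castLE k.is_le j)) with ⟨s, hs⟩ | ⟨s, hs⟩ <;> rw [hs]
      · rw [P.b_lo]; exact torus_smul_e A hspan hl s
      · rw [P.b_hi]; exact torus_smul_f A hspan hl s
    show A.ρ l _ ∈ _
    rw [ha]
    exact Submodule.smul_mem _ _ (Submodule.subset_span ⟨j, rfl⟩)
  · rw [(A.act l (wcham P w)).finrank', (wcham P w).finrank']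

omit hspan in
theorem sub1_mem_of_unip {u : G} (hu : u ∈ A.unip) {i : Fin m} {v : V}
    (hv : v ∈ spanPre (F := F) P.e i.succ) :
    A.ρ u v - v ∈ spanPre (F := F) P.e i.castSucc := by
  have hle : spanPre (F := F) P.e i.succ ≤
      (spanPre (F := F) P.e i.castSucc).comap ((A.ρ u : V →ₗ[F] V) - LinearMap.id) :=
    Submodule.span_le.2 (by
      rintro _ ⟨s, rfl⟩
      show A.ρ u (P.e (Fin.castLE i.succ.is_le s)) - P.e (Fin.castLE i.succ.is_le s) ∈
        spanPre (F := F) P.e i.castSucc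
      set t : Fin m := Fin.castLE i.succ.is_le s
      have ht : (t : ℕ) ≤ i := Nat.le_of_lt_succ (show (s : ℕ) < (i : ℕ) + 1 from s.2)
      have h := hu.2.1 t
      rw [← C0_toFun] at h ⊢
      exact (C0 P).mono' (Fin.le_def.2 (show (t : ℕ) ≤ i from ht)) h)
  exact hle hv

omit hspan in
theorem borel_le_normalizer_unip :
    A.borel ≤ Subgroup.normalizer ((A.unip : Subgroup G) : Set G) := by
  have key : ∀ g ∈ A.borel, ∀ u ∈ A.unip, g * u * g⁻¹ ∈ A.unip := by
    intro g hg u hu
    refine A.mem_unip_of (fun i => ?_) fun z hz => ?_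
    · have hv : A.ρ g⁻¹ (P.e i) ∈ spanPre (F := F) P.e i.succ :=
        A.mem_spanPre_of_borel (inv_mem hg) (mem_spanPre (by simp))
      have := A.mem_spanPre_of_borel hg (sub1_mem_of_unip A hu hv)
      rwa [map_sub, A.ρ_apply_inv, ← A.ρ_mul, ← A.ρ_mul] at this
    · have hv : ∀ i, P.K (A.ρ g⁻¹ z) (P.e i) = 0 := fun i => by
        rw [A.K_move, inv_inv]
        have hm : A.ρ g (P.e i) ∈ spanPre (F := F) P.e i.succ :=
          A.mem_spanPre_of_borel hg (mem_spanPre (by simp))
        exact P.K_eq_zero_symm ((Submodule.span_le.2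
          (show _ ⊆ (LinearMap.ker (P.kL z) : Set V) by
            rintro _ ⟨s, rfl⟩; exact P.K_eq_zero_symm (hz _))) hm)
      have := A.mem_spanPre_of_borel hg (hu.2.2 _ hv)
      rwa [map_sub, A.ρ_apply_inv, ← A.ρ_mul, ← A.ρ_mul] at this
  intro g hg
  rw [Subgroup.mem_normalizer_iff]
  intro u
  refine ⟨key g hg u, fun hu => ?_⟩
  have := key g⁻¹ (inv_mem hg) _ hu
  simpa [mul_assoc] using this

/-- Subgroups of index prime to the characteristic are pronormal. -/
theorem isPronormal_of_polar [Finite G] (p : ℕ) [hp : Fact p.Prime] [CharP F p] (hA : A.Good p)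
    (H : Subgroup G) (hH : ¬ p ∣ H.index) : Cfsg.IsPronormal H := by
  let U : Sylow p G := (A.isPGroup_unip p).toSylow (Act.prime_not_dvd_index hA)
  have hU : (U : Subgroup G) = A.unip := rfl
  have hNB : Subgroup.normalizer ((A.unip : Subgroup G) : Set G) ≤ A.borel := fun g hg => by
    refine Act.fixed_unip_eq hA fun u hu => ?_
    have h1 : g⁻¹ * u * g ∈ A.unip := by
      have := (Subgroup.mem_normalizer_iff.1 (inv_mem hg) u).1 hu
      rwa [inv_inv] at this
    rw [← A.act_mul, show u * g = g * (g⁻¹ * u * g) by group, A.act_mul,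
      A.mem_borel.1 (A.unip_le_borel h1)]
  refine isPronormal_of_sylow_overgroups U (fun H hUH => ?_) H hH
  refine normalizer_le_of_bruhat U (torusSub A)
    (fun l hl => borel_le_normalizer_unip A hl.1) (fun x hx y hy => torus_comm A hspan hx hy)
    ?_ ?_ hUH
  · intro g hg
    have hgB := hNB hg
    obtain ⟨u, hu, h⟩ := Act.exists_unip_opp hA (A.isOpp_borel hgB D0_isOpp)
    exact ⟨u⁻¹, inv_mem hu, u * g, ⟨mul_mem hu.1 hgB, by rw [A.act_mul]; exact h⟩, by simp⟩
  · intro g
    obtain ⟨u, hu, w, hw⟩ := exists_unip_act_eq A hA (A.act g (C0 P)) ⟨g, w1, rfl⟩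
    refine ⟨u, hu, u⁻¹ * g, fun l hl => borel_le_normalizer_unip A (A.mem_borel.2 ?_), ?_⟩
    · rw [A.act_mul, A.act_mul, A.act_mul, hw, A.act_inv_act, torus_fix_wcham A hspan hl,
        mul_inv_rev, inv_inv, A.act_mul, ← hw, A.act_inv_act]
    · rw [mul_inv_cancel_left, inv_mul_cancel]
      exact one_mem _

end CfsgLib.InvChar.Pronormal
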