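/-
InvChar: subgroups of odd index of `PSL_2(q)`, `q` odd, are pronormal.
-/
import Cfsg.Agent.Lib.InvChar.PronormalBasic
import Cfsg.Agent.Lib.SL2.SylowTwo
import Cfsg.Agent.Lib.SL2.Dickson.Main
import Cfsg.Agent.Lib.SL2.Dickson.Index

set_option autoImplicit false
set_option linter.unusedSectionVars false

open Matrix
open scoped MatrixGroups Pointwise
open CfsgLib.SL2 CfsgLib.SL2.Dickson

namespace CfsgLib.InvChar.Pronormal

variable {F : Type*} [Field F] [Finite F]

local notation "SL₂F" => Matrix.SpecialLinearGroup (Fin 2) F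
local notation "PSL₂F" => Matrix.ProjectiveSpecialLinearGroup (Fin 2) F

theorem two_ne_zero_of_card_odd (hq : Nat.card F % 2 = 1) : (2 : F) ≠ 0 := by
  have := Fintype.ofFinite F
  exact two_ne_zero_of_odd (by rw [← Nat.card_eq_fintype_card]; exact Nat.odd_iff.2 hq)

theorem length_le_card {α : Type*} [Finite α] {l : List α} (hl : l.Nodup) :
    l.length ≤ Nat.card α := by
  classical
  have := Fintype.ofFinite α
  rw [Nat.card_eq_fintype_card]
  exact hl.length_le_card

theorem neg_one_comm (x : SL₂F) : x * -1 = -1 * x :=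
  Subgroup.mem_center_iff.1 neg_one_mem_center x

theorem tr_one' : tr (1 : SL₂F) = 2 := by simp [tr]; norm_num

theorem tr_neg_one' : tr (-1 : SL₂F) = -2 := by simp [tr]; norm_num

theorem tr_commutator_borel {u a b : SL₂F} (ha : u * a * u⁻¹ ∈ borel F)
    (hb : u * b * u⁻¹ ∈ borel F) : tr (a * b * a⁻¹ * b⁻¹) = 2 := by
  rw [← tr_conj (a * b * a⁻¹ * b⁻¹) u,
    show u * (a * b * a⁻¹ * b⁻¹) * u⁻¹ = (u * a * u⁻¹) * (u * b * u⁻¹) * (u * a * u⁻¹)⁻¹ *
      (u * b * u⁻¹)⁻¹ by group]
  set A := u * a * u⁻¹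
  set B := u * b * u⁻¹
  have hA := mem_borel.1 ha
  have hB := mem_borel.1 hb
  have dA : (A : Matrix (Fin 2) (Fin 2) F) 0 0 * (A : Matrix (Fin 2) (Fin 2) F) 1 1 = 1 := by
    have := A.det_coe; rw [det_fin_two, hA, mul_zero, sub_zero] at this; exact this
  have dB : (B : Matrix (Fin 2) (Fin 2) F) 0 0 * (B : Matrix (Fin 2) (Fin 2) F) 1 1 = 1 := by
    have := B.det_coe; rw [det_fin_two, hB, mul_zero, sub_zero] at this; exact this
  simp [tr, Matrix.mul_apply, Fin.sum_univ_two, adjugate_fin_two, hA, hB]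
  linear_combination (2 : F) * (B : Matrix (Fin 2) (Fin 2) F) 0 0 *
    (B : Matrix (Fin 2) (Fin 2) F) 1 1 * dA + (2 : F) * dB

/-- An odd-order group normalised by a Sylow 2-subgroup lies in a torus. -/
theorem exists_torus_of_odd (hq : Nat.card F % 2 = 1) (S : Sylow 2 SL₂F) (L : Subgroup SL₂F)
    (hZ : Subgroup.center SL₂F ≤ L) (hodd : Odd (zG L).index)
    (hn : ∀ w ∈ (S : Subgroup SL₂F), ∀ g ∈ L, w * g * w⁻¹ ∈ L)
    (hne : ∃ g ∈ L, g ∉ Subgroup.center SL₂F) (h8 : Nat.card (S : Subgroup SL₂F) = 8) :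
    ∃ g ∈ L, g ∉ Subgroup.center SL₂F ∧ tr g ^ 2 ≠ 4 ∧ ∀ y ∈ L, y * g = g * y := by
  classical
  have h2 := two_ne_zero_of_card_odd hq
  rcases classification hZ with h | h | ⟨h, -⟩ | ⟨h, -⟩ | ⟨h, -⟩ | ⟨R, k, -, h, -⟩
  · obtain ⟨u, hu⟩ := h
    by_cases hex : ∃ g ∈ L, g ∉ Subgroup.center SL₂F ∧ tr g ^ 2 = 4
    · exfalso
      obtain ⟨g, hgL, hgc, hgt⟩ := hex
      obtain ⟨η, hη, x, hx⟩ := borel_unipotent (hu g hgL) (by rwa [tr_conj])
      have hx0 : x ≠ 0 := fun e => hgc (by
        rw [e, upS_zero, mul_one] at hx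
        have := (Subgroup.center SL₂F).normal_of_characteristic.conj_mem _ hη u⁻¹
        rw [← hx] at this
        simpa [mul_assoc] using this)
      have hηB : η ∈ borel F :=
        mem_borel.2 ((mem_center_iff_isScalarMat η).1 hη).2.1
      have hW : ∀ w ∈ (S : Subgroup SL₂F), u * w * u⁻¹ ∈ borel F := by
        intro w hw
        set m := u * w * u⁻¹ with hm
        have h1 : m * (η * CfsgLib.ClassicalLinear.upS x) * m⁻¹ ∈ borel F := by
          rw [← hx, hm]
          have := hu _ (hn w hw g hgL)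
          simpa [mul_assoc] using this
        have h2' : m * CfsgLib.ClassicalLinear.upS x * m⁻¹ ∈ borel F := by
          have e : m * (η * CfsgLib.ClassicalLinear.upS x) * m⁻¹ =
              η * (m * CfsgLib.ClassicalLinear.upS x * m⁻¹) := by
            rw [← mul_assoc m η, Subgroup.mem_center_iff.1 hη m]; group
          rw [e] at h1
          exact ((borel F).mul_mem_cancel_left hηB).1 h1
        have := conj_upS_mem_borel (g := m⁻¹) hx0 (by rwa [inv_inv])
        simpa using (borel F).inv_mem this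
      have hcomm : ∀ a ∈ (S : Subgroup SL₂F), ∀ b ∈ (S : Subgroup SL₂F), a * b = b * a := by
        intro a ha b hb
        set c := a * b * a⁻¹ * b⁻¹ with hc
        have hcS : c ∈ (S : Subgroup SL₂F) :=
          mul_mem (mul_mem (mul_mem ha hb) (inv_mem ha)) (inv_mem hb)
        have htr : tr c = 2 := tr_commutator_borel (hW a ha) (hW b hb)
        obtain ⟨p, hp, hchar, hpq⟩ := exists_charP (F := F)
        have := Fact.mk hp
        have hd := orderOf_dvd_of_pow_eq_one (orderOf_dvd_of_tr_sq_eq (p := p)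
          (show tr c ^ 2 = 4 by rw [htr]; norm_num))
        obtain ⟨k, hk⟩ := (IsPGroup.iff_orderOf.1 S.isPGroup') ⟨c, hcS⟩
        rw [← Subgroup.orderOf_coe] at hk
        change orderOf c = 2 ^ k at hk
        have hp2 : Nat.Coprime (orderOf c) p := by
          rw [hk]
          refine Nat.Coprime.pow_left k ((Nat.coprime_primes Nat.prime_two hp).2 fun e => ?_)
          rw [← e] at hpq
          omega
        have hc2 : c ^ 2 = 1 := orderOf_dvd_iff_pow_eq_one.1 (hp2.dvd_of_dvd_mul_right hd)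
        have hc1 : c = 1 := by
          by_contra hne'
          rw [eq_neg_one_of_sq_eq_one h2 hc2 hne', tr_neg_one'] at htr
          have h4 : (2 : F) * 2 = 0 := by linear_combination -htr
          exact h2 ((mul_self_eq_zero).1 h4)
        rw [hc, mul_inv_eq_one, mul_inv_eq_iff_eq_mul] at hc1
        exact hc1
      have hle : (S : Subgroup SL₂F) ≤ Subgroup.center SL₂F := fun a ha => by
        rw [← (sylow_two_structure hq S).1, Subgroup.mem_centralizer_iff]
        exact fun b hb => hcomm b hb a ha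
      have := Subgroup.card_le_of_le hle
      rw [h8, center_card_of_odd h2] at this
      omega
    · push Not at hex
      obtain ⟨g, hgL, hgc⟩ := hne
      refine ⟨g, hgL, hgc, hex g hgL hgc, fun y hy => ?_⟩
      set c := y * g * y⁻¹ * g⁻¹ with hc
      have hcL : c ∈ L := mul_mem (mul_mem (mul_mem hy hgL) (inv_mem hy)) (inv_mem hgL)
      have htr : tr c = 2 := tr_commutator_borel (hu y hy) (hu g hgL)
      have hcc : c ∈ Subgroup.center SL₂F := by
        by_contra hcc
        exact hex c hcL hcc (by rw [htr]; norm_num)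
      rcases (mem_center_iff c).1 hcc with e | e
      · rw [hc, mul_inv_eq_one, mul_inv_eq_iff_eq_mul] at e
        exact e
      · rw [e, tr_neg_one'] at htr
        have h4 : (2 : F) * 2 = 0 := by linear_combination -htr
        exact absurd (mul_self_eq_zero.1 h4) h2
  · obtain ⟨g, hg, ht, hN⟩ := h
    refine ⟨g, g.2, hg, ht, fun y hy => ?_⟩
    rcases (normalizer_cG_iff ht (⟨y, hy⟩ : L)).1 (hN ▸ Subgroup.mem_top _) with e | e
    · exact mul_inv_eq_iff_eq_mul.1 e
    exfalso
    have hyy : y * y = -1 := mul_self_eq_neg_one hg e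
    have : (zG L).Normal := ⟨fun z hz x => mem_zG.2 <| by
      simpa using (Subgroup.center SL₂F).normal_of_characteristic.conj_mem _ hz (x : SL₂F)⟩
    have hpow : ((⟨y, hy⟩ : L) : L ⧸ zG L) ^ 2 = 1 := by
      rw [← QuotientGroup.mk_pow, mk_zG_eq_one, mem_zG, Subgroup.coe_pow, sq]
      show y * y ∈ _
      rw [hyy]
      exact neg_one_mem_center
    have hne' : ((⟨y, hy⟩ : L) : L ⧸ zG L) ≠ 1 := fun e1 => by
      rw [mk_zG_eq_one, mem_zG] at e1
      rcases (mem_center_iff y).1 e1 with rfl | rfl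
      · exact neg_one_ne_one h2 (by simpa using hyy.symm)
      · exact neg_one_ne_one h2 (by simpa using hyy.symm)
    have ho := orderOf_eq_prime hpow hne'
    have := ho ▸ orderOf_dvd_natCard ((⟨y, hy⟩ : L) : L ⧸ zG L)
    rw [← Subgroup.index_eq_card] at this
    rw [Nat.odd_iff] at hodd
    omega
  · rw [Nat.odd_iff] at hodd; omega
  · rw [Nat.odd_iff] at hodd; omega
  · rw [Nat.odd_iff] at hodd; omega
  · exfalso
    have hR : Odd (Nat.card R) := by
      have : Fintype R := Fintype.ofFinite R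
      have : Fintype F := Fintype.ofFinite F
      have hpow : Nat.card F = Nat.card R ^ Module.finrank R F :=
        Module.natCard_eq_pow_finrank (K := R) (V := F)
      have hm : Module.finrank R F ≠ 0 := Module.finrank_pos.ne'
      rw [hpow, ← Nat.odd_iff, Nat.odd_pow_iff hm] at hq
      exact hq
    rw [h, Nat.odd_iff] at hodd
    have hev : (Nat.card R + 1) % 2 = 0 := by rw [Nat.odd_iff] at hR; omega
    rw [Nat.mul_mod, hev] at hodd
    simp at hodd

/-- Odd index subgroups of `PSL_2(q)`, `q` odd. -/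
theorem isPronormal_psl_two (hq : Nat.card F % 2 = 1) (H : Subgroup PSL₂F) (hH : Odd H.index) :
    Cfsg.IsPronormal H := by
  classical
  have h2 := two_ne_zero_of_card_odd hq
  have : Fact (Nat.Prime 2) := ⟨Nat.prime_two⟩
  have hsurj : Function.Surjective (proj (F := F)) := proj_surjective
  have hker : (proj (F := F)).ker = Subgroup.center SL₂F := QuotientGroup.ker_mk' _
  obtain ⟨Q⟩ := (Sylow.nonempty : Nonempty (Sylow 2 H))
  have hQ : ¬ 2 ∣ ((Q : Subgroup H).map H.subtype).index := by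
    rw [Subgroup.index_map_subtype, Nat.prime_two.dvd_mul]
    rw [Nat.odd_iff] at hH
    exact fun hd => hd.elim Q.not_dvd_index (by omega)
  let P : Sylow 2 PSL₂F := (Q.isPGroup'.map H.subtype).toSylow hQ
  have hPH : (P : Subgroup PSL₂F) ≤ H := Subgroup.map_subtype_le _
  have hkerp : IsPGroup 2 (proj (F := F)).ker := by
    rw [hker]
    exact IsPGroup.of_card (n := 1) (by rw [center_card_of_odd h2, pow_one])
  let S : Sylow 2 SL₂F := (P.isPGroup'.comap_of_ker_isPGroup proj hkerp).toSylow (by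
    rw [Subgroup.index_comap_of_surjective _ hsurj]; exact P.not_dvd_index)
  have hS : (S : Subgroup SL₂F) = lift (P : Subgroup PSL₂F) := rfl
  obtain ⟨g₀, ht₀, h4, -, hSc⟩ := sylow_two_exists_torus hq S
  set T := Nat.card (Subgroup.centralizer ({g₀} : Set SL₂F))
  have hv : 2 ≤ T.factorization 2 :=
    (Nat.Prime.pow_dvd_iff_le_factorization Nat.prime_two Nat.card_pos.ne').1 h4
  have hlift : (Subgroup.normalizer ((P : Subgroup PSL₂F) : Set PSL₂F)).comap proj =
      Subgroup.normalizer ((S : Subgroup SL₂F) : Set SL₂F) :=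
    Subgroup.comap_normalizer_eq_of_surjective _ hsurj
  obtain ⟨hC, h16, hN24⟩ := sylow_two_structure hq S
  rcases (by omega : 3 ≤ T.factorization 2 ∨ T.factorization 2 = 2) with hv3 | hv2
  · have hNS := h16 (by
      rw [hSc, show (16 : ℕ) = 2 * 2 ^ 3 by norm_num]
      exact Nat.mul_dvd_mul_left 2 (pow_dvd_pow 2 hv3))
    refine isPronormal_of_comap proj hsurj H (isPronormal_of_normalizer_le S _ ?_ ?_)
    · exact Subgroup.comap_mono hPH
    · rw [hNS]
      exact (Subgroup.comap_mono hPH).trans Subgroup.le_normalizer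
  have h8 : Nat.card (S : Subgroup SL₂F) = 8 := by rw [hSc, hv2]; norm_num
  have hN12 : Nat.card (Subgroup.normalizer ((P : Subgroup PSL₂F) : Set PSL₂F)) = 12 := by
    have := card_lift (Subgroup.normalizer ((P : Subgroup PSL₂F) : Set PSL₂F))
    rw [show lift (Subgroup.normalizer ((P : Subgroup PSL₂F) : Set PSL₂F)) =
      Subgroup.normalizer ((S : Subgroup SL₂F) : Set SL₂F) from hlift, hN24 h8,
      center_card_of_odd h2] at this
    omega
  have hP4 : Nat.card (P : Subgroup PSL₂F) = 4 := by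
    have := card_lift (P : Subgroup PSL₂F)
    rw [← hS, h8, center_card_of_odd h2] at this
    omega
  -- odd-order elements centralising `P` are trivial
  have hcent : ∀ x : PSL₂F, Odd (orderOf x) → (∀ v ∈ (P : Subgroup PSL₂F), x * v = v * x) →
      x = 1 := by
    intro x hx hcomm
    obtain ⟨y, rfl⟩ := hsurj x
    have hy : y ^ 2 ∈ Subgroup.center SL₂F := by
      rw [← hC, Subgroup.mem_centralizer_iff]
      intro s hs
      have hc : y * s * y⁻¹ * s⁻¹ ∈ Subgroup.center SL₂F := by
        rw [← hker, MonoidHom.mem_ker, map_mul, map_mul, map_mul, map_inv, map_inv,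
          hcomm _ hs, mul_inv_cancel_right, mul_inv_cancel]
      have hys : y * s * y⁻¹ = (y * s * y⁻¹ * s⁻¹) * s := by group
      symm
      rw [← mul_inv_eq_iff_eq_mul]
      rcases (mem_center_iff _).1 hc with e | e <;> rw [e] at hys
      · rw [sq, show y * y * s * (y * y)⁻¹ = y * (y * s * y⁻¹) * y⁻¹ by group, hys, one_mul, hys,
          one_mul]
      · rw [sq, show y * y * s * (y * y)⁻¹ = y * (y * s * y⁻¹) * y⁻¹ by group, hys, ← mul_assoc,
          neg_one_comm y, mul_assoc, mul_assoc, ← mul_assoc y s, hys, ← mul_assoc,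
          neg_mul_neg, one_mul, one_mul]
    have h1 : proj y ^ 2 = 1 := by
      rw [← map_pow, ← MonoidHom.mem_ker, hker]; exact hy
    obtain ⟨j, hj, hjo⟩ := (Nat.dvd_prime_pow Nat.prime_two).1
      (show orderOf (proj y) ∣ 2 ^ 1 by rw [pow_one]; exact orderOf_dvd_of_pow_eq_one h1)
    rcases j with _ | j
    · exact orderOf_eq_one_iff.1 (by rw [hjo, pow_zero])
    · rw [Nat.odd_iff, hjo, pow_succ] at hx
      omega
  have hPsq : ∀ x ∈ (P : Subgroup PSL₂F), x * x = 1 := by
    intro x hx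
    obtain ⟨y, rfl⟩ := hsurj x
    have hyS : y ∈ (S : Subgroup SL₂F) := hx
    have hd : orderOf y ∣ 2 ^ 3 := (Subgroup.orderOf_dvd_natCard _ hyS).trans (by rw [h8]; norm_num)
    obtain ⟨j, hj3, hj⟩ := (Nat.dvd_prime_pow Nat.prime_two).1 hd
    have hy4 : y ^ 4 = 1 := by
      by_contra hne
      have hj' : j = 3 := by
        by_contra hj'
        refine hne (orderOf_dvd_iff_pow_eq_one.1 ?_)
        rw [hj]
        exact (pow_dvd_pow 2 (show j ≤ 2 by omega) : (2 : ℕ) ^ j ∣ 2 ^ 2)
      have hz : Subgroup.zpowers y = (S : Subgroup SL₂F) :=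
        Subgroup.eq_of_le_of_card_ge (Subgroup.zpowers_le.2 hyS)
          (by rw [h8, Nat.card_zpowers, hj, hj']; norm_num)
      have hle : (S : Subgroup SL₂F) ≤ Subgroup.center SL₂F := fun a ha => by
        rw [← hC, Subgroup.mem_centralizer_iff]
        intro b hb
        rw [SetLike.mem_coe, ← hz] at hb
        rw [← hz] at ha
        obtain ⟨i, rfl⟩ := Subgroup.mem_zpowers_iff.1 ha
        obtain ⟨l, rfl⟩ := Subgroup.mem_zpowers_iff.1 hb
        rw [← _root_.zpow_add, ← _root_.zpow_add, add_comm]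
      have := Subgroup.card_le_of_le hle
      rw [h8, center_card_of_odd h2] at this
      omega
    have hc : y * y ∈ Subgroup.center SL₂F :=
      (mem_center_iff _).2 (or_iff_not_imp_left.2
        (eq_neg_one_of_sq_eq_one h2 (by rw [← sq, ← pow_mul]; exact hy4)))
    rw [← map_mul, ← MonoidHom.mem_ker, hker]
    exact hc
  intro g
  set K := H ⊔ H.map (MulAut.conj g).toMonoidHom with hK
  have hP1 : (P : Subgroup PSL₂F) ≤ K := hPH.trans le_sup_left
  have hP2 : ((g • P : Sylow 2 PSL₂F) : Subgroup PSL₂F) ≤ K := by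
    intro x hx
    rw [Sylow.coe_subgroup_smul, Subgroup.mem_pointwise_smul_iff_inv_smul_mem] at hx
    exact le_sup_right (a := H) ⟨_, hPH hx, by simp [mul_assoc]⟩
  obtain ⟨k, hk⟩ := MulAction.exists_smul_eq K (P.subtype hP1) ((g • P).subtype hP2)
  have hk' : (k : PSL₂F) • P = g • P := by
    rw [Sylow.smul_subtype] at hk
    exact Sylow.subtype_injective hk
  set n := (k : PSL₂F)⁻¹ * g with hn
  have hnN : n ∈ Subgroup.normalizer ((P : Subgroup PSL₂F) : Set PSL₂F) :=
    Sylow.smul_eq_iff_mem_normalizer.1 (by rw [hn, mul_smul, inv_smul_eq_iff, hk'])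
  by_cases hnK : n ∈ K
  · exact ⟨g, by simpa [hn] using K.mul_mem k.2 hnK, rfl⟩
  suffices hnH : n ∈ Subgroup.normalizer (H : Set PSL₂F) by
    refine ⟨k, k.2, ?_⟩
    calc H.map (MulAut.conj g).toMonoidHom
        = H.map (MulAut.conj ((k : PSL₂F) * n)).toMonoidHom := by rw [hn, mul_inv_cancel_left]
      _ = H.map (MulAut.conj (k : PSL₂F)).toMonoidHom := by
        rw [map_conj_mul, map_conj_eq_of_mem_normalizer hnH]
  have hPcomm : ∀ a ∈ (P : Subgroup PSL₂F), ∀ b ∈ (P : Subgroup PSL₂F), a * b = b * a := by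
    intro a ha b hb
    have hinv : ∀ x ∈ (P : Subgroup PSL₂F), x⁻¹ = x := fun x hx =>
      inv_eq_of_mul_eq_one_right (hPsq x hx)
    calc a * b = (a * b)⁻¹ := (hinv _ (mul_mem ha hb)).symm
      _ = b * a := by rw [_root_.mul_inv_rev, hinv a ha, hinv b hb]
  -- Burnside's transfer theorem in `K`
  set N := Subgroup.normalizer ((P : Subgroup PSL₂F) : Set PSL₂F)
  have hKN : K ⊓ N = (P : Subgroup PSL₂F) := by
    have hle : (P : Subgroup PSL₂F) ≤ K ⊓ N := le_inf hP1 Subgroup.le_normalizer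
    have hd1 : 4 ∣ Nat.card (K ⊓ N : Subgroup PSL₂F) := hP4 ▸ Subgroup.card_dvd_of_le hle
    have hd2 : Nat.card (K ⊓ N : Subgroup PSL₂F) ∣ 12 :=
      hN12 ▸ Subgroup.card_dvd_of_le inf_le_right
    refine (Subgroup.eq_of_le_of_card_ge hle ?_).symm
    obtain ⟨r, hr⟩ := hd1
    rw [hr] at hd2
    have hr3 : r ∣ 3 := Nat.dvd_of_mul_dvd_mul_left (by norm_num : 0 < 4) (by simpa using hd2)
    rcases (Nat.dvd_prime Nat.prime_three).1 hr3 with rfl | rfl
    · rw [hP4, hr]
    · exfalso
      have heq : K ⊓ N = N := Subgroup.eq_of_le_of_card_ge inf_le_right (by rw [hr, hN12])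
      exact hnK (inf_le_left (b := N) (heq.symm ▸ hnN))
  let PK : Sylow 2 K := P.subtype hP1
  have hPK : ((PK : Subgroup K) : Set K) = {x : K | (x : PSL₂F) ∈ (P : Subgroup PSL₂F)} := rfl
  have hNC : Subgroup.normalizer ((PK : Subgroup K) : Set K) ≤
      Subgroup.centralizer ((PK : Subgroup K) : Set K) := by
    intro x hx
    have hxN : (x : PSL₂F) ∈ N := by
      rw [← Subgroup.inv_mem_iff]
      refine Sylow.smul_eq_iff_mem_normalizer.1 ?_
      have := Sylow.smul_eq_iff_mem_normalizer.2 (inv_mem hx)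
      rw [Sylow.smul_subtype] at this
      exact Sylow.subtype_injective this
    have hxP : (x : PSL₂F) ∈ (P : Subgroup PSL₂F) := hKN ▸ ⟨x.2, hxN⟩
    rw [Subgroup.mem_centralizer_iff]
    intro y hy
    exact Subtype.ext (hPcomm _ hy _ hxP)
  set f := MonoidHom.transferSylow PK hNC with hf
  have hcompl := MonoidHom.ker_transferSylow_isComplement' PK hNC
  set O : Subgroup PSL₂F := f.ker.map K.subtype with hO
  have hOodd : Odd (Nat.card O) := by
    rw [hO, Subgroup.card_subtype, Nat.odd_iff]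
    have : ¬ 2 ∣ Nat.card f.ker := MonoidHom.not_dvd_card_ker_transferSylow PK hNC
    omega
  have hOK : O ≤ K := Subgroup.map_subtype_le _
  have hodd_mem : ∀ x ∈ K, Odd (orderOf x) → x ∈ O := by
    intro x hx hxo
    refine ⟨⟨x, hx⟩, ?_, rfl⟩
    rw [SetLike.mem_coe, MonoidHom.mem_ker]
    have h1 := orderOf_map_dvd f (⟨x, hx⟩ : K)
    obtain ⟨j, hj⟩ := (IsPGroup.iff_orderOf.1 PK.isPGroup') (f ⟨x, hx⟩)
    rw [← orderOf_eq_one_iff, hj]
    rcases j with _ | j
    · rfl
    · exfalso
      rw [hj] at h1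
      have hxo' : Odd (orderOf (⟨x, hx⟩ : K)) := by rwa [← Subgroup.orderOf_coe]
      have := hxo'.of_dvd_nat h1
      rw [Nat.odd_iff, pow_succ] at this
      omega
  have hOn : ∀ v ∈ (P : Subgroup PSL₂F), ∀ o ∈ O, v * o * v⁻¹ ∈ O := by
    rintro v hv _ ⟨o, ho, rfl⟩
    exact ⟨(⟨v, hP1 hv⟩ : K) * o * (⟨v, hP1 hv⟩ : K)⁻¹,
      f.normal_ker.conj_mem _ ho _, rfl⟩
  have hdec : ∀ h ∈ K, ∃ o ∈ O, ∃ v ∈ (P : Subgroup PSL₂F), h = o * v := by
    intro h hh
    obtain ⟨⟨a, b⟩, hab⟩ := (hcompl.2 ⟨h, hh⟩)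
    exact ⟨((a : K) : PSL₂F), ⟨a, a.2, rfl⟩, ((b : K) : PSL₂F), b.2,
      (congrArg Subtype.val hab).symm⟩
  -- some involution centralises `O`
  obtain ⟨t, htP, ht1, htO⟩ : ∃ t ∈ (P : Subgroup PSL₂F), t ≠ 1 ∧ ∀ o ∈ O, t * o = o * t := by
    have hSncomm : ∃ a ∈ (S : Subgroup SL₂F), ∃ b ∈ (S : Subgroup SL₂F), a * b ≠ b * a := by
      by_contra hcon
      push Not at hcon
      have hle : (S : Subgroup SL₂F) ≤ Subgroup.center SL₂F := fun a ha => by
        rw [← hC, Subgroup.mem_centralizer_iff]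
        exact fun b hb => hcon b hb a ha
      have := Subgroup.card_le_of_le hle
      rw [h8, center_card_of_odd h2] at this
      omega
    obtain ⟨a, ha, b, hb, hab⟩ := hSncomm
    have hnc : ∀ w : SL₂F, w ∉ Subgroup.center SL₂F → proj w ≠ 1 := fun w hw e => hw (by
      rwa [← hker])
    have hac : a ∉ Subgroup.center SL₂F := fun e => hab (Subgroup.mem_center_iff.1 e b).symm
    by_cases hL : ∀ o ∈ O, o = 1
    · exact ⟨proj a, ha, hnc a hac, fun o ho => by rw [hL o ho, mul_one, one_mul]⟩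
    push Not at hL
    obtain ⟨o, ho, ho1⟩ := hL
    obtain ⟨gl, hgl, hglc, hglt, hgll⟩ := exists_torus_of_odd hq S (lift O) (center_le_lift O)
      (by rw [card_eq_index_zG]; exact hOodd)
      (fun w hw x hx => by
        show proj (w * x * w⁻¹) ∈ O
        rw [map_mul, map_mul, map_inv]
        exact hOn _ hw _ hx)
      (by
        obtain ⟨y, rfl⟩ := hsurj o
        exact ⟨y, ho, fun e => ho1 (by rw [← MonoidHom.mem_ker, hker]; exact e)⟩) h8
    have hflip : ∀ w ∈ (S : Subgroup SL₂F), w * gl * w⁻¹ = gl ∨ w * gl * w⁻¹ = gl⁻¹ := by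
      intro w hw
      refine eq_or_eq_inv hglt ?_ (tr_conj gl w)
      rw [Subgroup.mem_centralizer_singleton_iff]
      exact hgll _ (by
        show proj (w * gl * w⁻¹) ∈ O
        rw [map_mul, map_mul, map_inv]
        exact hOn _ hw _ hgl)
    obtain ⟨w, hw, hwc, hwg⟩ : ∃ w ∈ (S : Subgroup SL₂F), w ∉ Subgroup.center SL₂F ∧
        w * gl * w⁻¹ = gl := by
      rcases hflip a ha with e | e
      · exact ⟨a, ha, hac, e⟩
      rcases hflip b hb with e' | e'
      · exact ⟨b, hb, fun h => hab (Subgroup.mem_center_iff.1 h a), e'⟩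
      · refine ⟨a * b, mul_mem ha hb, fun h => hab ?_, ?_⟩
        · have := Subgroup.mem_center_iff.1 h a
          rw [mul_assoc] at this
          exact (mul_left_cancel this)
        · calc a * b * gl * (a * b)⁻¹ = a * (b * gl * b⁻¹) * a⁻¹ := by group
            _ = (a * gl * a⁻¹)⁻¹ := by rw [e']; group
            _ = gl := by rw [e, inv_inv]
    refine ⟨proj w, hw, hnc w hwc, fun x hx => ?_⟩
    obtain ⟨y, rfl⟩ := hsurj x
    rw [← map_mul, ← map_mul]
    refine congrArg _ ?_
    exact centralizer_mulComm hglc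
      (Subgroup.mem_centralizer_singleton_iff.2 (mul_inv_eq_iff_eq_mul.1 hwg))
      (Subgroup.mem_centralizer_singleton_iff.2 (hgll y hx))
  -- now `H = P` unless `n ∈ P`
  set t' := n⁻¹ * t * n with ht'
  have ht'P : t' ∈ (P : Subgroup PSL₂F) := by
    have := (Subgroup.mem_normalizer_iff.1 (inv_mem hnN) t).1 htP
    simpa [ht'] using this
  have h2cl : ∀ x : PSL₂F, ∀ u ∈ (P : Subgroup PSL₂F), u ≠ 1 → u ≠ t →
      x * t = t * x → x * u = u * x → ∀ v ∈ (P : Subgroup PSL₂F), x * v = v * x := by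
    intro x u hu hu1 hut hxt hxu
    set D := (P : Subgroup PSL₂F) ⊓ Subgroup.centralizer ({x} : Set PSL₂F) with hD
    have htD : t ∈ D := ⟨htP, Subgroup.mem_centralizer_singleton_iff.2 hxt.symm⟩
    have huD : u ∈ D := ⟨hu, Subgroup.mem_centralizer_singleton_iff.2 hxu.symm⟩
    have h3 : 3 ≤ Nat.card D := by
      exact length_le_card (l := [(⟨1, one_mem D⟩ : D), ⟨t, htD⟩, ⟨u, huD⟩])
        (by simp [Ne.symm ht1, Ne.symm hu1, Ne.symm hut])
    have hDle : D ≤ (P : Subgroup PSL₂F) := inf_le_left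
    have hd := hP4 ▸ Subgroup.card_dvd_of_le hDle
    have hD4 : Nat.card D = 4 := by
      have := Nat.le_of_dvd (by norm_num) hd
      interval_cases hc : Nat.card D <;> omega
    have := Subgroup.eq_of_le_of_card_ge hDle (by rw [hP4, hD4])
    intro v hv
    rw [← this] at hv
    exact (Subgroup.mem_centralizer_singleton_iff.1 hv.2).symm
  by_cases htt : t' = t
  · -- `n ∈ P`
    refine Subgroup.le_normalizer (hPH ?_)
    have hn12 : n ^ 12 = 1 := by
      have := congrArg Subtype.val (pow_card_eq_one' (G := N) (x := ⟨n, hnN⟩))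
      simpa [hN12] using this
    have hnt : n * t = t * n := by
      calc n * t = n * t' := by rw [htt]
        _ = t * n := by rw [ht']; group
    set m := n ^ 4 with hm
    have hm3 : m ^ 3 = 1 := by rw [hm, ← pow_mul]; exact hn12
    have hm1 : m = 1 := by
      refine hcent m ((by decide : Odd 3).of_dvd_nat (orderOf_dvd_of_pow_eq_one hm3)) ?_
      obtain ⟨u, hu, hu1, hut⟩ : ∃ u ∈ (P : Subgroup PSL₂F), u ≠ 1 ∧ u ≠ t := by
        by_contra hcon
        push Not at hcon
        have := Nat.card_le_card_of_surjective (α := Fin 2)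
          (![⟨1, one_mem _⟩, ⟨t, htP⟩] : Fin 2 → (P : Subgroup PSL₂F)) (fun x => by
            by_cases hx : (x : PSL₂F) = 1
            · exact ⟨0, Subtype.ext hx.symm⟩
            · exact ⟨1, Subtype.ext (hcon _ x.2 hx).symm⟩)
        rw [hP4, Nat.card_fin] at this
        omega
      have hmt : m * t = t * m := (Commute.pow_left hnt 4 :)
      have hmN : m ∈ N := pow_mem hnN 4
      -- the conjugate of `u` is `u` or `t * u`
      have hdom : ∀ y ∈ (P : Subgroup PSL₂F), y ≠ 1 → y ≠ t → y = u ∨ y = t * u := by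
        intro y hy hy1 hyt
        by_contra hcon
        push Not at hcon
        have htu1 : t * u ≠ 1 := fun e => hut (by
          calc u = (t * t) * u := by rw [hPsq t htP, one_mul]
            _ = t := by rw [mul_assoc, e, mul_one])
        have htut : t * u ≠ t := fun e => hu1 (mul_eq_left.1 e)
        have htuu : t * u ≠ u := fun e => ht1 (mul_eq_right.1 e)
        have := length_le_card (l := [(⟨1, one_mem _⟩ : (P : Subgroup PSL₂F)), ⟨t, htP⟩, ⟨u, hu⟩,
            ⟨t * u, mul_mem htP hu⟩, ⟨y, hy⟩])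
          (by simp [Ne.symm ht1, Ne.symm hu1, Ne.symm hut, Ne.symm htu1, Ne.symm htut, Ne.symm htuu,
            Ne.symm hy1, Ne.symm hyt, Ne.symm hcon.1, Ne.symm hcon.2])
        rw [hP4] at this
        simp at this
      refine h2cl m u hu hu1 hut hmt ?_
      have hmu : m * u * m⁻¹ ∈ (P : Subgroup PSL₂F) := (Subgroup.mem_normalizer_iff.1 hmN u).1 hu
      rcases hdom _ hmu (fun e => hu1 (by simpa using e)) (fun e => hut (by
        rw [mul_inv_eq_iff_eq_mul] at e
        exact mul_left_cancel (e.trans hmt.symm))) with e | e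
      · exact mul_inv_eq_iff_eq_mul.1 e
      · exfalso
        have hcj : m * t * m⁻¹ = t := by rw [hmt, mul_inv_cancel_right]
        have e2 : m * (m * u * m⁻¹) * m⁻¹ = u := by
          rw [e, show m * (t * u) * m⁻¹ = (m * t * m⁻¹) * (m * u * m⁻¹) by group, hcj, e,
            ← mul_assoc, hPsq t htP, one_mul]
        have e3 : m * (m * (m * u * m⁻¹) * m⁻¹) * m⁻¹ = u := by
          calc m * (m * (m * u * m⁻¹) * m⁻¹) * m⁻¹ = m ^ 3 * u * (m ^ 3)⁻¹ := by
                rw [pow_three]; group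
            _ = u := by rw [hm3, one_mul, inv_one, mul_one]
        rw [e2, e] at e3
        exact ht1 (mul_eq_right.1 e3)
    exact two_group_mem_sylow P hnN (k := 2) (by norm_num; exact hm1)
  · have hHO : ∀ a ∈ H, a ∈ O → a = 1 := by
      intro a haH haO
      have ha_odd : Odd (orderOf a) := hOodd.of_dvd_nat (Subgroup.orderOf_dvd_natCard O haO)
      have haK : n * a * n⁻¹ ∈ K := by
        have h1 : g * a * g⁻¹ ∈ K := le_sup_right (a := H) ⟨a, haH, rfl⟩
        have := K.mul_mem (K.mul_mem (K.inv_mem k.2) h1) k.2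
        simpa [hn, mul_assoc] using this
      have hnaO := hodd_mem _ haK (by
        rwa [show orderOf (n * a * n⁻¹) = orderOf a from (MulAut.conj n).orderOf_eq a])
      have hat' : a * t' = t' * a := by
        have := htO _ hnaO
        rw [ht']
        calc a * (n⁻¹ * t * n) = n⁻¹ * (n * a * n⁻¹ * t) * n := by group
          _ = n⁻¹ * (t * (n * a * n⁻¹)) * n := by rw [this]
          _ = n⁻¹ * t * n * a := by group
      exact hcent a ha_odd (h2cl a t' ht'P
        (fun e => ht1 (by simpa [ht', mul_assoc] using congrArg (fun z => n * z * n⁻¹) e))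
        htt (htO a haO).symm hat')
    have hHP : H ≤ (P : Subgroup PSL₂F) := by
      intro h hh
      obtain ⟨o, ho, v, hv, rfl⟩ := hdec h (le_sup_left (b := H.map _) hh)
      have : o = 1 := hHO o ((H.mul_mem_cancel_right (hPH hv)).1 hh) ho
      rw [this, one_mul]
      exact hv
    rw [le_antisymm hHP hPH]
    exact hnN

end CfsgLib.InvChar.Pronormal
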