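/-
InvChar: the 2-parts of the orders of `GL_n(q)` and `GU_n(q)`, `q` odd, `n` a power of 2.
-/
import Mathlib
import Cfsg.Agent.Lib.ClassicalLinear.Sylow
import Cfsg.Agent.Lib.ClassicalForms.Unitary.Card

set_option autoImplicit false

open Finset

namespace CfsgLib.InvChar.TwoPart

/-- The exponent of 2. -/
noncomputable def v₂ (n : ℕ) : ℕ := n.factorization 2

theorem v₂_mul {a b : ℕ} (ha : a ≠ 0) (hb : b ≠ 0) : v₂ (a * b) = v₂ a + v₂ b := by
  rw [v₂, v₂, v₂, Nat.factorization_mul ha hb, Finsupp.add_apply]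

theorem v₂_odd {n : ℕ} (h : Odd n) : v₂ n = 0 :=
  Nat.factorization_eq_zero_of_not_dvd fun hd => by
    rw [Nat.odd_iff] at h
    omega

theorem v₂_prod {f : ℕ → ℕ} (n : ℕ) (h : ∀ i < n, f i ≠ 0) :
    v₂ (∏ i ∈ range n, f i) = ∑ i ∈ range n, v₂ (f i) := by
  rw [v₂, Nat.factorization_prod (fun i hi => h i (mem_range.1 hi)), Finsupp.finsetSum_apply]
  rfl

variable {q : ℕ}

theorem pow_sub_one_ne_zero (hq : 1 < q) {i : ℕ} (hi : i ≠ 0) : q ^ i - 1 ≠ 0 := by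
  have := Nat.one_lt_pow hi hq
  omega

theorem odd_geom_sum (hq : Odd q) {i : ℕ} (hi : Odd i) : Odd (∑ r ∈ range i, q ^ r) := by
  rw [Nat.odd_iff, Finset.sum_nat_mod, Finset.sum_congr rfl (g := fun _ => 1)
    (fun r _ => Nat.odd_iff.1 hq.pow), Finset.sum_const, card_range, smul_eq_mul, mul_one]
  exact Nat.odd_iff.1 hi

theorem v₂_pow_sub_one_odd (hq : Odd q) (h1 : 1 < q) {i : ℕ} (hi : Odd i) :
    v₂ (q ^ i - 1) = v₂ (q - 1) := by
  have e : q ^ i - 1 = (q - 1) * ∑ r ∈ range i, q ^ r := by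
    have := geom_sum_mul (q : ℤ) i
    have hp : 1 ≤ q ^ i := Nat.one_le_pow _ _ (by omega)
    zify [hp, h1.le]
    rw [mul_comm, this]
  have hodd := odd_geom_sum hq hi
  rw [e, v₂_mul (by omega) (by intro h; rw [h] at hodd; exact Nat.not_odd_zero hodd), v₂_odd hodd,
    add_zero]

theorem v₂_sq_sub_one (h1 : 1 < q) : v₂ (q ^ 2 - 1) = v₂ (q - 1) + v₂ (q + 1) := by
  rw [← v₂_mul (by omega) (by omega)]
  congr 1
  rw [show (1 : ℕ) = 1 ^ 2 from rfl, Nat.sq_sub_sq, one_pow, mul_comm]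

theorem v₂_pow_sub_one_double (h1 : 1 < q) {j : ℕ} (hj : j ≠ 0) :
    v₂ (q ^ (2 * j) - 1) = v₂ (q ^ j - 1) + v₂ (q ^ j + 1) := by
  rw [show q ^ (2 * j) = (q ^ j) ^ 2 by rw [← pow_mul, mul_comm]]
  exact v₂_sq_sub_one (Nat.one_lt_pow hj h1)

theorem v₂_pow_add_one_odd (hq : Odd q) (h1 : 1 < q) {i : ℕ} (hi : Odd i) :
    v₂ (q ^ i + 1) = v₂ (q + 1) := by
  have hi0 : i ≠ 0 := by intro h; rw [h] at hi; exact Nat.not_odd_zero hi
  have e1 := v₂_pow_sub_one_double h1 hi0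
  rw [v₂_pow_sub_one_odd hq h1 hi] at e1
  have e2 : v₂ (q ^ (2 * i) - 1) = v₂ (q ^ 2 - 1) := by
    rw [pow_mul]
    exact v₂_pow_sub_one_odd (Odd.pow hq) (Nat.one_lt_pow two_ne_zero h1) hi
  rw [e2, v₂_sq_sub_one h1] at e1
  omega

theorem v₂_pow_add_one_even (hq : Odd q) {i : ℕ} (hi : Even i) : v₂ (q ^ i + 1) = 1 := by
  obtain ⟨j, rfl⟩ := hi
  obtain ⟨t, ht⟩ : Odd (q ^ j) := hq.pow
  have e : q ^ (j + j) + 1 = 2 * (2 * (t * t + t) + 1) := by
    rw [pow_add, ht]; ring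
  rw [e, v₂_mul two_ne_zero (by omega), v₂_odd ⟨_, rfl⟩, add_zero]
  exact Nat.prime_two.factorization_self

theorem sum_range_double (f : ℕ → ℕ) (n : ℕ) :
    ∑ i ∈ range (2 * n), f i = (∑ j ∈ range n, f (2 * j)) + ∑ j ∈ range n, f (2 * j + 1) := by
  induction n with
  | zero => simp
  | succ n ih =>
    rw [show 2 * (n + 1) = 2 * n + 1 + 1 by ring, sum_range_succ, sum_range_succ, sum_range_succ,
      sum_range_succ, ih]
    ring

theorem sum_alt_double (hq : Odd q) (h1 : 1 < q) (m : ℕ) :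
    ∑ j ∈ range (2 * m), v₂ (q ^ (j + 1) + 1) = m * (v₂ (q + 1) + 1) := by
  rw [sum_range_double, sum_congr rfl (g := fun _ => v₂ (q + 1))
    (fun j _ => v₂_pow_add_one_odd hq h1 ⟨j, rfl⟩),
    sum_congr rfl (s₂ := range m) (g := fun _ => 1)
    (fun j _ => v₂_pow_add_one_even hq ⟨j + 1, by ring⟩)]
  simp only [sum_const, card_range, smul_eq_mul]
  ring

/-- Exponent of 2 in `∏_{i ≤ n} (q^i - 1)`. -/
noncomputable def tL (q n : ℕ) : ℕ := ∑ i ∈ range n, v₂ (q ^ (i + 1) - 1)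

/-- Exponent of 2 in `∏_{i ≤ n} (q^i - (-1)^i)`. -/
noncomputable def tU (q n : ℕ) : ℕ :=
  ∑ i ∈ range n, v₂ (if Even i then q ^ (i + 1) + 1 else q ^ (i + 1) - 1)

theorem tL_two_mul (hq : Odd q) (h1 : 1 < q) (n : ℕ) :
    tL q (2 * n) = n * v₂ (q - 1) + tL q n + ∑ j ∈ range n, v₂ (q ^ (j + 1) + 1) := by
  rw [tL, sum_range_double, sum_congr rfl (g := fun _ => v₂ (q - 1))
    (fun j _ => v₂_pow_sub_one_odd hq h1 ⟨j, rfl⟩),
    sum_congr rfl (s₂ := range n) (f := fun j => v₂ (q ^ (2 * j + 1 + 1) - 1))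
    (g := fun j => v₂ (q ^ (j + 1) - 1) + v₂ (q ^ (j + 1) + 1))
    (fun j _ => by rw [← v₂_pow_sub_one_double h1 (Nat.succ_ne_zero j)]; congr 2),
    sum_const, card_range, smul_eq_mul, sum_add_distrib, tL, add_assoc]

theorem tU_two_mul (hq : Odd q) (h1 : 1 < q) (n : ℕ) :
    tU q (2 * n) = n * v₂ (q + 1) + tL q n + ∑ j ∈ range n, v₂ (q ^ (j + 1) + 1) := by
  rw [tU, sum_range_double, sum_congr rfl (g := fun _ => v₂ (q + 1))
    (fun j _ => by rw [if_pos (even_two_mul j)]; exact v₂_pow_add_one_odd hq h1 ⟨j, rfl⟩),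
    sum_congr rfl (s₂ := range n)
    (f := fun j => v₂ (if Even (2 * j + 1) then q ^ (2 * j + 1 + 1) + 1 else q ^ (2 * j + 1 + 1) - 1))
    (g := fun j => v₂ (q ^ (j + 1) - 1) + v₂ (q ^ (j + 1) + 1))
    (fun j _ => by
      rw [if_neg (Nat.not_even_two_mul_add_one j), ← v₂_pow_sub_one_double h1 (Nat.succ_ne_zero j)]
      congr 2),
    sum_const, card_range, smul_eq_mul, sum_add_distrib, tL, add_assoc]

theorem tL_two (hq : Odd q) (h1 : 1 < q) : tL q 2 = 2 * v₂ (q - 1) + v₂ (q + 1) := by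
  have := tL_two_mul hq h1 1
  simp [tL] at this ⊢
  omega

theorem tL_two_pow (hq : Odd q) (h1 : 1 < q) (k : ℕ) :
    tL q (2 ^ (k + 1)) + 1 = 2 ^ k * (2 * v₂ (q - 1) + v₂ (q + 1) + 1) := by
  induction k with
  | zero =>
    have := tL_two hq h1
    simpa using this
  | succ k ih =>
    rw [show 2 ^ (k + 1 + 1) = 2 * 2 ^ (k + 1) by ring, tL_two_mul hq h1,
      show (2 : ℕ) ^ (k + 1) = 2 * 2 ^ k by ring, sum_alt_double hq h1, ← pow_succ']
    rw [pow_succ' 2 k] at ih ⊢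
    linarith [ih]

theorem tU_two_pow (hq : Odd q) (h1 : 1 < q) (k : ℕ) :
    tU q (2 ^ (k + 1)) + 1 = 2 ^ k * (2 * v₂ (q + 1) + v₂ (q - 1) + 1) := by
  cases k with
  | zero =>
    have h := tU_two_mul hq h1 1
    simp [tL] at h ⊢
    omega
  | succ k =>
    have ih := tL_two_pow hq h1 k
    rw [show 2 ^ (k + 1 + 1) = 2 * 2 ^ (k + 1) by ring, tU_two_mul hq h1,
      show (2 : ℕ) ^ (k + 1) = 2 * 2 ^ k by ring, sum_alt_double hq h1, ← pow_succ']
    rw [pow_succ' 2 k] at ih ⊢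
    linarith [ih]

theorem tL_step (hq : Odd q) (h1 : 1 < q) (k : ℕ) :
    tL q (2 ^ (k + 1 + 1)) = 2 * tL q (2 ^ (k + 1)) + 1 := by
  have a := tL_two_pow hq h1 k
  have b := tL_two_pow hq h1 (k + 1)
  rw [pow_succ' 2 k, mul_assoc] at b
  omega

theorem tU_step (hq : Odd q) (h1 : 1 < q) (k : ℕ) :
    tU q (2 ^ (k + 1 + 1)) = 2 * tU q (2 ^ (k + 1)) + 1 := by
  have a := tU_two_pow hq h1 k
  have b := tU_two_pow hq h1 (k + 1)
  rw [pow_succ' 2 k, mul_assoc] at b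
  omega

/-- The exponent of 2 in `|GL|`. -/
theorem v₂_card_GL {ι : Type} [Fintype ι] [DecidableEq ι] {F : Type*} [Field F] [Fintype F]
    (hq : Odd (Fintype.card F)) :
    v₂ (Nat.card (GL ι F)) = tL (Fintype.card F) (Fintype.card ι) := by
  have h1 : 1 < Fintype.card F := Fintype.one_lt_card
  rw [CfsgLib.ClassicalLinear.card_GL_eq_pow_mul, v₂_mul (pow_ne_zero _ (by omega))
    (Finset.prod_ne_zero_iff.2 fun i _ => pow_sub_one_ne_zero h1 (Nat.succ_ne_zero i)),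
    v₂_odd hq.pow, zero_add, v₂_prod _ fun i _ => pow_sub_one_ne_zero h1 (Nat.succ_ne_zero i)]
  rfl

/-- The exponent of 2 in `|GU_n(q)|`. -/
theorem v₂_card_GU {F : Type*} [Field F] [Finite F] (hF : Nat.card F = q ^ 2) (hq : Odd q) (n : ℕ) :
    v₂ (Nat.card (Cfsg.GU n F q)) = tU q n := by
  have h1 : 1 < q := CfsgLib.ClassicalForms.two_le_q hF
  have hne : ∀ i, (if Even i then q ^ (i + 1) + 1 else q ^ (i + 1) - 1) ≠ 0 := fun i => by
    split_ifs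
    · omega
    · exact pow_sub_one_ne_zero h1 (Nat.succ_ne_zero i)
  rw [CfsgLib.ClassicalForms.card_gu hF, v₂_mul (pow_ne_zero _ (by omega))
    (Finset.prod_ne_zero_iff.2 fun i _ => hne i), v₂_odd hq.pow, zero_add, v₂_prod _ fun i _ => hne i]
  rfl

end CfsgLib.InvChar.TwoPart
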