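import Cfsg.Prelude.Def_Classical
import Cfsg.Agent.Lib.ClassicalForms.Unitary.Center

/-!
An explicit Sylow 2-subgroup of `SU₃(q)` for `q = 2 ^ n`: pairs `(a, b)` over the field with `q ^ 2`
elements with `b + b ^ q = a ^ (q + 1)`.
-/

set_option autoImplicit false
set_option linter.unusedSectionVars false

namespace CfsgLib.InvChar.UnitaryEven

variable {F : Type*} [Field F] [Fintype F] {n : ℕ}

/-- The parameter set. -/
def Param (F : Type*) [Field F] (n : ℕ) : Set (F × F) := {p | p.2 + p.2 ^ 2 ^ n = p.1 ^ (2 ^ n + 1)}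

/-- The composition law on parameters. -/
def op (n : ℕ) (p r : F × F) : F × F := (p.1 + r.1, p.2 + r.2 + p.1 ^ 2 ^ n * r.1)

variable (hn : 1 ≤ n) (hF : Fintype.card F = 4 ^ n)
include hn hF

theorem charP_two : CharP F 2 := by
  have : ringChar F = 2 := by
    rw [FiniteField.even_card_iff_char_two, hF]
    exact Nat.mod_eq_zero_of_dvd (dvd_pow (by norm_num) (by omega))
  rw [← this]; exact ringChar.charP F

theorem two_eq_zero : (2 : F) = 0 := by
  have := charP_two hn hF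
  exact CharTwo.two_eq_zero

theorem card_eq : Nat.card F = (2 ^ n) ^ 2 := by
  rw [Nat.card_eq_fintype_card, hF, ← pow_mul, mul_comm, pow_mul]; norm_num

theorem pow_qq (x : F) : (x ^ 2 ^ n) ^ 2 ^ n = x := by
  rw [← pow_mul, ← sq, ← card_eq hn hF, Nat.card_eq_fintype_card]
  exact FiniteField.pow_card x

theorem add_pow_q (x y : F) : (x + y) ^ 2 ^ n = x ^ 2 ^ n + y ^ 2 ^ n := by
  have := charP_two hn hF
  exact add_pow_char_pow x y 2 n

theorem op_mem {p r : F × F} (hp : p ∈ Param F n) (hr : r ∈ Param F n) : op n p r ∈ Param F n := by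
  simp only [Param, Set.mem_ofPred_eq, op] at *
  rw [add_pow_q hn hF, add_pow_q hn hF, mul_pow, pow_qq hn hF,
    pow_succ (p.1 + r.1), add_pow_q hn hF]
  rw [pow_succ p.1] at hp
  rw [pow_succ r.1] at hr
  linear_combination hp + hr

/-- The additive map `b ↦ b + b ^ q`. -/
def tr : F →+ F where
  toFun b := b + b ^ 2 ^ n
  map_zero' := by simp
  map_add' x y := by rw [add_pow_q hn hF]; abel

theorem tr_apply (b : F) : tr hn hF b = b + b ^ 2 ^ n := rfl

theorem mem_ker_tr (b : F) : b ∈ (tr hn hF).ker ↔ b ^ 2 ^ n = b := by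
  rw [AddMonoidHom.mem_ker, tr_apply]
  constructor
  · intro h
    linear_combination h - b * two_eq_zero hn hF
  · intro h
    linear_combination h + b * two_eq_zero hn hF

theorem ncard_fixed_le : {t : F | t ^ 2 ^ n = t}.ncard ≤ 2 ^ n := by
  classical
  have h1 : 1 < 2 ^ n := Nat.one_lt_two_pow (by omega)
  have hne : (Polynomial.X ^ 2 ^ n - Polynomial.X : Polynomial F) ≠ 0 :=
    FiniteField.X_pow_card_sub_X_ne_zero F h1
  have hsub : {t : F | t ^ 2 ^ n = t} ⊆
      (((Polynomial.X ^ 2 ^ n - Polynomial.X : Polynomial F).roots.toFinset : Finset F) : Set F) := by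
    intro t ht
    rw [Finset.mem_coe, Multiset.mem_toFinset, Polynomial.mem_roots hne]
    simpa [sub_eq_zero] using ht
  calc {t : F | t ^ 2 ^ n = t}.ncard ≤ _ := Set.ncard_le_ncard hsub (Finset.finite_toSet _)
    _ = _ := Set.ncard_coe_finset _
    _ ≤ _ := Multiset.toFinset_card_le _
    _ ≤ _ := Polynomial.card_roots' _
    _ ≤ 2 ^ n := by rw [FiniteField.X_pow_card_sub_X_natDegree_eq F h1]

theorem range_tr_subset : ((tr hn hF).range : Set F) ⊆ {t : F | t ^ 2 ^ n = t} := by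
  rintro y ⟨b, rfl⟩
  show (b + b ^ 2 ^ n) ^ 2 ^ n = b + b ^ 2 ^ n
  rw [add_pow_q hn hF, pow_qq hn hF]
  ring

theorem card_ker_tr : Nat.card (tr hn hF).ker = 2 ^ n ∧ Nat.card (tr hn hF).range = 2 ^ n := by
  have hk : Nat.card (tr hn hF).ker ≤ 2 ^ n := by
    refine le_trans (le_of_eq ?_) (ncard_fixed_le hn hF)
    exact Nat.card_congr (Equiv.subtypeEquivRight (mem_ker_tr hn hF))
  have hr : Nat.card (tr hn hF).range ≤ 2 ^ n :=
    (Set.ncard_le_ncard (range_tr_subset hn hF) (Set.toFinite _)).trans (ncard_fixed_le hn hF)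
  have hprod : Nat.card (tr hn hF).ker * Nat.card (tr hn hF).range = 2 ^ n * 2 ^ n := by
    rw [← sq (2 ^ n), ← card_eq hn hF, AddSubgroup.card_eq_card_quotient_mul_card_addSubgroup (tr hn hF).ker,
      Nat.card_congr (QuotientAddGroup.quotientKerEquivRange (tr hn hF)).toEquiv, mul_comm]
  have h0 : 0 < 2 ^ n := Nat.two_pow_pos n
  constructor <;> nlinarith

theorem card_fixed : {t : F | t ^ 2 ^ n = t}.ncard = 2 ^ n := by
  refine Eq.trans ?_ (card_ker_tr hn hF).1
  exact (Nat.card_congr (Equiv.subtypeEquivRight (mem_ker_tr hn hF))).symm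

theorem tr_surj {y : F} (hy : y ^ 2 ^ n = y) : ∃ b, b + b ^ 2 ^ n = y := by
  have heq : ((tr hn hF).range : Set F) = {t : F | t ^ 2 ^ n = t} :=
    Set.eq_of_subset_of_ncard_le (range_tr_subset hn hF)
      ((card_fixed hn hF).le.trans (card_ker_tr hn hF).2.ge) (Set.toFinite _)
  have : y ∈ ((tr hn hF).range : Set F) := by rw [heq]; exact hy
  exact this

theorem norm_fixed (a : F) : (a ^ (2 ^ n + 1)) ^ 2 ^ n = a ^ (2 ^ n + 1) := by
  rw [pow_succ, mul_pow, pow_qq hn hF, mul_comm]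

theorem exists_fiber (a : F) : ∃ b, (a, b) ∈ Param F n := tr_surj hn hF (norm_fixed hn hF a)

theorem card_fiber (a : F) : Nat.card {b : F // (a, b) ∈ Param F n} = 2 ^ n := by
  obtain ⟨b₀, hb⟩ := exists_fiber hn hF a
  change b₀ + b₀ ^ 2 ^ n = a ^ (2 ^ n + 1) at hb
  rw [← (card_ker_tr hn hF).1]
  exact Nat.card_congr
    { toFun := fun b => ⟨b.1 - b₀, by
        rw [AddMonoidHom.mem_ker, map_sub, tr_apply, tr_apply, hb]
        exact sub_eq_zero.2 b.2⟩
      invFun := fun k => ⟨k.1 + b₀, by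
        show tr hn hF (k.1 + b₀) = a ^ (2 ^ n + 1)
        rw [map_add, AddMonoidHom.mem_ker.1 k.2, zero_add]
        exact hb⟩
      left_inv := fun b => by simp
      right_inv := fun k => by simp }

theorem card_param : Nat.card (Param F n) = (2 ^ n) ^ 3 := by
  have e : (Param F n) ≃ (a : F) × {b : F // (a, b) ∈ Param F n} :=
    { toFun := fun p => ⟨p.1.1, p.1.2, p.2⟩
      invFun := fun p => ⟨(p.1, p.2.1), p.2.2⟩
      left_inv := fun p => rfl
      right_inv := fun p => rfl }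
  rw [Nat.card_congr e, Nat.card_sigma]
  simp only [card_fiber hn hF, Finset.sum_const, Finset.card_univ, smul_eq_mul]
  rw [← Nat.card_eq_fintype_card, card_eq hn hF]
  ring

omit hn hF in
/-- The matrix attached to a parameter. -/
def mat (n : ℕ) (p : F × F) : Matrix (Fin 3) (Fin 3) F :=
  !![1 + p.2, p.2, p.1 ^ 2 ^ n; p.2, 1 + p.2, p.1 ^ 2 ^ n; p.1, p.1, 1]

theorem det_mat (p : F × F) : (mat n p).det = 1 := by
  simp only [mat, Matrix.det_fin_three]
  simp
  linear_combination (p.2 - p.1 * p.1 ^ 2 ^ n) * two_eq_zero hn hF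

/-- The special linear element attached to a parameter. -/
def slMat (p : F × F) : Matrix.SpecialLinearGroup (Fin 3) F := ⟨mat n p, det_mat hn hF p⟩

theorem slMat_mem {p : F × F} (hp : p ∈ Param F n) : slMat hn hF p ∈ Cfsg.SU 3 F (2 ^ n) := by
  intro u v
  have hp' : p.2 + p.2 ^ 2 ^ n = p.1 * p.1 ^ 2 ^ n := by
    have h : p.2 + p.2 ^ 2 ^ n = p.1 ^ (2 ^ n + 1) := hp
    rw [h, pow_succ]; ring
  show Cfsg.hermForm 3 F (2 ^ n) ((mat n p).mulVec u) ((mat n p).mulVec v) = _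
  simp only [Cfsg.hermForm, Fin.sum_univ_three, mat, Matrix.mulVec, dotProduct]
  simp
  simp only [add_pow_q hn hF, mul_pow, pow_qq hn hF, one_pow]
  set A := p.1 ^ 2 ^ n with hA
  set B := p.2 ^ 2 ^ n with hB
  set V0 := v 0 ^ 2 ^ n
  set V1 := v 1 ^ 2 ^ n
  set V2 := v 2 ^ 2 ^ n
  linear_combination ((u 0 + u 1) * (V0 + V1)) * hp' +
    ((u 0 + u 1) * (V0 + V1) * (p.2 * B + p.1 * A)
      + (u 0 + u 1) * p.1 * V2 * (p.2 + 1) + u 2 * A * (V0 + V1) * (B + 1)
      + u 2 * V2 * (p.1 * A)) * two_eq_zero hn hF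

theorem mat_op (p r : F × F) : mat n p * mat n r = mat n (op n p r) := by
  have h2 := two_eq_zero hn hF
  ext i j
  fin_cases i <;> fin_cases j <;>
    simp [mat, op, Matrix.mul_apply, Fin.sum_univ_three, add_pow_q hn hF] <;>
    first
      | linear_combination (p.2 * r.2) * h2
      | linear_combination (p.1 * r.2) * h2
      | linear_combination (p.1 * r.1 ^ 2 ^ n) * h2
      | linear_combination (p.2 * r.1 ^ 2 ^ n) * h2

theorem factorization_card_su :
    (Nat.card (Cfsg.SU 3 F (2 ^ n))).factorization 2 = 3 * n := by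
  have hq1 : 2 ≤ 2 ^ n := Nat.one_lt_two_pow (by omega)
  have hev : 2 ∣ 2 ^ n := dvd_pow_self 2 (by omega)
  have h := CfsgLib.ClassicalForms.card_gu_eq_mul_su (card_eq hn hF) (n := 3) (by norm_num)
  rw [CfsgLib.ClassicalForms.card_gu (card_eq hn hF) 3] at h
  simp only [Finset.prod_range_succ, Finset.prod_range_zero, one_mul] at h
  rw [if_pos (by decide), if_neg (by decide), if_pos (by decide)] at h
  norm_num [-Nat.card_eq_fintype_card] at h
  have h' : Nat.card (Cfsg.SU 3 F (2 ^ n)) = (2 ^ n) ^ 3 * (((2 ^ n) ^ 2 - 1) * ((2 ^ n) ^ 3 + 1)) := by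
    refine Nat.eq_of_mul_eq_mul_left (show 0 < 2 ^ n + 1 by omega) ?_
    rw [← h]; ring
  have hodd : ¬ 2 ∣ ((2 ^ n) ^ 2 - 1) * ((2 ^ n) ^ 3 + 1) := by
    rw [Nat.Prime.dvd_mul Nat.prime_two]
    have h2 : 2 ∣ (2 ^ n) ^ 2 := dvd_pow hev (by norm_num)
    have h3 : 2 ∣ (2 ^ n) ^ 3 := dvd_pow hev (by norm_num)
    have : 1 ≤ (2 ^ n) ^ 2 := Nat.one_le_pow _ _ (by omega)
    omega
  have hne : ((2 ^ n) ^ 2 - 1) * ((2 ^ n) ^ 3 + 1) ≠ 0 := fun h0 => hodd (by rw [h0]; exact dvd_zero 2)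
  rw [h', Nat.factorization_mul (pow_ne_zero _ (by omega)) hne, Finsupp.add_apply,
    Nat.factorization_eq_zero_of_not_dvd hodd, ← pow_mul,
    Nat.Prime.factorization_pow Nat.prime_two, Finsupp.single_eq_same, add_zero, mul_comm]

/-- A bijective multiplicative parametrisation of every Sylow 2-subgroup of `SU₃(2 ^ n)`. -/
theorem exists_param (S : Sylow 2 ↥(Cfsg.SU 3 F (2 ^ n))) :
    ∃ e : Param F n ≃ ↥(S : Subgroup ↥(Cfsg.SU 3 F (2 ^ n))),
      ∀ p r : Param F n, e p * e r = e ⟨op n p.1 r.1, op_mem hn hF p.2 r.2⟩ := by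
  classical
  have : Fact (Nat.Prime 2) := ⟨Nat.prime_two⟩
  let g : Param F n → Cfsg.SU 3 F (2 ^ n) := fun p => ⟨slMat hn hF p.1, slMat_mem hn hF p.2⟩
  have gmul : ∀ p r : Param F n, g p * g r = g ⟨op n p.1 r.1, op_mem hn hF p.2 r.2⟩ := fun p r =>
    Subtype.ext (Subtype.ext (mat_op hn hF p.1 r.1))
  have ginj : Function.Injective g := fun p r h => by
    have hm : mat n p.1 = mat n r.1 := congrArg (fun s : Cfsg.SU 3 F (2 ^ n) =>
      ((s : Matrix.SpecialLinearGroup (Fin 3) F) : Matrix (Fin 3) (Fin 3) F)) h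
    have h1 := congrFun (congrFun hm 2) 0
    have h2 := congrFun (congrFun hm 0) 1
    simp [mat] at h1 h2
    exact Subtype.ext (Prod.ext h1 h2)
  have hzero : ((0, 0) : F × F) ∈ Param F n := by
    show (0 : F) + (0 : F) ^ 2 ^ n = (0 : F) ^ (2 ^ n + 1)
    rw [zero_pow (by positivity), zero_pow (Nat.succ_ne_zero _), add_zero]
  let S₀ : Submonoid (Cfsg.SU 3 F (2 ^ n)) :=
    { carrier := Set.range g
      one_mem' := ⟨⟨(0, 0), hzero⟩, Subtype.ext (Subtype.ext (by
        show mat n ((0, 0) : F × F) = 1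
        ext i j; fin_cases i <;> fin_cases j <;> simp [mat, zero_pow (show 2 ^ n ≠ 0 by positivity)]))⟩
      mul_mem' := by
        rintro _ _ ⟨p, rfl⟩ ⟨r, rfl⟩
        exact ⟨_, (gmul p r).symm⟩ }
  have hinv : ∀ {x : Cfsg.SU 3 F (2 ^ n)}, x ∈ S₀ → x⁻¹ ∈ S₀ := fun {x} hx => by
    have h := pow_mem hx (orderOf x - 1)
    rwa [show x⁻¹ = x ^ (orderOf x - 1) from inv_eq_of_mul_eq_one_left (by
      rw [← pow_succ, Nat.sub_add_cancel (orderOf_pos x), pow_orderOf_eq_one])]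
  let G₀ : Subgroup (Cfsg.SU 3 F (2 ^ n)) := { S₀ with inv_mem' := hinv }
  have hcard : Nat.card G₀ = 2 ^ (Nat.card (Cfsg.SU 3 F (2 ^ n))).factorization 2 := by
    show Nat.card (Set.range g) = _
    rw [Nat.card_range_of_injective ginj, card_param hn hF, factorization_card_su hn hF, ← pow_mul,
      mul_comm]
  let P : Sylow 2 ↥(Cfsg.SU 3 F (2 ^ n)) := Sylow.ofCard G₀ hcard
  let e₁ : Param F n ≃ ↥(P : Subgroup ↥(Cfsg.SU 3 F (2 ^ n))) := Equiv.ofInjective g ginj
  have hh := Sylow.equiv P S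
  refine ⟨e₁.trans hh.toEquiv, fun p r => ?_⟩
  show hh (e₁ p) * hh (e₁ r) = hh (e₁ _)
  rw [← map_mul]
  exact congrArg hh (Subtype.ext (gmul p r))

end CfsgLib.InvChar.UnitaryEven
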