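import Cfsg.Agent.Lib.InvChar.UnitaryEven

/-!
Additive maps of the field with `q ^ 2` elements compatible with the norm onto the field with `q`
elements are semilinear.
-/

set_option autoImplicit false
set_option linter.unusedSectionVars false

namespace CfsgLib.InvChar.UnitaryEven

variable {F : Type*} [Field F] [Fintype F] {n : ℕ} [Algebra (ZMod 2) F]
variable (hn : 1 ≤ n) (hF : Fintype.card F = 4 ^ n)
include hn hF

/-- The subfield with `q` elements. -/
def fixedField : Subfield F where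
  carrier := {t | t ^ 2 ^ n = t}
  mul_mem' {a b} ha hb := by
    show (a * b) ^ 2 ^ n = a * b
    rw [mul_pow, ha, hb]
  one_mem' := one_pow _
  add_mem' {a b} ha hb := by
    show (a + b) ^ 2 ^ n = a + b
    rw [add_pow_q hn hF, ha, hb]
  zero_mem' := zero_pow (by positivity)
  neg_mem' {a} ha := by
    show (-a) ^ 2 ^ n = -a
    rw [Even.neg_pow ((Nat.even_pow' (by omega)).2 even_two), show a ^ 2 ^ n = a from ha]
    linear_combination a * two_eq_zero hn hF
  inv_mem' a ha := by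
    show a⁻¹ ^ 2 ^ n = a⁻¹
    rw [inv_pow, show a ^ 2 ^ n = a from ha]

theorem norm_add (a c : F) :
    (a + c) ^ (2 ^ n + 1) = a ^ (2 ^ n + 1) + c ^ (2 ^ n + 1) + (a ^ 2 ^ n * c + a * c ^ 2 ^ n) := by
  rw [pow_succ, pow_succ, pow_succ, add_pow_q hn hF]
  ring

theorem norm_compat_rigid (φ : F → F) (ψ : F → F) (hadd : ∀ a c, φ (a + c) = φ a + φ c)
    (h1 : φ 1 = 1) (hψadd : ∀ x y, x ^ 2 ^ n = x → y ^ 2 ^ n = y → ψ (x + y) = ψ x + ψ y)
    (hN : ∀ a, ψ (a ^ (2 ^ n + 1)) = (φ a) ^ (2 ^ n + 1)) (hinj : Function.Injective φ) :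
    ∃ σ : F ≃ₐ[ZMod 2] F, ∀ a, φ a = σ a := by
  classical
  have h2 := two_eq_zero hn hF
  have hpol : ∀ a c, ψ (a ^ 2 ^ n * c + a * c ^ 2 ^ n) = φ a ^ 2 ^ n * φ c + φ a * φ c ^ 2 ^ n := by
    intro a c
    have hfix : (a ^ 2 ^ n * c + a * c ^ 2 ^ n) ^ 2 ^ n = a ^ 2 ^ n * c + a * c ^ 2 ^ n := by
      rw [add_pow_q hn hF, mul_pow, mul_pow, pow_qq hn hF, pow_qq hn hF, add_comm]
    have hfix2 : (a ^ (2 ^ n + 1) + c ^ (2 ^ n + 1)) ^ 2 ^ n = a ^ (2 ^ n + 1) + c ^ (2 ^ n + 1) := by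
      rw [add_pow_q hn hF, norm_fixed hn hF, norm_fixed hn hF]
    have h := hN (a + c)
    rw [hadd, norm_add hn hF, norm_add hn hF, hψadd _ _ hfix2 hfix,
      hψadd _ _ (norm_fixed hn hF a) (norm_fixed hn hF c), hN, hN] at h
    linear_combination h
  have hψtr : ∀ a, ψ (a + a ^ 2 ^ n) = φ a + φ a ^ 2 ^ n := fun a => by
    have h := hpol a 1
    simp only [h1, one_pow, mul_one] at h
    rw [add_comm a, h, add_comm]
  have hφK : ∀ x, x ^ 2 ^ n = x → φ x ^ 2 ^ n = φ x := fun x hx => by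
    have h := hψtr x
    rw [hx, show x + x = 0 by linear_combination x * h2] at h
    have h0 : ψ 0 = 0 := by
      have := hψadd 0 0 (zero_pow (by positivity)) (zero_pow (by positivity))
      rw [add_zero] at this
      linear_combination -this
    rw [h0] at h
    linear_combination -h - φ x * h2
  have hψmul : ∀ x, x ^ 2 ^ n = x → ∀ y, y ^ 2 ^ n = y → ψ (x * y) = φ x * ψ y := by
    intro x hx y hy
    obtain ⟨a, ha⟩ := tr_surj hn hF hy
    have h := hpol x a
    rw [hx, hφK x hx, ← mul_add, ← mul_add, ha, ← hψtr a, ha] at h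
    exact h
  have hψ1 : ψ 1 = 1 := by
    have h := hN 1
    simpa only [h1, one_pow] using h
  have hψφ : ∀ x, x ^ 2 ^ n = x → ψ x = φ x := fun x hx => by
    have h := hψmul x hx 1 (one_pow _)
    rwa [mul_one, hψ1, mul_one] at h
  set K := fixedField hn hF with hK
  have hmemK : ∀ x : F, x ∈ K ↔ x ^ 2 ^ n = x := fun x => Iff.rfl
  let r : K →+* K :=
    { toFun := fun x => ⟨φ x, hφK x x.2⟩
      map_one' := Subtype.ext h1
      map_zero' := Subtype.ext (by
        show φ 0 = 0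
        have := hadd 0 0
        rw [add_zero] at this
        linear_combination -this)
      map_add' := fun x y => Subtype.ext (hadd x y)
      map_mul' := fun x y => Subtype.ext (by
        show φ ((x : F) * y) = φ x * φ y
        rw [← hψφ ((x : F) * y) (x * y).2, hψmul _ x.2 _ y.2, hψφ _ y.2]) }
  have hr : Function.Bijective r := Finite.injective_iff_bijective.1 fun x y h =>
    Subtype.ext (hinj (congrArg Subtype.val h))
  have : CharP F 2 := charP_two hn hF
  have : Fact (Nat.Prime 2) := ⟨Nat.prime_two⟩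
  have : CharP K 2 := CharP.subring F 2 K.toSubring
  let _ : Algebra (ZMod 2) K := ZMod.algebra K 2
  let rA : K ≃ₐ[ZMod 2] K :=
    AlgEquiv.ofRingEquiv (f := RingEquiv.ofBijective r hr) fun z => by
      have hs : (RingEquiv.ofBijective r hr).toRingHom.comp (algebraMap (ZMod 2) K) = algebraMap (ZMod 2) K :=
        RingHom.ext_zmod _ _
      exact RingHom.congr_fun hs z
  obtain ⟨i, hi⟩ := (FiniteField.bijective_frobeniusAlgEquivOfAlgebraic_pow (ZMod 2) K).2 rA
  set τ : F ≃ₐ[ZMod 2] F := FiniteField.frobeniusAlgEquivOfAlgebraic (ZMod 2) F ^ (i : ℕ) with hτ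
  have hτK : ∀ x, x ^ 2 ^ n = x → τ x = φ x := by
    intro x hx
    have h := congrArg (fun f : K ≃ₐ[ZMod 2] K => ((f ⟨x, hx⟩ : K) : F)) hi
    simp only [AlgEquiv.coe_pow, FiniteField.coe_frobeniusAlgEquivOfAlgebraic_iterate, ZMod.card] at h
    rw [hτ, AlgEquiv.coe_pow, FiniteField.coe_frobeniusAlgEquivOfAlgebraic_iterate, ZMod.card]
    exact h
  have key : ∀ a, φ a = τ a ∨ φ a = τ (a ^ 2 ^ n) := by
    intro a
    have hTr := hψtr a
    have hTfix : (a + a ^ 2 ^ n) ^ 2 ^ n = a + a ^ 2 ^ n := range_tr_subset hn hF ⟨a, rfl⟩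
    rw [hψφ _ hTfix, ← hτK _ hTfix, map_add] at hTr
    have hNa := hN a
    rw [hψφ _ (norm_fixed hn hF a), ← hτK _ (norm_fixed hn hF a), pow_succ, map_mul] at hNa
    rw [pow_succ] at hNa
    have h0 : (φ a - τ a) * (φ a - τ (a ^ 2 ^ n)) = 0 := by
      linear_combination hNa - φ a * hTr + (φ a ^ 2 ^ n * φ a - φ a ^ 2 ^ n * φ a) * h2
    rcases mul_eq_zero.1 h0 with h | h
    · exact Or.inl (sub_eq_zero.1 h)
    · exact Or.inr (sub_eq_zero.1 h)
  by_cases hall : ∀ a, φ a = τ a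
  · exact ⟨τ, hall⟩
  push Not at hall
  obtain ⟨a₀, ha₀⟩ := hall
  refine ⟨(FiniteField.frobeniusAlgEquivOfAlgebraic (ZMod 2) F ^ n).trans τ, fun a => ?_⟩
  have hfr : (FiniteField.frobeniusAlgEquivOfAlgebraic (ZMod 2) F ^ n) a = a ^ 2 ^ n := by
    rw [AlgEquiv.coe_pow, FiniteField.coe_frobeniusAlgEquivOfAlgebraic_iterate, ZMod.card]
  rw [AlgEquiv.trans_apply, hfr]
  rcases key a with h | h
  · have ha₀' := (key a₀).resolve_left ha₀
    rcases key (a + a₀) with h' | h'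
    · rw [hadd, map_add, h] at h'
      exact absurd (add_left_cancel h') ha₀
    · rw [hadd, add_pow_q hn hF, map_add, ha₀'] at h'
      exact add_right_cancel h'
  · exact h

theorem norm_compat (φ : F → F) (ψ : F → F) (hadd : ∀ a c, φ (a + c) = φ a + φ c)
    (hinj : Function.Injective φ) (hψadd : ∀ x y, x ^ 2 ^ n = x → y ^ 2 ^ n = y → ψ (x + y) = ψ x + ψ y)
    (hN : ∀ a, ψ (a ^ (2 ^ n + 1)) = (φ a) ^ (2 ^ n + 1)) :
    ∃ (c : Fˣ) (σ : F ≃ₐ[ZMod 2] F), ∀ a, φ a = c * σ a := by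
  have h0 : φ 1 ≠ 0 := fun h => by
    have := hadd 0 0
    rw [add_zero] at this
    have h00 : φ 0 = 0 := by linear_combination -this
    exact one_ne_zero (hinj (h.trans h00.symm))
  obtain ⟨σ, hσ⟩ := norm_compat_rigid hn hF (fun a => φ a / φ 1) (fun x => ψ x / (φ 1) ^ (2 ^ n + 1))
    (fun a c => by rw [hadd, add_div]) (div_self h0)
    (fun x y hx hy => by rw [hψadd x y hx hy, add_div]) (fun a => by rw [hN, div_pow])
    (fun a b h => hinj ((div_left_inj' h0).1 h))
  exact ⟨Units.mk0 _ h0, σ, fun a => by rw [← hσ, Units.val_mk0, mul_div_cancel₀ _ h0]⟩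

end CfsgLib.InvChar.UnitaryEven
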