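/-
InvChar: normalisers of wreathed Sylow 2-subgroups of classical matrix groups.
-/
import Cfsg.Agent.Lib.InvChar.TwoPartClassical

set_option autoImplicit false
set_option linter.unusedSectionVars false

open Matrix

namespace CfsgLib.InvChar.Wreath

open CfsgLib.InvChar.TwoPart

variable {F : Type*} [Field F] {ι : Type} [Fintype ι] [DecidableEq ι]

/-- A group generated in the doubled space by two diagonal blocks. -/
def blk : GL ι F × GL ι F →* GL (ι ⊕ ι) F where
  toFun p := ⟨fromBlocks (p.1 : Matrix ι ι F) 0 0 (p.2 : Matrix ι ι F),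
    fromBlocks ((p.1⁻¹ : GL ι F) : Matrix ι ι F) 0 0 ((p.2⁻¹ : GL ι F) : Matrix ι ι F),
    by rw [fromBlocks_multiply]; simp,
    by rw [fromBlocks_multiply]; simp⟩
  map_one' := Units.ext (by simp)
  map_mul' p p' := Units.ext (by simp [fromBlocks_multiply])

theorem coe_blk (a b : GL ι F) :
    (blk (a, b) : Matrix (ι ⊕ ι) (ι ⊕ ι) F) =
      fromBlocks (a : Matrix ι ι F) 0 0 (b : Matrix ι ι F) := rfl

theorem blk_injective : Function.Injective (blk (F := F) (ι := ι)) := by
  rintro ⟨a, b⟩ ⟨a', b'⟩ h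
  have h' : fromBlocks (a : Matrix ι ι F) 0 0 (b : Matrix ι ι F) =
      fromBlocks (a' : Matrix ι ι F) 0 0 (b' : Matrix ι ι F) := congrArg Units.val h
  obtain ⟨h1, -, -, h4⟩ := fromBlocks_inj.1 h'
  rw [Units.ext h1, Units.ext h4]

/-- The signed swap of the two blocks. -/
def sw : GL (ι ⊕ ι) F :=
  ⟨fromBlocks 0 1 (-1) 0, fromBlocks 0 (-1) 1 0, by rw [fromBlocks_multiply]; simp,
    by rw [fromBlocks_multiply]; simp⟩

theorem coe_sw : ((sw : GL (ι ⊕ ι) F) : Matrix (ι ⊕ ι) (ι ⊕ ι) F) = fromBlocks 0 1 (-1) 0 := rfl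

theorem sw_sq :
    (sw : GL (ι ⊕ ι) F) * sw = blk ((-1 : GL ι F), (-1 : GL ι F)) :=
  Units.ext (by rw [Units.val_mul, coe_sw, coe_blk, fromBlocks_multiply]; simp)

theorem sw_mul_blk (a b : GL ι F) : (sw : GL (ι ⊕ ι) F) * blk (a, b) = blk (b, a) * sw :=
  Units.ext (by rw [Units.val_mul, Units.val_mul, coe_sw, coe_blk, coe_blk, fromBlocks_multiply,
    fromBlocks_multiply]; simp)

theorem det_blk (a b : GL ι F) : Matrix.det (blk (a, b) : Matrix (ι ⊕ ι) (ι ⊕ ι) F) =
    Matrix.det (a : Matrix ι ι F) * Matrix.det (b : Matrix ι ι F) := by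
  rw [coe_blk, det_fromBlocks_zero₂₁]

theorem det_sw : Matrix.det ((sw : GL (ι ⊕ ι) F) : Matrix (ι ⊕ ι) (ι ⊕ ι) F) = 1 := by
  have e : fromBlocks (0 : Matrix ι ι F) 1 (-1) 0 =
      fromBlocks (1 : Matrix ι ι F) (1 : Matrix ι ι F) 0 (1 : Matrix ι ι F) *
        fromBlocks (1 : Matrix ι ι F) 0 (-1 : Matrix ι ι F) (1 : Matrix ι ι F) *
        fromBlocks (1 : Matrix ι ι F) (1 : Matrix ι ι F) 0 (1 : Matrix ι ι F) := by
    rw [fromBlocks_multiply, fromBlocks_multiply]; simp
  rw [coe_sw, e, det_mul, det_mul, det_fromBlocks_zero₂₁, det_fromBlocks_zero₁₂]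
  simp

theorem blk_mulVec (a b : GL ι F) (v w : ι → F) :
    (blk (a, b) : Matrix (ι ⊕ ι) (ι ⊕ ι) F) *ᵥ Sum.elim v w =
      Sum.elim ((a : Matrix ι ι F) *ᵥ v) ((b : Matrix ι ι F) *ᵥ w) := by
  rw [coe_blk, fromBlocks_mulVec]; simp

theorem sw_mulVec (v w : ι → F) :
    ((sw : GL (ι ⊕ ι) F) : Matrix (ι ⊕ ι) (ι ⊕ ι) F) *ᵥ Sum.elim v w = Sum.elim w (-v) := by
  rw [coe_sw, fromBlocks_mulVec]; simp [neg_mulVec]

/-- A Sylow 2-subgroup with the properties that propagate to the wreath product. -/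
structure IsGood (G S : Subgroup (GL ι F)) : Prop where
  le : S ≤ G
  card : Nat.card S = 2 ^ v₂ (Nat.card G)
  neg : (-1 : GL ι F) ∈ S
  irr : ∀ W : Submodule F (ι → F),
    (∀ s ∈ S, Matrix.det (s : Matrix ι ι F) = 1 → ∀ v ∈ W, (s : Matrix ι ι F) *ᵥ v ∈ W) →
      W = ⊥ ∨ W = ⊤
  nrm : ∀ g ∈ G, Odd (orderOf g) → (∀ s ∈ S, g * s * g⁻¹ ∈ S) →
    ∃ a : F, (g : Matrix ι ι F) = a • 1

/-- The wreath product of a subgroup with the group of order two. -/
def wr (S : Subgroup (GL ι F)) (hneg : (-1 : GL ι F) ∈ S) : Subgroup (GL (ι ⊕ ι) F) where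
  carrier := {x | ∃ a ∈ S, ∃ b ∈ S, x = blk (a, b) ∨ x = blk (a, b) * sw}
  one_mem' := ⟨1, S.one_mem, 1, S.one_mem, Or.inl (by rw [← Prod.one_eq_mk, map_one])⟩
  mul_mem' := by
    rintro _ _ ⟨a, ha, b, hb, rfl | rfl⟩ ⟨c, hc, d, hd, rfl | rfl⟩
    · exact ⟨a * c, S.mul_mem ha hc, b * d, S.mul_mem hb hd,
        Or.inl (by rw [← Prod.mk_mul_mk, map_mul])⟩
    · exact ⟨a * c, S.mul_mem ha hc, b * d, S.mul_mem hb hd,
        Or.inr (by rw [← Prod.mk_mul_mk, map_mul, mul_assoc])⟩
    · exact ⟨a * d, S.mul_mem ha hd, b * c, S.mul_mem hb hc,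
        Or.inr (by rw [mul_assoc, sw_mul_blk, ← mul_assoc, ← map_mul, Prod.mk_mul_mk])⟩
    · refine ⟨a * d * -1, S.mul_mem (S.mul_mem ha hd) hneg, b * c * -1,
        S.mul_mem (S.mul_mem hb hc) hneg, Or.inl ?_⟩
      rw [mul_assoc, ← mul_assoc sw, sw_mul_blk, mul_assoc (blk (d, c)), sw_sq, ← map_mul,
        ← map_mul, Prod.mk_mul_mk, Prod.mk_mul_mk, mul_assoc, mul_assoc]
  inv_mem' := by
    rintro _ ⟨a, ha, b, hb, rfl | rfl⟩
    · exact ⟨a⁻¹, S.inv_mem ha, b⁻¹, S.inv_mem hb, Or.inl (by rw [← map_inv]; rfl)⟩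
    · refine ⟨-1 * b⁻¹, S.mul_mem hneg (S.inv_mem hb), -1 * a⁻¹,
        S.mul_mem hneg (S.inv_mem ha), Or.inr ?_⟩
      have hsw : (sw : GL (ι ⊕ ι) F)⁻¹ = blk ((-1 : GL ι F), (-1 : GL ι F)) * sw := by
        refine inv_eq_of_mul_eq_one_right ?_
        rw [← mul_assoc, sw_mul_blk, mul_assoc, sw_sq, ← map_mul, Prod.mk_mul_mk]
        simp
        rw [← Prod.one_eq_mk, map_one]
      rw [_root_.mul_inv_rev, hsw, ← map_inv, Prod.inv_mk, mul_assoc, sw_mul_blk, ← mul_assoc, ← map_mul,
        Prod.mk_mul_mk]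

theorem blk_mem_wr {S : Subgroup (GL ι F)} (hneg : (-1 : GL ι F) ∈ S) {a b : GL ι F} (ha : a ∈ S)
    (hb : b ∈ S) : blk (a, b) ∈ wr S hneg := ⟨a, ha, b, hb, Or.inl rfl⟩

theorem sw_mem_wr {S : Subgroup (GL ι F)} (hneg : (-1 : GL ι F) ∈ S) : sw ∈ wr S hneg :=
  ⟨1, S.one_mem, 1, S.one_mem, Or.inr (by rw [← Prod.one_eq_mk, map_one, one_mul])⟩

theorem blk_ne_blk_sw [Nonempty ι] (a b c d : GL ι F) : blk (a, b) ≠ blk (c, d) * sw := by
  intro h
  have h' := congrArg Units.val h
  rw [Units.val_mul, coe_blk, coe_blk, coe_sw, fromBlocks_multiply] at h'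
  obtain ⟨h1, -, -, -⟩ := fromBlocks_inj.1 h'
  have h2 : (a : Matrix ι ι F) = 0 := by simpa using h1
  have h3 : Matrix.det (a : Matrix ι ι F) ≠ 0 :=
    ((Matrix.isUnit_iff_isUnit_det _).1 a.isUnit).ne_zero
  rw [h2, det_zero] at h3
  exact h3 rfl

theorem blk_mem_wr_iff [Nonempty ι] {S : Subgroup (GL ι F)} (hneg : (-1 : GL ι F) ∈ S)
    {a b : GL ι F} : blk (a, b) ∈ wr S hneg ↔ a ∈ S ∧ b ∈ S := by
  refine ⟨?_, fun h => blk_mem_wr hneg h.1 h.2⟩
  rintro ⟨c, hc, d, hd, h | h⟩
  · obtain ⟨rfl, rfl⟩ := Prod.ext_iff.1 (blk_injective h)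
    exact ⟨hc, hd⟩
  · exact absurd h (blk_ne_blk_sw _ _ _ _)

theorem card_wr [Finite F] [Nonempty ι] {S : Subgroup (GL ι F)} (hneg : (-1 : GL ι F) ∈ S) :
    Nat.card (wr S hneg) = 2 * (Nat.card S * Nat.card S) := by
  classical
  let f : Bool × S × S → wr S hneg := fun x =>
    ⟨blk ((x.2.1 : GL ι F), (x.2.2 : GL ι F)) * (if x.1 then sw else 1), mul_mem
      (blk_mem_wr hneg x.2.1.2 x.2.2.2) (by split_ifs; exacts [sw_mem_wr hneg, one_mem _])⟩
  have hf : Function.Bijective f := by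
    constructor
    · rintro ⟨x, a, b⟩ ⟨y, c, d⟩ h
      have h' := congrArg Subtype.val h
      cases x <;> cases y <;> simp [f] at h'
      · obtain ⟨h1, h2⟩ := Prod.ext_iff.1 (blk_injective h')
        rw [Subtype.ext h1, Subtype.ext h2]
      · exact absurd h' (blk_ne_blk_sw _ _ _ _)
      · exact absurd h'.symm (blk_ne_blk_sw _ _ _ _)
      · obtain ⟨h1, h2⟩ := Prod.ext_iff.1 (blk_injective h')
        rw [Subtype.ext h1, Subtype.ext h2]
    · rintro ⟨_, a, ha, b, hb, rfl | rfl⟩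
      · exact ⟨⟨false, ⟨a, ha⟩, ⟨b, hb⟩⟩, Subtype.ext (by simp [f])⟩
      · exact ⟨⟨true, ⟨a, ha⟩, ⟨b, hb⟩⟩, Subtype.ext (by simp [f])⟩
  rw [← Nat.card_eq_of_bijective f hf, Nat.card_prod, Nat.card_prod, Nat.card_eq_fintype_card,
    Fintype.card_bool]

theorem eq_one_of_odd_two_pow {H : Type*} [Group H] {x : H} (ho : Odd (orderOf x)) {k : ℕ}
    (hk : x ^ 2 ^ k = 1) : x = 1 := by
  obtain ⟨j, -, hj⟩ := (Nat.dvd_prime_pow Nat.prime_two).1 (orderOf_dvd_of_pow_eq_one hk)
  rw [← orderOf_eq_one_iff, hj]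
  rw [hj] at ho
  rcases j with _ | j
  · rfl
  · rw [Nat.odd_iff] at ho
    simp [pow_succ] at ho

/-- The action of a matrix on subspaces. -/
def mp {κ : Type} [Fintype κ] [DecidableEq κ] (g : GL κ F) (W : Submodule F (κ → F)) :
    Submodule F (κ → F) :=
  W.map (g : Matrix κ κ F).mulVecLin

theorem mem_mp {κ : Type} [Fintype κ] [DecidableEq κ] {g : GL κ F} {W : Submodule F (κ → F)}
    {x : κ → F} : x ∈ mp g W ↔ ∃ y ∈ W, (g : Matrix κ κ F) *ᵥ y = x := by
  simp [mp, Submodule.mem_map]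

theorem mp_mul {κ : Type} [Fintype κ] [DecidableEq κ] (g h : GL κ F) (W : Submodule F (κ → F)) :
    mp (g * h) W = mp g (mp h W) := by
  rw [mp, mp, mp, ← Submodule.map_comp, ← Matrix.mulVecLin_mul, Units.val_mul]

theorem mp_one {κ : Type} [Fintype κ] [DecidableEq κ] (W : Submodule F (κ → F)) : mp 1 W = W := by
  rw [mp, Units.val_one, Matrix.mulVecLin_one, Submodule.map_id]

theorem mp_injective {κ : Type} [Fintype κ] [DecidableEq κ] (g : GL κ F) :
    Function.Injective (mp g) := fun U W h => by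
  rw [← mp_one U, ← mp_one W, ← inv_mul_cancel g, mp_mul, mp_mul, h]

theorem mem_mp_iff {κ : Type} [Fintype κ] [DecidableEq κ] {g : GL κ F} {W : Submodule F (κ → F)}
    {x : κ → F} : (g : Matrix κ κ F) *ᵥ x ∈ mp g W ↔ x ∈ W := by
  refine ⟨fun h => ?_, fun h => mem_mp.2 ⟨x, h, rfl⟩⟩
  obtain ⟨y, hy, he⟩ := mem_mp.1 h
  rwa [Matrix.mulVec_injective_iff_isUnit.2 g.isUnit he] at hy

/-- The first block. -/
def left (ι : Type) (F : Type*) [Field F] : Submodule F (ι ⊕ ι → F) where
  carrier := {x | ∀ i, x (Sum.inr i) = 0}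
  add_mem' {a b} ha hb i := by simp [ha i, hb i]
  zero_mem' _ := rfl
  smul_mem' c x hx i := by simp [hx i]

/-- The second block. -/
def right (ι : Type) (F : Type*) [Field F] : Submodule F (ι ⊕ ι → F) where
  carrier := {x | ∀ i, x (Sum.inl i) = 0}
  add_mem' {a b} ha hb i := by simp [ha i, hb i]
  zero_mem' _ := rfl
  smul_mem' c x hx i := by simp [hx i]

theorem elim_mem_left {v w : ι → F} : Sum.elim v w ∈ left ι F ↔ w = 0 := by
  refine ⟨fun h => funext h, ?_⟩
  rintro rfl
  exact fun i => rfl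

theorem elim_mem_right {v w : ι → F} : Sum.elim v w ∈ right ι F ↔ v = 0 := by
  refine ⟨fun h => funext h, ?_⟩
  rintro rfl
  exact fun i => rfl

theorem exists_elim (x : ι ⊕ ι → F) : ∃ v w, x = Sum.elim v w :=
  ⟨x ∘ Sum.inl, x ∘ Sum.inr, (Sum.elim_comp_inl_inr x).symm⟩

theorem left_ne_right [Nonempty ι] : left ι F ≠ right ι F := by
  obtain ⟨i⟩ := ‹Nonempty ι›
  intro h
  have h1 : Sum.elim (Pi.single i (1 : F)) (0 : ι → F) ∈ left ι F := elim_mem_left.2 rfl
  rw [h, elim_mem_right] at h1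
  simpa using congrFun h1 i

theorem elim_add' (a b c d : ι → F) :
    Sum.elim a b + Sum.elim c d = Sum.elim (a + c) (b + d) := by
  funext i; cases i <;> rfl

theorem elim_smul' (r : F) (a b : ι → F) : r • Sum.elim a b = Sum.elim (r • a) (r • b) := by
  funext i; cases i <;> rfl

/-- Stabilisation of both blocks. -/
def Pres (g : GL (ι ⊕ ι) F) : Prop := mp g (left ι F) = left ι F ∧ mp g (right ι F) = right ι F

theorem wr_perm {S : Subgroup (GL ι F)} (hneg : (-1 : GL ι F) ∈ S) {x : GL (ι ⊕ ι) F}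
    (hx : x ∈ wr S hneg) :
    Pres x ∨ mp x (left ι F) = right ι F ∧ mp x (right ι F) = left ι F := by
  have hblk : ∀ a b : GL ι F, Pres (blk (a, b)) := by
    intro a b
    constructor
    · ext y
      rw [mem_mp]
      constructor
      · rintro ⟨z, hz, rfl⟩
        obtain ⟨v, w, rfl⟩ := exists_elim z
        rw [elim_mem_left] at hz
        subst hz
        rw [blk_mulVec, mulVec_zero]
        exact elim_mem_left.2 rfl
      · intro hy
        obtain ⟨v, w, rfl⟩ := exists_elim y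
        rw [elim_mem_left] at hy
        subst hy
        refine ⟨Sum.elim (((a⁻¹ : GL ι F) : Matrix ι ι F) *ᵥ v) 0, elim_mem_left.2 rfl, ?_⟩
        rw [blk_mulVec, mulVec_mulVec, ← Units.val_mul, mul_inv_cancel, Units.val_one, one_mulVec,
          mulVec_zero]
    · ext y
      rw [mem_mp]
      constructor
      · rintro ⟨z, hz, rfl⟩
        obtain ⟨v, w, rfl⟩ := exists_elim z
        rw [elim_mem_right] at hz
        subst hz
        rw [blk_mulVec, mulVec_zero]
        exact elim_mem_right.2 rfl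
      · intro hy
        obtain ⟨v, w, rfl⟩ := exists_elim y
        rw [elim_mem_right] at hy
        subst hy
        refine ⟨Sum.elim 0 (((b⁻¹ : GL ι F) : Matrix ι ι F) *ᵥ w), elim_mem_right.2 rfl, ?_⟩
        rw [blk_mulVec, mulVec_mulVec, ← Units.val_mul, mul_inv_cancel, Units.val_one, one_mulVec,
          mulVec_zero]
  obtain ⟨a, -, b, -, rfl | rfl⟩ := hx
  · exact Or.inl (hblk a b)
  · refine Or.inr ?_
    have h1 : mp (sw : GL (ι ⊕ ι) F) (left ι F) = right ι F := by
      ext y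
      rw [mem_mp]
      constructor
      · rintro ⟨z, hz, rfl⟩
        obtain ⟨v, w, rfl⟩ := exists_elim z
        rw [elim_mem_left] at hz
        subst hz
        rw [sw_mulVec]
        exact elim_mem_right.2 rfl
      · intro hy
        obtain ⟨v, w, rfl⟩ := exists_elim y
        rw [elim_mem_right] at hy
        subst hy
        exact ⟨Sum.elim (-w) 0, elim_mem_left.2 rfl, by rw [sw_mulVec, neg_neg]⟩
    have h2 : mp (sw : GL (ι ⊕ ι) F) (right ι F) = left ι F := by
      conv_lhs => rw [← h1, ← mp_mul, sw_sq]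
      exact (hblk _ _).1
    exact ⟨by rw [mp_mul, h1, (hblk a b).2], by rw [mp_mul, h2, (hblk a b).1]⟩

theorem blk_ne_sw_aux [Nonempty ι] (h : Pres (sw : GL (ι ⊕ ι) F)) : False := by
  obtain ⟨i⟩ := ‹Nonempty ι›
  have h1 : ((sw : GL (ι ⊕ ι) F) : Matrix (ι ⊕ ι) (ι ⊕ ι) F) *ᵥ
      Sum.elim (Pi.single i (1 : F)) (0 : ι → F) ∈ mp sw (left ι F) :=
    mem_mp.2 ⟨_, elim_mem_left.2 rfl, rfl⟩
  rw [h.1, sw_mulVec, elim_mem_left] at h1
  simpa using congrFun h1 i

/-- An element preserving both blocks is block diagonal. -/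
theorem exists_blk_of_pres {g : GL (ι ⊕ ι) F} (h : Pres g) : ∃ a b, g = blk (a, b) := by
  set M := (g : Matrix (ι ⊕ ι) (ι ⊕ ι) F) with hM
  have h21 : M.toBlocks₂₁ = 0 := by
    ext i j
    have h1 : M *ᵥ Sum.elim (Pi.single j (1 : F)) (0 : ι → F) ∈ left ι F := by
      rw [← h.1]; exact mem_mp.2 ⟨_, elim_mem_left.2 rfl, rfl⟩
    have h2 := h1 i
    rw [← fromBlocks_toBlocks M, fromBlocks_mulVec] at h2
    simpa only [Sum.elim_inl, Sum.elim_inr, Sum.elim_comp_inl, Sum.elim_comp_inr, mulVec_zero,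
      add_zero, zero_add, mulVec_single_one, Matrix.col_apply, Pi.add_apply, Matrix.zero_apply]
      using h2
  have h12 : M.toBlocks₁₂ = 0 := by
    ext i j
    have h1 : M *ᵥ Sum.elim (0 : ι → F) (Pi.single j (1 : F)) ∈ right ι F := by
      rw [← h.2]; exact mem_mp.2 ⟨_, elim_mem_right.2 rfl, rfl⟩
    have h2 := h1 i
    rw [← fromBlocks_toBlocks M, fromBlocks_mulVec] at h2
    simpa only [Sum.elim_inl, Sum.elim_inr, Sum.elim_comp_inl, Sum.elim_comp_inr, mulVec_zero,
      add_zero, zero_add, mulVec_single_one, Matrix.col_apply, Pi.add_apply, Matrix.zero_apply]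
      using h2
  have hd : Matrix.det M ≠ 0 := ((Matrix.isUnit_iff_isUnit_det _).1 g.isUnit).ne_zero
  rw [← fromBlocks_toBlocks M, h21, det_fromBlocks_zero₂₁, mul_ne_zero_iff] at hd
  refine ⟨GeneralLinearGroup.mkOfDetNeZero _ hd.1, GeneralLinearGroup.mkOfDetNeZero _ hd.2,
    Units.ext ?_⟩
  conv_lhs => rw [← hM, ← fromBlocks_toBlocks M, h21, h12]
  rw [coe_blk]
  rfl

variable [Finite F]

/-- The strong normaliser property of the wreath product. -/
theorem nrm_wr {G₁ S : Subgroup (GL ι F)} (h : IsGood G₁ S) {G₂ : Subgroup (GL (ι ⊕ ι) F)}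
    (hblk : ∀ a b, blk (a, b) ∈ G₂ → a ∈ G₁ ∧ b ∈ G₁) (heven : Even (Fintype.card ι))
    (hι : 2 ≤ Fintype.card ι) (h2 : (2 : F) ≠ 0) :
    ∀ g ∈ G₂, Odd (orderOf g) →
      (∀ s ∈ wr S h.neg, Matrix.det (s : Matrix (ι ⊕ ι) (ι ⊕ ι) F) = 1 →
        g * s * g⁻¹ ∈ wr S h.neg) →
      ∃ a : F, (g : Matrix (ι ⊕ ι) (ι ⊕ ι) F) = a • 1 := by
  classical
  have : Nonempty ι := Fintype.card_pos_iff.1 (by omega)
  have := Fintype.ofFinite F
  intro g hg hodd hnorm
  set W₁ := mp g (left ι F)
  set W₂ := mp g (right ι F)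
  have hW : W₁ ≠ W₂ := fun e => left_ne_right (mp_injective g e)
  have hperm : ∀ x ∈ wr S h.neg, Matrix.det (x : Matrix (ι ⊕ ι) (ι ⊕ ι) F) = 1 →
      mp x W₁ = W₁ ∨ mp x W₁ = W₂ := by
    intro x hx hdx
    -- transport along `g`: the conjugate of `x` by `g⁻¹` permutes the blocks
    have hfin : ∀ s ∈ wr S h.neg, Matrix.det (s : Matrix (ι ⊕ ι) (ι ⊕ ι) F) = 1 → ∀ k : ℕ,
        g ^ k * s * (g ^ k)⁻¹ ∈ wr S h.neg ∧
          Matrix.det ((g ^ k * s * (g ^ k)⁻¹ : GL (ι ⊕ ι) F) : Matrix (ι ⊕ ι) (ι ⊕ ι) F) = 1 := by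
      intro s hs hds k
      induction k with
      | zero => simpa using And.intro hs hds
      | succ k ih =>
        have e : g ^ (k + 1) * s * (g ^ (k + 1))⁻¹ = g * (g ^ k * s * (g ^ k)⁻¹) * g⁻¹ := by
          rw [pow_succ']; group
        rw [e]
        refine ⟨hnorm _ ih.1 ih.2, ?_⟩
        rw [Units.val_mul, Units.val_mul, det_mul, det_mul, ih.2, mul_one, ← det_mul,
          ← Units.val_mul, mul_inv_cancel, Units.val_one, det_one]
    obtain ⟨k, hk⟩ : ∃ k : ℕ, g ^ k = g⁻¹ :=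
      (isOfFinOrder_of_finite g).mem_powers_iff_mem_zpowers.2
        (Subgroup.inv_mem _ (Subgroup.mem_zpowers g))
    have hx' := (hfin x hx hdx k).1
    rw [hk, inv_inv] at hx'
    have e : mp x W₁ = mp g (mp (g⁻¹ * x * g) (left ι F)) := by
      rw [← mp_mul, ← mp_mul, mul_assoc g⁻¹, mul_inv_cancel_left]
    rcases wr_perm h.neg hx' with h1 | h1 <;> rw [e, h1.1]
    · exact Or.inl rfl
    · exact Or.inr rfl
  have hdim : ∀ (K : Submodule F (ι ⊕ ι → F)), Module.finrank F (mp g K) = Module.finrank F K :=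
    fun K => (Submodule.equivMapOfInjective _
      (by exact Matrix.mulVec_injective_iff_isUnit.2 g.isUnit) K).finrank_eq.symm
  have hlr : Module.finrank F (left ι F) = Module.finrank F (right ι F) := by
    refine LinearEquiv.finrank_eq (LinearEquiv.ofSubmodules
      (LinearEquiv.funCongrLeft F F (Equiv.sumComm ι ι)) _ _ ?_)
    ext y
    rw [Submodule.mem_map]
    constructor
    · rintro ⟨z, hz, rfl⟩ i
      exact hz i
    · intro hy
      exact ⟨y ∘ Equiv.sumComm ι ι, fun i => hy i, funext fun i => by cases i <;> rfl⟩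
  set z : GL (ι ⊕ ι) F := blk (-1, 1) with hz
  have hzS : z ∈ wr S h.neg := blk_mem_wr h.neg h.neg S.one_mem
  have hdz : Matrix.det (z : Matrix (ι ⊕ ι) (ι ⊕ ι) F) = 1 := by
    rw [hz, det_blk, Units.val_neg, Units.val_one, det_neg, heven.neg_one_pow, det_one, one_mul, one_mul]
  have hzv : ∀ v w : ι → F, (z : Matrix (ι ⊕ ι) (ι ⊕ ι) F) *ᵥ Sum.elim v w = Sum.elim (-v) w :=
    fun v w => by
      rw [hz, blk_mulVec, Units.val_neg, Units.val_one, neg_mulVec, one_mulVec, one_mulVec]
  -- `W₁` is one of the blocks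
  have hW1 : W₁ = left ι F ∨ W₁ = right ι F := by
    rcases hperm z hzS hdz with hzW | hzW
    · have hsplit : ∀ v w, Sum.elim v w ∈ W₁ →
          Sum.elim v (0 : ι → F) ∈ W₁ ∧ Sum.elim (0 : ι → F) w ∈ W₁ := by
        intro v w hm
        have hm' : Sum.elim (-v) w ∈ W₁ := by
          rw [← hzW, ← hzv]; exact mem_mp.2 ⟨_, hm, rfl⟩
        have e1 : Sum.elim (0 : ι → F) w = (2 : F)⁻¹ • (Sum.elim v w + Sum.elim (-v) w) := by
          rw [elim_add', elim_smul', add_neg_cancel, smul_zero, ← two_smul F w, smul_smul,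
            inv_mul_cancel₀ h2, one_smul]
        have e2 : Sum.elim v (0 : ι → F) = (2 : F)⁻¹ • (Sum.elim v w - Sum.elim (-v) w) := by
          rw [sub_eq_add_neg, ← neg_one_smul F (Sum.elim (-v) w), elim_smul', elim_add', elim_smul',
            neg_one_smul, neg_one_smul, neg_neg, add_neg_cancel, smul_zero, ← two_smul F v,
            smul_smul, inv_mul_cancel₀ h2, one_smul]
        exact ⟨e2 ▸ W₁.smul_mem _ (W₁.sub_mem hm hm'), e1 ▸ W₁.smul_mem _ (W₁.add_mem hm hm')⟩
      let A : Submodule F (ι → F) :=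
        { carrier := {v | Sum.elim v (0 : ι → F) ∈ W₁}
          add_mem' := fun {a b} ha hb => by
            have := W₁.add_mem ha hb
            rwa [elim_add', add_zero] at this
          zero_mem' := by
            show Sum.elim (0 : ι → F) (0 : ι → F) ∈ W₁
            convert W₁.zero_mem using 1
            funext i; cases i <;> rfl
          smul_mem' := fun c v hv => by
            have := W₁.smul_mem c hv
            rwa [elim_smul', smul_zero] at this }
      by_cases hA : ∀ y ∈ S, Matrix.det (y : Matrix ι ι F) = 1 →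
          ∀ v ∈ A, (y : Matrix ι ι F) *ᵥ v ∈ A
      · rcases h.irr A hA with hA0 | hA0
        · refine Or.inr (Submodule.eq_of_le_of_finrank_le ?_ (by rw [hdim, hlr]))
          intro x hx
          obtain ⟨v, w, rfl⟩ := exists_elim x
          rw [elim_mem_right]
          have : v ∈ A := (hsplit v w hx).1
          rwa [hA0, Submodule.mem_bot] at this
        · refine Or.inl (Submodule.eq_of_le_of_finrank_le ?_ (by rw [hdim])).symm
          intro x hx
          obtain ⟨v, w, rfl⟩ := exists_elim x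
          rw [elim_mem_left] at hx
          subst hx
          show v ∈ A
          rw [hA0]; trivial
      · exfalso
        push Not at hA
        obtain ⟨y, hy, hdy, v, hv, hyv⟩ := hA
        set x : GL (ι ⊕ ι) F := blk (y, 1)
        rcases hperm x (blk_mem_wr h.neg hy S.one_mem) (by rw [det_blk, hdy]; simp) with hx | hx
        · refine hyv ?_
          have hh : (x : Matrix (ι ⊕ ι) (ι ⊕ ι) F) *ᵥ Sum.elim v (0 : ι → F) ∈ mp x W₁ :=
            mem_mp.2 ⟨_, hv, rfl⟩
          rw [hx, blk_mulVec, mulVec_zero] at hh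
          exact hh
        · -- then `W₁` lies in the first block
          have hle : W₁ ≤ left ι F := by
            intro u hu
            obtain ⟨a, b, rfl⟩ := exists_elim u
            rw [elim_mem_left]
            have h1 := (hsplit a b hu).2
            have hh : (x : Matrix (ι ⊕ ι) (ι ⊕ ι) F) *ᵥ Sum.elim (0 : ι → F) b ∈ mp x W₁ :=
              mem_mp.2 ⟨_, h1, rfl⟩
            rw [hx, blk_mulVec, mulVec_zero, Units.val_one, one_mulVec] at hh
            obtain ⟨p, hp, hpe⟩ := mem_mp.1 h1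
            obtain ⟨p', hp', hpe'⟩ := mem_mp.1 hh
            have := Matrix.mulVec_injective_iff_isUnit.2 g.isUnit (hpe.trans hpe'.symm)
            subst this
            have hp0 : p = 0 := funext fun i => by
              rcases i with i | i
              · exact hp' i
              · exact hp i
            rw [hp0, mulVec_zero] at hpe
            funext i
            exact (congrFun hpe (Sum.inr i)).symm
          have heq : W₁ = left ι F := Submodule.eq_of_le_of_finrank_le hle (by rw [hdim])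
          apply hyv
          show Sum.elim ((y : Matrix ι ι F) *ᵥ v) (0 : ι → F) ∈ W₁
          rw [heq]
          exact elim_mem_left.2 rfl
    · exfalso
      have hneg' : ∀ u ∈ W₁, u ∈ W₂ → u = 0 := by
        intro u h1 h2'
        obtain ⟨p, hp, hpe⟩ := mem_mp.1 h1
        obtain ⟨p', hp', hpe'⟩ := mem_mp.1 h2'
        have := Matrix.mulVec_injective_iff_isUnit.2 g.isUnit (hpe.trans hpe'.symm)
        subst this
        have hp0 : p = 0 := funext fun i => by
          rcases i with i | i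
          · exact hp' i
          · exact hp i
        rw [hp0, mulVec_zero] at hpe
        exact hpe.symm
      have hz2 : ∀ a b, Sum.elim a b ∈ W₁ → Sum.elim (-a) b ∈ W₂ := fun a b hm => by
        rw [← hzW, ← hzv]; exact mem_mp.2 ⟨_, hm, rfl⟩
      have hl0 : ∀ a, Sum.elim a (0 : ι → F) ∈ W₁ → a = 0 := fun a hm => by
        have h' := hz2 a 0 hm
        have : Sum.elim a (0 : ι → F) ∈ W₂ := by
          have := W₂.neg_mem h'
          rwa [← neg_one_smul F, elim_smul', neg_one_smul, neg_neg, smul_zero] at this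
        have := hneg' _ hm this
        funext i; exact congrFun this (Sum.inl i)
      have hr0 : ∀ b, Sum.elim (0 : ι → F) b ∈ W₁ → b = 0 := fun b hm => by
        have h' := hz2 0 b hm
        rw [neg_zero] at h'
        have := hneg' _ hm h'
        funext i; exact congrFun this (Sum.inr i)
      -- the projection to the first block is onto
      let pr : W₁ →ₗ[F] (ι → F) :=
        { toFun := fun u => (u : ι ⊕ ι → F) ∘ Sum.inl
          map_add' := fun _ _ => rfl
          map_smul' := fun _ _ => rfl }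
      have hinj : Function.Injective pr := by
        rw [injective_iff_map_eq_zero]
        rintro ⟨u, hu⟩ he
        obtain ⟨a, b, rfl⟩ := exists_elim u
        have ha : a = 0 := he
        subst ha
        have hb := hr0 b hu
        subst hb
        refine Subtype.ext (funext fun i => ?_)
        cases i <;> rfl
      have hfr : Module.finrank F W₁ = Module.finrank F (ι → F) := by
        rw [hdim]
        refine LinearEquiv.finrank_eq
          { toFun := fun u i => (u : ι ⊕ ι → F) (Sum.inl i)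
            invFun := fun v => ⟨Sum.elim v 0, elim_mem_left.2 rfl⟩
            map_add' := fun _ _ => rfl
            map_smul' := fun _ _ => rfl
            left_inv := fun u => Subtype.ext (funext fun i => by
              cases i with
              | inl i => rfl
              | inr i => exact (u.2 i).symm)
            right_inv := fun v => rfl }
      have hsurj : Function.Surjective pr :=
        (LinearMap.injective_iff_surjective_of_finrank_eq_finrank hfr).1 hinj
      obtain ⟨y, hy, hdy, hy1, hy2⟩ : ∃ y ∈ S, Matrix.det (y : Matrix ι ι F) = 1 ∧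
          (y : Matrix ι ι F) ≠ 1 ∧ (y : Matrix ι ι F) ≠ -1 := by
        by_contra hcon
        push Not at hcon
        obtain ⟨i₀⟩ := ‹Nonempty ι›
        rcases h.irr (Submodule.span F {Pi.single i₀ 1}) (fun s hs hds v hv => by
          by_cases e : (s : Matrix ι ι F) = 1
          · rw [e, one_mulVec]; exact hv
          · rw [hcon s hs hds e, neg_mulVec, one_mulVec]
            exact Submodule.neg_mem _ hv) with h0 | h0
        · simpa using congrFun (Submodule.span_singleton_eq_bot.1 h0) i₀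
        · have := finrank_span_singleton (K := F) (v := (Pi.single i₀ 1 : ι → F))
            (fun e => by simpa using congrFun e i₀)
          rw [h0, finrank_top, Module.finrank_fintype_fun_eq_card] at this
          omega
      set x : GL (ι ⊕ ι) F := blk (y, 1)
      have hall : ∀ v : ι → F, ∃ b, Sum.elim v b ∈ W₁ := fun v => by
        obtain ⟨⟨u, hu⟩, rfl⟩ := hsurj v
        exact ⟨u ∘ Sum.inr, by
          show Sum.elim (u ∘ Sum.inl) (u ∘ Sum.inr) ∈ W₁
          rw [Sum.elim_comp_inl_inr]; exact hu⟩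
      rcases hperm x (blk_mem_wr h.neg hy S.one_mem) (by rw [det_blk, hdy]; simp) with hx | hx
      · refine hy1 (Matrix.ext_iff_mulVec.2 fun v => ?_)
        obtain ⟨b, hb⟩ := hall v
        have hh : (x : Matrix (ι ⊕ ι) (ι ⊕ ι) F) *ᵥ Sum.elim v b ∈ mp x W₁ :=
          mem_mp.2 ⟨_, hb, rfl⟩
        rw [hx, blk_mulVec, Units.val_one, one_mulVec] at hh
        have := W₁.sub_mem hh hb
        rw [sub_eq_add_neg, ← neg_one_smul F (Sum.elim v b), elim_smul', elim_add', neg_one_smul,
          neg_one_smul, add_neg_cancel, ← sub_eq_add_neg] at this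
        rw [one_mulVec]
        exact sub_eq_zero.1 (hl0 _ this)
      · refine hy2 (Matrix.ext_iff_mulVec.2 fun v => ?_)
        obtain ⟨b, hb⟩ := hall v
        have hh : (x : Matrix (ι ⊕ ι) (ι ⊕ ι) F) *ᵥ Sum.elim v b ∈ mp x W₁ :=
          mem_mp.2 ⟨_, hb, rfl⟩
        rw [hx, ← hzW, blk_mulVec, Units.val_one, one_mulVec] at hh
        obtain ⟨u, hu, hue⟩ := mem_mp.1 hh
        obtain ⟨c, d, rfl⟩ := exists_elim u
        rw [hzv] at hue
        have hc : -c = (y : Matrix ι ι F) *ᵥ v := funext fun i => congrFun hue (Sum.inl i)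
        have hd : d = b := funext fun i => congrFun hue (Sum.inr i)
        subst hd
        have := W₁.sub_mem hu hb
        rw [sub_eq_add_neg, ← neg_one_smul F (Sum.elim v _), elim_smul', elim_add', neg_one_smul,
          neg_one_smul, add_neg_cancel, ← sub_eq_add_neg] at this
        rw [← hc, sub_eq_zero.1 (hl0 _ this), neg_mulVec, one_mulVec]
  have hgP : Pres g := by
    have hsum : ∀ {x : GL (ι ⊕ ι) F}, Pres x → ∀ k : ℕ, Pres (x ^ k) := by
      intro x hx k
      induction k with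
      | zero => exact ⟨by rw [pow_zero, mp_one], by rw [pow_zero, mp_one]⟩
      | succ k ih => exact ⟨by rw [pow_succ, mp_mul, hx.1, ih.1], by rw [pow_succ, mp_mul, hx.2, ih.2]⟩
    -- the same argument applies to the second block
    rcases hW1 with h1 | h1
    · have h1' : mp g (left ι F) = left ι F := h1
      refine ⟨h1', ?_⟩
      rcases hperm sw (sw_mem_wr h.neg) det_sw with hs | hs
      · exfalso
        rcases wr_perm h.neg (sw_mem_wr h.neg) with hp | hp
        · exact blk_ne_sw_aux hp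
        · rw [h1, hp.1] at hs
          exact left_ne_right hs.symm
      · rcases wr_perm h.neg (sw_mem_wr h.neg) with hp | hp
        · exact absurd hp blk_ne_sw_aux
        · rw [h1, hp.1] at hs
          exact hs.symm
    · exfalso
      rcases wr_perm h.neg (sw_mem_wr h.neg) with hp | hp
      · exact blk_ne_sw_aux hp
      have h2' : mp g (right ι F) = left ι F := by
        rcases hperm sw (sw_mem_wr h.neg) det_sw with hs | hs
        · rw [h1, hp.2] at hs
          exact absurd hs left_ne_right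
        · rw [h1, hp.2] at hs
          exact hs.symm
      have h1' : mp g (left ι F) = right ι F := h1
      obtain ⟨k, hk⟩ := hodd
      have hsq : Pres (g ^ 2) :=
        ⟨by rw [sq, mp_mul, h1', h2'], by rw [sq, mp_mul, h2', h1']⟩
      have := (hsum hsq (k + 1)).1
      rw [← pow_mul, show 2 * (k + 1) = 2 * k + 1 + 1 by ring, ← hk, pow_succ, pow_orderOf_eq_one,
        one_mul, h1'] at this
      exact left_ne_right this.symm
  obtain ⟨a, b, rfl⟩ := exists_blk_of_pres hgP
  obtain ⟨ha, hb⟩ := hblk a b hg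
  have hoab : Odd (orderOf a) ∧ Odd (orderOf b) := by
    rw [orderOf_injective blk blk_injective (a, b), Prod.orderOf] at hodd
    exact ⟨hodd.of_dvd_nat (Nat.dvd_lcm_left _ _), hodd.of_dvd_nat (Nat.dvd_lcm_right _ _)⟩
  have hconj : ∀ s ∈ S, a * s * a⁻¹ ∈ S ∧ b * s⁻¹ * b⁻¹ ∈ S := by
    intro s hs
    have hd : Matrix.det (blk (s, s⁻¹) : Matrix (ι ⊕ ι) (ι ⊕ ι) F) = 1 := by
      rw [det_blk, ← det_mul, ← Units.val_mul, mul_inv_cancel, Units.val_one, det_one]
    have := hnorm _ (blk_mem_wr h.neg hs (S.inv_mem hs)) hd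
    rw [← map_inv, ← map_mul, ← map_mul, Prod.inv_mk, Prod.mk_mul_mk, Prod.mk_mul_mk,
      blk_mem_wr_iff] at this
    exact this
  obtain ⟨l, hl⟩ := h.nrm a ha hoab.1 fun s hs => (hconj s hs).1
  obtain ⟨r, hr⟩ := h.nrm b hb hoab.2 fun s hs => by simpa using (hconj _ (S.inv_mem hs)).2
  have hab : a = b := by
    have := hnorm sw (sw_mem_wr h.neg) det_sw
    have e : blk (a, b) * sw * (blk (a, b))⁻¹ = blk (a * b⁻¹, b * a⁻¹) * sw := by
      rw [← map_inv, Prod.inv_mk, mul_assoc, sw_mul_blk, ← mul_assoc, ← map_mul, Prod.mk_mul_mk]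
    rw [e] at this
    have hm := mul_mem this (inv_mem (sw_mem_wr h.neg))
    rw [mul_inv_cancel_right, blk_mem_wr_iff] at hm
    obtain ⟨j, hj⟩ : ∃ j : ℕ, (a * b⁻¹) ^ 2 ^ j = 1 := by
      refine ⟨v₂ (Nat.card G₁), ?_⟩
      have := pow_card_eq_one' (x := (⟨_, hm.1⟩ : S))
      rw [h.card] at this
      simpa using congrArg Subtype.val this
    have hcomm : Commute a b⁻¹ := by
      refine Commute.inv_right (Units.ext ?_)
      show (a : Matrix ι ι F) * b = b * a
      rw [hl, hr, smul_mul_assoc, one_mul, smul_mul_assoc, one_mul, smul_comm]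
    refine mul_inv_eq_one.1 (eq_one_of_odd_two_pow ?_ hj)
    refine Odd.of_dvd_nat ?_ hcomm.orderOf_mul_dvd_lcm
    rw [orderOf_inv]
    exact (hoab.1.mul hoab.2).of_dvd_nat (Nat.lcm_dvd_mul _ _)
  subst hab
  refine ⟨l, ?_⟩
  rw [coe_blk, hl, ← fromBlocks_one, fromBlocks_smul, smul_zero]

/-- The wreath product of a good subgroup is good. -/
theorem IsGood.wreath {G₁ S : Subgroup (GL ι F)} (h : IsGood G₁ S) {G₂ : Subgroup (GL (ι ⊕ ι) F)}
    (hblk : ∀ a b, blk (a, b) ∈ G₂ ↔ a ∈ G₁ ∧ b ∈ G₁) (hsw : sw ∈ G₂)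
    (hv : v₂ (Nat.card G₂) = 2 * v₂ (Nat.card G₁) + 1) (heven : Even (Fintype.card ι))
    (hι : 2 ≤ Fintype.card ι) (h2 : (2 : F) ≠ 0) : IsGood G₂ (wr S h.neg) := by
  have : Nonempty ι := Fintype.card_pos_iff.1 (by omega)
  refine ⟨?_, ?_, ⟨-1, h.neg, -1, h.neg, Or.inl ?_⟩, ?_, fun g hg ho hn =>
    nrm_wr h (fun a b hab => (hblk a b).1 hab) heven hι h2 g hg ho fun s hs _ => hn s hs⟩
  · rintro x ⟨a, ha, b, hb, rfl | rfl⟩
    · exact (hblk a b).2 ⟨h.le ha, h.le hb⟩
    · exact mul_mem ((hblk a b).2 ⟨h.le ha, h.le hb⟩) hsw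
  · rw [card_wr, h.card, hv]
    ring
  · refine Units.ext ?_
    rw [coe_blk, Units.val_neg, Units.val_neg, Units.val_one, Units.val_one, ← fromBlocks_one,
      fromBlocks_neg, neg_zero]
  · intro W hW
    have hd1 : ∀ y ∈ S, Matrix.det (y : Matrix ι ι F) = 1 →
        Matrix.det (blk (y, 1) : Matrix (ι ⊕ ι) (ι ⊕ ι) F) = 1 := fun y _ hdy => by
      rw [det_blk, hdy]; simp
    have hdz : Matrix.det (blk ((-1 : GL ι F), 1) : Matrix (ι ⊕ ι) (ι ⊕ ι) F) = 1 := by
      rw [det_blk, Units.val_neg, Units.val_one, det_neg, heven.neg_one_pow, det_one, one_mul,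
        one_mul]
    have hsplit : ∀ v w, Sum.elim v w ∈ W →
        Sum.elim v (0 : ι → F) ∈ W ∧ Sum.elim (0 : ι → F) w ∈ W := by
      intro v w hm
      have hm' := hW _ (blk_mem_wr h.neg h.neg S.one_mem) hdz _ hm
      rw [blk_mulVec, Units.val_neg, Units.val_one, neg_mulVec, one_mulVec, one_mulVec] at hm'
      have e1 : Sum.elim (0 : ι → F) w = (2 : F)⁻¹ • (Sum.elim v w + Sum.elim (-v) w) := by
        rw [elim_add', elim_smul', add_neg_cancel, smul_zero, ← two_smul F w, smul_smul,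
          inv_mul_cancel₀ h2, one_smul]
      have e2 : Sum.elim v (0 : ι → F) = (2 : F)⁻¹ • (Sum.elim v w - Sum.elim (-v) w) := by
        rw [sub_eq_add_neg, ← neg_one_smul F (Sum.elim (-v) w), elim_smul', elim_add', elim_smul',
          neg_one_smul, neg_one_smul, neg_neg, add_neg_cancel, smul_zero, ← two_smul F v,
          smul_smul, inv_mul_cancel₀ h2, one_smul]
      exact ⟨e2 ▸ W.smul_mem _ (W.sub_mem hm hm'), e1 ▸ W.smul_mem _ (W.add_mem hm hm')⟩
    let A : Submodule F (ι → F) :=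
      { carrier := {v | Sum.elim v (0 : ι → F) ∈ W}
        add_mem' := fun {a b} ha hb => by
          have := W.add_mem ha hb
          rwa [elim_add', add_zero] at this
        zero_mem' := by
          show Sum.elim (0 : ι → F) (0 : ι → F) ∈ W
          convert W.zero_mem using 1
          funext i; cases i <;> rfl
        smul_mem' := fun c v hv => by
          have := W.smul_mem c hv
          rwa [elim_smul', smul_zero] at this }
    have hAinv : ∀ y ∈ S, Matrix.det (y : Matrix ι ι F) = 1 → ∀ v ∈ A,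
        (y : Matrix ι ι F) *ᵥ v ∈ A := fun y hy hdy v hv => by
      have := hW _ (blk_mem_wr h.neg hy S.one_mem) (hd1 y hy hdy) _ hv
      rwa [blk_mulVec, mulVec_zero] at this
    have hswap : ∀ v w, Sum.elim v w ∈ W → Sum.elim w (-v) ∈ W := fun v w hm => by
      have := hW _ (sw_mem_wr h.neg) det_sw _ hm
      rwa [sw_mulVec] at this
    rcases h.irr A hAinv with hA | hA
    · refine Or.inl ((Submodule.eq_bot_iff W).2 fun x hx => ?_)
      obtain ⟨v, w, rfl⟩ := exists_elim x
      have hv : v ∈ A := (hsplit v w hx).1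
      have hw' : w ∈ A := by
        have := hswap _ _ (hsplit v w hx).2
        rwa [neg_zero] at this
      rw [hA, Submodule.mem_bot] at hv hw'
      subst hv hw'
      funext i; cases i <;> rfl
    · refine Or.inr (eq_top_iff.2 fun x _ => ?_)
      obtain ⟨v, w, rfl⟩ := exists_elim x
      have hv : Sum.elim v (0 : ι → F) ∈ W := by
        show v ∈ A; rw [hA]; trivial
      have hw' : Sum.elim (0 : ι → F) w ∈ W := by
        have h0 : Sum.elim (-w) (0 : ι → F) ∈ W := by show -w ∈ A; rw [hA]; trivial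
        have := hswap _ _ h0
        rwa [neg_neg] at this
      have := W.add_mem hv hw'
      rwa [elim_add', add_zero, zero_add] at this

end CfsgLib.InvChar.Wreath
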