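/-
InvChar: Sylow 2-subgroups of `GL_2` and `GU_2`, `q` odd: monomial and semidihedral models.
-/
import Cfsg.Agent.Lib.InvChar.WreathNormalizer

set_option autoImplicit false
set_option linter.unusedSectionVars false

open scoped Matrix

namespace CfsgLib.InvChar.Wreath

open CfsgLib.InvChar.TwoPart

variable {F : Type*} [Field F]

/-- A diagonal element of `GL_2`. -/
def dg (x y : Fˣ) : GL (Fin 2) F :=
  ⟨!![(x : F), 0; 0, (y : F)], !![((x⁻¹ : Fˣ) : F), 0; 0, ((y⁻¹ : Fˣ) : F)],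
    by simp [Matrix.one_fin_two], by simp [Matrix.one_fin_two]⟩

theorem coe_dg (x y : Fˣ) :
    ((dg x y : GL (Fin 2) F) : Matrix (Fin 2) (Fin 2) F) = !![(x : F), 0; 0, (y : F)] := rfl

theorem dg_mul (x y x' y' : Fˣ) : dg x y * dg x' y' = dg (x * x') (y * y') :=
  Units.ext (by rw [Units.val_mul, coe_dg, coe_dg, coe_dg]; simp)

theorem dg_one : dg (1 : Fˣ) 1 = 1 := Units.ext (by rw [coe_dg]; simp [Matrix.one_fin_two])

theorem dg_inv (x y : Fˣ) : (dg x y)⁻¹ = dg x⁻¹ y⁻¹ :=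
  inv_eq_of_mul_eq_one_right (by rw [dg_mul, mul_inv_cancel, mul_inv_cancel, dg_one])

/-- The element `(0 1; -1 0)`. -/
def jj : GL (Fin 2) F :=
  ⟨!![0, 1; -1, 0], !![0, -1; 1, 0], by simp [Matrix.one_fin_two], by simp [Matrix.one_fin_two]⟩

theorem coe_jj : ((jj : GL (Fin 2) F) : Matrix (Fin 2) (Fin 2) F) = !![0, 1; -1, 0] := rfl

theorem jj_sq : (jj : GL (Fin 2) F) * jj = dg (-1) (-1) :=
  Units.ext (by rw [Units.val_mul, coe_jj, coe_dg]; simp)

theorem jj_mul_dg (x y : Fˣ) : (jj : GL (Fin 2) F) * dg x y = dg y x * jj :=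
  Units.ext (by rw [Units.val_mul, Units.val_mul, coe_jj, coe_dg, coe_dg]; simp)

theorem dg_ne_dg_jj (x y x' y' : Fˣ) : dg x y ≠ dg x' y' * jj := by
  intro h
  have := congrArg (fun z : GL (Fin 2) F => (z : Matrix (Fin 2) (Fin 2) F) 0 0) h
  simp [coe_dg, coe_jj] at this

theorem dg_injective {x y x' y' : Fˣ} (h : dg x y = dg x' y') : x = x' ∧ y = y' := by
  have h0 := congrArg (fun z : GL (Fin 2) F => (z : Matrix (Fin 2) (Fin 2) F) 0 0) h
  have h1 := congrArg (fun z : GL (Fin 2) F => (z : Matrix (Fin 2) (Fin 2) F) 1 1) h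
  exact ⟨Units.ext (by simpa [coe_dg] using h0), Units.ext (by simpa [coe_dg] using h1)⟩

/-- The monomial group on the powers of `μ`. -/
def monoSub (μ : Fˣ) (hμ : (-1 : Fˣ) ∈ Subgroup.zpowers μ) : Subgroup (GL (Fin 2) F) where
  carrier := {g | ∃ x ∈ Subgroup.zpowers μ, ∃ y ∈ Subgroup.zpowers μ,
    g = dg x y ∨ g = dg x y * jj}
  one_mem' := ⟨1, one_mem _, 1, one_mem _, Or.inl dg_one.symm⟩
  mul_mem' := by
    rintro _ _ ⟨a, ha, b, hb, rfl | rfl⟩ ⟨c, hc, d, hd, rfl | rfl⟩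
    · exact ⟨a * c, mul_mem ha hc, b * d, mul_mem hb hd, Or.inl (dg_mul _ _ _ _)⟩
    · exact ⟨a * c, mul_mem ha hc, b * d, mul_mem hb hd, Or.inr (by rw [← mul_assoc, dg_mul])⟩
    · exact ⟨a * d, mul_mem ha hd, b * c, mul_mem hb hc,
        Or.inr (by rw [mul_assoc, jj_mul_dg, ← mul_assoc, dg_mul])⟩
    · refine ⟨a * d * -1, mul_mem (mul_mem ha hd) hμ, b * c * -1, mul_mem (mul_mem hb hc) hμ,
        Or.inl ?_⟩
      rw [mul_assoc, ← mul_assoc jj, jj_mul_dg, mul_assoc (dg d c), jj_sq, ← mul_assoc, dg_mul,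
        dg_mul]
  inv_mem' := by
    rintro _ ⟨a, ha, b, hb, rfl | rfl⟩
    · exact ⟨a⁻¹, inv_mem ha, b⁻¹, inv_mem hb, Or.inl (dg_inv a b)⟩
    · refine ⟨-1 * b⁻¹, mul_mem hμ (inv_mem hb), -1 * a⁻¹, mul_mem hμ (inv_mem ha),
        Or.inr (inv_eq_of_mul_eq_one_right ?_)⟩
      rw [mul_assoc, ← mul_assoc jj, jj_mul_dg, mul_assoc (dg (-1 * a⁻¹) _), jj_sq, dg_mul, dg_mul,
        mul_comm _ (-1 : Fˣ), ← mul_assoc (-1 : Fˣ) (-1), neg_one_mul, neg_neg, one_mul,
        mul_inv_cancel, mul_comm _ (-1 : Fˣ), ← mul_assoc (-1 : Fˣ) (-1), neg_one_mul, neg_neg,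
        one_mul, mul_inv_cancel, dg_one]

theorem neg_one_eq_dg : (-1 : GL (Fin 2) F) = dg (-1) (-1) :=
  Units.ext (by rw [coe_dg, Units.val_neg, Units.val_one]; simp [Matrix.one_fin_two])

theorem neg_one_mem_zpowers [Finite F] {μ : Fˣ} {a : ℕ} (ha : 1 ≤ a) (hμ : orderOf μ = 2 ^ a) :
    (-1 : Fˣ) ∈ Subgroup.zpowers μ := by
  obtain ⟨b, rfl⟩ : ∃ b, a = b + 1 := ⟨a - 1, by omega⟩
  have h1 : (μ ^ 2 ^ b) ^ 2 = 1 := by rw [← pow_mul, ← pow_succ, ← hμ, pow_orderOf_eq_one]
  have h2 : μ ^ 2 ^ b ≠ 1 := fun h => by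
    have := Nat.le_of_dvd (by positivity) (hμ ▸ orderOf_dvd_of_pow_eq_one h)
    rw [pow_succ] at this
    have : 0 < 2 ^ b := by positivity
    omega
  rcases sq_eq_one_iff.1 (congrArg Units.val h1 : ((μ ^ 2 ^ b : Fˣ) : F) ^ 2 = 1) with h | h
  · exact absurd (Units.ext h) h2
  · refine ⟨((2 ^ b : ℕ) : ℤ), ?_⟩
    show μ ^ ((2 ^ b : ℕ) : ℤ) = -1
    rw [zpow_natCast]
    refine Units.ext ?_
    rw [Units.val_neg, Units.val_one]
    exact h

variable [Finite F]

/-- The monomial model. -/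
theorem exists_good_mono (G : Subgroup (GL (Fin 2) F)) {μ : Fˣ} {a : ℕ} (ha : 2 ≤ a)
    (hμ : orderOf μ = 2 ^ a)
    (hdg : ∀ x ∈ Subgroup.zpowers μ, ∀ y ∈ Subgroup.zpowers μ, dg x y ∈ G)
    (hJ : jj ∈ G) (hv : v₂ (Nat.card G) = 2 * a + 1) : ∃ S, IsGood G S := by
  classical
  have h1 := neg_one_mem_zpowers (by omega) hμ
  have hμ2 : μ ^ 2 ≠ 1 := fun h => by
    have := Nat.le_of_dvd (by norm_num) (hμ ▸ orderOf_dvd_of_pow_eq_one h)
    have : 2 ^ 2 ≤ 2 ^ a := Nat.pow_le_pow_right two_pos ha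
    omega
  have hcard : Nat.card (monoSub μ h1) = 2 ^ (2 * a + 1) := by
    let f : Bool × Subgroup.zpowers μ × Subgroup.zpowers μ → monoSub μ h1 := fun x =>
      ⟨dg (x.2.1 : Fˣ) (x.2.2 : Fˣ) * (if x.1 then jj else 1),
        (x.2.1 : Fˣ), x.2.1.2, (x.2.2 : Fˣ), x.2.2.2, by cases x.1 <;> simp⟩
    have hf : Function.Bijective f := by
      constructor
      · rintro ⟨x, a, b⟩ ⟨y, c, d⟩ h
        have h' := congrArg Subtype.val h
        cases x <;> cases y <;> simp [f] at h'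
        · obtain ⟨e1, e2⟩ := dg_injective h'
          rw [Subtype.ext e1, Subtype.ext e2]
        · exact absurd h' (dg_ne_dg_jj _ _ _ _)
        · exact absurd h'.symm (dg_ne_dg_jj _ _ _ _)
        · obtain ⟨e1, e2⟩ := dg_injective h'
          rw [Subtype.ext e1, Subtype.ext e2]
      · rintro ⟨_, x, hx, y, hy, rfl | rfl⟩
        · exact ⟨⟨false, ⟨x, hx⟩, ⟨y, hy⟩⟩, Subtype.ext (by simp [f])⟩
        · exact ⟨⟨true, ⟨x, hx⟩, ⟨y, hy⟩⟩, Subtype.ext (by simp [f])⟩
    rw [← Nat.card_eq_of_bijective f hf, Nat.card_prod, Nat.card_prod, Nat.card_zpowers, hμ,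
      Nat.card_eq_fintype_card, Fintype.card_bool]
    ring
  refine ⟨monoSub μ h1, ⟨?_, by rw [hcard, hv], ⟨-1, h1, -1, h1, Or.inl neg_one_eq_dg⟩, ?_, ?_⟩⟩
  · rintro g ⟨x, hx, y, hy, rfl | rfl⟩
    · exact hdg x hx y hy
    · exact mul_mem (hdg x hx y hy) hJ
  · intro W hW
    have hμm := Subgroup.mem_zpowers μ
    have hD : ∀ v ∈ W, ![(μ : F) * v 0, ((μ⁻¹ : Fˣ) : F) * v 1] ∈ W := by
      intro v hv
      have := hW (dg μ μ⁻¹) ⟨μ, hμm, μ⁻¹, inv_mem hμm, Or.inl rfl⟩
        (by rw [coe_dg]; simp [Matrix.det_fin_two]) v hv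
      convert this using 1
      rw [coe_dg]
      funext i
      fin_cases i <;> simp [Matrix.mulVec, dotProduct, Fin.sum_univ_two]
    have hJW : ∀ v ∈ W, ![v 1, -v 0] ∈ W := by
      intro v hv
      have := hW jj ⟨1, one_mem _, 1, one_mem _, Or.inr (by rw [dg_one, one_mul])⟩
        (by rw [coe_jj]; simp [Matrix.det_fin_two]) v hv
      convert this using 1
      rw [coe_jj]
      funext i
      fin_cases i <;> simp [Matrix.mulVec, dotProduct, Fin.sum_univ_two]
    by_cases hbot : W = ⊥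
    · exact Or.inl hbot
    right
    obtain ⟨v, hv, hv0⟩ := (Submodule.ne_bot_iff W).1 hbot
    set d : F := (μ : F) - ((μ⁻¹ : Fˣ) : F)
    have hd : d ≠ 0 := fun h => hμ2 (by
      have h' : μ = μ⁻¹ := Units.ext (sub_eq_zero.1 h)
      rw [sq]
      calc μ * μ = μ⁻¹ * μ := by rw [← h']
        _ = 1 := inv_mul_cancel μ)
    have h0 : ![v 0, (0 : F)] ∈ W ∧ ![0, v 1] ∈ W := by
      constructor
      · have := W.smul_mem d⁻¹ (W.sub_mem (hD v hv) (W.smul_mem ((μ⁻¹ : Fˣ) : F) hv))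
        convert this using 1
        funext i
        fin_cases i
        · simp only [Pi.smul_apply, Pi.sub_apply, smul_eq_mul, Matrix.cons_val_zero, d, Fin.zero_eta]
          rw [← sub_mul, inv_mul_cancel_left₀ hd]
        · simp [Matrix.vecHead, Matrix.vecTail]
      · have := W.smul_mem d⁻¹ (W.sub_mem (W.smul_mem (μ : F) hv) (hD v hv))
        convert this using 1
        funext i
        fin_cases i
        · simp [Matrix.vecHead, Matrix.vecTail]
        · simp only [Pi.smul_apply, Pi.sub_apply, smul_eq_mul, Matrix.cons_val_one,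
            Matrix.cons_val_zero, d, Fin.mk_one]
          rw [← sub_mul, inv_mul_cancel_left₀ hd]
    obtain ⟨x, hx, hx'⟩ : ∃ x : F, x ≠ 0 ∧ ![x, (0 : F)] ∈ W := by
      by_cases h : v 0 = 0
      · refine ⟨v 1, fun h' => hv0 (funext fun i => by fin_cases i <;> assumption), ?_⟩
        simpa using hJW _ h0.2
      · exact ⟨v 0, h, h0.1⟩
    refine eq_top_iff.2 fun u _ => ?_
    have := W.add_mem (W.smul_mem (u 0 / x) hx') (W.smul_mem (-(u 1 / x)) (hJW _ hx'))
    convert this using 1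
    funext i
    fin_cases i <;> simp [hx]
  · intro g _ hodd hn
    have hg1 : (g : Matrix (Fin 2) (Fin 2) F).det ≠ 0 :=
      ((Matrix.isUnit_iff_isUnit_det _).1 g.isUnit).ne_zero
    have hμ1 : (μ : F) ≠ 1 := fun h => hμ2 (by rw [show μ = 1 from Units.ext h, one_pow])
    have hμn : (μ : F) + 1 ≠ 0 := fun h => hμ2 (by
      rw [show μ = -1 from Units.ext (by simpa using eq_neg_of_add_eq_zero_left h), neg_one_sq])
    -- `g` is monomial
    have hgen : ((g : Matrix (Fin 2) (Fin 2) F) 0 1 = 0 ∧ (g : Matrix (Fin 2) (Fin 2) F) 1 0 = 0) ∨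
        ((g : Matrix (Fin 2) (Fin 2) F) 0 0 = 0 ∧ (g : Matrix (Fin 2) (Fin 2) F) 1 1 = 0) := by
      obtain ⟨x, -, y, -, h | h⟩ :=
        hn (dg μ 1) ⟨μ, Subgroup.mem_zpowers μ, 1, one_mem _, Or.inl rfl⟩
      · rw [mul_inv_eq_iff_eq_mul] at h
        have h' := congrArg Units.val h
        rw [Units.val_mul, Units.val_mul, coe_dg, coe_dg, Matrix.eta_fin_two (g : Matrix _ _ F)] at h'
        simp at h'
        obtain ⟨⟨e00, e01⟩, e10, e11⟩ := h'
        by_cases hb : (g : Matrix (Fin 2) (Fin 2) F) 0 1 = 0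
        · left
          refine ⟨hb, ?_⟩
          by_contra hc
          rw [Matrix.det_fin_two, hb, zero_mul, sub_zero, mul_ne_zero_iff] at hg1
          have hy : (y : F) = μ := mul_right_cancel₀ hc (by linear_combination -e10)
          rw [hy] at e11
          exact hμ1 (mul_right_cancel₀ hg1.2 (by linear_combination -e11))
        · right
          have hx : (x : F) = 1 := mul_right_cancel₀ hb (by linear_combination -e01)
          have ha0 : (g : Matrix (Fin 2) (Fin 2) F) 0 0 = 0 := by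
            rw [hx] at e00
            by_contra hne
            exact hμ1 (mul_left_cancel₀ hne (by linear_combination e00))
          refine ⟨ha0, ?_⟩
          rw [Matrix.det_fin_two, ha0, zero_mul, zero_sub, neg_ne_zero, mul_ne_zero_iff] at hg1
          have hy : (y : F) = μ := mul_right_cancel₀ hg1.2 (by linear_combination -e10)
          rw [hy] at e11
          by_contra hne
          exact hμ1 (mul_right_cancel₀ hne (by linear_combination -e11))
      · exfalso
        have h' := congrArg (fun z : GL (Fin 2) F => Matrix.trace (z : Matrix (Fin 2) (Fin 2) F)) h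
        simp only [Units.val_mul] at h'
        rw [Matrix.trace_mul_cycle, ← Units.val_mul, inv_mul_cancel, Units.val_one, one_mul,
          coe_dg, coe_dg, coe_jj] at h'
        simp [Matrix.trace_fin_two] at h'
        exact hμn h'
    rcases hgen with ⟨hb, hc⟩ | ⟨ha0, hd0⟩
    swap
    · exfalso
      obtain ⟨k, hk⟩ := hodd
      have hdiag : ∀ j : ℕ, ((g ^ (2 * j) : GL (Fin 2) F) : Matrix (Fin 2) (Fin 2) F) 0 1 = 0 ∧
          ((g ^ (2 * j) : GL (Fin 2) F) : Matrix (Fin 2) (Fin 2) F) 1 0 = 0 := by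
        intro j
        induction j with
        | zero => simp
        | succ j ih =>
          rw [show 2 * (j + 1) = 2 * j + 1 + 1 by ring, pow_succ, pow_succ, Units.val_mul,
            Units.val_mul]
          obtain ⟨i1, i2⟩ := ih
          rw [Units.val_pow_eq_pow_val] at i1 i2
          simp [Matrix.mul_apply, Fin.sum_univ_two, i1, i2, ha0, hd0]
      have := (hdiag (k + 1)).1
      rw [show 2 * (k + 1) = orderOf g + 1 by omega, pow_succ, pow_orderOf_eq_one, one_mul] at this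
      rw [Matrix.det_fin_two, ha0, this] at hg1
      simp at hg1
    · have hg00 : (g : Matrix (Fin 2) (Fin 2) F) 0 0 ≠ 0 := fun h => hg1 (by
        rw [Matrix.det_fin_two, h, hb, zero_mul, zero_mul, sub_zero])
      have hg11 : (g : Matrix (Fin 2) (Fin 2) F) 1 1 ≠ 0 := fun h => hg1 (by
        rw [Matrix.det_fin_two, h, hc, mul_zero, mul_zero, sub_zero])
      set α := Units.mk0 _ hg00
      set β := Units.mk0 _ hg11
      have hg : g = dg α β := Units.ext (by
        rw [coe_dg]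
        ext i j
        fin_cases i <;> fin_cases j <;> simp [α, β, hb, hc])
      have e : g * jj * g⁻¹ = dg (α * β⁻¹) (β * α⁻¹) * jj := by
        rw [hg, dg_inv, mul_assoc, jj_mul_dg, ← mul_assoc, dg_mul]
      obtain ⟨x, hx, y, hy, h | h⟩ := hn jj ⟨1, one_mem _, 1, one_mem _, Or.inr (by rw [dg_one, one_mul])⟩
      · rw [e] at h
        exact absurd h.symm (dg_ne_dg_jj _ _ _ _)
      rw [e, mul_left_inj] at h
      obtain ⟨hxa, -⟩ := dg_injective h
      have hab : α * β⁻¹ = 1 := by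
        refine eq_one_of_odd_two_pow ?_ (k := a) ?_
        · have hpow : ∀ k : ℕ, dg α β ^ k = dg (α ^ k) (β ^ k) := fun k => by
            induction k with
            | zero => simp [dg_one]
            | succ k ih => rw [pow_succ, ih, dg_mul, ← pow_succ, ← pow_succ]
          have hz : dg (α ^ orderOf g) (β ^ orderOf g) = dg 1 1 := by
            rw [← hpow, ← hg, pow_orderOf_eq_one, dg_one]
          obtain ⟨e1, e2⟩ := dg_injective hz
          refine hodd.of_dvd_nat (orderOf_dvd_of_pow_eq_one ?_)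
          rw [mul_pow, inv_pow, e1, e2, inv_one, one_mul]
        · rw [hxa, ← hμ]
          exact orderOf_dvd_iff_pow_eq_one.1 (orderOf_dvd_of_mem_zpowers hx)
      refine ⟨α, ?_⟩
      rw [hg, coe_dg, mul_inv_eq_one.1 hab, Matrix.one_fin_two]
      simp

/-- The semidihedral model. -/
theorem exists_good_cyc (G : Subgroup (GL (Fin 2) F)) {c s : GL (Fin 2) F} {A : ℕ} (hA : 3 ≤ A)
    (hc : orderOf c = 2 ^ A) (hcG : c ∈ G) (hsG : s ∈ G) (hsc : s * c * s⁻¹ ∈ Subgroup.zpowers c)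
    (hs2 : s * s ∈ Subgroup.zpowers c) (hns : s ∉ Subgroup.zpowers c)
    (h4 : ∀ i : ℤ, (c ^ i * s) ^ 4 = 1) (hneg : (-1 : GL (Fin 2) F) ∈ Subgroup.zpowers c)
    (hv : v₂ (Nat.card G) = A + 1)
    (hirr : ∀ W : Submodule F (Fin 2 → F), (∀ x ∈ Subgroup.zpowers c, ∀ e : Bool,
      Matrix.det ((x * (if e then s else 1) : GL (Fin 2) F) : Matrix (Fin 2) (Fin 2) F) = 1 →
      ∀ v ∈ W, ((x * (if e then s else 1) : GL (Fin 2) F) : Matrix (Fin 2) (Fin 2) F) *ᵥ v ∈ W) →
      W = ⊥ ∨ W = ⊤)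
    (hcomm : ∀ g : GL (Fin 2) F, g * c = c * g → g * s = s * g →
      ∃ a : F, (g : Matrix (Fin 2) (Fin 2) F) = a • 1) : ∃ S, IsGood G S := by
  classical
  set C := Subgroup.zpowers c
  have hscs : ∀ x ∈ C, s * x * s⁻¹ ∈ C := fun x hx => by
    obtain ⟨i, rfl⟩ := Subgroup.mem_zpowers_iff.1 hx
    rw [← conj_zpow]
    exact C.zpow_mem hsc i
  have hmem : ∀ x ∈ C, s * x ∈ {g | ∃ y ∈ C, g = y * s} := fun x hx =>
    ⟨s * x * s⁻¹, hscs x hx, by group⟩
  let S : Subgroup (GL (Fin 2) F) :=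
    { carrier := {g | ∃ x ∈ C, g = x ∨ g = x * s}
      one_mem' := ⟨1, one_mem _, Or.inl rfl⟩
      mul_mem' := by
        rintro _ _ ⟨x, hx, h | h⟩ ⟨y, hy, h' | h'⟩ <;> rw [h, h']
        · exact ⟨_, mul_mem hx hy, Or.inl rfl⟩
        · exact ⟨_, mul_mem hx hy, Or.inr (by rw [mul_assoc])⟩
        · exact ⟨_, mul_mem hx (hscs y hy), Or.inr (by group)⟩
        · exact ⟨_, mul_mem (mul_mem hx (hscs y hy)) hs2, Or.inl (by group)⟩
      inv_mem' := by
        rintro _ ⟨x, hx, h | h⟩ <;> rw [h]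
        · exact ⟨_, inv_mem hx, Or.inl rfl⟩
        · exact ⟨(s * s)⁻¹ * (s * x⁻¹ * s⁻¹), mul_mem (inv_mem hs2) (hscs _ (inv_mem hx)),
            Or.inr (by group)⟩ }
  have hCfin : ∀ x ∈ C, x ^ 2 ^ A = 1 := fun x hx => by
    rw [← hc]
    exact orderOf_dvd_iff_pow_eq_one.1 (orderOf_dvd_of_mem_zpowers hx)
  have hcard : Nat.card S = 2 ^ (A + 1) := by
    let f : Bool × C → S := fun x =>
      ⟨(x.2 : GL (Fin 2) F) * (if x.1 then s else 1), (x.2 : GL (Fin 2) F), x.2.2,
        by cases x.1 <;> simp⟩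
    have hf : Function.Bijective f := by
      constructor
      · rintro ⟨x, a⟩ ⟨y, b⟩ h
        have h' := congrArg Subtype.val h
        cases x <;> cases y <;> simp [f] at h'
        · rw [h']
        · exact absurd (by rw [show s = (b : GL (Fin 2) F)⁻¹ * a by rw [h']; group]
                           exact mul_mem (inv_mem b.2) a.2) hns
        · exact absurd (by rw [show s = (a : GL (Fin 2) F)⁻¹ * b by rw [← h']; group]
                           exact mul_mem (inv_mem a.2) b.2) hns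
        · rw [h']
      · rintro ⟨g, x, hx, h | h⟩
        · exact ⟨⟨false, ⟨x, hx⟩⟩, Subtype.ext (by simp [f, h])⟩
        · exact ⟨⟨true, ⟨x, hx⟩⟩, Subtype.ext (by simp [f, h])⟩
    rw [← Nat.card_eq_of_bijective f hf, Nat.card_prod, Nat.card_zpowers, hc,
      Nat.card_eq_fintype_card, Fintype.card_bool]
    ring
  refine ⟨S, ⟨?_, by rw [hcard, hv], ⟨-1, hneg, Or.inl rfl⟩, ?_, ?_⟩⟩
  · rintro g ⟨x, hx, h | h⟩ <;> rw [h]
    · exact (Subgroup.zpowers_le.2 hcG) hx
    · exact mul_mem ((Subgroup.zpowers_le.2 hcG) hx) hsG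
  · intro W hW
    exact hirr W fun x hx e hd v hv => hW _ ⟨x, hx, by cases e <;> simp⟩ hd v hv
  · intro g _ hodd hn
    have hgC : ∀ x ∈ C, g * x * g⁻¹ ∈ C := by
      have hc' : g * c * g⁻¹ ∈ C := by
        obtain ⟨y, hy, h | h⟩ := hn c ⟨c, Subgroup.mem_zpowers c, Or.inl rfl⟩
        · rwa [h]
        · exfalso
          have h8 : (2 : ℕ) ^ A ∣ 4 := by
            rw [← hc]
            refine orderOf_dvd_of_pow_eq_one ?_
            obtain ⟨i, rfl⟩ := Subgroup.mem_zpowers_iff.1 hy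
            have := h4 i
            rw [← h, conj_pow, mul_inv_eq_one, mul_eq_left] at this
            exact this
          have := Nat.le_of_dvd (by norm_num) h8
          have : 2 ^ 3 ≤ 2 ^ A := Nat.pow_le_pow_right two_pos hA
          omega
      intro x hx
      obtain ⟨i, rfl⟩ := Subgroup.mem_zpowers_iff.1 hx
      rw [← conj_zpow]
      exact C.zpow_mem hc' i
    -- `g` centralises `c`
    have hgc : g * c * g⁻¹ = c := by
      obtain ⟨i, hi⟩ := Subgroup.mem_zpowers_iff.1 (hgC c (Subgroup.mem_zpowers c))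
      have hiter : ∀ k : ℕ, g ^ k * c * (g ^ k)⁻¹ = c ^ (i ^ k) := by
        intro k
        induction k with
        | zero => simp
        | succ k ih =>
          rw [show g ^ (k + 1) * c * (g ^ (k + 1))⁻¹ = g * (g ^ k * c * (g ^ k)⁻¹) * g⁻¹ by
            rw [pow_succ']; group, ih, ← conj_zpow, ← hi, ← zpow_mul, pow_succ']
      have ho := hiter (orderOf g)
      rw [pow_orderOf_eq_one, one_mul, inv_one, mul_one] at ho
      have hdiv : ((2 ^ A : ℕ) : ℤ) ∣ i ^ orderOf g - 1 := by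
        rw [← hc, orderOf_dvd_iff_zpow_eq_one, zpow_sub_one, ← ho, mul_inv_cancel]
      have hev : (2 : ℤ) ∣ i ^ orderOf g - 1 :=
        dvd_trans (by exact_mod_cast dvd_pow_self 2 (show A ≠ 0 by omega)) hdiv
      have hiodd : Odd i := by
        rcases Int.even_or_odd i with h | h
        · exfalso
          have hp : Even (i ^ orderOf g) := h.pow_of_ne_zero (orderOf_pos g).ne'
          obtain ⟨r, hr⟩ := hp
          obtain ⟨t, ht⟩ := hev
          omega
        · exact h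
      have hsum : Odd (∑ r ∈ Finset.range (orderOf g), i ^ r) := by
        rw [Int.odd_iff, Finset.sum_int_mod, Finset.sum_congr rfl (g := fun _ => (1 : ℤ))
          (fun r _ => Int.odd_iff.1 hiodd.pow), Finset.sum_const, Finset.card_range, nsmul_eq_mul,
          mul_one]
        obtain ⟨t, ht⟩ := hodd
        omega
      rw [← geom_sum_mul] at hdiv
      have hcop : IsCoprime ((2 ^ A : ℕ) : ℤ) (∑ r ∈ Finset.range (orderOf g), i ^ r) := by
        push_cast
        refine IsCoprime.pow_left ?_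
        obtain ⟨r, hr⟩ := hsum
        exact ⟨-r, 1, by rw [hr]; ring⟩
      have hd2 := hcop.dvd_of_dvd_mul_left hdiv
      rw [← hc, orderOf_dvd_iff_zpow_eq_one, zpow_sub_one, mul_inv_eq_one] at hd2
      rw [← hi, hd2]
    -- and `s`
    have hgs : g * s * g⁻¹ = s := by
      obtain ⟨y, hy, h | h⟩ := hn s ⟨1, one_mem _, Or.inr (one_mul s).symm⟩
      · exfalso
        obtain ⟨i, rfl⟩ := Subgroup.mem_zpowers_iff.1 hy
        refine hns ⟨i, ?_⟩
        show c ^ i = s
        have e : g * c ^ i * g⁻¹ = c ^ i := by rw [← conj_zpow, hgc]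
        calc c ^ i = g⁻¹ * (g * c ^ i * g⁻¹) * g := by group
          _ = g⁻¹ * c ^ i * g := by rw [e]
          _ = s := by rw [← h]; group
      · obtain ⟨i, rfl⟩ := Subgroup.mem_zpowers_iff.1 hy
        have hiter : ∀ k : ℕ, g ^ k * s * (g ^ k)⁻¹ = (c ^ i) ^ k * s := by
          intro k
          induction k with
          | zero => simp
          | succ k ih =>
            rw [show g ^ (k + 1) * s * (g ^ (k + 1))⁻¹ = g * (g ^ k * s * (g ^ k)⁻¹) * g⁻¹ by
              rw [pow_succ']; group, ih,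
              show g * ((c ^ i) ^ k * s) * g⁻¹ = (g * (c ^ i) ^ k * g⁻¹) * (g * s * g⁻¹) by group,
              ← conj_pow, ← conj_zpow, hgc, h, ← mul_assoc, ← pow_succ]
        have ho := hiter (orderOf g)
        rw [pow_orderOf_eq_one, one_mul, inv_one, mul_one, eq_comm, mul_eq_right] at ho
        have : c ^ i = 1 := eq_one_of_odd_two_pow (hodd.of_dvd_nat (orderOf_dvd_of_pow_eq_one ho))
          (hCfin _ (C.zpow_mem (Subgroup.mem_zpowers c) i))
        rw [h, this, one_mul]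
    exact hcomm g (mul_inv_eq_iff_eq_mul.1 hgc) (mul_inv_eq_iff_eq_mul.1 hgs)

end CfsgLib.InvChar.Wreath
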