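/-
InvChar: good Sylow 2-subgroups of `GL_2(q)` and `GU_2(q)`, `q` odd.
-/
import Cfsg.Agent.Lib.InvChar.WreathBase
import Cfsg.Agent.Lib.Generators.GU

set_option autoImplicit false
set_option linter.unusedSectionVars false
set_option maxHeartbeats 1000000

open scoped Matrix

namespace CfsgLib.InvChar.Wreath

open CfsgLib.InvChar.TwoPart CfsgLib.ClassicalForms

variable {F : Type*} [Field F] [Finite F]

/-- An element of the given order in a finite cyclic group. -/
theorem exists_orderOf_eq {T : Type*} [Group T] [Finite T] [IsCyclic T] {d : ℕ}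
    (h : d ∣ Nat.card T) : ∃ x : T, orderOf x = d := by
  obtain ⟨g, hg⟩ := IsCyclic.exists_ofOrder_eq_natCard (α := T)
  rw [← hg] at h
  exact ⟨g ^ (orderOf g / d), orderOf_pow_orderOf_div (orderOf_pos g).ne' h⟩

theorem mem_zpowers_of_pow_eq_one {T : Type*} [Group T] [Finite T] [IsCyclic T] {c x : T}
    (h : x ^ orderOf c = 1) : x ∈ Subgroup.zpowers c := by
  classical
  have := Fintype.ofFinite T
  have hsub : (Finset.univ.filter fun a : T => a ∈ Subgroup.zpowers c) ⊆
      Finset.univ.filter fun a : T => a ^ orderOf c = 1 := fun a ha => by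
    rw [Finset.mem_filter] at ha ⊢
    exact ⟨ha.1, orderOf_dvd_iff_pow_eq_one.1 (orderOf_dvd_of_mem_zpowers ha.2)⟩
  have hle := IsCyclic.card_pow_eq_one_le (α := T) (orderOf_pos c)
  have hcard : (Finset.univ.filter fun a : T => a ∈ Subgroup.zpowers c).card = orderOf c := by
    rw [← Fintype.card_zpowers]
    exact (Fintype.card_subtype _).symm
  have he := Finset.eq_of_subset_of_card_le hsub (by rw [hcard]; exact hle)
  have hx : x ∈ Finset.univ.filter fun a : T => a ^ orderOf c = 1 := by simp [h]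
  rw [← he] at hx
  exact (Finset.mem_filter.1 hx).2

/-- An element of `GL_2` of the form `(α -β; β α)`. -/
def IsRot (g : GL (Fin 2) F) : Prop :=
  (g : Matrix (Fin 2) (Fin 2) F) 0 0 = (g : Matrix (Fin 2) (Fin 2) F) 1 1 ∧
    (g : Matrix (Fin 2) (Fin 2) F) 0 1 = -(g : Matrix (Fin 2) (Fin 2) F) 1 0

theorem IsRot.coe_eq {g : GL (Fin 2) F} (h : IsRot g) :
    (g : Matrix (Fin 2) (Fin 2) F) =
      !![(g : Matrix (Fin 2) (Fin 2) F) 0 0, -(g : Matrix (Fin 2) (Fin 2) F) 1 0;
        (g : Matrix (Fin 2) (Fin 2) F) 1 0, (g : Matrix (Fin 2) (Fin 2) F) 0 0] := by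
  conv_lhs => rw [Matrix.eta_fin_two (g : Matrix (Fin 2) (Fin 2) F)]
  rw [h.2, ← h.1]

theorem isRot_of_coe {g : GL (Fin 2) F} {α β : F}
    (h : (g : Matrix (Fin 2) (Fin 2) F) = !![α, -β; β, α]) : IsRot g := by
  constructor <;> simp [h]

/-- The rotations. -/
def rotSub : Subgroup (GL (Fin 2) F) where
  carrier := {g | IsRot g}
  one_mem' := ⟨by simp, by simp⟩
  mul_mem' := by
    intro g h hg hh
    refine isRot_of_coe (α := (g : Matrix (Fin 2) (Fin 2) F) 0 0 * (h : Matrix (Fin 2) (Fin 2) F) 0 0 -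
        (g : Matrix (Fin 2) (Fin 2) F) 1 0 * (h : Matrix (Fin 2) (Fin 2) F) 1 0)
      (β := (g : Matrix (Fin 2) (Fin 2) F) 1 0 * (h : Matrix (Fin 2) (Fin 2) F) 0 0 +
        (g : Matrix (Fin 2) (Fin 2) F) 0 0 * (h : Matrix (Fin 2) (Fin 2) F) 1 0) ?_
    rw [Units.val_mul, IsRot.coe_eq hg, IsRot.coe_eq hh, Matrix.mul_fin_two]
    ext i j
    fin_cases i <;> fin_cases j <;> simp <;> ring
  inv_mem' := by
    intro g hg
    have hd : Matrix.det (g : Matrix (Fin 2) (Fin 2) F) ≠ 0 :=
      ((Matrix.isUnit_iff_isUnit_det _).1 g.isUnit).ne_zero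
    refine isRot_of_coe
      (α := (g : Matrix (Fin 2) (Fin 2) F) 0 0 / Matrix.det (g : Matrix (Fin 2) (Fin 2) F))
      (β := -(g : Matrix (Fin 2) (Fin 2) F) 1 0 / Matrix.det (g : Matrix (Fin 2) (Fin 2) F)) ?_
    rw [Matrix.coe_units_inv]
    refine Matrix.inv_eq_right_inv ?_
    rw [Matrix.det_fin_two, ← hg.1, hg.2] at hd
    rw [IsRot.coe_eq hg, Matrix.mul_fin_two, Matrix.one_fin_two]
    simp [Matrix.det_fin_two] at hd ⊢
    constructor <;> constructor <;> ring_nf
    all_goals
      rw [← add_mul]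
      refine mul_inv_cancel₀ fun h => hd ?_
      linear_combination h

/-- The reflection `diag(1, -1)`. -/
def rfl2 : GL (Fin 2) F := dg 1 (-1)

theorem coe_rfl2 : ((rfl2 : GL (Fin 2) F) : Matrix (Fin 2) (Fin 2) F) = !![1, 0; 0, -1] := by
  rw [rfl2, coe_dg]; simp

theorem rfl2_sq : (rfl2 : GL (Fin 2) F) * rfl2 = 1 := by
  rw [rfl2, dg_mul, ← dg_one]; simp

theorem rfl2_inv : (rfl2 : GL (Fin 2) F)⁻¹ = rfl2 := inv_eq_of_mul_eq_one_right rfl2_sq

theorem coe_rot_mul_rfl2 {g : GL (Fin 2) F} {α β : F}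
    (h : (g : Matrix (Fin 2) (Fin 2) F) = !![α, -β; β, α]) :
    ((g * rfl2 : GL (Fin 2) F) : Matrix (Fin 2) (Fin 2) F) = !![α, β; β, -α] := by
  rw [Units.val_mul, h, coe_rfl2, Matrix.mul_fin_two]
  simp

theorem rot_rfl2_sq {g : GL (Fin 2) F} (hg : IsRot g) :
    ((g * rfl2 * (g * rfl2) : GL (Fin 2) F) : Matrix (Fin 2) (Fin 2) F) =
      Matrix.det (g : Matrix (Fin 2) (Fin 2) F) • 1 := by
  rw [Units.val_mul, coe_rot_mul_rfl2 hg.coe_eq, Matrix.mul_fin_two, IsRot.coe_eq hg,
    Matrix.det_fin_two, Matrix.one_fin_two]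
  ext i j
  fin_cases i <;> fin_cases j <;> simp <;> ring

theorem top_of_two_vectors {W : Submodule F (Fin 2 → F)} {a b a' b' : F} (h : ![a, b] ∈ W)
    (h' : ![a', b'] ∈ W) (hd : a * b' - b * a' ≠ 0) : W = ⊤ := by
  refine eq_top_iff.2 fun u _ => ?_
  have := W.add_mem (W.smul_mem ((u 0 * b' - u 1 * a') / (a * b' - b * a')) h)
    (W.smul_mem ((a * u 1 - b * u 0) / (a * b' - b * a')) h')
  convert this using 1
  funext i
  set D := a * b' - b * a' with hD
  fin_cases i <;> simp <;> field_simp <;> rw [hD] <;> ring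

/-- The common part of the two semidihedral instances. -/
theorem exists_good_rot (G : Subgroup (GL (Fin 2) F)) (h2 : (2 : F) ≠ 0) {c : GL (Fin 2) F}
    {α β : F} (hc' : (c : Matrix (Fin 2) (Fin 2) F) = !![α, -β; β, α]) (hβ : β ≠ 0) {A : ℕ}
    (hA : 3 ≤ A) (hord : orderOf c = 2 ^ A) (hcG : c ∈ G) (hsG : rfl2 ∈ G)
    (hsc : rfl2 * c * rfl2⁻¹ ∈ Subgroup.zpowers c)
    (h4 : ∀ i : ℤ, (c ^ i * rfl2) ^ 4 = 1) (hneg : (-1 : GL (Fin 2) F) ∈ Subgroup.zpowers c)
    (hv : v₂ (Nat.card G) = A + 1)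
    (hrot : ∃ x ∈ Subgroup.zpowers c, ∃ ε : F, ε ^ 2 = 1 ∧
      (x : Matrix (Fin 2) (Fin 2) F) = !![0, -ε; ε, 0])
    (hiso : (∀ a b : F, a ^ 2 + b ^ 2 = 0 → a = 0) ∨ α ^ 2 + β ^ 2 = -1) : ∃ S, IsGood G S := by
  have hcT : ∀ x ∈ Subgroup.zpowers c, IsRot x := fun x hx =>
    (Subgroup.zpowers_le.2 (show c ∈ rotSub from isRot_of_coe hc') hx : x ∈ rotSub)
  refine exists_good_cyc G hA hord hcG hsG hsc (by rw [rfl2_sq]; exact one_mem _) ?_ h4 hneg hv
    ?_ ?_
  · intro hs
    have := (hcT _ hs).1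
    rw [coe_rfl2] at this
    simp at this
    exact h2 (by linear_combination this)
  · intro W hW
    by_cases hbot : W = ⊥
    · exact Or.inl hbot
    right
    obtain ⟨v, hv, hv0⟩ := (Submodule.ne_bot_iff W).1 hbot
    have hv' : ![v 0, v 1] ∈ W := by
      convert hv using 1
      funext i
      fin_cases i <;> simp
    obtain ⟨x, hx, ε, hε, hxc⟩ := hrot
    have hR : ![-ε * v 1, ε * v 0] ∈ W := by
      have := hW x hx false (by simp [hxc, Matrix.det_fin_two]; linear_combination hε) v hv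
      simp only [Bool.false_eq_true, if_false, mul_one, hxc] at this
      convert this using 1
      funext i
      fin_cases i <;> simp [Matrix.mulVec, dotProduct, Fin.sum_univ_two]
    by_cases hn : v 0 ^ 2 + v 1 ^ 2 = 0
    swap
    · refine top_of_two_vectors hv' hR fun h => hn ?_
      have hε0 : ε ≠ 0 := fun e => by rw [e] at hε; simp at hε
      exact mul_left_cancel₀ hε0 (by linear_combination h)
    have ha0 : v 0 ≠ 0 := fun e => by
      rw [e] at hn
      simp at hn
      exact hv0 (funext fun i => by fin_cases i <;> assumption)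
    rcases hiso with hiso | hiso
    · exact absurd (hiso _ _ hn) ha0
    have hC : ![α * v 0 + β * v 1, β * v 0 - α * v 1] ∈ W := by
      have := hW c (Subgroup.mem_zpowers c) true (by
        simp only [if_true]
        rw [coe_rot_mul_rfl2 hc', Matrix.det_fin_two]
        simp
        linear_combination -hiso) v hv
      simp only [if_true] at this
      rw [coe_rot_mul_rfl2 hc'] at this
      convert this using 1
      funext i
      fin_cases i <;> simp [Matrix.mulVec, dotProduct, Fin.sum_univ_two] <;> ring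
    refine top_of_two_vectors hv' hC fun h => ?_
    have h1 : β * v 0 - α * v 1 = 0 := by
      have : 2 * v 0 * (β * v 0 - α * v 1) = 0 := by linear_combination h + β * hn
      exact (mul_eq_zero.1 this).resolve_left (mul_ne_zero h2 ha0)
    have : v 0 ^ 2 = 0 := by
      linear_combination (-(β * v 0 + α * v 1)) * h1 - α ^ 2 * hn + v 0 ^ 2 * hiso
    exact ha0 (pow_eq_zero_iff two_ne_zero |>.1 this)
  · intro g hgc hgs
    have hs' := congrArg Units.val hgs
    have hc'' := congrArg Units.val hgc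
    rw [Units.val_mul, Units.val_mul, coe_rfl2,
      Matrix.eta_fin_two (g : Matrix (Fin 2) (Fin 2) F), Matrix.mul_fin_two, Matrix.mul_fin_two] at hs'
    simp at hs'
    have hb : (g : Matrix (Fin 2) (Fin 2) F) 0 1 = 0 := by
      have h : 2 * (g : Matrix (Fin 2) (Fin 2) F) 0 1 = 0 := by linear_combination -hs'.1
      exact (mul_eq_zero.1 h).resolve_left h2
    have hc0 : (g : Matrix (Fin 2) (Fin 2) F) 1 0 = 0 := by
      have h : 2 * (g : Matrix (Fin 2) (Fin 2) F) 1 0 = 0 := by linear_combination hs'.2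
      exact (mul_eq_zero.1 h).resolve_left h2
    rw [Units.val_mul, Units.val_mul, hc',
      Matrix.eta_fin_two (g : Matrix (Fin 2) (Fin 2) F), hb, hc0] at hc''
    simp at hc''
    obtain ⟨e1, e2⟩ := hc''
    refine ⟨(g : Matrix (Fin 2) (Fin 2) F) 0 0, ?_⟩
    have he : (g : Matrix (Fin 2) (Fin 2) F) 0 0 = (g : Matrix (Fin 2) (Fin 2) F) 1 1 :=
      mul_right_cancel₀ hβ (by linear_combination e1.2)
    rw [Matrix.one_fin_two]
    conv_lhs => rw [Matrix.eta_fin_two (g : Matrix (Fin 2) (Fin 2) F), hb, hc0, ← he]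
    simp

/-- The adjoint for the field automorphism. -/
def adj {q : ℕ} (c : Conj F q) {ι : Type} (M : Matrix ι ι F) : Matrix ι ι F := (M.map c.σ)ᵀ

theorem adj_mul {q : ℕ} (c : Conj F q) {ι : Type} [Fintype ι] (M N : Matrix ι ι F) :
    adj c (M * N) = adj c N * adj c M := by
  rw [adj, adj, adj, Matrix.map_mul, Matrix.transpose_mul]

theorem adj_one {q : ℕ} (c : Conj F q) {ι : Type} [DecidableEq ι] :
    adj c (1 : Matrix ι ι F) = 1 := by
  rw [adj, Matrix.map_one _ (map_zero c.σ) (map_one c.σ), Matrix.transpose_one]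

theorem adj_adj {q : ℕ} (c : Conj F q) {ι : Type} (M : Matrix ι ι F) : adj c (adj c M) = M := by
  ext i j
  simp [adj, c.invol]

/-- The unitary group of the standard form. -/
def guSub {q : ℕ} (c : Conj F q) (ι : Type) [Fintype ι] [DecidableEq ι] : Subgroup (GL ι F) where
  carrier := {g | adj c (g : Matrix ι ι F) * (g : Matrix ι ι F) = 1}
  one_mem' := by
    show adj c ((1 : GL ι F) : Matrix ι ι F) * _ = 1
    rw [Units.val_one, adj_one, mul_one]
  mul_mem' := by
    intro g h (hg : adj c _ * _ = 1) (hh : adj c _ * _ = 1)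
    show adj c _ * _ = 1
    rw [Units.val_mul, adj_mul, mul_assoc, ← mul_assoc (adj c (g : Matrix ι ι F)), hg, one_mul, hh]
  inv_mem' := by
    intro g (hg : adj c _ * _ = 1)
    show adj c _ * _ = 1
    have h : adj c (g : Matrix ι ι F) = ((g⁻¹ : GL ι F) : Matrix ι ι F) :=
      (Units.inv_eq_of_mul_eq_one_left hg).symm
    rw [← h, adj_adj, h, Units.mul_inv]

theorem mem_guSub {q : ℕ} {c : Conj F q} {ι : Type} [Fintype ι] [DecidableEq ι] {g : GL ι F} :
    g ∈ guSub c ι ↔ adj c (g : Matrix ι ι F) * (g : Matrix ι ι F) = 1 := Iff.rfl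

theorem qAdjoint_eq_adj {q : ℕ} (c : Conj F q) {ι : Type} (M : Matrix ι ι F) :
    CfsgLib.Generators.qAdjoint q M = adj c M := by
  ext i j
  simp [CfsgLib.Generators.qAdjoint, adj, c.apply]

theorem card_guSub {q : ℕ} (hF : Nat.card F = q ^ 2) (c : Conj F q) (ι : Type) [Fintype ι]
    [DecidableEq ι] : Nat.card (guSub c ι) = Nat.card (Cfsg.GU (Fintype.card ι) F q) := by
  have := Fintype.ofFinite F
  set e := Fintype.equivFin ι
  let φ : GL ι F ≃* GL (Fin (Fintype.card ι)) F :=
    Units.mapEquiv (Matrix.reindexAlgEquiv F F e).toMulEquiv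
  have hadj : ∀ M : Matrix ι ι F, adj c (Matrix.reindexAlgEquiv F F e M) =
      Matrix.reindexAlgEquiv F F e (adj c M) := fun M => by
    ext i j
    simp [adj]
  have key : ∀ g, g ∈ guSub c ι ↔ φ g ∈ Cfsg.GU (Fintype.card ι) F q := fun g => by
    rw [CfsgLib.Generators.mem_GU_iff_qAdjoint (by rw [← Nat.card_eq_fintype_card, hF]),
      qAdjoint_eq_adj c, mem_guSub,
      show ((φ g : GL _ F) : Matrix _ _ F) = Matrix.reindexAlgEquiv F F e (g : Matrix ι ι F) from rfl,
      hadj, ← map_mul]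
    exact ⟨fun h => by rw [h, map_one], fun h => (Matrix.reindexAlgEquiv F F e).injective
      (by rw [h, map_one])⟩
  exact Nat.card_congr (φ.toEquiv.subtypeEquiv key)

theorem v₂_card_guSub {q : ℕ} (hF : Nat.card F = q ^ 2) (hq : Odd q) (c : Conj F q) (ι : Type)
    [Fintype ι] [DecidableEq ι] : v₂ (Nat.card (guSub c ι)) = tU q (Fintype.card ι) := by
  rw [card_guSub hF, v₂_card_GU hF hq]

theorem v₂_two_four {n : ℕ} (h : n % 4 = 2) : v₂ n = 1 := by
  obtain ⟨k, rfl⟩ : ∃ k, n = 2 * (2 * k + 1) := ⟨n / 4, by omega⟩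
  rw [v₂_mul two_ne_zero (by omega), v₂_odd ⟨_, rfl⟩, add_zero]
  exact Nat.prime_two.factorization_self

theorem two_le_v₂ {n : ℕ} (h0 : n ≠ 0) (h : n % 4 = 0) : 2 ≤ v₂ n :=
  (Nat.prime_two.pow_dvd_iff_le_factorization h0).1 (by omega)

theorem two_pow_v₂_dvd (n : ℕ) : 2 ^ v₂ n ∣ n := Nat.ordProj_dvd n 2

theorem dg_mem_guSub {q : ℕ} (c : Conj F q) {x y : Fˣ} (hx : (x : F) * c.σ x = 1)
    (hy : (y : F) * c.σ y = 1) : dg x y ∈ guSub c (Fin 2) := by
  rw [mem_guSub, coe_dg]
  ext i j
  fin_cases i <;> fin_cases j <;> simp [adj, Matrix.mul_apply, Fin.sum_univ_two] <;>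
    first
      | linear_combination hx
      | linear_combination hy

theorem two_ne_zero_of_odd_card (hq : Odd (Nat.card F)) : (2 : F) ≠ 0 := by
  intro h
  have := Fintype.ofFinite F
  rw [Nat.card_eq_fintype_card] at hq
  have hc : ringChar F = 2 := CharP.ringChar_of_prime_eq_zero Nat.prime_two (by exact_mod_cast h)
  have := FiniteField.even_card_of_char_two hc
  rw [Nat.odd_iff] at hq
  omega

/-- A good Sylow 2-subgroup of `GL_2(q)`. -/
theorem exists_good_GL_two (hq : Odd (Nat.card F)) :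
    ∃ S, IsGood (⊤ : Subgroup (GL (Fin 2) F)) S := by
  classical
  have := Fintype.ofFinite F
  set q := Nat.card F with hqdef
  have h1 : 1 < q := Finite.one_lt_card
  have h2 := two_ne_zero_of_odd_card hq
  have hvG : v₂ (Nat.card (⊤ : Subgroup (GL (Fin 2) F))) = 2 * v₂ (q - 1) + v₂ (q + 1) := by
    rw [Subgroup.card_top, v₂_card_GL (by rwa [← Nat.card_eq_fintype_card]), Fintype.card_fin,
      ← Nat.card_eq_fintype_card, tL_two hq h1]
  rcases Nat.odd_mod_four_iff.1 (Nat.odd_iff.1 hq) with h4 | h4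
  · obtain ⟨μ, hμ⟩ := exists_orderOf_eq (T := Fˣ) (d := 2 ^ v₂ (q - 1))
      (by rw [Nat.card_units]; exact two_pow_v₂_dvd _)
    exact exists_good_mono ⊤ (two_le_v₂ (by omega) (by omega)) hμ
      (fun _ _ _ _ => Subgroup.mem_top _) (Subgroup.mem_top _)
      (by rw [hvG, v₂_two_four (n := q + 1) (by omega)])
  have hns : ∀ a b : F, a ^ 2 + b ^ 2 = 0 → a = 0 := by
    intro a b h
    by_contra ha
    have : IsSquare (-1 : F) := ⟨b / a, by field_simp; linear_combination -h⟩
    rw [FiniteField.isSquare_neg_one_iff, ← Nat.card_eq_fintype_card] at this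
    omega
  -- the rotations form a cyclic group of order `q² - 1`
  let K := AlgebraicClosure F
  obtain ⟨j, hj⟩ := IsAlgClosed.exists_pow_nat_eq (-1 : K) two_pos
  let φ : (rotSub : Subgroup (GL (Fin 2) F)) →* K :=
    { toFun := fun g => algebraMap F K ((g : GL (Fin 2) F).1 0 0) +
        j * algebraMap F K ((g : GL (Fin 2) F).1 1 0)
      map_one' := by simp
      map_mul' := fun g h => by
        have hh : IsRot (h : GL (Fin 2) F) := h.2
        have hg : IsRot (g : GL (Fin 2) F) := g.2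
        simp only [Subgroup.coe_mul, Units.val_mul, Matrix.mul_apply, Fin.sum_univ_two, hg.2,
          ← hg.1, map_add, map_mul, map_neg]
        linear_combination -(algebraMap F K ((g : GL (Fin 2) F).1 1 0) *
          algebraMap F K ((h : GL (Fin 2) F).1 1 0)) * hj }
  have hφ : Function.Injective φ := by
    intro g h e
    have hg : IsRot (g : GL (Fin 2) F) := g.2
    have hh : IsRot (h : GL (Fin 2) F) := h.2
    change algebraMap F K _ + j * algebraMap F K _ = algebraMap F K _ + j * algebraMap F K _ at e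
    set a := (g : GL (Fin 2) F).1 0 0 - (h : GL (Fin 2) F).1 0 0 with ha
    set b := (g : GL (Fin 2) F).1 1 0 - (h : GL (Fin 2) F).1 1 0 with hb
    have e' : algebraMap F K a + j * algebraMap F K b = 0 := by
      rw [ha, hb, map_sub, map_sub]; linear_combination e
    have hab : a ^ 2 + b ^ 2 = 0 := (algebraMap F K).injective (by
      rw [map_add, map_pow, map_pow, map_zero]
      linear_combination (algebraMap F K a - j * algebraMap F K b) * e' + (algebraMap F K b) ^ 2 * hj)
    have ha0 : a = 0 := hns a b hab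
    have hb0 : b = 0 := by
      rw [ha0] at hab
      simpa using hab
    refine Subtype.ext (Units.ext ?_)
    rw [IsRot.coe_eq hg, IsRot.coe_eq hh, sub_eq_zero.1 ha0, sub_eq_zero.1 hb0]
  have : IsCyclic (rotSub : Subgroup (GL (Fin 2) F)) := isCyclic_of_subgroup_isDomain φ hφ
  have hcardT : Nat.card (rotSub : Subgroup (GL (Fin 2) F)) = q ^ 2 - 1 := by
    have hdet : ∀ p : F × F, p ≠ 0 → Matrix.det !![p.1, -p.2; p.2, p.1] ≠ 0 := by
      intro p hp h
      rw [Matrix.det_fin_two] at h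
      simp at h
      have ha : p.1 = 0 := hns p.1 p.2 (by linear_combination h)
      have hb : p.2 = 0 := by rw [ha] at h; simpa using h
      exact hp (Prod.ext ha hb)
    let f : {p : F × F // p ≠ 0} → (rotSub : Subgroup (GL (Fin 2) F)) := fun p =>
      ⟨Matrix.GeneralLinearGroup.mkOfDetNeZero _ (hdet p.1 p.2), isRot_of_coe rfl⟩
    have hf : Function.Bijective f := by
      constructor
      · intro p p' h
        have h' := congrArg (fun g : (rotSub : Subgroup (GL (Fin 2) F)) => (g : GL (Fin 2) F).1) h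
        have h0 := congrArg (fun M : Matrix (Fin 2) (Fin 2) F => M 0 0) h'
        have h1 := congrArg (fun M : Matrix (Fin 2) (Fin 2) F => M 1 0) h'
        simp [f] at h0 h1
        exact Subtype.ext (Prod.ext h0 h1)
      · intro g
        refine ⟨⟨((g : GL (Fin 2) F).1 0 0, (g : GL (Fin 2) F).1 1 0), fun h => ?_⟩,
          Subtype.ext (Units.ext ?_)⟩
        · obtain ⟨h0, h1⟩ := Prod.ext_iff.1 h
          have hd : Matrix.det (g : GL (Fin 2) F).1 ≠ 0 :=
            ((Matrix.isUnit_iff_isUnit_det _).1 (g : GL (Fin 2) F).isUnit).ne_zero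
          rw [IsRot.coe_eq g.2, Matrix.det_fin_two] at hd
          simp at h0 h1
          simp [h0, h1] at hd
        · exact (IsRot.coe_eq g.2).symm
    rw [← Nat.card_eq_of_bijective f hf, Nat.card_eq_fintype_card,
      Fintype.card_subtype_compl, Fintype.card_subtype_eq, Fintype.card_prod,
      ← Nat.card_eq_fintype_card, sq]
  set A := v₂ (q ^ 2 - 1) with hA
  have hA' : A = 1 + v₂ (q + 1) := by
    rw [hA, v₂_sq_sub_one h1, v₂_two_four (n := q - 1) (by omega)]
  have hA3 : 3 ≤ A := by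
    have := two_le_v₂ (n := q + 1) (by omega) (by omega)
    omega
  obtain ⟨c, hc⟩ := exists_orderOf_eq (T := (rotSub : Subgroup (GL (Fin 2) F))) (d := 2 ^ A)
    (by rw [hcardT]; exact two_pow_v₂_dvd _)
  have hmem : ∀ x : GL (Fin 2) F, IsRot x → x ^ 2 ^ A = 1 →
      x ∈ Subgroup.zpowers (c : GL (Fin 2) F) := by
    intro x hx hx1
    obtain ⟨i, hi⟩ := Subgroup.mem_zpowers_iff.1 (mem_zpowers_of_pow_eq_one (c := c)
      (x := ⟨x, hx⟩) (by rw [hc]; exact Subtype.ext (by simpa using hx1)))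
    exact ⟨i, by simpa using congrArg Subtype.val hi⟩
  have hord : orderOf (c : GL (Fin 2) F) = 2 ^ A := by rw [Subgroup.orderOf_coe, hc]
  have hdet2 : ∀ x ∈ Subgroup.zpowers (c : GL (Fin 2) F),
      Matrix.det (x : Matrix (Fin 2) (Fin 2) F) ^ 2 = 1 := by
    intro x hx
    set d : Fˣ := Matrix.GeneralLinearGroup.det x with hd
    have hd1 : d ^ 2 ^ A = 1 := by
      rw [hd, ← map_pow, ← hord, orderOf_dvd_iff_pow_eq_one.1 (orderOf_dvd_of_mem_zpowers hx),
        map_one]
    obtain ⟨k, hk, hk'⟩ := (Nat.dvd_prime_pow Nat.prime_two).1 (orderOf_dvd_of_pow_eq_one hd1)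
    have hle : k ≤ v₂ (q - 1) :=
      (Nat.prime_two.pow_dvd_iff_le_factorization (by omega)).1 (by
        rw [← hk', ← Nat.card_units]; exact orderOf_dvd_natCard d)
    rw [v₂_two_four (n := q - 1) (by omega)] at hle
    have : d ^ 2 = 1 := orderOf_dvd_iff_pow_eq_one.1 (hk' ▸ by
      exact (pow_dvd_pow 2 hle : (2 : ℕ) ^ k ∣ 2 ^ 1))
    simpa [hd] using congrArg Units.val this
  have hneg : (-1 : GL (Fin 2) F) ∈ Subgroup.zpowers (c : GL (Fin 2) F) :=
    hmem _ ⟨by simp, by simp⟩ (Even.neg_one_pow ((Nat.even_pow' (by omega)).2 even_two))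
  refine exists_good_rot ⊤ h2 (IsRot.coe_eq c.2) (fun h => ?_) hA3 hord (Subgroup.mem_top _)
    (Subgroup.mem_top _) ?_ (fun i => ?_) hneg (by rw [hvG, hA', v₂_two_four (n := q - 1) (by omega)]; ring)
    ?_ (Or.inl hns)
  · have hd := hdet2 _ (Subgroup.mem_zpowers _)
    rw [IsRot.coe_eq c.2, h, Matrix.det_fin_two] at hd
    simp at hd
    have h8 : (c : GL (Fin 2) F) ^ 4 = 1 := Units.ext (by
      rw [Units.val_pow_eq_pow_val, IsRot.coe_eq c.2, h, show (4 : ℕ) = 2 + 2 from rfl, pow_add,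
        pow_two, Matrix.mul_fin_two, Matrix.mul_fin_two, Units.val_one, Matrix.one_fin_two]
      simp
      rcases hd with hd | hd
      · linear_combination ((c : GL (Fin 2) F).1 0 0 * (c : GL (Fin 2) F).1 0 0 + 1) * hd
      · linear_combination ((c : GL (Fin 2) F).1 0 0 * (c : GL (Fin 2) F).1 0 0 - 1) * hd)
    have := Nat.le_of_dvd (by norm_num) (hord ▸ orderOf_dvd_of_pow_eq_one h8)
    have : 2 ^ 3 ≤ 2 ^ A := Nat.pow_le_pow_right two_pos hA3
    omega
  · refine hmem _ ?_ ?_
    · refine isRot_of_coe (α := (c : GL (Fin 2) F).1 0 0) (β := -(c : GL (Fin 2) F).1 1 0) ?_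
      rw [rfl2_inv, mul_assoc, Units.val_mul, coe_rfl2, coe_rot_mul_rfl2 (IsRot.coe_eq c.2),
        Matrix.mul_fin_two]
      simp
    · rw [conj_pow, ← hord, pow_orderOf_eq_one, mul_one, mul_inv_cancel]
  · have hx : IsRot ((c : GL (Fin 2) F) ^ i) := (rotSub : Subgroup (GL (Fin 2) F)).zpow_mem c.2 i
    have hd := hdet2 _ (zpow_mem (Subgroup.mem_zpowers (c : GL (Fin 2) F)) i)
    apply Units.ext
    rw [show (4 : ℕ) = 2 + 2 from rfl, pow_add, pow_two, Units.val_mul, rot_rfl2_sq hx,
      smul_mul_smul_comm, one_mul, ← pow_two, hd, one_smul, Units.val_one]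
  · set x := (c : GL (Fin 2) F) ^ 2 ^ (A - 2) with hx
    have hxm : x ∈ Subgroup.zpowers (c : GL (Fin 2) F) := pow_mem (Subgroup.mem_zpowers _) _
    have hxr : IsRot x := (rotSub : Subgroup (GL (Fin 2) F)).pow_mem c.2 _
    have hx4 : orderOf x = 4 := by
      rw [hx, orderOf_pow, hord, Nat.gcd_eq_right (pow_dvd_pow 2 (by omega)),
        Nat.pow_div (by omega) two_pos, show A - (A - 2) = 2 by omega]
      norm_num
    have hx2 : x ^ 2 = -1 := by
      set y : (rotSub : Subgroup (GL (Fin 2) F)) := ⟨x ^ 2, pow_mem hxr 2⟩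
      have hy : orderOf y = 2 := by
        rw [← Subgroup.orderOf_coe, show (y : GL (Fin 2) F) = x ^ 2 from rfl, orderOf_pow, hx4]
        norm_num
      obtain ⟨k, hk⟩ := Subgroup.mem_zpowers_iff.1 (mem_zpowers_of_pow_eq_one (c := y)
        (x := ⟨-1, show IsRot (-1 : GL (Fin 2) F) from ⟨by simp, by simp⟩⟩)
        (by rw [hy]; exact Subtype.ext (by simp)))
      have hk' : (x ^ 2) ^ k = -1 := congrArg Subtype.val hk
      rcases Int.even_or_odd k with ⟨m, rfl⟩ | ⟨m, rfl⟩
      · rw [← two_mul, zpow_mul, zpow_two, ← pow_two, ← pow_mul, show 2 * 2 = orderOf x by omega,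
          pow_orderOf_eq_one, _root_.one_zpow] at hk'
        have := congrArg (fun z : GL (Fin 2) F => z.1 0 0) hk'
        simp at this
        exact absurd (by linear_combination this : (2 : F) = 0) h2
      · rw [_root_.zpow_add, zpow_mul, zpow_two, ← pow_two, ← pow_mul,
          show 2 * 2 = orderOf x by omega, pow_orderOf_eq_one, _root_.one_zpow, one_mul,
          zpow_one] at hk'
        exact hk'
    have e := congrArg (fun z : GL (Fin 2) F => z.1) hx2
    simp only [Units.val_pow_eq_pow_val, Units.val_neg, Units.val_one, pow_two] at e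
    have e0 := congrArg (fun M : Matrix (Fin 2) (Fin 2) F => M 0 0) e
    have e1 := congrArg (fun M : Matrix (Fin 2) (Fin 2) F => M 1 0) e
    simp [Matrix.mul_apply, Fin.sum_univ_two, hxr.2, ← hxr.1] at e0 e1
    set u := x.1 0 0
    set w := x.1 1 0
    have hu : u = 0 := by
      by_contra hu
      have : w = 0 := by
        have h' : 2 * u * w = 0 := by linear_combination e1
        exact (mul_eq_zero.1 h').resolve_left (mul_ne_zero h2 hu)
      have h1' : (1 : F) = 0 := hns 1 u (by rw [this] at e0; linear_combination e0)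
      exact one_ne_zero h1'
    refine ⟨x, hxm, w, ?_, ?_⟩
    · rw [hu] at e0; linear_combination -e0
    · rw [IsRot.coe_eq hxr]
      simp [u, w] at hu ⊢
      exact hu

/-- A good Sylow 2-subgroup of `GU_2(q)`. -/
theorem exists_good_GU_two {q : ℕ} (hF : Nat.card F = q ^ 2) (hq : Odd q) (c : Conj F q) :
    ∃ S, IsGood (guSub c (Fin 2)) S := by
  classical
  have := Fintype.ofFinite F
  have h1 : 1 < q := two_le_q hF
  have h2 : (2 : F) ≠ 0 := two_ne_zero_of_odd_card (by rw [hF]; exact hq.pow)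
  have hsq : q ^ 2 - 1 = (q + 1) * (q - 1) := by rw [← Nat.sq_sub_sq, one_pow]
  have hvG : v₂ (Nat.card (guSub c (Fin 2))) = 2 * v₂ (q + 1) + v₂ (q - 1) := by
    have := tU_two_pow hq h1 0
    rw [v₂_card_guSub hF hq, Fintype.card_fin]
    simp at this
    omega
  have hone : dg (1 : Fˣ) (-1) ∈ guSub c (Fin 2) :=
    dg_mem_guSub c (by simp) (by simp [map_neg])
  rcases Nat.odd_mod_four_iff.1 (Nat.odd_iff.1 hq) with h4 | h4
  swap
  · obtain ⟨μ, hμ⟩ := exists_orderOf_eq (T := Fˣ) (d := 2 ^ v₂ (q + 1))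
      (by rw [Nat.card_units, hF, hsq]; exact Dvd.dvd.mul_right (two_pow_v₂_dvd _) _)
    have hnorm : ∀ x ∈ Subgroup.zpowers μ, ((x : Fˣ) : F) * c.σ (x : F) = 1 := by
      intro x hx
      have : orderOf x ∣ q + 1 :=
        (orderOf_dvd_of_mem_zpowers hx).trans (hμ ▸ two_pow_v₂_dvd _)
      rw [c.apply, ← pow_succ']
      simpa using congrArg Units.val (orderOf_dvd_iff_pow_eq_one.1 this)
    refine exists_good_mono _ (two_le_v₂ (by omega) (by omega)) hμ
      (fun x hx y hy => dg_mem_guSub c (hnorm x hx) (hnorm y hy)) ?_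
      (by rw [hvG, v₂_two_four (n := q - 1) (by omega)])
    rw [mem_guSub, coe_jj]
    ext i j
    fin_cases i <;> fin_cases j <;> simp [adj, Matrix.mul_apply, Fin.sum_univ_two]
  -- `q ≡ 1 mod 4`
  obtain ⟨r, hr⟩ := exists_orderOf_eq (T := Fˣ) (d := 4)
    (by rw [Nat.card_units, hF, hsq]; exact Dvd.dvd.mul_left (by omega) _)
  set j : F := (r : F) with hjdef
  have hj : j * j = -1 := by
    have h4' : (j * j) * (j * j) = 1 := by
      have := congrArg Units.val (pow_orderOf_eq_one r)
      rw [hr] at this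
      simp at this
      linear_combination this
    rcases mul_self_eq_one_iff.1 h4' with h | h
    · exfalso
      have : r ^ 2 = 1 := Units.ext (by simpa [pow_two, hjdef] using h)
      have := Nat.le_of_dvd two_pos (hr ▸ orderOf_dvd_of_pow_eq_one this)
      omega
    · exact h
  have hσj : c.σ j = j := by
    rw [c.apply, hjdef, ← Units.val_pow_eq_pow_val, ← pow_mod_orderOf, hr, h4, pow_one]
  let ν : Fˣ →* Fˣ :=
    { toFun := fun x => (Units.map c.σ.toMonoidHom x)⁻¹
      map_one' := by simp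
      map_mul' := fun x y => by rw [map_mul, mul_inv] }
  have hν : ∀ x : Fˣ, (ν x : F) * c.σ x = 1 := fun x => by
    have : ν x * Units.map c.σ.toMonoidHom x = 1 := inv_mul_cancel _
    exact congrArg Units.val this
  let fα : Fˣ → F := fun x => ((x : F) + (ν x : F)) / 2
  let fβ : Fˣ → F := fun x => j * ((x : F) - (ν x : F)) / 2
  have hdet : ∀ x : Fˣ, Matrix.det !![fα x, -fβ x; fβ x, fα x] ≠ 0 := by
    intro x
    have : Matrix.det !![fα x, -fβ x; fβ x, fα x] = (x : F) * (ν x : F) := by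
      rw [Matrix.det_fin_two]
      simp [fα, fβ]
      field_simp
      linear_combination ((x : F) - (ν x : F)) ^ 2 * hj
    rw [this]
    exact mul_ne_zero x.ne_zero (ν x).ne_zero
  let φ : Fˣ →* GL (Fin 2) F :=
    { toFun := fun x => Matrix.GeneralLinearGroup.mkOfDetNeZero _ (hdet x)
      map_one' := Units.ext (by
        show !![fα 1, -fβ 1; fβ 1, fα 1] = 1
        simp [fα, fβ, Matrix.one_fin_two]
        norm_num [h2])
      map_mul' := fun x y => Units.ext (by
        show !![fα (x * y), -fβ (x * y); fβ (x * y), fα (x * y)] =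
          !![fα x, -fβ x; fβ x, fα x] * !![fα y, -fβ y; fβ y, fα y]
        rw [Matrix.mul_fin_two]
        ext a b
        fin_cases a <;> fin_cases b <;> simp [fα, fβ] <;> field_simp <;>
          first
            | linear_combination ((x : F) - (ν x : F)) * ((y : F) - (ν y : F)) * hj
            | ring) }
  have hφc : ∀ x : Fˣ, (φ x : Matrix (Fin 2) (Fin 2) F) = !![fα x, -fβ x; fβ x, fα x] :=
    fun x => rfl
  have hφinj : Function.Injective φ := by
    intro x y h
    have e0 := congrArg (fun z : GL (Fin 2) F => z.1 0 0) h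
    have e1 := congrArg (fun z : GL (Fin 2) F => z.1 1 0) h
    simp [hφc, fα, fβ] at e0 e1
    field_simp at e0 e1
    refine Units.ext (mul_left_cancel₀ h2 ?_)
    linear_combination e0 - j * e1 + ((x : F) - (ν x : F) - ((y : F) - (ν y : F))) * hj
  have hφG : ∀ x : Fˣ, φ x ∈ guSub c (Fin 2) := by
    intro x
    rw [mem_guSub, hφc]
    have hν' : (x : F) * c.σ (ν x : F) = 1 := by
      have := congrArg c.σ (hν x)
      rw [map_mul, c.invol, map_one] at this
      linear_combination this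
    ext a b
    fin_cases a <;> fin_cases b <;>
      simp [adj, fα, fβ, Matrix.mul_apply, Fin.sum_univ_two, map_div₀, map_ofNat, hσj] <;>
      field_simp <;>
      first
        | linear_combination (c.σ (x : F) - c.σ (ν x : F)) * ((x : F) - (ν x : F)) * hj +
            2 * hν' + 2 * hν x
        | linear_combination 2 * j * hν' - 2 * j * hν x
        | linear_combination -2 * j * hν' + 2 * j * hν x
  set A := v₂ (q - 1) + 1 with hA
  have hA3 : 3 ≤ A := by
    have := two_le_v₂ (n := q - 1) (by omega) (by omega)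
    omega
  have hv1 : v₂ (q + 1) = 1 := v₂_two_four (by omega)
  obtain ⟨μ, hμ⟩ := exists_orderOf_eq (T := Fˣ) (d := 2 ^ A)
    (by
      rw [Nat.card_units, hF, show A = v₂ (q ^ 2 - 1) by rw [v₂_sq_sub_one h1]; omega]
      exact two_pow_v₂_dvd _)
  have hmem : ∀ x : Fˣ, x ∈ Subgroup.zpowers μ → φ x ∈ Subgroup.zpowers (φ μ) := fun x hx => by
    obtain ⟨i, rfl⟩ := Subgroup.mem_zpowers_iff.1 hx
    exact ⟨i, (map_zpow φ μ i).symm⟩
  have hswap : ∀ x : Fˣ, rfl2 * φ x * rfl2⁻¹ = φ (ν x) := fun x => by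
    have hνν : ν (ν x) = x := by
      refine Units.ext (mul_right_cancel₀ (fun h => (ν x).ne_zero (c.eq_zero h)) ((hν (ν x)).trans ?_))
      have := congrArg c.σ (hν x)
      rw [map_mul, c.invol, map_one] at this
      linear_combination -this
    refine Units.ext ?_
    rw [rfl2_inv, mul_assoc, Units.val_mul, coe_rfl2, coe_rot_mul_rfl2 (hφc x), hφc,
      Matrix.mul_fin_two]
    ext a b
    fin_cases a <;> fin_cases b <;> simp [fα, fβ, hνν] <;> ring
  have hνpow : ∀ x : Fˣ, ν x = x⁻¹ ^ q := fun x => by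
    refine Units.ext ?_
    show (((Units.map c.σ.toMonoidHom x)⁻¹ : Fˣ) : F) = _
    rw [inv_pow]
    congr 2
    exact Units.ext (c.apply _)
  have hz : ∀ x ∈ Subgroup.zpowers μ, (x * ν x) ^ 2 = 1 := fun x hx => by
    rw [hνpow]
    obtain ⟨e, he⟩ : ∃ e, q = e + 1 := ⟨q - 1, by omega⟩
    have hxe : x * x⁻¹ ^ (e + 1) = (x ^ e)⁻¹ := by
      rw [pow_succ', ← mul_assoc, mul_inv_cancel, one_mul, inv_pow]
    rw [he, hxe, inv_pow, inv_eq_one, ← pow_mul]
    refine orderOf_dvd_iff_pow_eq_one.1 ((orderOf_dvd_of_mem_zpowers hx).trans ?_)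
    rw [hμ, hA, pow_succ]
    exact Nat.mul_dvd_mul_right (by rw [show e = q - 1 by omega]; exact two_pow_v₂_dvd _) 2
  have hord : orderOf (φ μ) = 2 ^ A := by rw [orderOf_injective φ hφinj, hμ]
  have hm1 : φ (-1) = -1 := by
    refine Units.ext ?_
    have : (ν (-1) : F) = -1 := by
      have := hν (-1)
      simp [map_neg] at this
      linear_combination -this
    rw [hφc, Units.val_neg, Units.val_one]
    simp [fα, fβ, this, Matrix.one_fin_two]
    norm_num
    field_simp
  have hneg : (-1 : Fˣ) ∈ Subgroup.zpowers μ := neg_one_mem_zpowers (by omega) hμ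
  have hμq : μ * ν μ = -1 := by
    have hsq1 : ((μ * ν μ : Fˣ) : F) * ((μ * ν μ : Fˣ) : F) = 1 := by
      have := congrArg Units.val (hz μ (Subgroup.mem_zpowers μ))
      rw [Units.val_pow_eq_pow_val, Units.val_one, pow_two] at this
      exact this
    rcases mul_self_eq_one_iff.1 hsq1 with h | h
    · exfalso
      have h' : μ * ν μ = 1 := Units.ext h
      obtain ⟨e, he⟩ : ∃ e, q = e + 1 := ⟨q - 1, by omega⟩
      rw [hνpow, he, pow_succ', ← mul_assoc, mul_inv_cancel, one_mul, inv_pow, inv_eq_one] at h'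
      have hd : (2 : ℕ) ^ A ∣ q - 1 := by
        rw [show q - 1 = e by omega, ← hμ]
        exact orderOf_dvd_of_pow_eq_one h'
      have := (Nat.prime_two.pow_dvd_iff_le_factorization (by omega)).1 hd
      change A ≤ v₂ (q - 1) at this
      omega
    · exact Units.ext (by rw [h]; simp)
  refine exists_good_rot _ h2 (hφc μ) (fun h => ?_) hA3 hord (hφG μ) hone ?_ (fun i => ?_)
    (hm1 ▸ hmem _ hneg) (by rw [hvG, hv1, hA]; ring) ?_ (Or.inr ?_)
  · have hxy : (μ : F) = (ν μ : F) := by
      simp [fβ, h2, hjdef] at h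
      exact sub_eq_zero.1 h
    have h8 : μ ^ 4 = 1 := by
      have e : μ * μ = -1 := by
        refine Units.ext ?_
        rw [← hμq, Units.val_mul, Units.val_mul, ← hxy]
      rw [show (4 : ℕ) = 2 + 2 from rfl, pow_add, pow_two, e]
      simp
    have := Nat.le_of_dvd (by norm_num) (hμ ▸ orderOf_dvd_of_pow_eq_one h8)
    have : 2 ^ 3 ≤ 2 ^ A := Nat.pow_le_pow_right two_pos hA3
    omega
  · rw [hswap]
    refine hmem _ ?_
    rw [hνpow]
    exact pow_mem (inv_mem (Subgroup.mem_zpowers μ)) q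
  · rw [← map_zpow]
    have e : φ (μ ^ i) * rfl2 * (φ (μ ^ i) * rfl2) = φ (μ ^ i * ν (μ ^ i)) := by
      rw [map_mul, ← hswap, rfl2_inv]
      group
    rw [show (4 : ℕ) = 2 * 2 from rfl, pow_mul, pow_two (φ (μ ^ i) * rfl2), e, ← map_pow,
      hz _ (zpow_mem (Subgroup.mem_zpowers μ) i), map_one]
  · set x := μ ^ 2 ^ (A - 2) with hx
    have hx4 : orderOf x = 4 := by
      rw [hx, orderOf_pow, hμ, Nat.gcd_eq_right (pow_dvd_pow 2 (by omega)),
        Nat.pow_div (by omega) two_pos, show A - (A - 2) = 2 by omega]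
      norm_num
    have hxx : (x : F) * x = -1 := by
      have h4' : ((x : F) * x) * ((x : F) * x) = 1 := by
        have := congrArg Units.val (pow_orderOf_eq_one x)
        rw [hx4] at this
        simp at this
        linear_combination this
      rcases mul_self_eq_one_iff.1 h4' with h | h
      · exfalso
        have : x ^ 2 = 1 := Units.ext (by simpa [pow_two] using h)
        have := Nat.le_of_dvd two_pos (hx4 ▸ orderOf_dvd_of_pow_eq_one this)
        omega
      · exact h
    have hνx : (ν x : F) = -(x : F) := by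
      have e : ν x = x⁻¹ := by
        rw [hνpow, ← pow_mod_orderOf, orderOf_inv, hx4, h4, pow_one]
      rw [e, Units.val_inv_eq_inv_val]
      exact inv_eq_of_mul_eq_one_right (by linear_combination -hxx)
    refine ⟨φ x, hmem _ (pow_mem (Subgroup.mem_zpowers μ) _), fβ x, ?_, ?_⟩
    · simp only [fβ, hνx]
      field_simp
      linear_combination 4 * ((x : F) * x * hj) - 4 * hxx
    · rw [hφc]
      simp [fα, hνx]
  · have hd : ((μ : F) * (ν μ : F)) = -1 := by
      rw [← Units.val_mul, hμq]; simp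
    simp only [fα, fβ]
    field_simp
    linear_combination 4 * hd + ((μ : F) - (ν μ : F)) ^ 2 * hj

end CfsgLib.InvChar.Wreath
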