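/-
InvChar: subgroups of odd index of `SL` and `SU` of dimension a power of 2 at least 4, `q` odd,
are pronormal: a Sylow 2-subgroup is self-normalising.
-/
import Cfsg.Agent.Lib.InvChar.WreathInstances
import Cfsg.Agent.Lib.InvChar.PronormalBasic
import Cfsg.Agent.Lib.SL2.SylowTwo

set_option autoImplicit false
set_option linter.unusedSectionVars false

open scoped Matrix

namespace CfsgLib.InvChar.Wreath

open CfsgLib.InvChar.TwoPart CfsgLib.ClassicalForms

variable {F : Type*} [Field F] [Finite F]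

/-- Pronormality in the determinant-one part of a group with a good tower. -/
theorem isPronormal_of_strong {T : Type*} [Group T] [Finite T] {κ : Type} [Fintype κ]
    [DecidableEq κ] (φ : T →* GL κ F) (hφ : Function.Injective φ) (G S : Subgroup (GL κ F))
    (hSG : S ≤ G) (hScard : Nat.card S = 2 ^ v₂ (Nat.card G))
    (hrange : ∀ g, g ∈ φ.range ↔ g ∈ G ∧ Matrix.det (g : Matrix κ κ F) = 1) {w : ℕ}
    (hκ : Fintype.card κ = 2 ^ w)
    (hstrong : ∀ g ∈ G, Odd (orderOf g) →
      (∀ s ∈ S, Matrix.det (s : Matrix κ κ F) = 1 → g * s * g⁻¹ ∈ S) →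
      ∃ a : F, (g : Matrix κ κ F) = a • 1)
    (H : Subgroup T) (hH : Odd H.index) : Cfsg.IsPronormal H := by
  classical
  have : Fact (Nat.Prime 2) := ⟨Nat.prime_two⟩
  set P₀ : Subgroup T := S.comap φ with hP₀
  have hP : IsPGroup 2 P₀ := by
    intro x
    have hm : φ x ∈ S := x.2
    obtain ⟨j, hj⟩ : ∃ j, Nat.card S = 2 ^ j := ⟨_, hScard⟩
    refine ⟨j, Subtype.ext (hφ ?_)⟩
    rw [Subgroup.coe_pow, map_pow, Subgroup.coe_one, map_one]
    have := congrArg Subtype.val (pow_card_eq_one' (G := S) (x := ⟨φ x, hm⟩))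
    simpa [hj] using this
  obtain ⟨e, he⟩ := (IsPGroup.iff_card).1 hP
  have hcard : Nat.card P₀ = 2 ^ (Nat.card T).factorization 2 := by
    let ψ : G →* Fˣ := Matrix.GeneralLinearGroup.det.comp G.subtype
    let ψS : S →* Fˣ := Matrix.GeneralLinearGroup.det.comp S.subtype
    have hT : Nat.card ψ.ker = Nat.card T := by
      let f : T → ψ.ker := fun t =>
        ⟨⟨φ t, ((hrange _).1 ⟨t, rfl⟩).1⟩, Units.ext ((hrange _).1 ⟨t, rfl⟩).2⟩
      refine (Nat.card_eq_of_bijective f ⟨fun a b h => hφ ?_, ?_⟩).symm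
      · exact congrArg (fun z : ψ.ker => ((z : G) : GL κ F)) h
      · rintro ⟨⟨g, hg⟩, hk⟩
        obtain ⟨t, ht⟩ := (hrange g).2 ⟨hg, congrArg Units.val hk⟩
        exact ⟨t, Subtype.ext (Subtype.ext ht)⟩
    have hS : Nat.card ψS.ker = Nat.card P₀ := by
      let f : P₀ → ψS.ker := fun t => ⟨⟨φ t, t.2⟩, Units.ext ((hrange _).1 ⟨t, rfl⟩).2⟩
      refine (Nat.card_eq_of_bijective f ⟨fun a b h => Subtype.ext (hφ ?_), ?_⟩).symm
      · exact congrArg (fun z : ψS.ker => ((z : S) : GL κ F)) h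
      · rintro ⟨⟨g, hg⟩, hk⟩
        obtain ⟨t, rfl⟩ := (hrange g).2 ⟨hSG hg, congrArg Units.val hk⟩
        exact ⟨⟨t, hg⟩, rfl⟩
    have hr : Nat.card ψS.range ∣ Nat.card ψ.range := Subgroup.card_dvd_of_le (by
      rintro _ ⟨x, rfl⟩
      exact ⟨⟨x, hSG x.2⟩, rfl⟩)
    have e1 : Nat.card G = Nat.card T * Nat.card ψ.range := by
      rw [← hT, ← Subgroup.card_mul_index ψ.ker, Subgroup.index_ker]
    have e2 : Nat.card S = Nat.card P₀ * Nat.card ψS.range := by
      rw [← hS, ← Subgroup.card_mul_index ψS.ker, Subgroup.index_ker]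
    have v1 := v₂_mul (Nat.card_pos (α := T)).ne' (Nat.card_pos (α := ψ.range)).ne'
    have v2 := v₂_mul (Nat.card_pos (α := P₀)).ne' (Nat.card_pos (α := ψS.range)).ne'
    rw [← e1] at v1
    rw [← e2, hScard, he] at v2
    have hp : ∀ j : ℕ, v₂ (2 ^ j) = j := fun j => by
      rw [v₂, Nat.prime_two.factorization_pow, Finsupp.single_eq_same]
    rw [hp, hp, v1] at v2
    have hle : v₂ (Nat.card ψS.range) ≤ v₂ (Nat.card ψ.range) :=
      (Nat.factorization_le_iff_dvd Nat.card_pos.ne' Nat.card_pos.ne').2 hr 2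
    have hle2 : e ≤ v₂ (Nat.card T) := by
      have := (Nat.prime_two.pow_dvd_iff_le_factorization (Nat.card_pos (α := T)).ne').1
        (he ▸ Subgroup.card_subgroup_dvd_card P₀)
      exact this
    rw [he]
    congr 1
    change e = v₂ (Nat.card T)
    omega
  let P : Sylow 2 T := Sylow.ofCard P₀ hcard
  have hself : Subgroup.normalizer ((P : Subgroup T) : Set T) ≤ (P : Subgroup T) := by
    intro x hx
    obtain ⟨a, m, hm, hord⟩ := Nat.exists_eq_two_pow_mul_odd (orderOf_pos x).ne'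
    set y := x ^ 2 ^ a with hy
    have hyo : orderOf y = m := by
      rw [hy, orderOf_pow, hord, Nat.gcd_eq_right (Dvd.intro _ rfl), Nat.mul_div_cancel_left _
        (pow_pos two_pos a)]
    have hyn : y ∈ Subgroup.normalizer ((P : Subgroup T) : Set T) := pow_mem hx _
    obtain ⟨hyG, hyd⟩ := (hrange (φ y)).1 ⟨y, rfl⟩
    have hodd : Odd (orderOf (φ y)) := by rw [orderOf_injective φ hφ, hyo]; exact hm
    obtain ⟨r, hr⟩ := hstrong (φ y) hyG hodd (fun s hs hd => by
      obtain ⟨t, rfl⟩ := (hrange s).2 ⟨hSG hs, hd⟩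
      rw [← map_inv, ← map_mul, ← map_mul]
      exact (Subgroup.mem_normalizer_iff.1 hyn t).1 hs)
    have hy1 : y = 1 := by
      have : Nonempty κ := Fintype.card_pos_iff.1 (by rw [hκ]; positivity)
      obtain ⟨i⟩ := this
      have hr2 : r ^ 2 ^ w = 1 := by
        rw [hr, Matrix.det_smul, Matrix.det_one, mul_one, hκ] at hyd
        exact hyd
      have hrm : r ^ m = 1 := by
        have h1 := congrArg (fun z : GL κ F => (z : Matrix κ κ F) i i)
          (pow_orderOf_eq_one (φ y))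
        simp only [Units.val_pow_eq_pow_val, hr, smul_pow, one_pow, Units.val_one] at h1
        simpa [orderOf_injective φ hφ, hyo] using h1
      have hr1 : r = 1 := by
        obtain ⟨k, -, hk⟩ := (Nat.dvd_prime_pow Nat.prime_two).1 (orderOf_dvd_of_pow_eq_one hr2)
        have hd := orderOf_dvd_of_pow_eq_one hrm
        rw [hk] at hd
        rw [← orderOf_eq_one_iff, hk]
        rcases k with _ | k
        · rfl
        · have := (dvd_pow_self 2 (Nat.succ_ne_zero k)).trans hd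
          rw [Nat.odd_iff] at hm
          omega
      refine hφ (Units.ext ?_)
      rw [hr, hr1, one_smul, map_one, Units.val_one]
    exact CfsgLib.SL2.two_group_mem_sylow P hx hy1
  refine CfsgLib.InvChar.Pronormal.isPronormal_of_sylow_overgroups P (fun K hK => ?_) H
    (fun hd => by rw [Nat.odd_iff] at hH; omega)
  exact hself.trans (hK.trans Subgroup.le_normalizer)

theorem blk_mem_guSub {q : ℕ} (c : Conj F q) {ι : Type} [Fintype ι] [DecidableEq ι]
    (a b : GL ι F) : blk (a, b) ∈ guSub c (ι ⊕ ι) ↔ a ∈ guSub c ι ∧ b ∈ guSub c ι := by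
  rw [mem_guSub, mem_guSub, mem_guSub, coe_blk, adj, Matrix.fromBlocks_map,
    Matrix.map_zero _ (map_zero c.σ), Matrix.fromBlocks_transpose, Matrix.transpose_zero,
    Matrix.fromBlocks_multiply, ← Matrix.fromBlocks_one, Matrix.fromBlocks_inj]
  simp [adj]

theorem sw_mem_guSub {q : ℕ} (c : Conj F q) {ι : Type} [Fintype ι] [DecidableEq ι] :
    (sw : GL (ι ⊕ ι) F) ∈ guSub c (ι ⊕ ι) := by
  have h : (-1 : Matrix ι ι F).map c.σ = -1 := by
    ext i j
    by_cases h : i = j <;> simp [h]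
  rw [mem_guSub, coe_sw, adj, Matrix.fromBlocks_map, Matrix.map_zero _ (map_zero c.σ),
    Matrix.map_one _ (map_zero c.σ) (map_one c.σ), h, Matrix.fromBlocks_transpose,
    Matrix.transpose_zero, Matrix.transpose_one, Matrix.transpose_neg, Matrix.transpose_one,
    Matrix.fromBlocks_multiply, ← Matrix.fromBlocks_one]
  simp

/-- The tower for the linear groups. -/
theorem exists_good_GL (hq : Odd (Nat.card F)) (k : ℕ) :
    ∃ (ι : Type) (_ : Fintype ι) (_ : DecidableEq ι), Fintype.card ι = 2 ^ (k + 1) ∧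
      ∃ S, IsGood (⊤ : Subgroup (GL ι F)) S := by
  induction k with
  | zero => exact ⟨Fin 2, inferInstance, inferInstance, rfl, exists_good_GL_two hq⟩
  | succ k ih =>
    obtain ⟨ι, _, _, hc, S, hS⟩ := ih
    refine ⟨ι ⊕ ι, inferInstance, inferInstance,
      by rw [Fintype.card_sum, hc]; ring, wr S hS.neg, hS.wreath (fun a b => by simp)
      (Subgroup.mem_top _) ?_ ?_ ?_ (two_ne_zero_of_odd_card hq)⟩
    · have := Fintype.ofFinite F
      rw [Nat.card_eq_fintype_card] at hq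
      rw [Subgroup.card_top, Subgroup.card_top, v₂_card_GL hq, v₂_card_GL hq, Fintype.card_sum,
        hc, show 2 ^ (k + 1) + 2 ^ (k + 1) = 2 ^ (k + 1 + 1) by ring,
        tL_step hq Fintype.one_lt_card]
    · rw [hc]; exact (Nat.even_pow' (by omega)).2 even_two
    · rw [hc]
      exact le_self_pow₀ (by norm_num) (by omega)

/-- The tower for the unitary groups. -/
theorem exists_good_GU {q : ℕ} (hF : Nat.card F = q ^ 2) (hq : Odd q) (c : Conj F q) (k : ℕ) :
    ∃ (ι : Type) (_ : Fintype ι) (_ : DecidableEq ι), Fintype.card ι = 2 ^ (k + 1) ∧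
      ∃ S, IsGood (guSub c ι) S := by
  induction k with
  | zero => exact ⟨Fin 2, inferInstance, inferInstance, rfl, exists_good_GU_two hF hq c⟩
  | succ k ih =>
    obtain ⟨ι, _, _, hc, S, hS⟩ := ih
    refine ⟨ι ⊕ ι, inferInstance, inferInstance,
      by rw [Fintype.card_sum, hc]; ring, wr S hS.neg, hS.wreath (blk_mem_guSub c)
      (sw_mem_guSub c) ?_ ?_ ?_ (two_ne_zero_of_odd_card (by rw [hF]; exact hq.pow))⟩
    · rw [v₂_card_guSub hF hq, v₂_card_guSub hF hq, Fintype.card_sum,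
        hc, show 2 ^ (k + 1) + 2 ^ (k + 1) = 2 ^ (k + 1 + 1) by ring,
        tU_step hq (two_le_q hF)]
    · rw [hc]; exact (Nat.even_pow' (by omega)).2 even_two
    · rw [hc]
      exact le_self_pow₀ (by norm_num) (by omega)

theorem mem_guSub_reindex {q : ℕ} (c : Conj F q) {ι κ : Type} [Fintype ι] [DecidableEq ι]
    [Fintype κ] [DecidableEq κ] (e : ι ≃ κ) (g : GL ι F) :
    Units.mapEquiv (Matrix.reindexAlgEquiv F F e).toMulEquiv g ∈ guSub c κ ↔ g ∈ guSub c ι := by
  have hadj : adj c (Matrix.reindexAlgEquiv F F e (g : Matrix ι ι F)) =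
      Matrix.reindexAlgEquiv F F e (adj c (g : Matrix ι ι F)) := by
    ext i j
    simp [adj]
  rw [mem_guSub, mem_guSub,
    show ((Units.mapEquiv (Matrix.reindexAlgEquiv F F e).toMulEquiv g : GL κ F) : Matrix κ κ F) =
      Matrix.reindexAlgEquiv F F e (g : Matrix ι ι F) from rfl, hadj, ← map_mul]
  exact ⟨fun h => (Matrix.reindexAlgEquiv F F e).injective (by rw [h, map_one]),
    fun h => by rw [h, map_one]⟩

/-- Odd index subgroups of `SL_{2^w}(q)`, `q` odd, `w ≥ 2`. -/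
theorem isPronormal_sl_two_pow (hq : Odd (Nat.card F)) {w : ℕ} (hw : 2 ≤ w)
    (H : Subgroup (Matrix.SpecialLinearGroup (Fin (2 ^ w)) F)) (hH : Odd H.index) :
    Cfsg.IsPronormal H := by
  classical
  have := Fintype.ofFinite F
  have hq' : Odd (Fintype.card F) := by rwa [← Nat.card_eq_fintype_card]
  obtain ⟨k, rfl⟩ : ∃ k, w = k + 2 := ⟨w - 2, by omega⟩
  obtain ⟨ι, _, _, hc, S, hS⟩ := exists_good_GL (F := F) hq k
  have hcard : Fintype.card (ι ⊕ ι) = 2 ^ (k + 2) := by rw [Fintype.card_sum, hc]; ring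
  let e : Fin (2 ^ (k + 2)) ≃ ι ⊕ ι := (Fintype.equivFinOfCardEq hcard).symm
  let ρ : GL (Fin (2 ^ (k + 2))) F ≃* GL (ι ⊕ ι) F :=
    Units.mapEquiv (Matrix.reindexAlgEquiv F F e).toMulEquiv
  have heven : Even (Fintype.card ι) := by rw [hc]; exact (Nat.even_pow' (by omega)).2 even_two
  have hι : 2 ≤ Fintype.card ι := by rw [hc]; exact le_self_pow₀ (by norm_num) (by omega)
  have h2 := two_ne_zero_of_odd_card hq
  have hG := hS.wreath (G₂ := ⊤) (fun a b => by simp) (Subgroup.mem_top _) (by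
    rw [Subgroup.card_top, Subgroup.card_top, v₂_card_GL hq', v₂_card_GL hq', hcard, hc,
      tL_step hq' Fintype.one_lt_card]) heven hι h2
  refine isPronormal_of_strong (ρ.toMonoidHom.comp Matrix.SpecialLinearGroup.toGL)
    (ρ.injective.comp Matrix.SpecialLinearGroup.toGL_injective) ⊤ (wr S hS.neg) le_top hG.card
    (fun g => ?_) hcard (nrm_wr hS (fun a b _ => ⟨Subgroup.mem_top _, Subgroup.mem_top _⟩) heven hι h2)
    H hH
  constructor
  · rintro ⟨s, rfl⟩
    refine ⟨Subgroup.mem_top _, ?_⟩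
    show Matrix.det (Matrix.reindexAlgEquiv F F e (s : Matrix _ _ F)) = 1
    rw [Matrix.det_reindexAlgEquiv, s.2]
  · rintro ⟨-, hd⟩
    refine ⟨⟨((ρ.symm g : GL _ F) : Matrix _ _ F), ?_⟩, ?_⟩
    · show Matrix.det ((Matrix.reindexAlgEquiv F F e).symm (g : Matrix _ _ F)) = 1
      rw [Matrix.reindexAlgEquiv_symm, Matrix.det_reindexAlgEquiv, hd]
    · show ρ (Matrix.SpecialLinearGroup.toGL _) = g
      rw [← MulEquiv.eq_symm_apply]
      exact Units.ext rfl

/-- Odd index subgroups of `SU_{2^w}(q)`, `q` odd, `w ≥ 2`. -/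
theorem isPronormal_su_two_pow {q : ℕ} (hF : Nat.card F = q ^ 2) (hq : Odd q) {w : ℕ} (hw : 2 ≤ w)
    (H : Subgroup (Cfsg.SU (2 ^ w) F q)) (hH : Odd H.index) : Cfsg.IsPronormal H := by
  classical
  have := Fintype.ofFinite F
  have hF' : Fintype.card F = q ^ 2 := by rw [← Nat.card_eq_fintype_card, hF]
  obtain ⟨c⟩ := exists_conj hF
  obtain ⟨k, rfl⟩ : ∃ k, w = k + 2 := ⟨w - 2, by omega⟩
  obtain ⟨ι, _, _, hc, S, hS⟩ := exists_good_GU hF hq c k
  have hcard : Fintype.card (ι ⊕ ι) = 2 ^ (k + 2) := by rw [Fintype.card_sum, hc]; ring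
  let e : Fin (2 ^ (k + 2)) ≃ ι ⊕ ι := (Fintype.equivFinOfCardEq hcard).symm
  let ρ : GL (Fin (2 ^ (k + 2))) F ≃* GL (ι ⊕ ι) F :=
    Units.mapEquiv (Matrix.reindexAlgEquiv F F e).toMulEquiv
  have heven : Even (Fintype.card ι) := by rw [hc]; exact (Nat.even_pow' (by omega)).2 even_two
  have hι : 2 ≤ Fintype.card ι := by rw [hc]; exact le_self_pow₀ (by norm_num) (by omega)
  have h2 : (2 : F) ≠ 0 := two_ne_zero_of_odd_card (by rw [hF]; exact hq.pow)
  have hG := hS.wreath (G₂ := guSub c (ι ⊕ ι)) (blk_mem_guSub c) (sw_mem_guSub c) (by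
    rw [v₂_card_guSub hF hq, v₂_card_guSub hF hq, hcard, hc, tU_step hq (two_le_q hF)])
    heven hι h2
  have hmem : ∀ g : GL (Fin (2 ^ (k + 2))) F,
      g ∈ Cfsg.GU (2 ^ (k + 2)) F q ↔ ρ g ∈ guSub c (ι ⊕ ι) := fun g => by
    rw [mem_guSub_reindex, CfsgLib.Generators.mem_GU_iff_qAdjoint hF', qAdjoint_eq_adj c,
      mem_guSub]
  refine isPronormal_of_strong
    ((ρ.toMonoidHom.comp Matrix.SpecialLinearGroup.toGL).comp (Cfsg.SU _ F q).subtype)
    ((ρ.injective.comp Matrix.SpecialLinearGroup.toGL_injective).comp Subtype.val_injective)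
    (guSub c (ι ⊕ ι)) (wr S hS.neg) hG.le hG.card
    (fun g => ?_) hcard (nrm_wr hS (fun a b h => (blk_mem_guSub c a b).1 h) heven hι h2) H hH
  constructor
  · rintro ⟨s, rfl⟩
    refine ⟨(hmem _).1 s.2, ?_⟩
    show Matrix.det (Matrix.reindexAlgEquiv F F e s.1.1) = 1
    rw [Matrix.det_reindexAlgEquiv, s.1.2]
  · rintro ⟨hg, hd⟩
    have hd' : Matrix.det (ρ.symm g).val = 1 := by
      show Matrix.det ((Matrix.reindexAlgEquiv F F e).symm (g : Matrix _ _ F)) = 1
      rw [Matrix.reindexAlgEquiv_symm, Matrix.det_reindexAlgEquiv, hd]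
    set s : Matrix.SpecialLinearGroup (Fin (2 ^ (k + 2))) F := ⟨_, hd'⟩ with hs
    have hs' : Matrix.SpecialLinearGroup.toGL s = ρ.symm g := Units.ext rfl
    have hsu : s ∈ Cfsg.SU (2 ^ (k + 2)) F q := by
      have h' : ρ.symm g ∈ Cfsg.GU (2 ^ (k + 2)) F q :=
        (hmem _).2 (by rwa [MulEquiv.apply_symm_apply])
      intro u v
      exact h' u v
    refine ⟨⟨s, hsu⟩, ?_⟩
    show ρ (Matrix.SpecialLinearGroup.toGL s) = g
    rw [hs', MulEquiv.apply_symm_apply]

end CfsgLib.InvChar.Wreath
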